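import Cfsg.Agent.H11.RS1
import Cfsg.Prelude.Def_Classical

/-! S2195: assembly and transfer. -/

set_option autoImplicit false
set_option linter.unusedSectionVars false

open Module MulAction H13.R3

namespace H11.RS

universe u

section main
variable {F : Type u} [Field F] [Fintype F] {V : Type u} [AddCommGroup V] [Module F V] [Finite V]
  {G : Type u} [Group G] [Finite G] [DistribMulAction G V] [SMulCommClass G F V]
  {B : LinearMap.BilinForm F V} {H : Subgroup G} {x : V}

theorem dc_po (hx : x ≠ 0) {g g' : G} :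
    DC H (St G (F ∙ x)) g g' ↔ PO F H (g • x) (g' • x) := by
  constructor
  · rintro ⟨j, hj, k, hk, rfl⟩
    refine ⟨j, hj, ?_⟩
    rw [← mul_smul]
    have := smul_mem_sp (j * g * k) (((St G (F ∙ x)).inv_mem hk x).2
      (Submodule.mem_span_singleton_self x))
    simpa [mul_smul] using this
  · rintro ⟨j, hj, e⟩
    refine ⟨j, hj, (g'⁻¹ * j * g)⁻¹, Subgroup.inv_mem _ (mem_St_sp ?_), by group⟩
    rw [← smul_mem_sp_iff (g := g'), mul_smul, mul_smul, smul_inv_smul]; exact e

theorem Sy.idx (sy : Sy B G) (hx : x ≠ 0) : (St G (F ∙ x)).index * (Fintype.card F - 1) =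
    Fintype.card F ^ finrank F V - 1 := by
  have h1 := ncard_orb (⊤ : Subgroup G) x
  have h2 := ncard_orb (St G (F ∙ x)) x
  have hle : stabilizer G x ≤ St G (F ∙ x) := fun g hg =>
    mem_St_sp (by rw [mem_stabilizer_iff.1 hg]; exact Submodule.mem_span_singleton_self x)
  rw [top_inf_eq, Subgroup.relIndex_top_right] at h1
  rw [inf_eq_right.2 hle] at h2
  have h3 := ncard_ne0 (F ∙ x)
  rw [finrank_span_singleton hx, pow_one] at h3
  rw [← ncard_ne0' (F := F), ← h3, mul_comm]
  have e1 : {b | ∃ j ∈ (⊤ : Subgroup G), j • x = b} = {u : V | u ≠ 0} := by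
    ext b; constructor
    · rintro ⟨j, -, rfl⟩; exact fun e => hx (gsz.1 e)
    · intro hb; obtain ⟨g, hg⟩ := sy.witt1 hx hb; exact ⟨g, trivial, hg⟩
  have e2 : {b | ∃ j ∈ St G (F ∙ x), j • x = b} = {u | u ∈ F ∙ x ∧ u ≠ 0} := by
    ext b; constructor
    · rintro ⟨j, hj, rfl⟩
      exact ⟨(hj x).2 (Submodule.mem_span_singleton_self x), fun e => hx (gsz.1 e)⟩
    · rintro ⟨h, hb⟩; obtain ⟨g, hg⟩ := sy.witt1 hx hb; exact ⟨g, mem_St_sp (hg ▸ h), hg⟩
  rw [← e1, ← e2, h1, h2, Subgroup.relIndex_mul_index hle]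

theorem Sy.dPP (sy : Sy B G) (hx : x ≠ 0) : dc (St G (F ∙ x)) (St G (F ∙ x)) ≤ 3 := by
  classical
  rw [← dcs_univ]
  refine (dcs_le (fun g : G => if g • x ∈ F ∙ x then (0 : Fin 3) else if B x (g • x) = 0 then 1 else 2)
    Set.univ (fun _ _ => trivial) fun a _ b _ h => (dc_po hx).2 ?_).trans (by simp)
  have key : ∀ c : F, c ≠ 0 → a • x ∉ F ∙ x → b • x ∉ F ∙ x → B x (c • b • x) = B x (a • x) →
      PO F (St G (F ∙ x)) (a • x) (b • x) := fun c hc ha hb e => by
    obtain ⟨g, h1, h2⟩ := sy.witt2 (x := x) (y := a • x) ⟨hx, ha⟩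
      (by simpa using (Ind.sml ⟨hx, hb⟩ one_ne_zero hc : Ind F ((1 : F) • x) (c • b • x))) e
    exact ⟨g, mem_St_sp (h1.symm ▸ Submodule.mem_span_singleton_self x),
      Submodule.mem_span_singleton.2 ⟨c, h2.symm⟩⟩
  split_ifs at h with h1 h2 h3 h4 h5 h6 h7 h8 <;> try exact absurd h (by decide)
  · exact PO.of_mem (by rwa [sp_eq (fun e => hx (gsz.1 e)) h2])
  · exact key 1 one_ne_zero ‹_› ‹_› (by simp [*])
  · exact key (B x (a • x) / B x (b • x)) (div_ne_zero ‹_› ‹_›) ‹_› ‹_›
      (by rw [map_smul, smul_eq_mul, div_mul_cancel₀ _ ‹_›])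

theorem main (nl : NL.{u}) (l3 : L3.{u}) (two : TWO.{u}) (tv : TV.{u}) (ii : II.{u}) (dd : DD.{u})
    (ab : AB.{u}) (sy : Sy B G) (hs : Hs B H) :
    H.index * (Fintype.card F - 1) = Fintype.card F ^ finrank F V - 1 := by
  have := Fintype.ofFinite G
  obtain ⟨x, -, hx⟩ := ex_ne0 (A := (⊤ : Submodule F V)) (by rw [finrank_top]; have := sy.n6; omega)
  by_cases h3 : 3 ≤ dc H (St G (F ∙ x))
  · have := ip_zero (f := pc H - pc (St G (F ∙ x))) (by
      simp only [map_sub, LinearMap.sub_apply, ip_pc, hs.r3, dc_comm _ H]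
      have h1 : (3 : ℚ) ≤ dc H (St G (F ∙ x)) := by exact_mod_cast h3
      have h2 : (dc (St G (F ∙ x)) (St G (F ∙ x)) : ℚ) ≤ 3 := by exact_mod_cast sy.dPP hx
      push_cast; linarith) 1
    rw [Pi.sub_apply, pc_one, pc_one, sub_eq_zero] at this
    rw [show H.index = (St G (F ∙ x)).index by exact_mod_cast this, sy.idx hx]
  exfalso
  by_cases hP : PP F V H
  · by_cases nt : NoT B H
    · have h1 := ii F V G B H sy hP nt
      exact (ab F V G B H sy hs.r3 nt).elim h1 (dd F V G B H sy hs hP nt h1)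
    · simp only [NoT, not_forall] at nt
      obtain ⟨g, hg, v, c, ht, h1⟩ := nt
      rw [sy.tr_eq_one ht, not_or] at h1
      obtain ⟨t, w, d, h2, h4⟩ := hs.nt
      refine h4 (tv F V G B H sy (fun z hz => ?_) t w d h2)
      obtain ⟨k, hk, a, ha, e⟩ := (hP v z h1.2 hz).ex h1.2
      exact ⟨_, H.mul_mem (H.mul_mem hk hg) (H.inv_mem hk), _, mul_ne_zero h1.1 (pow_ne_zero 2 ha),
        Tr.sml.1 (e ▸ sy.tr_conj ht k)⟩
  · refine two F V G B H sy hs (nl F V G B H sy hs.r3) (l3 F V G B H sy hs.r3) hP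
      fun a b c ha hb hc => ?_
    obtain ⟨a, rfl⟩ := sy.witt1 hx ha
    obtain ⟨b, rfl⟩ := sy.witt1 hx hb
    obtain ⟨c, rfl⟩ := sy.witt1 hx hc
    simpa only [dc_po hx] using le2_of_dc (A := H) (B := St G (F ∙ x)) (by omega) a b c

end main

open Matrix in
theorem transfer (nl : NL.{u}) (l3 : L3.{u}) (two : TWO.{u}) (tv : TV.{u}) (ii : II.{u})
    (dd : DD.{u}) (ab : AB.{u}) {G X : Type*} [Group G] [Finite G] [MulAction G X]
    [FaithfulSMul G X] [Fintype X] {F : Type u} [Field F] [Fintype F] (k : ℕ) (hk : 3 ≤ k)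
    (hq : Odd (Fintype.card F)) (e : G ≃* Cfsg.PSp k F) (hprim : IsPreprimitive G X) (x : X)
    (h3 : Nat.card (orbitRel.Quotient (stabilizer G x) X) = 3) :
    Fintype.card X * (Fintype.card F - 1) = Fintype.card F ^ (2 * k) - 1 := by
  classical
  let V := Fin k ⊕ Fin k → F
  let B : LinearMap.BilinForm F V := Matrix.toBilin' (J (Fin k) F)
  have hB : ∀ u v : V, B u v = u ⬝ᵥ J (Fin k) F *ᵥ v := fun u v => Matrix.toBilin'_apply' _ u v
  let ι : symplecticGroup (Fin k) F →* (V ≃ₗ[F] V) :=
    DistribMulAction.toModuleAut F V |>.comp (Units.map (symplecticGroup (Fin k) F).subtype |>.comp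
      toUnits.toMonoidHom)
  have hι : ∀ (a : symplecticGroup (Fin k) F) (v : V), ι a v = a.1 *ᵥ v := fun _ _ => rfl
  have hi : Function.Injective ι := fun a b h => Subtype.ext (Matrix.toLin'.injective
    (LinearMap.ext fun v => by simpa [hι] using congrArg (fun σ : V ≃ₗ[F] V => σ v) h))
  let Θ : ι.range →* G := e.symm.toMonoidHom.comp ((QuotientGroup.mk' _).comp
    (MonoidHom.ofInjective hi).symm.toMonoidHom)
  have hΘ : ∀ a, Θ (ι.rangeRestrict a) = 1 ↔ a ∈ Subgroup.center _ := fun a => by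
    have : (MonoidHom.ofInjective hi).symm (ι.rangeRestrict a) = a :=
      (MulEquiv.symm_apply_eq _).2 rfl
    simp [Θ, this]
  have hs : Function.Surjective Θ :=
    e.symm.surjective.comp (QuotientGroup.mk_surjective.comp (MonoidHom.ofInjective hi).symm.surjective)
  have : Finite (V ≃ₗ[F] V) := Finite.of_injective _ (DFunLike.coe_injective (F := V ≃ₗ[F] V))
  have hr : finrank F V = 2 * k := by simp [V, two_mul]
  have : Nontrivial X := by
    by_contra hX
    have := not_nontrivial_iff_subsingleton.1 hX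
    have := Nat.card_le_card_of_surjective (β := orbitRel.Quotient (stabilizer G x) X) _
      Quotient.mk_surjective
    have := Finite.card_le_one_iff_subsingleton.2 ‹Subsingleton X›
    omega
  have key : ∀ A : Matrix (Fin k ⊕ Fin k) (Fin k ⊕ Fin k) F, ∀ u v : V,
      B (A *ᵥ u) (A *ᵥ v) = u ⬝ᵥ (Aᵀ * J (Fin k) F * A) *ᵥ v := fun A u v => by
    rw [hB, mulVec_mulVec, Matrix.mul_assoc, ← mulVec_mulVec v Aᵀ, dotProduct_mulVec u,
      vecMul_transpose]
  have two0 : (2 : F) ≠ 0 := fun h => by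
    have : CharP F 2 := CharTwo.of_one_ne_zero_of_two_eq_zero one_ne_zero h
    obtain ⟨n, -, hn⟩ := FiniteField.card F 2
    rw [hn] at hq
    exact absurd (Nat.odd_pow_iff n.ne_zero |>.1 hq) (by decide)
  have sy : Sy B ι.range :=
    { alt := fun v => by
        have h : B v v = -B v v := by
          conv_lhs => rw [hB, dotProduct_mulVec, ← mulVec_transpose, J_transpose, neg_mulVec,
            neg_dotProduct, dotProduct_comm, ← hB]
        have : 2 * B v v = 0 := by linear_combination h
        exact (mul_eq_zero.1 this).resolve_left two0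
      nd := fun v h => by
        ext i
        have := h (-J (Fin k) F *ᵥ Pi.single i 1)
        rw [hB, mulVec_mulVec, Matrix.mul_neg, J_squared, neg_neg, one_mulVec, dotProduct_single,
          mul_one] at this
        exact this
      two := two0
      n6 := by omega
      fa := fun g h => Subtype.ext (LinearEquiv.ext h)
      iso := by
        rintro ⟨_, a, rfl⟩ u v
        change B (a.1 *ᵥ u) (a.1 *ᵥ v) = _
        rw [key, SymplecticGroup.mem_iff'.1 a.2, hB]
      full := fun σ hσ => by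
        have hA : ∀ v, LinearMap.toMatrix' σ.toLinearMap *ᵥ v = σ v := fun v =>
          LinearMap.congr_fun (Matrix.toLin'_toMatrix' σ.toLinearMap) v
        refine ⟨ι.rangeRestrict ⟨LinearMap.toMatrix' σ.toLinearMap,
          SymplecticGroup.mem_iff'.2 (Matrix.toBilin'.injective (LinearMap.ext₂ fun u v => ?_))⟩, hA⟩
        rw [Matrix.toBilin'_apply', ← key, hA, hA, hσ]
      anti := by
        let A : Matrix (Fin k ⊕ Fin k) (Fin k ⊕ Fin k) F := fromBlocks 1 0 0 (-1)
        have hA : A * A = 1 := by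
          rw [fromBlocks_multiply, ← fromBlocks_one]; simp
        refine ⟨LinearEquiv.ofInvolutive (Matrix.toLin' A) fun v => by
          rw [Matrix.toLin'_apply, Matrix.toLin'_apply, mulVec_mulVec, hA, one_mulVec],
          fun u v => ?_⟩
        change B (A *ᵥ u) (A *ᵥ v) = _
        rw [key, show Aᵀ * J (Fin k) F * A = -J (Fin k) F by
          simp [A, J, fromBlocks_multiply, fromBlocks_transpose, fromBlocks_neg], hB, neg_mulVec,
          dotProduct_neg] }
  have hy : Hs B ((stabilizer G x).comap Θ) :=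
    { neg := ⟨ι.rangeRestrict ⟨-1, SymplecticGroup.neg_mem (Submonoid.one_mem _)⟩, by
        rw [Subgroup.mem_comap, (hΘ _).2 (Subgroup.mem_center_iff.2 fun g =>
          Subtype.ext (by simp))]
        exact Subgroup.one_mem _, fun v => by
        change (-1 : Matrix _ _ F) *ᵥ v = _; simp [neg_mulVec]⟩
      mx := Subgroup.isCoatom_comap_of_surjective hs
        ((isCoatom_stabilizer_iff_preprimitive G x).2 hprim)
      r3 := by
        rw [← dcs_univ, dcs_eq _ (fun g => Quotient.mk (orbitRel (stabilizer G x) X) (Θ g • x)),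
          ← h3, ← Set.ncard_univ]
        · congr 1
          refine Set.eq_univ_of_forall fun c => ?_
          induction c using Quotient.inductionOn with
          | h a =>
            obtain ⟨g, rfl⟩ := exists_smul_eq G x a
            obtain ⟨g, rfl⟩ := hs g
            exact ⟨g, trivial, rfl⟩
        · intro a _ b _
          rw [qeq]; constructor
          · rintro ⟨j, hj, h⟩
            obtain ⟨j, rfl⟩ := hs j
            refine DC.symm ⟨j, hj, (j * b)⁻¹ * a, ?_, by group⟩
            rw [Subgroup.mem_comap, mem_stabilizer_iff, map_mul, map_inv, map_mul, mul_smul,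
              inv_smul_eq_iff, mul_smul, h]
          · rintro ⟨j, hj, k, hk, rfl⟩
            refine osymm ⟨Θ j, hj, ?_⟩
            rw [map_mul, map_mul, mul_smul, mul_smul, mem_stabilizer_iff.1 hk]
      nt := by
        by_contra hc
        push Not at hc
        obtain ⟨v, -, hv⟩ := ex_ne0 (A := (⊤ : Submodule F V)) (by rw [finrank_top]; omega)
        obtain ⟨w, hw'⟩ := ex_notMem' (A := F ∙ v) (by rw [finrank_span_singleton hv]; omega)
        have hw : Ind F v w := ⟨hv, hw'⟩
        obtain ⟨t, ht⟩ := sy.ex_tr v 1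
        have h1 : Θ t = 1 := eq_of_smul_eq_smul fun a : X => by
          obtain ⟨g, rfl⟩ := exists_smul_eq G x a
          obtain ⟨g, rfl⟩ := hs g
          have := hc _ _ _ (sy.tr_conj ht g⁻¹)
          rw [Subgroup.mem_comap, mem_stabilizer_iff, map_mul, map_mul, map_inv, inv_inv, mul_smul,
            mul_smul, inv_smul_eq_iff] at this
          rw [this, one_smul]
        obtain ⟨a, rfl⟩ := ι.rangeRestrict_surjective t
        rw [hΘ] at h1
        obtain ⟨k, k1⟩ := sy.witt1 hv hw.ne0
        obtain ⟨b, rfl⟩ := ι.rangeRestrict_surjective k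
        have h2 := sy.tr_conj ht (ι.rangeRestrict b)
        rw [← map_mul, Subgroup.mem_center_iff.1 h1 b, map_mul, mul_inv_cancel_right, k1] at h2
        obtain ⟨u, u1, u2⟩ := sy.ex_two hw (-1) 0
        have h4 := (ht u).symm.trans (h2 u)
        rw [sy.skew u v, u1, sy.swap u2] at h4
        exact hv (by simpa using h4) }
  have := main nl l3 two tv ii dd ab sy hy
  rwa [Subgroup.index_comap_of_surjective _ hs, index_stabilizer_of_transitive,
    Nat.card_eq_fintype_card, hr] at this

end H11.RS
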