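import Cfsg.Agent.H17.FV0

/-! Chunk `SP` of S5720: uniserial modules of even weight. -/

set_option autoImplicit false
set_option linter.unusedSectionVars false

open Module H17.FV

namespace H11.FY

universe v w

section lin
variable {K M : Type*} [Field K] [AddCommGroup M] [Module K M] [FiniteDimensional K M]

theorem key (f : End K M) (S : Submodule K M) :
    finrank K S + finrank K (LinearMap.range f) ≤ finrank K (S.map f) + finrank K M := by
  have h1 := LinearMap.finrank_range_add_finrank_ker (f.domRestrict S)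
  have h2 := LinearMap.finrank_range_add_finrank_ker f
  rw [LinearMap.range_domRestrict] at h1
  have h3 : finrank K (LinearMap.ker (f.domRestrict S)) ≤ finrank K (LinearMap.ker f) := by
    rw [← Submodule.finrank_map_subtype_eq]
    refine Submodule.finrank_mono ?_
    rintro _ ⟨x, hx, rfl⟩
    exact hx
  omega

theorem rk_add (f g : End K M) : finrank K (LinearMap.range (f + g)) ≤
    finrank K (LinearMap.range f) + finrank K (LinearMap.range g) :=
  (Submodule.finrank_mono (LinearMap.range_add_le f g)).trans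
    (Submodule.finrank_add_le_finrank_add_finrank _ _)

theorem ker2 (f g : End K M) : finrank K M ≤ finrank K ↥(LinearMap.ker f ⊓ LinearMap.ker g) +
    finrank K (LinearMap.range f) + finrank K (LinearMap.range g) := by
  have h1 := Submodule.finrank_sup_add_finrank_inf_eq (LinearMap.ker f) (LinearMap.ker g)
  have h2 := LinearMap.finrank_range_add_finrank_ker f
  have h3 := LinearMap.finrank_range_add_finrank_ker g
  have h4 := Submodule.finrank_le (LinearMap.ker f ⊔ LinearMap.ker g)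
  omega

end lin

variable {K A M : Type*} [Field K] [Ring A] [Algebra K A] [AddCommGroup M] [Module K M] [Module A M]
  [IsScalarTower K A M] [FiniteDimensional K M] {p : ℕ} [Fact p.Prime] [CharP K p] {D : Dat K A p}

theorem act_ap (y : A) (m : M) : act K M y m = y • m := rfl

theorem mem_pow {i : ℕ} {m : M} : m ∈ LinearMap.range (act K M D.e ^ i) ↔ ∃ x : M, D.e ^ i • x = m := by
  rw [← map_pow]; rfl

theorem Hpow (ef : D.EF) (l : (ZMod p)ˣ) (i : ℕ) : ∃ a : K, D.H l * D.e ^ i = a • (D.e ^ i * D.H l) := by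
  induction i with
  | zero => exact ⟨1, by simp⟩
  | succ i ih =>
    obtain ⟨a, h⟩ := ih
    exact ⟨a * D.φ ((l : ZMod p) ^ 2), by
      rw [pow_succ, ← mul_assoc, h, smul_mul_assoc, mul_assoc, ef.He, mul_smul_comm, smul_smul, mul_assoc]⟩

theorem Hmem (ef : D.EF) (l : (ZMod p)ˣ) {i : ℕ} {m : M} (h : m ∈ LinearMap.range (act K M D.e ^ i)) :
    D.H l • m ∈ LinearMap.range (act K M D.e ^ i) := by
  obtain ⟨x, rfl⟩ := mem_pow.1 h
  obtain ⟨a, h⟩ := Hpow ef l i
  rw [← mul_smul, h, smul_assoc, mul_smul]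
  exact Submodule.smul_mem _ _ (mem_pow.2 ⟨_, rfl⟩)

theorem pimem (ef : D.EF) (k : ℕ) {i : ℕ} {m : M} (h : m ∈ LinearMap.range (act K M D.e ^ i)) :
    D.π k • m ∈ LinearMap.range (act K M D.e ^ i) := by
  rw [Dat.π, neg_smul, Finset.sum_smul]
  refine neg_mem (sum_mem fun l _ => ?_)
  rw [smul_assoc]
  exact Submodule.smul_mem _ _ (Hmem ef l h)

theorem Umem (ef : D.EF) (c : ZMod p) {i : ℕ} {m : M} (h : m ∈ LinearMap.range (act K M D.e ^ i)) :
    D.U c • m - m ∈ LinearMap.range (act K M D.e ^ (i + 1)) := by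
  obtain ⟨x, rfl⟩ := mem_pow.1 h
  obtain ⟨y, hy, e⟩ := ef.Ue c
  have cy : Commute y D.e := Algebra.commute_of_mem_adjoin_self hy |>.symm
  refine mem_pow.2 ⟨D.e • y • x - D.φ c • x, ?_⟩
  have e1 : D.e * D.e * y * D.e ^ i = D.e ^ (i + 1) * (D.e * y) := by
    rw [mul_assoc, (cy.pow_right i).eq, ← mul_assoc, ← mul_assoc, ← pow_two, ← pow_add, ← pow_succ, add_comm]
  rw [e, add_smul, sub_smul, one_smul, ← mul_smul (_ * y), e1, smul_assoc, ← mul_smul D.e (D.e ^ i),
    ← pow_succ', smul_sub, mul_smul, mul_smul, smul_comm (D.e ^ (i + 1)) (D.φ c)]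
  abel

theorem wt (ef : D.EF) {j : ℕ} {v : M} (h : D.π j • v = v) (i : ℕ) :
    D.π (j + 2 * i) • D.e ^ i • v = D.e ^ i • v := by
  induction i with
  | zero => simpa using h
  | succ i ih =>
    rw [pow_succ', mul_smul, ← mul_smul, mul_add, ← add_assoc, mul_one, ← ef.eπ, mul_smul, ih]

theorem Hwt (ef : D.EF) {k : ℕ} {v : M} (h : D.π k • v = v) (l : (ZMod p)ˣ) :
    D.H l • v = D.φ ((l : ZMod p) ^ k) • v := by
  conv_lhs => rw [← h, ← mul_smul, ef.Hπ, smul_assoc, h]

theorem ne0 (hp : 11 ≤ p) {n : ℕ} (h0 : 0 < n) (h : n < 11) : (n : K) ≠ 0 := fun e =>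
  absurd (Nat.le_of_dvd h0 ((CharP.cast_eq_zero_iff K p n).1 e)) (by omega)

theorem Dinj (ef : D.EF) (hp : 11 ≤ p) {ν : (ZMod p)ˣ} (hν : orderOf ν = p - 1) :
    Function.Injective (act K M ((2 : K) • (D.H ν⁻¹ - 1) + D.π 0)) := by
  refine (injective_iff_map_eq_zero _).2 fun m hm => ?_
  rw [act_ap] at hm
  rw [← one_smul A m, ← ef.sum, Finset.sum_smul]
  refine Finset.sum_eq_zero fun k hk => ?_
  have h := congrArg (D.π k • ·) hm
  simp only [smul_zero, ← mul_smul, mul_add, mul_smul_comm, mul_sub, mul_one, ef.πH] at h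
  rcases Nat.eq_zero_or_pos k with rfl | k0
  · rwa [pow_zero, map_one, one_smul, sub_self, smul_zero, zero_add, ef.ππ] at h
  have hk := Finset.mem_range.1 hk
  rw [ef.orth k 0 fun e => absurd (Nat.le_of_dvd k0 (Nat.modEq_zero_iff_dvd.1 e)) (by omega), add_zero,
    smul_assoc, sub_smul, smul_assoc, smul_eq_zero] at h
  have h := h.resolve_left (by exact_mod_cast ne0 (K := K) hp (n := 2) (by omega) (by omega))
  rw [sub_eq_zero] at h
  by_contra n
  have : D.φ (((ν⁻¹ : (ZMod p)ˣ) : ZMod p) ^ k) = 1 := smul_left_injective K n (h.trans (one_smul K _).symm)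
  rw [map_eq_one_iff _ D.φ.injective, ← Units.val_pow_eq_pow_val, Units.val_eq_one, inv_pow, inv_eq_one] at this
  exact absurd (Nat.le_of_dvd k0 (orderOf_dvd_of_pow_eq_one this)) (by omega)

/-- where `z = 1` -/
theorem low (ef : D.EF) (hp : 11 ≤ p) {ν : (ZMod p)ˣ} (hν : orderOf ν = p - 1)
    (hz : ∀ m : M, D.H (-1) • m = m) : finrank K M ≤ rk K M (D.Y ν) + rk K M (D.π 0) := by
  have h := tr (e := act K M D.e) (E := act K M (D.Y ν - (2 : K) • (D.H ν⁻¹ - 1)))
    ⟨p, by rw [← map_pow, ef.ep, map_zero]⟩ (Dinj (M := M) ef hp hν) (fun i m h => by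
      rw [act_ap, add_smul, smul_assoc, sub_smul, one_smul]
      exact add_mem (Submodule.smul_mem _ _ (sub_mem (Hmem ef _ h) h)) (pimem ef 0 h)) fun i m h => by
      have e : act K M (D.Y ν - (2 : K) • (D.H ν⁻¹ - 1)) m =
          D.H ν⁻¹ • ((D.U (-1) • m - m) + (D.U ((ν : ZMod p) ^ 2) • m - m)) -
          ((D.U (-(ν : ZMod p)) • m - m) + (D.U ((ν⁻¹ : (ZMod p)ˣ) : ZMod p) • m - m)) := by
        simp only [act_ap, Dat.Y, sub_smul, add_smul, mul_smul, hz, one_smul, two_smul, smul_add,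
          smul_sub]
        abel
      rw [e]
      exact sub_mem (Hmem ef _ (add_mem (Umem ef _ h) (Umem ef _ h))) (add_mem (Umem ef _ h) (Umem ef _ h))
  rw [← map_add, add_comm, ← add_assoc, sub_add_cancel, map_add] at h
  have := rk_add (act K M (D.Y ν)) (act K M (D.π 0))
  rwa [LinearMap.range_eq_top.2 (LinearMap.injective_iff_surjective.1 h), finrank_top] at this

theorem rkR (l : (ZMod p)ˣ) : rk K M (D.R l) ≤ rk K M (D.N l) :=
  Submodule.finrank_mono (by rintro _ ⟨x, rfl⟩; exact ⟨D.H l⁻¹ • x, (mul_smul _ _ _).symm⟩)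

/-- upper bounds for the rank of `Y` -/
theorem upp (ν : (ZMod p)ˣ) (S : Submodule K M) (hS : ∀ m ∈ S, D.Y ν • m = 0) :
    finrank K ↥(LinearMap.ker (act K M (D.R ν)) ⊓ LinearMap.ker (act K M (D.R 1)) ⊔ S) + rk K M (D.Y ν) ≤
      rk K M (D.R ν) + rk K M (D.R 1) + finrank K M := by
  refine (key _ _).trans (Nat.add_le_add_right ((Submodule.finrank_mono ?_).trans
    (Submodule.finrank_add_le_finrank_add_finrank _ _)) _)
  rw [Submodule.map_sup]
  refine sup_le ?_ ?_
  · rintro _ ⟨x, ⟨h1, h2⟩, rfl⟩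
    have h1 : D.R ν • x = 0 := h1
    have h2 : D.R 1 • x = 0 := h2
    rw [act_ap, D.Y_eq]
    simp only [sub_smul, add_smul, mul_smul, h1, h2, smul_zero, add_zero, sub_zero]
    exact sub_mem (Submodule.mem_sup_left ⟨_, rfl⟩) (Submodule.mem_sup_right ⟨_, rfl⟩)
  · rintro _ ⟨x, h, rfl⟩
    rw [act_ap, hS x h]
    exact zero_mem _

theorem sp : SP.{v, w} := by
  intro K A M _ _ _ _ _ _ _ _ p _ _ D ν hp hν ef s j v c hu hj
  obtain ⟨b, hb⟩ := hu.bas
  have pe : Even (p - 1) := (Fact.out : p.Prime).even_sub_one (by omega)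
  have hz : ∀ m : M, D.H (-1) • m = m := fun m => by
    have : act K M (D.H (-1)) = 1 := b.ext fun i => by
      rw [act_ap, hb, Hwt ef (wt ef hu.wt i), Units.val_neg, Units.val_one,
        (hj.add (even_two_mul _)).neg_one_pow, map_one, one_smul]; rfl
    exact DFunLike.congr_fun this m
  have h3 : rk K M (D.π 3) = 0 := by
    have : act K M (D.π 3) = 0 := b.ext fun i => by
      rw [act_ap, hb, ← wt ef hu.wt i, ← mul_smul, ef.orth, zero_smul]; rfl
      intro e
      have := e.of_dvd pe.two_dvd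
      obtain ⟨k, rfl⟩ := hj
      unfold Nat.ModEq at this
      omega
    rw [rk, this, LinearMap.range_zero, finrank_bot]
  have b0 : b ⟨0, hu.pos⟩ = v := by rw [hb]; simp
  have dec : ∀ m : M, ∃ (a : K) (x : M), m = a • v + D.e • x := fun m => by
    have : m ∈ Submodule.span K {v} ⊔ LinearMap.range (act K M D.e) := by
      refine (Submodule.span_le.2 ?_ : _ ≤ _) (b.mem_span m)
      rintro _ ⟨⟨i, hi⟩, rfl⟩
      rw [hb]
      rcases i with _ | i
      · exact Submodule.mem_sup_left (by simp)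
      · exact Submodule.mem_sup_right ⟨D.e ^ i • v, by rw [act_ap, ← mul_smul, ← pow_succ']⟩
    obtain ⟨_, h1, _, ⟨x, rfl⟩, rfl⟩ := Submodule.mem_sup.1 this
    obtain ⟨a, rfl⟩ := Submodule.mem_span_singleton.1 h1
    exact ⟨a, x, rfl⟩
  have pe0 : D.π 0 * D.e = D.e * D.π (p - 3) := by
    rw [ef.eπ, ef.per (p - 3 + 2) 0 (Nat.modEq_zero_iff_dvd.2 (by rw [show p - 3 + 2 = p - 1 by omega]))]
  have r0 : LinearMap.range (act K M (D.π 0)) ≤
      LinearMap.range (act K M (D.e * D.π (p - 3))) ⊔ Submodule.span K {D.π 0 • v} := by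
    rintro _ ⟨m, rfl⟩
    obtain ⟨a, x, rfl⟩ := dec m
    rw [act_ap, smul_add, ← mul_smul, pe0, smul_comm]
    exact add_mem (Submodule.mem_sup_right (Submodule.smul_mem _ _ (Submodule.mem_span_singleton_self _)))
      (Submodule.mem_sup_left ⟨x, rfl⟩)
  have l0 := low (M := M) ef hp hν hz
  have k2 := ker2 (act K M (D.R ν)) (act K M (D.R 1))
  have r1 := rkR (D := D) (M := M) 1
  have r2 := rkR (D := D) (M := M) ν
  have r3 := (Submodule.finrank_mono r0).trans (Submodule.finrank_add_le_finrank_add_finrank _ _)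
  unfold Dat.Ineq
  unfold rk at *
  by_cases j0 : j ≡ 0 [MOD p - 1]
  swap
  · have u := upp (D := D) (M := M) ν ⊥ fun m h => by rw [(Submodule.mem_bot K).1 h, smul_zero]
    have z : D.π 0 • v = 0 := by
      rw [← hu.wt, ← mul_smul, ef.orth _ _ fun e => j0 e.symm, zero_smul]
    rw [z, Submodule.span_zero_singleton, finrank_bot] at r3
    rw [sup_bot_eq] at u
    unfold rk at u
    omega
  have r4 : finrank K (Submodule.span K {D.π 0 • v}) ≤ 1 := by
    simpa using finrank_span_le_card (R := K) {D.π 0 • v}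
  obtain ⟨v', hv⟩ : ∃ v', v' = D.e ^ (s - 1) • v := ⟨_, rfl⟩
  have top : D.w • v' = c • v := hv ▸ hu.top
  have ev : D.e • v' = 0 := by
    rw [hv, ← mul_smul, ← pow_succ', Nat.sub_add_cancel hu.pos, hu.nil]
  have Uv : ∀ t, D.U t • v' = v' := fun t => by
    obtain ⟨y, hy, e⟩ := ef.Ue t
    have cy : Commute D.e y := Algebra.commute_of_mem_adjoin_self hy
    rw [e, add_smul, sub_smul, one_smul, smul_assoc, mul_assoc, cy.eq, mul_smul, mul_smul, ev]
    simp
  have Hv0 : ∀ l, D.H l • v = v := fun l => by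
    have := hu.wt
    rw [ef.per _ _ j0] at this
    rw [Hwt ef this, pow_zero, map_one, one_smul]
  have Hv : ∀ l, D.H l • v' = v' := fun l => by
    rw [← hz (D.H l • v'), ← D.ww, mul_smul, ← mul_smul D.w (D.H l), D.wH, mul_smul, top, smul_comm (D.H _) c,
      Hv0, ← top, ← mul_smul, D.ww, hz]
  have Yv : D.Y ν • v' = 0 := by
    simp only [Dat.Y, sub_smul, add_smul, mul_smul, Uv, Hv, smul_add, sub_self]
  have le : ∀ x : M, b.coord ⟨0, hu.pos⟩ (D.e • x) = 0 := fun x => by
    have : b.coord ⟨0, hu.pos⟩ ∘ₗ act K M D.e = 0 := b.ext fun i => by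
      rw [LinearMap.comp_apply, act_ap, hb, ← mul_smul, ← pow_succ', LinearMap.zero_apply]
      rcases (Nat.succ_le_of_lt i.2).eq_or_lt with h | h
      · rw [show (i : ℕ) + 1 = s from h, hu.nil, map_zero]
      · rw [← hb ⟨i + 1, h⟩]
        simp [Fin.ext_iff]
    exact DFunLike.congr_fun this x
  have lv : b.coord ⟨0, hu.pos⟩ v = 1 := (congrArg _ b0).symm.trans (by simp)
  have Rv : D.R 1 • v' ≠ 0 := fun h => by
    obtain ⟨x, hx⟩ := mem_pow.1 (Umem (M := M) ef ((1⁻¹ : (ZMod p)ˣ) : ZMod p) (i := 0) (m := v) ⟨v, rfl⟩)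
    rw [zero_add, pow_one, eq_sub_iff_add_eq] at hx
    rw [D.R_eq, add_smul, add_smul, mul_smul, mul_smul, mul_smul, Hv, Uv, hz, top, smul_comm _ c, ← hx] at h
    have h := congrArg (b.coord ⟨0, hu.pos⟩) h
    simp only [map_add, map_smul, le, lv, map_zero, smul_eq_mul, mul_one, zero_add] at h
    have c2 : (2 : K) ≠ 0 := by exact_mod_cast ne0 (K := K) hp (n := 2) (by omega) (by omega)
    have c3 : (3 : K) ≠ 0 := by exact_mod_cast ne0 (K := K) hp (n := 3) (by omega) (by omega)
    rcases Nat.eq_zero_or_pos (s - 1) with s1 | s1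
    · rw [s1, pow_zero, one_smul] at hv
      rw [hv] at top h
      have : (c * c) • v = (1 : K) • v := by
        rw [one_smul, mul_smul, ← top, ← smul_comm, ← top, ← mul_smul, D.ww, hz]
      have := congrArg (b.coord ⟨0, hu.pos⟩) this
      simp only [map_smul, lv, smul_eq_mul, mul_one] at this
      rw [lv] at h
      exact c3 (by linear_combination (-4) * this + (2 * c - 1) * h)
    · rw [hv, ← Nat.sub_add_cancel s1, pow_succ', mul_smul, le] at h
      exact mul_ne_zero c2 hu.c0 (by linear_combination h)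
  have u := upp (D := D) (M := M) ν (Submodule.span K {v'}) fun m h => by
    obtain ⟨a, rfl⟩ := Submodule.mem_span_singleton.1 h
    rw [smul_comm, Yv, smul_zero]
  have lt : finrank K ↥(LinearMap.ker (act K M (D.R ν)) ⊓ LinearMap.ker (act K M (D.R 1))) <
      finrank K ↥(LinearMap.ker (act K M (D.R ν)) ⊓ LinearMap.ker (act K M (D.R 1)) ⊔ Submodule.span K {v'}) :=
    Submodule.finrank_lt_finrank_of_lt (lt_of_le_of_ne le_sup_left fun e =>
      Rv (e.ge (Submodule.mem_sup_right (Submodule.mem_span_singleton_self _))).2)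
  unfold rk at u
  omega

end H11.FY
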