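import Cfsg.Agent.H11.Gen3
import Cfsg.Agent.H14.Cox
import Cfsg.Agent.H14.GoodSt

/-! # Two-generation: certificates and the exceptional groups -/

set_option autoImplicit false
set_option linter.unusedSectionVars false
set_option maxHeartbeats 800000
set_option maxRecDepth 100000

namespace H11.G3

open Subgroup H14 H14.RootSys H14.PreSt H11.Md H11.PSL H11.G2 Polynomial Cfsg.Lie

variable {ι κ : Type*} [Fintype κ] [DecidableEq κ] [Fintype ι] [DecidableEq ι] {R : RootSys ι κ}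
  {C : Chev R} {K G : Type*} [Field K] [Group G] {S : St C K G} {w : Equiv.Perm ι}

theorem Cl.all {A : Set ι} (h : ∀ i, Cl C K w A (R.simple i) ∧ Cl C K w A (R.neg (R.simple i))) (a : ι) :
    Cl C K w A a :=
  R.root_induction (fun i => (h i).1) (fun i _ ih => R.refl_simple i _ ▸ .refl (h i).1 (h i).2 ih) a

theorem genB1s (hK : ∀ t : K, t = 0 ∨ t = 1) (hG : S.U Set.univ = ⊤) (hw : w ∈ R.W) {r s t γ : ι}
    (h1 : r ≠ R.neg s ∧ ¬ R.IsSum s r) (h2 : r ≠ s ∧ ¬ R.IsSum (R.neg s) r) (h3 : ¬ R.IsSum (R.neg s) t)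
    (h4 : R.cf γ = R.cf t + R.cf s) (h6 : ¬ R.IsSum t γ ∧ ¬ R.IsSum s γ) (ht : Cl C K w {r} t)
    (h5 : ∀ a, Cl C K w {r, γ} a) : ∃ a c : G, closure {a, c} = ⊤ := by
  have e : R.IsSum t s := ⟨γ, h4⟩
  obtain rfl := plus_eq h4
  exact genB1 hK hG hw h1 h2 ⟨e.ne.symm, h3⟩ e.ne_neg ht (L := []) (C.terms_of_simple e h6.1 h6.2) (by
    rw [C.N_abs _ _ e, down_eq_zero_of_not fun h => h3 (by simpa using h.neg_neg.symm)]) (by simp) h5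

theorem genB1l (hd : ∀ r, R.d r = 1 ∨ R.d r = 2) (hK : ∀ t : K, t = 0 ∨ t = 1) (hG : S.U Set.univ = ⊤) (hw : w ∈ R.W)
    {r s t γ δ : ι} (h1 : r ≠ R.neg s ∧ ¬ R.IsSum s r) (h2 : r ≠ s ∧ ¬ R.IsSum (R.neg s) r)
    (h3 : ¬ R.IsSum (R.neg s) t) (h4 : R.cf δ = R.cf t + R.cf s) (h6 : R.cf γ = R.cf t + R.cf δ)
    (h7 : R.d γ = 2 ∧ R.d t = 1 ∧ R.pair γ t = 1) (ht : Cl C K w {r} t) (hδ : Cl C K w {r} δ)
    (h5 : ∀ a, Cl C K w {r, γ} a) : ∃ a c : G, closure {a, c} = ⊤ := by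
  have h8 : R.pair t γ = 2 := by have := R.d_pair t γ; rw [h7.1, h7.2.1, h7.2.2] at this; omega
  obtain rfl : s = R.refl t γ := R.cf_inj (by rw [cf_refl, h8, h6, h4]; module)
  obtain rfl : δ = R.neg (R.refl γ t) := R.cf_inj (by rw [cf_neg, cf_refl, h7.2.2, h6]; module)
  obtain ⟨e, -, a2, a3⟩ := terms_long C hd h7.1 h7.2.1 h7.2.2
  exact genB1 hK hG hw h1 h2 ⟨e.ne.symm, h3⟩ e.ne_neg ht (L := [_]) a3 a2 (by simpa) h5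

instance (a b : ι) : Decidable (R.IsSum a b) := inferInstanceAs (Decidable (∃ k, R.cf k = R.cf a + R.cf b))

variable (R) in
/-- a computable form of `down` -/
def dn (a b : ι) : ℕ :=
  if R.IsSum (R.neg a) b then (if ∃ k, R.cf k = R.cf (R.neg a) + (R.cf (R.neg a) + R.cf b) then 2 else 1) else 0

theorem dn_eq (a b : ι) : dn R a b = R.down a b := by
  unfold dn down
  by_cases h : R.IsSum (R.neg a) b
  · rw [if_pos h, if_pos h, ← h.cf_plus]; congr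
  · rw [if_neg h, if_neg h]

variable (R) in
/-- one step of a certificate -/
def stepB (L : List κ) (P : List ℕ) (kn : List ι) (k : ℕ) (a b c : ι) : Bool :=
  match k with
  | 0 => decide (a ∈ kn ∧ c = L.foldr R.sref a)
  | 1 => decide (a ∈ kn ∧ R.neg a ∈ kn ∧ b ∈ kn ∧ R.cf c = R.cf b - R.pair a b • R.cf a)
  | _ => decide (a ∈ kn ∧ b ∈ kn ∧ R.cf c = R.cf a + R.cf b ∧ ¬ R.IsSum a c ∧ ¬ R.IsSum b c ∧ dn R a b + 1 ∈ P)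

variable (R) in
/-- a certificate -/
def runB (f : ℕ → ι) (L : List κ) (P : List ℕ) (tg : List ι) : List (ℕ × ℕ × ℕ × ℕ) → List ι → Bool
  | [], kn => decide (∀ a ∈ tg, a ∈ kn)
  | s :: l, kn => stepB R L P kn s.1 (f s.2.1) (f s.2.2.1) (f s.2.2.2) && runB f L P tg l (f s.2.2.2 :: kn)

theorem Cl.run {f : ℕ → ι} {L : List κ} {P : List ℕ} (hP : ∀ n ∈ P, (n : K) ≠ 0) {A : Set ι} {tg : List ι}
    {l : List (ℕ × ℕ × ℕ × ℕ)} {kn : List ι} (h : runB R f L P tg l kn = true)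
    (hk : ∀ a ∈ kn, Cl C K (R.wprod L) A a) : ∀ a ∈ tg, Cl C K (R.wprod L) A a := by
  induction l generalizing kn with
  | nil => exact fun a ha => hk a (of_decide_eq_true h a ha)
  | cons s l ih =>
    rw [runB, Bool.and_eq_true] at h
    refine ih h.2 (List.forall_mem_cons.2 ⟨?_, hk⟩)
    have h1 := h.1
    unfold stepB at h1
    split at h1 <;> have h2 := of_decide_eq_true h1
    · rw [h2.2, ← wprod_apply]; exact .act (hk _ h2.1)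
    · rw [R.cf_inj (h2.2.2.2.trans (R.cf_refl _ _).symm)]
      exact .refl (hk _ h2.1) (hk _ h2.2.1) (hk _ h2.2.2.1)
    · obtain ⟨a1, a2, a3, a4, a5, a6⟩ := h2
      have e := plus_eq a3
      rw [← e] at a4 a5 ⊢
      refine .sum (hk _ a1) (hk _ a2) ⟨_, a3⟩ a4 a5 fun h0 => hP _ a6 ?_
      rw [dn_eq, ← C.N_abs _ _ ⟨_, a3⟩]
      rcases Int.natAbs_eq (C.N (f s.2.1) (f s.2.2.1)) with e | e <;> rw [e] at h0 <;> simpa using h0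

theorem Cl.run1 {f : ℕ → ι} {L : List κ} {P : List ℕ} (hP : ∀ n ∈ P, (n : K) ≠ 0) {tg : List ι}
    {l : List (ℕ × ℕ × ℕ × ℕ)} {r : ι} (h : runB R f L P tg l [r] = true) : ∀ a ∈ tg, Cl C K (R.wprod L) {r} a :=
  Cl.run hP h (by simpa using .base rfl)

theorem Cl.run2 {f : ℕ → ι} {L : List κ} {P : List ℕ} (hP : ∀ n ∈ P, (n : K) ≠ 0) {tg : List ι}
    {l : List (ℕ × ℕ × ℕ × ℕ)} {r s : ι} (h : runB R f L P tg l [r, s] = true) :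
    ∀ a ∈ tg, Cl C K (R.wprod L) {r, s} a :=
  Cl.run hP h (by simpa using ⟨.base (by simp), .base (by simp)⟩)

variable {D : ChevalleyDatum} (Γ : Good D)

/-- a root by number -/
def fr (n : ℕ) : Fin D.nroots := ⟨n % D.nroots, Nat.mod_lt _ (Γ.R.simple ⟨0, by have := Γ.two_le; omega⟩).pos⟩

/-- the simple roots and their negatives -/
def sm : List (Fin D.nroots) := (List.finRange D.rank).map Γ.R.simple ++ (List.finRange D.rank).map fun i =>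
  Γ.R.neg (Γ.R.simple i)

theorem all_of_sm {w : Equiv.Perm (Fin D.nroots)} {A : Set (Fin D.nroots)} (h : ∀ a ∈ sm Γ, Cl Γ.C K w A a) (a) :
    Cl Γ.C K w A a := Cl.all (fun i => ⟨h _ (by simp [sm]), h _ (by simp [sm])⟩) a

variable [Finite K]

theorem surj_e {ζ : K} (h0 : ζ ≠ 0) (h1 : ∀ s : K, s ≠ 0 → ∃ n : ℕ, s = ζ ^ n)
    (h2 : ∀ n : ℕ, ζ ^ n = 1 ↔ Nat.card K - 1 ∣ n) {e : ℤ} (he : e = 1 ∨ e = 2 ∨ e = 3 ∧ (3 : K) = 0) :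
    Function.Surjective (aeval (ζ ^ e) : ℤ[X] → K) := by
  rcases he with rfl | rfl | ⟨rfl, h3⟩
  · simpa using surj_of_gen h1
  · exact_mod_cast surj_sq h0 h2
  · haveI : CharP K 3 := (CharP.charP_iff_prime_eq_zero (by norm_num)).2 h3
    refine surj_of_gen fun s hs => ?_
    obtain ⟨t, rfl⟩ := (Finite.injective_iff_surjective.1 (frobenius K 3).injective) s
    obtain ⟨n, rfl⟩ := h1 t (by rintro rfl; simp at hs)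
    exact ⟨n, by rw [frobenius_def, ← pow_mul, mul_comm, pow_mul]; norm_cast⟩

theorem goodA0 (T : List ℕ) (r α : ℕ) {P : List ℕ} (hP : ∀ n ∈ P, (n : K) ≠ 0) (l1 l2 : List (ℕ × ℕ × ℕ × ℕ))
    (h : eT Γ.R (T.map (fr Γ)) (fr Γ r) = 0 ∧ eT Γ.R (T.map (fr Γ)) (fr Γ α) ∈ [1, 2] ∧
      runB Γ.R (fr Γ) (List.finRange _) P [fr Γ α] l1 [fr Γ r] = true ∧
      runB Γ.R (fr Γ) (List.finRange _) P (sm Γ) l2 [fr Γ α] = true) :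
    ∃ a b : D.group K, closure {a, b} = ⊤ := by
  obtain ⟨ζ, h0, h1, h2⟩ := exists_gen K
  exact genA0 (Γ.SG_hmul K) (Γ.SG_top K) (Γ.R.wprod_mem_W _) h0 h.1 (Cl.run1 hP h.2.2.1 _ (by simp))
    (surj_e h0 h1 h2 (by have := h.2.1; simp at this; omega)) (all_of_sm Γ (Cl.run1 hP h.2.2.2))

theorem goodA1 (hK : ∃ x : K, x ≠ 0 ∧ x ≠ 1) (T : List ℕ) (r α s : ℕ) (e : ℤ) (he : e = 1 ∨ e = 2 ∨ e = 3 ∧ (3 : K) = 0)
    (l1 l2 l3 : List (ℕ × ℕ × ℕ × ℕ))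
    (h : eT Γ.R (T.map (fr Γ)) (fr Γ r) = 0 ∧ eT Γ.R (T.map (fr Γ)) (fr Γ α) = e ∧
      eT Γ.R (T.map (fr Γ)) (fr Γ s) = 1 ∧ (fr Γ r ≠ Γ.R.neg (fr Γ s) ∧ ¬ Γ.R.IsSum (fr Γ s) (fr Γ r)) ∧
      (fr Γ α ≠ Γ.R.neg (fr Γ s) ∧ ¬ Γ.R.IsSum (fr Γ s) (fr Γ α)) ∧
      runB Γ.R (fr Γ) (List.finRange _) [1] [fr Γ α] l1 [fr Γ r] = true ∧
      runB Γ.R (fr Γ) (List.finRange _) [1] (T.map (fr Γ) ++ (T.map (fr Γ)).map Γ.R.neg) l2 [fr Γ α] = true ∧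
      runB Γ.R (fr Γ) (List.finRange _) [1] (sm Γ) l3 [fr Γ α, fr Γ s] = true) :
    ∃ a b : D.group K, closure {a, b} = ⊤ := by
  obtain ⟨ζ, h0, h1, h2⟩ := exists_gen K
  obtain ⟨a1, a2, a3, a4, a5, a6, a7, a8⟩ := h
  have hP : ∀ n ∈ [1], ((n : ℕ) : K) ≠ 0 := by simp
  exact genA1 (Γ.SG_hmul K) (Γ.SG_top K) (Γ.R.wprod_mem_W _) h0 a1 a4 a5 (Cl.run1 hP a6 _ (by simp))
    (surj_e h0 h1 h2 (a2 ▸ he)) (fun t ht => ⟨Cl.run1 hP a7 _ (List.mem_append_left _ ht),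
      Cl.run1 hP a7 _ (List.mem_append_right _ (List.mem_map_of_mem ht))⟩) (by
        rw [a3, zpow_one]
        rintro rfl
        obtain ⟨x, x0, x1⟩ := hK
        obtain ⟨n, rfl⟩ := h1 x x0
        simp at x1) (surj_e h0 h1 h2 (.inl a3)) (all_of_sm Γ (Cl.run2 hP a8))

theorem goodB1s (hK : ∀ t : K, t = 0 ∨ t = 1) (r s t γ : ℕ) (l1 l2 : List (ℕ × ℕ × ℕ × ℕ))
    (h : (fr Γ r ≠ Γ.R.neg (fr Γ s) ∧ ¬ Γ.R.IsSum (fr Γ s) (fr Γ r)) ∧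
      (fr Γ r ≠ fr Γ s ∧ ¬ Γ.R.IsSum (Γ.R.neg (fr Γ s)) (fr Γ r)) ∧ ¬ Γ.R.IsSum (Γ.R.neg (fr Γ s)) (fr Γ t) ∧
      Γ.R.cf (fr Γ γ) = Γ.R.cf (fr Γ t) + Γ.R.cf (fr Γ s) ∧
      (¬ Γ.R.IsSum (fr Γ t) (fr Γ γ) ∧ ¬ Γ.R.IsSum (fr Γ s) (fr Γ γ)) ∧
      runB Γ.R (fr Γ) (List.finRange _) [1] [fr Γ t] l1 [fr Γ r] = true ∧
      runB Γ.R (fr Γ) (List.finRange _) [1] (sm Γ) l2 [fr Γ r, fr Γ γ] = true) :
    ∃ a b : D.group K, closure {a, b} = ⊤ := by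
  obtain ⟨a1, a2, a3, a4, a5, a6, a7⟩ := h
  have hP : ∀ n ∈ [1], ((n : ℕ) : K) ≠ 0 := by simp
  exact genB1s hK (Γ.SG_top K) (Γ.R.wprod_mem_W _) a1 a2 a3 a4 a5 (Cl.run1 hP a6 _ (by simp))
    (all_of_sm Γ (Cl.run2 hP a7))

theorem goodB1l (hd : ∀ r, Γ.R.d r = 1 ∨ Γ.R.d r = 2) (hK : ∀ t : K, t = 0 ∨ t = 1) (r s t γ δ : ℕ)
    (l1 l2 : List (ℕ × ℕ × ℕ × ℕ))
    (h : (fr Γ r ≠ Γ.R.neg (fr Γ s) ∧ ¬ Γ.R.IsSum (fr Γ s) (fr Γ r)) ∧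
      (fr Γ r ≠ fr Γ s ∧ ¬ Γ.R.IsSum (Γ.R.neg (fr Γ s)) (fr Γ r)) ∧ ¬ Γ.R.IsSum (Γ.R.neg (fr Γ s)) (fr Γ t) ∧
      Γ.R.cf (fr Γ δ) = Γ.R.cf (fr Γ t) + Γ.R.cf (fr Γ s) ∧ Γ.R.cf (fr Γ γ) = Γ.R.cf (fr Γ t) + Γ.R.cf (fr Γ δ) ∧
      (Γ.R.d (fr Γ γ) = 2 ∧ Γ.R.d (fr Γ t) = 1 ∧ Γ.R.pair (fr Γ γ) (fr Γ t) = 1) ∧
      runB Γ.R (fr Γ) (List.finRange _) [1] [fr Γ t, fr Γ δ] l1 [fr Γ r] = true ∧
      runB Γ.R (fr Γ) (List.finRange _) [1] (sm Γ) l2 [fr Γ r, fr Γ γ] = true) :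
    ∃ a b : D.group K, closure {a, b} = ⊤ := by
  obtain ⟨a1, a2, a3, a4, a5, a6, a7, a8⟩ := h
  have hP : ∀ n ∈ [1], ((n : ℕ) : K) ≠ 0 := by simp
  exact genB1l hd hK (Γ.SG_top K) (Γ.R.wprod_mem_W _) a1 a2 a3 a4 a5 a6 (Cl.run1 hP a7 _ (by simp))
    (Cl.run1 hP a7 _ (by simp)) (all_of_sm Γ (Cl.run2 hP a8))

end H11.G3
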