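import Cfsg.Agent.H11.Gen4
import Cfsg.Agent.H11.Cl7

/-! # Two-generation: the classical root systems -/

set_option autoImplicit false
set_option linter.unusedSectionVars false
set_option maxHeartbeats 800000

namespace H11.G3

open Subgroup H14 H14.RootSys H14.PreSt H11.Md H11.PSL H11.G2 Polynomial Matrix Equiv

theorem Cl.inv {ι κ : Type*} [Fintype κ] [DecidableEq κ] [Fintype ι] [DecidableEq ι] {R : RootSys ι κ}
    {C : Chev R} {K : Type*} [Field K] {w : Perm ι} {A : Set ι} {a : ι} (h : Cl C K w A (w a)) : Cl C K w A a := by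
  have : ∀ m : ℕ, Cl C K w A ((w ^ (m + 1)) a) := fun m => by
    induction m with
    | zero => simpa using h
    | succ m ih => rw [pow_succ']; exact .act ih
  have := this (orderOf w - 1)
  rwa [Nat.sub_add_cancel (orderOf_pos w), pow_orderOf_eq_one] at this

theorem N_ne {ι κ : Type*} [Fintype κ] [DecidableEq κ] [Fintype ι] [DecidableEq ι] {R : RootSys ι κ}
    (C : Chev R) {K : Type*} [Field K] (h2 : (2 : K) ≠ 0) (hd : ∀ r, R.d r = 1 ∨ R.d r = 2) {γ δ : ι}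
    (h : R.IsSum γ δ) : (C.N γ δ : K) ≠ 0 := by
  have : R.down γ δ ≤ 1 := by
    rw [down]
    split_ifs with h1 h2 <;> try omega
    have a := R.neg_three_le_pair γ (R.plus (R.neg γ) (R.plus (R.neg γ) δ))
    have b := h.norm
    have c := h1.norm
    have := hd γ; have := hd δ; have := hd (R.plus γ δ); have := hd (R.plus (R.neg γ) δ)
    simp only [h2.pair_plus, h1.pair_plus, pair_neg_right, pair_neg_left, pair_self, d_neg] at a c
    rcases hd γ with e | e <;> rw [e] at b c <;> omega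
  have h3 := C.N_abs _ _ h
  obtain e | e | e | e : C.N γ δ = 1 ∨ C.N γ δ = -1 ∨ C.N γ δ = 2 ∨ C.N γ δ = -2 := by omega
  all_goals simp [e, h2]

variable {n : ℕ} [NeZero n] {ν : Type*} [Fintype ν] [DecidableEq ν] {B : Wb (Fin n) ν (Fin n)} {K : Type*} [Field K]

/-- coordinate vectors -/
abbrev ee (a : Fin n) (s : ℤ) : Fin n → ℤ := Pi.single a s

theorem ee_comp (a : Fin n) (s : ℤ) (π : Perm (Fin n)) : ee a s ∘ π = ee (π⁻¹ a) s := funext fun i => by
  simp only [Function.comp, Pi.single_apply, Perm.eq_inv_iff_eq]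

theorem swap_eq {i j : Fin n} (h : i ≠ j) (y : Fin n → ℤ) :
    y - ((ee i 1 + ee j (-1)) ⬝ᵥ y) • (ee i 1 + ee j (-1)) = y ∘ swap i j := funext fun k => by
  simp only [add_dotProduct, single_dotProduct, Pi.sub_apply, Pi.smul_apply, Pi.add_apply, Pi.single_apply,
    Function.comp, swap_apply_def, smul_eq_mul]
  split_ifs <;> simp_all

variable (B) in
/-- the vectors `± e_a ± e_b` are roots -/
def HR : Prop := ∀ a b s t, a ≠ b → s * s = 1 → t * t = 1 → IsRt B.μ B.N (ee a s + ee b t)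

theorem norm_ee {a b : Fin n} (h : a ≠ b) {s t : ℤ} (hs : s * s = 1) (ht : t * t = 1) :
    (ee a s + ee b t) ⬝ᵥ (ee a s + ee b t) = 2 := by
  simp [h, h.symm, hs, ht]

theorem refl_two {r : B.wd.Rt} (h : r.1 ⬝ᵥ r.1 = 2) (s : B.wd.Rt) : (B.R.refl r s).1 = s.1 - (r.1 ⬝ᵥ s.1) • r.1 := by
  rw [Wd.refl_val, Wd.pair_two h]

variable (B) in
/-- maps induced by the Weyl group -/
def Real (f : (Fin n → ℤ) → Fin n → ℤ) : Prop := ∃ w ∈ B.R.W, ∀ r, (w r).1 = f r.1

theorem Real.comp {f g : (Fin n → ℤ) → Fin n → ℤ} (h : Real B f) (h' : Real B g) : Real B (f ∘ g) := by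
  obtain ⟨w, h1, h2⟩ := h
  obtain ⟨w', h3, h4⟩ := h'
  exact ⟨w * w', mul_mem h1 h3, fun r => by simp [h2, h4]⟩

theorem HR.perm (h : HR B) (π : Perm (Fin n)) : Real B (· ∘ π) := by
  induction π using Perm.swap_induction_on with
  | one => exact ⟨1, one_mem _, fun r => rfl⟩
  | swap_mul f x y hxy ih =>
    exact ih.comp (g := (· ∘ swap x y)) ⟨_, B.R.refl_mem_W (B.rt (h x y 1 (-1) hxy rfl rfl)), fun r =>
      (refl_two (norm_ee hxy rfl rfl) r).trans (swap_eq hxy _)⟩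

/-- signed cyclic permutations -/
def cyc (c : Fin n) (ε : Fin n → ℤ) (x : Fin n → ℤ) : Fin n → ℤ := fun i => ε i * x ((Fin.cycleRange c)⁻¹ i)

theorem cyc_ee (c : Fin n) (ε : Fin n → ℤ) (a : Fin n) (s : ℤ) :
    cyc c ε (ee a s) = ee (c.cycleRange a) (ε (c.cycleRange a) * s) := funext fun i => by
  simp only [cyc, Pi.single_apply, Perm.inv_eq_iff_eq]
  split_ifs with h <;> simp [h]

theorem cyc_add (c : Fin n) (ε : Fin n → ℤ) (x y : Fin n → ℤ) : cyc c ε (x + y) = cyc c ε x + cyc c ε y :=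
  funext fun i => by simp [cyc, mul_add]

theorem HR.cyc (h : HR B) (c : Fin n) {ε : Fin n → ℤ} (h' : Real B fun x i => ε i * x i) : Real B (cyc c ε) :=
  h'.comp (h.perm _)

theorem HR.sign2 (h : HR B) {a b : Fin n} (hab : a ≠ b) :
    Real B fun x i => (if i = a ∨ i = b then -1 else 1) * x i := by
  have h1 : Real B fun y => y - ((ee a 1 + ee b 1) ⬝ᵥ y) • (ee a 1 + ee b 1) :=
    ⟨_, B.R.refl_mem_W (B.rt (h a b 1 1 hab rfl rfl)), fun r => refl_two (norm_ee hab rfl rfl) r⟩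
  convert h1.comp (h.perm (swap a b)) using 1
  funext x i
  simp only [add_dotProduct, single_dotProduct, Pi.sub_apply, Pi.smul_apply, Pi.add_apply, Pi.single_apply,
    Function.comp, swap_apply_def, smul_eq_mul]
  split_ifs <;> simp_all

theorem sign1 {a : Fin n} {m : ℤ} (h : IsRt B.μ B.N (ee a m)) (hm : m = 1 ∨ m = 2) :
    Real B fun x i => (if i = a then -1 else 1) * x i :=
  ⟨_, B.R.refl_mem_W (B.rt h), fun r => by
    rw [Wd.refl_val, Wd.pair_eq]
    funext i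
    have : cov (ee a m) = ee a (2 / m) := funext fun j => by
      rcases hm with rfl | rfl <;> simp [cov, Pi.single_apply] <;> split_ifs <;> rfl
    simp only [Wb.rt_val, this, single_dotProduct, Pi.sub_apply, Pi.smul_apply, Pi.single_apply, smul_eq_mul]
    rcases hm with rfl | rfl <;> split_ifs with e <;> simp [e] <;> ring⟩

variable (B K) in
/-- reached vectors -/
def Q (w : Perm B.wd.Rt) (A : Set B.wd.Rt) (x : Fin n → ℤ) : Prop := ∃ h : IsRt B.μ B.N x, Cl B.C K w A (B.rt h)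

variable {w : Perm B.wd.Rt} {A : Set B.wd.Rt}

theorem Q.of {r : B.wd.Rt} (h : Cl B.C K w A r) {x : Fin n → ℤ} (e : r.1 = x) : Q B K w A x := ⟨e ▸ r.2, by subst e; exact h⟩

theorem Q.cl {x : Fin n → ℤ} (h : Q B K w A x) {r : B.wd.Rt} (e : r.1 = x) : Cl B.C K w A r := by
  subst e; exact h.2

theorem Q.refl {x y z : Fin n → ℤ} (h1 : Q B K w A x) (h2 : Q B K w A (-x)) (h3 : Q B K w A y) (h : x ⬝ᵥ x = 2)
    (e : y - (x ⬝ᵥ y) • x = z) : Q B K w A z :=
  .of (.refl h1.2 (h2.cl (B.wd.neg_val _)) h3.2) ((refl_two (r := B.rt h1.1) h _).trans e)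

variable (B K w A) in
/-- transpositions preserving the reached vectors -/
def Sw (i j : Fin n) : Prop := ∀ x, Q B K w A x → Q B K w A (x ∘ swap i j)

theorem Sw.of {i j : Fin n} (h : i ≠ j) (h1 : Q B K w A (ee i 1 + ee j (-1))) (h2 : Q B K w A (ee i (-1) + ee j 1)) :
    Sw B K w A i j := fun x hx =>
  h1.refl (by convert h2 using 1; simp [← Pi.single_neg, add_comm]) hx (norm_ee h rfl rfl) (swap_eq h x)

theorem Sw.rfl (i : Fin n) : Sw B K w A i i := fun x hx => by simpa using hx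

theorem Sw.symm {i j : Fin n} (h : Sw B K w A i j) : Sw B K w A j i := by rwa [Sw, Equiv.swap_comm]

theorem Sw.trans {i j k : Fin n} (h : Sw B K w A i j) (h' : Sw B K w A j k) : Sw B K w A i k := by
  by_cases h1 : i = j
  · rwa [h1]
  by_cases h2 : i = k
  · exact h2 ▸ .rfl i
  intro x hx
  rw [Equiv.swap_comm, ← swap_mul_swap_mul_swap h1 h2]
  exact h' _ (h _ (h' _ hx))

theorem Q.move {I : Set (Fin n)} (hI : ∀ i ∈ I, ∀ j ∈ I, Sw B K w A i j) {a b a' b' : Fin n} (h : a ≠ b) (h' : a' ≠ b')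
    (ha : a ∈ I) (hb : b ∈ I) (ha' : a' ∈ I) (hb' : b' ∈ I) {s t : ℤ} (h0 : Q B K w A (ee a s + ee b t)) :
    Q B K w A (ee a' s + ee b' t) := by
  have h1 := hI (swap a a' b) (by rw [swap_apply_def]; split_ifs <;> assumption) b' hb' _ (hI a ha a' ha' _ h0)
  have h2 : a' ≠ swap a a' b := by rw [swap_apply_def]; split_ifs <;> simp_all [eq_comm]
  simpa only [Pi.add_comp, ee_comp, swap_inv, swap_apply_left, swap_apply_of_ne_of_ne h2 h'] using h1

section
variable {c : Fin n} {ε : Fin n → ℤ} (hw : ∀ r, (w r).1 = cyc c ε r.1)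
include hw

theorem Q.act {x : Fin n → ℤ} (h : Q B K w A x) : Q B K w A (cyc c ε x) := .of (.act h.2) (hw _)

theorem Q.act2 {a b : Fin n} {s t : ℤ} (h : Q B K w A (ee a s + ee b t)) :
    Q B K w A (ee (c.cycleRange a) (ε (c.cycleRange a) * s) + ee (c.cycleRange b) (ε (c.cycleRange b) * t)) := by
  simpa only [cyc_add, cyc_ee] using h.act hw

variable (hc : 0 < c) (h0 : ε 0 = -1) (h1 : ∀ i, 0 < i → i ≤ c → ε i = 1)
include hc h0 h1

theorem chain {o : Fin n} (ho : (o : ℕ) = 1) {s t : ℤ} (h : Q B K w A (ee 0 s + ee o t)) :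
    (∀ i j : Fin n, (j : ℕ) = i + 1 → j ≤ c → Q B K w A (ee i s + ee j t)) ∧ Q B K w A (ee c s + ee 0 (-t)) ∧
      Q B K w A (ee 0 (-s) + ee o (-t)) := by
  have k1 : ∀ i j : Fin n, (j : ℕ) = i + 1 → j ≤ c → c.cycleRange i = j ∧ ε j = 1 := fun i j e e' =>
    ⟨Fin.ext ((Fin.coe_cycleRange_of_lt (by rw [Fin.lt_def]; rw [Fin.le_def] at e'; omega)).trans e.symm),
      h1 j (by rw [Fin.lt_def, Fin.val_zero]; omega) e'⟩
  have k2 : ∀ m : ℕ, ∀ i j : Fin n, (i : ℕ) = m → (j : ℕ) = i + 1 → j ≤ c → Q B K w A (ee i s + ee j t) := fun m => by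
    induction m with
    | zero =>
      intro i j e1 e2 _
      rwa [show i = 0 from Fin.ext e1, show j = o from Fin.ext (by omega)]
    | succ m ih =>
      intro i j e1 e2 e3
      have e4 : i ≤ c := by rw [Fin.le_def] at *; omega
      have := (ih ⟨m, by omega⟩ i rfl e1 e4).act2 hw
      rwa [(k1 ⟨m, _⟩ i e1 e4).1, (k1 ⟨m, by omega⟩ i e1 e4).2, (k1 i j e2 e3).1, (k1 i j e2 e3).2, one_mul, one_mul] at this
  have hc' : 0 < (c : ℕ) := hc
  have k3 := (k2 _ ⟨c - 1, by omega⟩ c rfl (by simp; omega) le_rfl).act2 hw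
  have k4 := k1 ⟨c - 1, by omega⟩ c (by simp; omega) le_rfl
  rw [k4.1, k4.2, Fin.cycleRange_self, h0, one_mul, neg_one_mul] at k3
  have k5 := k3.act2 hw
  have k6 := k1 0 o (by simpa) (by rw [Fin.le_def]; omega)
  rw [k6.1, k6.2, Fin.cycleRange_self, h0, one_mul, neg_one_mul] at k5
  exact ⟨fun i j => k2 _ i j rfl, k3, k5⟩

theorem main {o : Fin n} (ho : (o : ℕ) = 1) (h : Q B K w A (ee 0 1 + ee o (-1))) :
    (∀ i ≤ c, ∀ j ≤ c, Sw B K w A i j) ∧ ∀ a ≤ c, ∀ b ≤ c, a ≠ b → ∀ s t, s * s = 1 → t * t = 1 →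
      Q B K w A (ee a s + ee b t) := by
  obtain ⟨a1, a2, a3⟩ := chain hw hc h0 h1 ho h
  obtain ⟨b1, b2, -⟩ := chain hw hc h0 h1 ho a3
  have k1 : ∀ m : ℕ, ∀ i : Fin n, (i : ℕ) = m → i ≤ c → Sw B K w A 0 i := fun m => by
    induction m with
    | zero => intro i e _; rw [show i = 0 from Fin.ext e]; exact .rfl _
    | succ m ih =>
      intro i e1 e2
      exact (ih ⟨m, by omega⟩ rfl (by rw [Fin.le_def] at *; simp; omega)).trans
        (.of (by simp [Fin.ext_iff]; omega) (a1 _ _ e1 e2) (b1 _ _ e1 e2))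
  have k2 : ∀ i ≤ c, ∀ j ≤ c, Sw B K w A i j := fun i hi j hj => (k1 _ i rfl hi).symm.trans (k1 _ j rfl hj)
  refine ⟨k2, fun a ha b hb hab s t hs ht => ?_⟩
  have o1 : (0 : Fin n) ≠ o := by simp [Fin.ext_iff, ho]
  have o2 : o ≤ c := by have : 0 < (c : ℕ) := hc; rw [Fin.le_def]; omega
  rcases Int.eq_one_or_neg_one_of_mul_eq_one hs with rfl | rfl <;>
    rcases Int.eq_one_or_neg_one_of_mul_eq_one ht with rfl | rfl
  exacts [a2.move (I := Set.Iic c) k2 hc.ne' hab (le_refl c) hc.le ha hb, h.move (I := Set.Iic c) k2 o1 hab hc.le o2 ha hb,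
    a3.move (I := Set.Iic c) k2 o1 hab hc.le o2 ha hb, b2.move (I := Set.Iic c) k2 hc.ne' hab (le_refl c) hc.le ha hb]

end

theorem all_one (hn : 2 ≤ n) (h1 : ∀ i j, Sw B K w A i j)
    (h2 : ∀ a b, a ≠ b → ∀ s t, s * s = 1 → t * t = 1 → Q B K w A (ee a s + ee b t)) {m : ℤ}
    (h : Q B K w A (ee 0 m)) (a : Fin n) (s : ℤ) (hs : s * s = 1) : Q B K w A (ee a (m * s)) := by
  have k : ∀ a, Q B K w A (ee a m) := fun a => by simpa [ee_comp] using h1 0 a _ h
  rcases Int.eq_one_or_neg_one_of_mul_eq_one hs with rfl | rfl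
  · simpa using k a
  haveI : Nontrivial (Fin n) := Fin.nontrivial_iff_two_le.2 hn
  obtain ⟨b, hb⟩ := exists_ne a
  refine (h2 b a hb 1 1 rfl rfl).refl (by
    convert h2 b a hb (-1) (-1) rfl rfl using 1; simp [← Pi.single_neg, add_comm]) (k b) (norm_ee hb rfl rfl) ?_
  funext i
  simp only [add_dotProduct, single_dotProduct, Pi.sub_apply, Pi.smul_apply, Pi.add_apply, Pi.single_apply, smul_eq_mul]
  split_ifs <;> simp_all

theorem all_of (hμ : ∀ a, B.μ a ≠ 0 → ∃ i s, s * s = 1 ∧ B.μ a = ee i s)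
    (h2 : ∀ a b, a ≠ b → ∀ s t, s * s = 1 → t * t = 1 → Q B K w A (ee a s + ee b t))
    (h3 : ∀ a s, s * s = 1 → (B.N = 4 → Q B K w A (ee a (2 * s))) ∧ (B.c = 2 → Q B K w A (ee a (1 * s))))
    (r : B.wd.Rt) : Cl B.C K w A r := by
  rcases B.cases r with ⟨a, b, h, rfl⟩ | ⟨a, h, ⟨e, e', -⟩ | ⟨e, e', -⟩⟩
  · obtain ⟨i, s, hs, e⟩ := hμ a h.2.1
    obtain ⟨j, t, ht, e'⟩ := hμ b h.2.2
    refine (h2 i j ?_ s t hs ht).cl (by simp [e, e'])
    rintro rfl
    have := h.1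
    rw [e, e'] at this
    simp at this
    rcases this with rfl | rfl <;> simp_all
  · obtain ⟨i, s, hs, e1⟩ := hμ a h
    exact ((h3 i s hs).1 e').cl (by rw [e, e1, ← Pi.single_smul]; rfl)
  · obtain ⟨i, s, hs, e1⟩ := hμ a h
    exact ((h3 i s hs).2 e').cl (by rw [e, e1, one_mul])

theorem far {r s : B.wd.Rt} (h : B.N < (r.1 + s.1) ⬝ᵥ (r.1 + s.1)) : s ≠ B.R.neg r ∧ ¬ B.R.IsSum r s :=
  ⟨fun e => by rw [B.wd.eq_neg_iff.1 e] at h; have := B.hN; simp at h; omega,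
    fun e => (B.isSum_iff.1 e).2.2.not_gt h⟩

theorem far' {r s : B.wd.Rt} (h : B.N < (-r.1 + s.1) ⬝ᵥ (-r.1 + s.1)) : s ≠ r ∧ ¬ B.R.IsSum (B.R.neg r) s := by
  simpa using far (r := B.R.neg r) (s := s) (by rwa [Wd.neg_val])

end H11.G3
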