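import Cfsg.Agent.H11.Gen5

/-! # Two-generation: types `B`, `C`, `D` -/

set_option autoImplicit false
set_option linter.unusedSectionVars false
set_option maxHeartbeats 800000

namespace H11.G3

open Subgroup H14 H14.RootSys H14.PreSt H11.Md H11.PSL H11.G2 Polynomial Matrix Equiv Cfsg

variable {n : ℕ} [NeZero n] {ν : Type*} [Fintype ν] [DecidableEq ν] {B : Wb (Fin n) ν (Fin n)} {K : Type*} [Field K]

theorem HR.of (hs : ∀ i s, s * s = 1 → ∃ a, B.μ a = ee i s) : HR B := fun a b s t h hs' ht => by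
  obtain ⟨a', e⟩ := hs a s hs'
  obtain ⟨b', e'⟩ := hs b t ht
  have : B.Ind a' b' := ⟨by simp [e, e', h], by rw [e]; rintro h; simp_all, by rw [e']; rintro h; simp_all⟩
  simpa only [e, e'] using this.isRt

theorem μ2_sur (i : Fin n) (s : ℤ) (hs : s * s = 1) : ∃ a, μ2 a = ee i s := by
  rcases Int.eq_one_or_neg_one_of_mul_eq_one hs with rfl | rfl
  exacts [⟨.inl i, rfl⟩, ⟨.inr i, rfl⟩]

theorem μ2_ex (a : Fin n ⊕ Fin n) : ∃ i s, s * s = 1 ∧ μ2 a = ee i s := ⟨_, _, sg_sq a, rfl⟩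

variable {G : Type*} [Group G] [Finite K]

section
variable {S : St B.C K G} (hh : S.HMul) (hG : S.U Set.univ = ⊤) (hR : HR B)
  {c o : Fin n} {ε : Fin n → ℤ} {w : Perm B.wd.Rt} (hW : w ∈ B.R.W) (hw : ∀ r, (w r).1 = cyc c ε r.1)
  (hc : 0 < c) (h0 : ε 0 = -1) (h1 : ∀ i, 0 < i → i ≤ c → ε i = 1) (ho : (o : ℕ) = 1)

include ho in
theorem o_ne : (0 : Fin n) ≠ o := by simp [Fin.ext_iff, ho]

include hw hc h0 h1 in
theorem w_val : (w (B.rt (hR 0 o 1 (-1) (o_ne ho) rfl rfl))).1 = ee o 1 + ee 0 1 ∨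
    ∃ j : Fin n, (j : ℕ) = 2 ∧ j ≤ c ∧ (w (B.rt (hR 0 o 1 (-1) (o_ne ho) rfl rfl))).1 = ee o 1 + ee j (-1) := by
  have hc' : 0 < (c : ℕ) := hc
  have o2 : o ≤ c := by rw [Fin.le_def]; omega
  have e1 : c.cycleRange 0 = o := Fin.ext ((Fin.coe_cycleRange_of_lt hc).trans (by simp [ho]))
  rw [hw, Wb.rt_val, cyc_add, cyc_ee, cyc_ee, e1, h1 o (by rw [Fin.lt_def, Fin.val_zero]; omega) o2]
  rcases o2.eq_or_lt with rfl | h
  · simp [h0]
  · have := Fin.coe_cycleRange_of_lt h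
    have h3 : c.cycleRange o ≤ c := by rw [Fin.le_def]; rw [Fin.lt_def] at h; omega
    exact .inr ⟨_, by omega, h3, by rw [h1 _ (by rw [Fin.lt_def, Fin.val_zero]; omega) h3]; rfl⟩

theorem eT_one {a b : Fin n} (h : a ≠ b) (s : B.wd.Rt) : eT B.R [B.rt (hR a b 1 1 h rfl rfl)] s = s.1 a + s.1 b := by
  simp [eT, Wd.pair_two (r := B.rt (hR a b 1 1 h rfl rfl)) (norm_ee h rfl rfl)]

include hw hc h0 h1 in
theorem eT_w : eT B.R [B.rt (hR 0 o 1 1 (o_ne ho) rfl rfl)] (w (B.rt (hR 0 o 1 (-1) (o_ne ho) rfl rfl))) = 1 ∨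
    eT B.R [B.rt (hR 0 o 1 1 (o_ne ho) rfl rfl)] (w (B.rt (hR 0 o 1 (-1) (o_ne ho) rfl rfl))) = 2 := by
  have := o_ne ho
  rcases w_val hR hw hc h0 h1 ho with e | ⟨j, j1, -, e⟩ <;> rw [eT_one, e]
  · simp [this, this.symm]
  · have : o ≠ j := by simp [Fin.ext_iff]; omega
    have : 0 ≠ j := by simp [Fin.ext_iff]; omega
    simp [*]

include hh hG hR hW hw hc h0 h1 ho

theorem drvA0 (hall : ∀ A, Q B K w A (ee 0 1 + ee o (-1)) → ∀ r, Cl B.C K w A r) : ∃ a b : G, closure {a, b} = ⊤ := by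
  obtain ⟨ζ, z0, z1, z2⟩ := exists_gen K
  have := o_ne ho
  exact genA0 hh hG hW z0 (T := [B.rt (hR 0 o 1 1 this rfl rfl)]) (r := B.rt (hR 0 o 1 (-1) this rfl rfl))
    (by simp [eT_one, this, this.symm]) (.act (.base rfl))
    (surj_e z0 z1 z2 (by have := eT_w hR hw hc h0 h1 ho; omega)) (hall _ ⟨_, .inv (.base rfl)⟩)

theorem drvA1 (s : B.wd.Rt) (a1 : B.N < (s.1 + (ee 0 1 + ee o (-1))) ⬝ᵥ (s.1 + (ee 0 1 + ee o (-1))))
    (a2 : B.N < (s.1 + (ee o 1 + ee 0 1)) ⬝ᵥ (s.1 + (ee o 1 + ee 0 1)))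
    (a3 : ∀ j : Fin n, (j : ℕ) = 2 → j ≤ c → B.N < (s.1 + (ee o 1 + ee j (-1))) ⬝ᵥ (s.1 + (ee o 1 + ee j (-1))))
    (a4 : s.1 0 + s.1 o = 1 ∧ 2 < Nat.card K ∨ s.1 0 + s.1 o = 2 ∧ 3 < Nat.card K)
    (hall : ∀ A, Q B K w A (ee 0 1 + ee o (-1)) → Q B K w A s.1 → ∀ r, Cl B.C K w A r) :
    ∃ a b : G, closure {a, b} = ⊤ := by
  obtain ⟨ζ, z0, z1, z2⟩ := exists_gen K
  have := o_ne ho
  have o2 : o ≤ c := by have : 0 < (c : ℕ) := hc; rw [Fin.le_def]; omega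
  refine genA1 hh hG hW z0 (T := [B.rt (hR 0 o 1 1 this rfl rfl)]) (r := B.rt (hR 0 o 1 (-1) this rfl rfl)) (s := s)
    (by simp [eT_one, this, this.symm]) (far a1) (far ?_) (.act (.base rfl))
    (surj_e z0 z1 z2 (by have := eT_w hR hw hc h0 h1 ho; omega)) ?_ ?_
    (surj_e z0 z1 z2 (by rw [eT_one]; omega)) (hall _ ⟨hR 0 o 1 (-1) this rfl rfl, .inv (.base (by simp))⟩ (.of (.base (by simp)) rfl))
  · rcases w_val hR hw hc h0 h1 ho with e | ⟨j, j1, j2, e⟩ <;> rw [e]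
    exacts [a2, a3 j j1 j2]
  · have k := (main hw hc h0 h1 ho (A := {w (B.rt (hR 0 o 1 (-1) this rfl rfl))}) (K := K)
      ⟨_, .inv (.base rfl)⟩).2 0 hc.le o o2 this
    simp only [List.mem_singleton, forall_eq]
    exact ⟨(k 1 1 rfl rfl).cl rfl, (k (-1) (-1) rfl rfl).cl (by simp [Wd.neg_val, ← Pi.single_neg, add_comm])⟩
  · rw [eT_one]
    rcases a4 with ⟨e, h⟩ | ⟨e, h⟩ <;> rw [e] <;> intro e'
    · have := Nat.le_of_dvd (by omega) ((z2 1).1 (by simpa using e')); omega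
    · have := Nat.le_of_dvd (by omega) ((z2 2).1 (by exact_mod_cast e')); omega

end

theorem two_or (K : Type*) [Field K] [Finite K] : (∀ t : K, t = 0 ∨ t = 1) ∨ 2 < Nat.card K := by
  haveI := Fintype.ofFinite K
  by_contra! h
  obtain ⟨⟨t, h1, h2⟩, h3⟩ := h
  rw [Nat.card_eq_fintype_card] at h3
  exact h3.not_gt (Fintype.two_lt_card_iff.2 ⟨0, 1, t, by simp, h1.symm, h2.symm⟩)

theorem genB (hn : 2 ≤ n) (hq : 2 < Nat.card K) {S : St (wbB n).C K G} (hh : S.HMul) (hG : S.U Set.univ = ⊤) :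
    ∃ a b : G, closure {a, b} = ⊤ := by
  have hR : HR (wbB n) := .of fun i s hs => (μ2_sur i s hs).elim fun a e => ⟨.inr a, e⟩
  have hs : IsRt (wbB n).μ (wbB n).N (ee 0 1) := by
    have := (barB n).rt_one (a := .inr (.inl 0)) (b := .inl ()) (μ2_ne _) rfl
    rwa [show (barB n).μ (.inl ()) = 0 from rfl, sub_zero] at this
  have hN : (wbB n).N = 2 := rfl
  let c : Fin n := ⟨n - 1, by omega⟩
  have hc : ∀ i, i ≤ c := fun i => by rw [Fin.le_def]; have := i.2; simp [c]; omega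
  have c0 : 0 < c := by rw [Fin.lt_def]; simp [c]; omega
  obtain ⟨w, hW, hw⟩ := hR.cyc c (sign1 hs (.inl rfl))
  have ho : ((⟨1, hn⟩ : Fin n) : ℕ) = 1 := rfl
  have := o_ne ho
  have h1 : ∀ i : Fin n, 0 < i → i ≤ c → (if i = 0 then -1 else 1 : ℤ) = 1 := fun i h _ => if_neg h.ne'
  refine drvA1 hh hG hR hW hw c0 (if_pos rfl) h1 ho ((wbB n).rt hs) ?_ ?_ (fun j j1 _ => ?_)
    (.inl ⟨by simp [this.symm], hq⟩) fun A q1 q2 => ?_
  iterate 2 simp [this, this.symm, hN]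
  · have : (⟨1, hn⟩ : Fin n) ≠ j := by simp [Fin.ext_iff]; omega
    have : 0 ≠ j := by simp [Fin.ext_iff]; omega
    simp [*, Ne.symm]
  obtain ⟨k1, k2⟩ := main hw c0 (if_pos rfl) h1 ho q1
  exact all_of (by rintro (a | a) h; exacts [absurd rfl h, μ2_ex a]) (fun a b => k2 a (hc a) b (hc b))
    fun a s hs => ⟨by simp [hN], fun _ =>
      all_one hn (fun i j => k1 i (hc i) j (hc j)) (fun a b => k2 a (hc a) b (hc b)) q2 a s hs⟩

theorem genC (hn : 2 ≤ n) (hq : n = 2 → 2 < Nat.card K) {S : St (wbC n).C K G} (hh : S.HMul) (hG : S.U Set.univ = ⊤) :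
    ∃ a b : G, closure {a, b} = ⊤ := by
  have hR : HR (wbC n) := .of μ2_sur
  have hs : ∀ a, IsRt (wbC n).μ (wbC n).N (ee a 2) := fun a => by
    have := (barC n).rt_four (a := .inl a) (μ2_ne _) rfl
    rwa [Bar.sub_bar_self, show (barC n).μ (.inl a) = ee a 1 from rfl, ← Pi.single_smul] at this
  let c : Fin n := ⟨n - 1, by omega⟩
  have hc : ∀ i, i ≤ c := fun i => by rw [Fin.le_def]; have := i.2; simp [c]; omega
  have c0 : 0 < c := by rw [Fin.lt_def]; simp [c]; omega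
  obtain ⟨w, hW, hw⟩ := hR.cyc c (sign1 (hs 0) (.inr rfl))
  set o : Fin n := ⟨1, hn⟩
  have ho : (o : ℕ) = 1 := rfl
  have := o_ne ho
  have h1 : ∀ i : Fin n, 0 < i → i ≤ c → (if i = 0 then -1 else 1 : ℤ) = 1 := fun i h _ => if_neg h.ne'
  have hN : (wbC n).N = 4 := rfl
  have hall : ∀ A, Q (wbC n) K w A (ee 0 1 + ee o (-1)) → Q (wbC n) K w A (ee 0 2) → ∀ r, Cl (wbC n).C K w A r :=
    fun A q1 q2 => by
      obtain ⟨k1, k2⟩ := main hw c0 (if_pos rfl) h1 ho q1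
      exact all_of (fun a _ => μ2_ex a) (fun a b => k2 a (hc a) b (hc b))
        fun a s hs => ⟨fun _ => all_one hn (fun i j => k1 i (hc i) j (hc j)) (fun a b => k2 a (hc a) b (hc b)) q2 a s hs,
          by simp [show (wbC n).c = 1 from rfl]⟩
  by_cases h2 : (2 : K) = 0
  swap
  · refine drvA0 hh hG hR hW hw c0 (if_pos rfl) h1 ho fun A q1 => hall A q1 ?_
    have q2 := (main hw c0 (if_pos rfl) h1 ho q1).2 0 (hc _) o (hc _) this 1 1 rfl rfl
    have e : ee 0 1 + ee o (-1) + (ee 0 1 + ee o 1) = ee 0 2 := by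
      rw [add_add_add_comm, ← Pi.single_add, ← Pi.single_add]; simp
    have h3 : (wbC n).R.IsSum ((wbC n).rt q1.1) ((wbC n).rt q2.1) := (wbC n).isSum_iff.2 (e ▸ hs 0)
    have h4 := ((wbC n).wd.plus_val h3).trans e
    exact .of (.sum q1.2 q2.2 h3 (far (by rw [h4]; simp [this, this.symm, hN])).2
      (far (by rw [h4]; simp [this, this.symm, hN])).2 (N_ne _ h2 (wbC n).wd.hd h3)) h4
  rcases two_or K with hK | hK
  · have h3 : 2 < n := by
      by_contra h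
      have h4 := hq (by omega)
      haveI := Fintype.ofFinite K
      rw [Nat.card_eq_fintype_card, Fintype.two_lt_card_iff] at h4
      obtain ⟨a, b, c, h4⟩ := h4
      rcases hK a with rfl | rfl <;> rcases hK b with rfl | rfl <;> rcases hK c with rfl | rfl <;> simp at h4
    set j : Fin n := ⟨2, h3⟩
    have j1 : o ≠ j := by simp [o, j, Fin.ext_iff]
    have j0 : 0 ≠ j := by simp [j, Fin.ext_iff]
    have k := (main hw c0 (if_pos rfl) h1 ho (A := {(wbC n).rt (hR 0 o 1 (-1) this rfl rfl)}) (K := K)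
      ⟨_, .base rfl⟩).2 0 (hc _) j (hc _) j0
    refine genB1l (wbC n).wd.hd hK hG hW (r := (wbC n).rt (hR 0 o 1 (-1) this rfl rfl)) (s := (wbC n).rt (hs j))
      (t := (wbC n).rt (hR 0 j 1 (-1) j0 rfl rfl)) (γ := (wbC n).rt (hs 0)) (δ := (wbC n).rt (hR 0 j 1 1 j0 rfl rfl))
      (far ?_) (far' ?_) (far' ?_).2 ((wbC n).wd.co.cf_add_iff.2 ?_) ((wbC n).wd.co.cf_add_iff.2 ?_) ⟨?_, ?_, ?_⟩
      (k 1 (-1) rfl rfl).2 (k 1 1 rfl rfl).2 (hall _ ⟨_, .base (.inl rfl)⟩ ⟨_, .base (.inr rfl)⟩)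
    iterate 3 simp [*, Ne.symm]
    · change ee 0 1 + ee j 1 = ee 0 1 + ee j (-1) + ee j 2
      rw [add_assoc, ← Pi.single_add]; simp
    · change ee 0 2 = ee 0 1 + ee j (-1) + (ee 0 1 + ee j 1)
      rw [add_add_add_comm, ← Pi.single_add, ← Pi.single_add]; simp
    · change 1 * (_ ⬝ᵥ _) / 2 = (2 : ℤ); simp
    · change 1 * (_ ⬝ᵥ _) / 2 = (1 : ℤ); simp [j0, j0.symm]
    · rw [Wd.pair_eq, Wb.rt_val, show (ee 0 2 : Fin n → ℤ) = (2 : ℤ) • ee 0 1 by rw [← Pi.single_smul]; rfl,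
        cov_two_smul (by simp)]
      simp [j0]
  · refine drvA1 hh hG hR hW hw c0 (if_pos rfl) h1 ho ((wbC n).rt (hs 0)) ?_ ?_ (fun j j1 _ => ?_)
      (.inr ⟨by simp [this.symm], ?_⟩) hall
    iterate 2 simp [this, this.symm, hN]
    · have : o ≠ j := by simp [Fin.ext_iff]; omega
      have : 0 ≠ j := by simp [Fin.ext_iff]; omega
      simp [*, Ne.symm]
    · haveI := Fintype.ofFinite K
      haveI : CharP K 2 := (CharP.charP_iff_prime_eq_zero Nat.prime_two).2 h2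
      obtain ⟨m, -, hm⟩ := FiniteField.card K 2
      have : 2 ∣ Nat.card K := by rw [Nat.card_eq_fintype_card, hm]; exact dvd_pow_self 2 m.ne_zero
      omega

theorem genD (hn : 4 ≤ n) {S : St (wbD n (by omega)).C K G} (hh : S.HMul) (hG : S.U Set.univ = ⊤) :
    ∃ a b : G, closure {a, b} = ⊤ := by
  have h2n : 2 ≤ n := by omega
  have hR : HR (wbD n h2n) := .of μ2_sur
  let c : Fin n := ⟨n - 2, by omega⟩
  let z : Fin n := ⟨n - 1, by omega⟩
  have hc : ∀ i, i ≤ c ∨ i = z := fun i => by rw [Fin.le_def, Fin.ext_iff]; have := i.2; simp [c, z]; omega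
  have hz : ∀ i, i ≤ c → i ≠ z := fun i => by rw [Fin.le_def, Ne, Fin.ext_iff]; simp [c, z]; omega
  have c0 : 0 < c := by rw [Fin.lt_def]; simp [c]; omega
  have z0 : 0 ≠ z := hz 0 c0.le
  obtain ⟨w, hW, hw⟩ := hR.cyc c (hR.sign2 z0)
  set o : Fin n := ⟨1, by omega⟩
  have ho : (o : ℕ) = 1 := rfl
  have := o_ne ho
  have oc : o ≤ c := by rw [Fin.le_def]; simp [c, o]; omega
  have h0 : (if (0 : Fin n) = 0 ∨ 0 = z then -1 else 1 : ℤ) = -1 := if_pos (.inl rfl)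
  have h1 : ∀ i : Fin n, 0 < i → i ≤ c → (if i = 0 ∨ i = z then -1 else 1 : ℤ) = 1 := fun i h h' =>
    if_neg (not_or.2 ⟨h.ne', hz i h'⟩)
  have hN : (wbD n h2n).N = 2 := rfl
  have hall : ∀ A, Q (wbD n h2n) K w A (ee 0 1 + ee o (-1)) → Q (wbD n h2n) K w A (ee 0 1 + ee z (-1)) →
      ∀ r, Cl (wbD n h2n).C K w A r := fun A q1 q2 => by
    obtain ⟨k1, k2⟩ := main hw c0 h0 h1 ho q1
    have q3 := (k1 0 c0.le c le_rfl _ q2)
    simp only [Pi.add_comp, ee_comp, swap_inv, swap_apply_left,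
      swap_apply_of_ne_of_ne z0.symm (hz c le_rfl).symm] at q3
    have q4 := q3.act2 hw
    rw [Fin.cycleRange_self, Fin.cycleRange_of_gt (by rw [Fin.lt_def]; simp [c, z]; omega), h0,
      if_pos (.inr rfl)] at q4
    have k3 : ∀ i, Sw (wbD n h2n) K w A 0 i := fun i =>
      (hc i).elim (k1 0 c0.le i) fun e => e ▸ .of z0 q2 q4
    exact all_of (fun a _ => μ2_ex a) (fun a b hab s t hs ht => (k2 0 c0.le o oc this s t hs ht).move (I := Set.univ)
      (fun i _ j _ => (k3 i).symm.trans (k3 j)) this hab trivial trivial trivial trivial)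
      fun a s hs => by simp [hN, show (wbD n h2n).c = 1 from rfl]
  have oz := hz o oc
  rcases two_or K with hK | hK
  · set j : Fin n := ⟨2, by omega⟩
    have j1 : o ≠ j := by simp [o, j, Fin.ext_iff]
    have j0 : 0 ≠ j := by simp [j, Fin.ext_iff]
    have jc : j ≤ c := by rw [Fin.le_def]; simp [c, j]; omega
    have jz := hz j jc
    refine genB1s hK hG hW (r := (wbD n h2n).rt (hR 0 o 1 (-1) this rfl rfl)) (s := (wbD n h2n).rt (hR j z 1 (-1) jz rfl rfl))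
      (t := (wbD n h2n).rt (hR 0 j 1 (-1) j0 rfl rfl)) (γ := (wbD n h2n).rt (hR 0 z 1 (-1) z0 rfl rfl))
      (far ?_) (far' ?_) (far' ?_).2 ((wbD n h2n).wd.co.cf_add_iff.2 ?_) ⟨(far ?_).2, (far ?_).2⟩
      ((main hw c0 h0 h1 ho (A := {(wbD n h2n).rt (hR 0 o 1 (-1) this rfl rfl)}) (K := K)
        ⟨_, .base rfl⟩).2 0 c0.le j jc j0 1 (-1) rfl rfl).2
      (hall _ ⟨_, .base (.inl rfl)⟩ ⟨_, .base (.inr rfl)⟩)
    iterate 3 simp [*, Ne.symm]
    · change ee 0 1 + ee z (-1) = ee 0 1 + ee j (-1) + (ee j 1 + ee z (-1))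
      rw [add_assoc, ← add_assoc (ee j _), ← Pi.single_add]; simp
    all_goals simp [*, Ne.symm]
  · refine drvA1 hh hG hR hW hw c0 h0 h1 ho ((wbD n h2n).rt (hR 0 z 1 (-1) z0 rfl rfl)) ?_ ?_ (fun j j1 j2 => ?_)
      (.inl ⟨by simp [this.symm, z0, oz], hK⟩) hall
    iterate 2 simp [*, Ne.symm]
    have : o ≠ j := by simp [Fin.ext_iff]; omega
    have : 0 ≠ j := by simp [Fin.ext_iff]; omega
    have := hz j j2
    simp [*, Ne.symm]

omit [NeZero n]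

theorem sp_two_gen (hn : 2 ≤ n) (hq : n = 2 → 2 < Nat.card K) :
    ∃ a b : symplecticGroup (Fin n) K, closure {a, b} = ⊤ :=
  haveI : NeZero n := ⟨by omega⟩
  genC hn hq (spSt_hmul n K) (spSt_top n K)

theorem omB_two_gen (hn : 2 ≤ n) (h2 : (2 : K) ≠ 0) : ∃ a b : Omega K (quadFormOdd n K), closure {a, b} = ⊤ :=
  haveI : NeZero n := ⟨by omega⟩
  genB hn ((two_or K).resolve_left fun h => by
      rcases h 2 with e | e
      exacts [h2 e, one_ne_zero (α := K) (by linear_combination e)])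
    (S := stPull _ (omToGL_injective K _) (range_omB n K (by omega) h2))
    (((wbB n).nat.hmul K).comap (stPull_isHom _ _ _) (omToGL_injective K _)) (stPull_top _ _ _)

theorem omD_two_gen (hn : 4 ≤ n) : ∃ a b : Omega K (quadFormPlus n K), closure {a, b} = ⊤ :=
  haveI : NeZero n := ⟨by omega⟩
  genD hn (S := stPull _ (omToGL_injective K _) (range_omD n K (by omega) (.inr (by simp; omega))))
    (((wbD n _).nat.hmul K).comap (stPull_isHom _ _ _) (omToGL_injective K _)) (stPull_top _ _ _)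

end H11.G3
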