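import Cfsg.Agent.H11.PrSL2
import Cfsg.Agent.H11.SU3
import Cfsg.Agent.H11.SUMat

/-! # A bounded presentation of `SU₃(q)` -/

set_option autoImplicit false
set_option linter.unusedSectionVars false
set_option maxHeartbeats 400000

namespace H11.U3

open Subgroup Polynomial H11.Md H11.SU3
open scoped commutatorElement

universe v

variable {K J : Type*} {G : Type v} [Field K] [Group G] [Group J]

theorem lift_sub (a h : J) (m : ℕ) (r : FreeGroup (Fin 2)) :
    FreeGroup.lift ![a, h] (FreeGroup.lift ![FreeGroup.of 0, FreeGroup.of 1 ^ m] r) = FreeGroup.lift ![a, h ^ m] r := by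
  have : (FreeGroup.lift ![a, h]).comp (FreeGroup.lift ![FreeGroup.of 0, FreeGroup.of 1 ^ m]) = FreeGroup.lift ![a, h ^ m] := by
    ext i; fin_cases i <;> simp
  exact DFunLike.congr_fun this r

/-- a quadratic extension as a cyclic module -/
theorem rp_seven {k : Type*} [Field k] [Finite k] (ι : k →+* K) {θ : K} {ν : k} {m : ℕ} (hm : θ ^ m = ι ν)
    (hν : ∀ s, s ≠ 0 → ∃ n : ℕ, s = ν ^ n) (A B : K →+ k) (hAB : ∀ s, s = ι (A s) + ι (B s) * θ)
    (h0 : ∀ a b, A (ι a + ι b * θ) = a ∧ B (ι a + ι b * θ) = b) : RP.{v} θ 7 := by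
  obtain ⟨L, l1, l2, l3⟩ := rp_four.{v} hν
  obtain ⟨P, hP⟩ := surj_of_gen hν (A (θ ^ 2))
  obtain ⟨Q, hQ⟩ := surj_of_gen hν (B (θ ^ 2))
  let U : FreeGroup (Fin 2) := FreeGroup.of 0
  let H : FreeGroup (Fin 2) := FreeGroup.of 1
  refine ⟨L.map (FreeGroup.lift ![U, H ^ m]) ++ [⁅U, cn H U 1⁆, ⁅U, cn (H ^ m) (cn H U 1) 1⁆,
    thw (H ^ m) U P * thw (H ^ m) (cn H U 1) Q * (cn H U 2)⁻¹], by simpa using l1, ?_, ?_⟩
  · intro G _ X h hX hh
    have a : ∀ c, Add' fun s => X (ι s * c) := fun c s t => by simp only [map_add, add_mul, hX _]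
    have b : ∀ c s, h ^ m * X (ι s * c) * (h ^ m)⁻¹ = X (ι (ν * s) * c) := fun c s => by
      rw [conj_pow_act hh, hm, map_mul, mul_assoc]
    have c := (a θ).thw (b θ) 1 Q
    have d := (a 1).thw (b 1) 1 P
    simp only [map_one, one_mul, mul_one, hP, hQ] at c d
    simp only [List.mem_append, List.mem_map, or_imp, forall_and, forall_exists_index, and_imp,
      forall_apply_eq_imp_iff₂, lift_sub, List.mem_cons, List.not_mem_nil, forall_eq, map_commutatorElement, map_cn,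
      map_mul, map_inv, map_thw, map_pow, U, H, FreeGroup.lift_apply_of, Matrix.cons_val_zero, hX.cn hh,
      Matrix.cons_val_one, mul_inv_eq_one, hX.cn (conj_pow_act hh m), pow_one, mul_one, c, d]
    refine ⟨by simpa using l2 _ _ (a 1) (b 1), (hX.comm _ _).commutator_eq, (hX.comm _ _).commutator_eq, ?_, by simp⟩
    rw [← hX, ← hAB]
  · intro J _ u h hr
    simp only [List.mem_append, List.mem_map, or_imp, forall_and, forall_exists_index, and_imp,
      forall_apply_eq_imp_iff₂, lift_sub, List.mem_cons, List.not_mem_nil, forall_eq, map_commutatorElement, map_cn,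
      map_mul, map_inv, map_thw, map_pow, U, H, FreeGroup.lift_apply_of, Matrix.cons_val_zero,
      Matrix.cons_val_one, mul_inv_eq_one, commutatorElement_eq_one_iff_commute] at hr
    obtain ⟨r1, r2, r3, r4, -⟩ := hr
    obtain ⟨Y, y1, rfl, y3⟩ := l3 _ _ r1
    obtain ⟨Z, hZ⟩ : ∃ Z : k → J, Z = fun s => h * Y s * h⁻¹ := ⟨_, rfl⟩
    have z1 : Add' Z := fun s t => by simp only [hZ, y1 s]; group
    have z3 : ∀ s, h ^ m * Z s * (h ^ m)⁻¹ = Z (ν * s) := fun s => by simp only [hZ, ← y3]; group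
    have z2 : cn h (Y 1) 1 = Z 1 := by simp [hZ, cn]
    rw [z2] at r2 r3 r4
    rw [z1.cn z3] at r3
    rw [y1.thw y3, z1.thw z3, hP, hQ, mul_one, mul_one] at r4
    have c : ∀ {s t} (r : k), r ≠ 0 → Commute (Y s) (Z t) → Commute (Y (r * s)) (Z (r * t)) := fun r hr e => by
      obtain ⟨n, rfl⟩ := hν r hr
      rw [← conj_pow_act y3, ← conj_pow_act z3]
      exact conj_comm _ e
    have key : ∀ n : ℕ, Commute (Y 1) (Z (ν ^ n * 1)) ∧ Commute (Y 1) (Z (ν ^ (n + 1) * 1)) := fun n => by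
      induction n with
      | zero => exact ⟨by simpa using r2, r3⟩
      | succ n ih =>
        refine ⟨ih.2, ?_⟩
        by_cases e0 : ν = 0
        · simp [e0, z1.zero]
        by_cases e : 1 + ν = 0
        · convert ih.1 using 2
          linear_combination ν ^ n * (ν - 1) * e
        have a1 := c _ e ih.2
        have a2 := c _ e0 ih.1
        have a3 := c _ e0 ih.2
        rw [add_mul, add_mul, y1, z1, one_mul, one_mul] at a1
        rw [← mul_assoc, ← pow_succ'] at a2 a3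
        rw [← mul_assoc ν, ← pow_succ'] at a1
        have := ((ih.2.mul_left a2).inv_right.mul_right a1).mul_left (by simpa using a3.inv_left : Commute (Y (ν * 1))⁻¹ _)
        rwa [inv_mul_cancel_left, mul_inv_cancel_right] at this
    have cm : ∀ s t, Commute (Y s) (Z t) := fun s t => by
      by_cases hs : s = 0
      · simp [hs, y1.zero]
      by_cases ht : t = 0
      · simp [ht, z1.zero]
      obtain ⟨n, e⟩ := hν (s⁻¹ * t) (by simp [*])
      simpa [← e, hs] using c s hs (key n).1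
    have e2 : ∀ s, h * Z s * h⁻¹ = Y (s * A (θ ^ 2)) * Z (s * B (θ ^ 2)) := fun s => by
      by_cases hs : s = 0
      · simp [hs, y1.zero, z1.zero]
      obtain ⟨n, rfl⟩ := hν s hs
      rw [← conj_pow_act y3, ← conj_pow_act z3, conj_mul, r4, cn_succ, z2, ← mul_one (ν ^ n), ← conj_pow_act z3]
      group
    refine ⟨fun s => Y (A s) * Z (B s), fun s t => ?_, ?_, fun s => ?_⟩
    · simp only [map_add, y1 _, z1 _, mul_assoc, (cm _ _).left_comm]
    · have := h0 1 0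
      simp only [map_one, map_zero, zero_mul, add_zero] at this
      simp only [this, z1.zero, mul_one]
    · have := h0 (B s * A (θ ^ 2)) (A s + B s * B (θ ^ 2))
      rw [show ι (B s * A (θ ^ 2)) + ι (A s + B s * B (θ ^ 2)) * θ = θ * s by
        simp only [map_mul, map_add]
        linear_combination -θ * hAB s - ι (B s) * hAB (θ ^ 2)] at this
      simp only [this, z1 _]
      rw [← conj_mul, e2, ← mul_assoc, ← mul_assoc, (cm _ _).eq, hZ]

variable {φ : K →+* K} {u : K → K → G} {h : Kˣ →* G} {w : G}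

/-- the class argument -/
theorem all_good (h2 : ∀ t, φ (φ t) = t) (hN : ∀ c, φ c = c → ∃ t, t * φ t = c) {γ : Kˣ} (hγ : ∀ s : Kˣ, ∃ n : ℕ, γ ^ n = s)
    (g0 : φ γ ≠ γ) {Gd : K → K → Prop} (gc : ∀ a b (t : Kˣ), Val φ a b → Gd a b → Gd (t ^ 2 / φ t * a) (t * φ t * b))
    (gr : ∀ a b, Val φ a b → b ≠ 0 → Gd a b → Gd (b / φ b * a) b)
    (gm : ∀ a b e, Val φ a b → b ≠ 0 → e ≠ 0 → φ e = -e → Gd a b → Gd 0 e → Gd (-a / b) (1 / b + 1 / e) → Gd a (b + e))
    {β b : K} (b0 : β ≠ 0) (b1 : φ β = -β) (gβ : Gd 0 β) (c1 : Val φ 1 b) (c2 : b * φ γ + φ b * γ = 0) (gb : Gd 1 b)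
    {a c : K} (h1 : Val φ a c) (h3 : c ≠ 0) : Gd a c := by
  have D := dat φ h2
  have g1 : ∀ x, φ x ≠ x → x ≠ 0 := fun x e => by rintro rfl; simp at e
  let Q : K → Prop := fun x => ∀ a b, Val φ a b → b ≠ 0 → b * φ x + φ b * x = 0 → Gd a b
  have q1 : ∀ x, x ≠ 0 → φ x = x → Q x := fun x h0 h1 a b h2 h3 h4 => by
    have h5 : φ b = -b := mul_right_cancel₀ h0 (by rw [h1] at h4; linear_combination h4)
    obtain rfl : a = 0 := by simpa [Val, h5] using h2
    obtain ⟨t, ht⟩ := hN (b / β) (by simp [h5, b1])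
    have := gc 0 β (.mk0 t (by rintro rfl; simp [eq_comm, h3, b0] at ht)) (by simp [Val, b1]) gβ
    rwa [mul_zero, Units.val_mk0, ht, div_mul_cancel₀ _ b0] at this
  have ex : ∀ x a, φ x ≠ x → ∃ b, Val φ a b ∧ b * φ x + φ b * x = 0 := fun x a e =>
    ⟨a * φ a * x / (φ x - x), by
      have := sub_ne_zero.2 e
      have := sub_ne_zero.2 e.symm
      simp only [Val, map_mul, map_div₀, map_sub, h2]
      constructor <;> field_simp <;> ring⟩
  have qm : ∀ x y, x ≠ 0 → φ y ≠ y → Q x → Q y → Q (x * y) := fun x y h0 h1 h2' h3 => by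
    by_cases e1 : φ x = x
    · exact fun a b c d e => h3 a b c d (mul_left_cancel₀ h0 (by rw [map_mul, e1] at e; linear_combination e))
    have h4 := g1 y h1
    by_cases e2 : φ (x * y) = x * y
    · exact q1 _ (mul_ne_zero h0 h4) e2
    intro a c c1 c2 c3
    obtain ⟨b, d1, d2⟩ := ex x a e1
    have d3 : φ (c - b) = -(c - b) := by simp only [Val, map_sub] at *; linear_combination c1 - d1
    have d4 : b ≠ 0 := by
      rintro rfl
      rw [sub_zero] at d3
      exact e2 (mul_left_cancel₀ c2 (by rw [d3] at c3; linear_combination c3))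
    have d5 : c - b ≠ 0 := fun e => h1 (mul_left_cancel₀ (mul_ne_zero d4 ((map_ne_zero φ).2 h0)) (by
      rw [sub_eq_zero.1 e, map_mul] at c3; linear_combination c3 - y * d2))
    have d7 : φ b ≠ 0 := by simpa
    have := gm a b _ d1 d4 d5 d3 (h2' a b d1 d4 d2) (q1 1 one_ne_zero (map_one φ) 0 _ (by simp [Val, d3]) d5 (by simp [d3]))
      (h3 _ _ (by simpa using D.val_mul (D.val_div d1 rfl d4) (c := 0) (d := 1 / (c - b)) (by simp [Val, d3, -neg_sub]))
        (by field_simp; simp [*]) (by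
          have d8 : φ c = φ b - (c - b) := by rw [map_sub] at d3; linear_combination d3
          simp only [map_add, map_mul, map_div₀, map_one, d3, div_neg] at *
          field_simp
          exact mul_left_cancel₀ h0 (by rw [d8] at c3; linear_combination c * φ y * d2 - b * c3)))
    rwa [add_sub_cancel] at this
  have c3 : b ≠ 0 := by rintro rfl; simp [Val] at c1
  have qg : Q γ := fun a c d1 d2 d3 => by
    have d7 : φ c ≠ 0 := by simpa
    have d8 : c / φ c = -(γ / φ γ) := by field_simp; linear_combination d3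
    have key : ∀ k : ℕ, ∀ a, Val φ a c → Gd a c → Val φ ((γ / φ γ) ^ k * a) c ∧ Gd ((γ / φ γ) ^ k * a) c := by
      intro k a d1 d0
      induction k with
      | zero => simpa using ⟨d1, d0⟩
      | succ k ih =>
        have d4 := D.val_conj ih.1 (-1)
        have d5 := gr _ _ d4 (by simpa) (gc _ _ (-1) ih.1 ih.2)
        refine ⟨?_, by simpa [d8, pow_succ', mul_assoc] using d5⟩
        simp only [Val, map_mul, map_div₀, map_pow, h2] at *
        rw [mul_mul_mul_comm, ← mul_pow, div_mul_div_comm, mul_comm (γ : K), div_self (by simp), one_pow, one_mul, d1]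
    have d4 : a ≠ 0 := by
      rintro rfl
      simp only [Val, zero_mul, add_zero] at d1
      exact g0 (mul_left_cancel₀ d2 (by linear_combination d3 - γ * d1))
    obtain ⟨k, hk⟩ := hγ (.mk0 a d4)
    obtain rfl : (γ : K) ^ k = a := congrArg Units.val hk
    have d6 : φ (γ ^ k) * γ ^ k * b = c := mul_left_cancel₀ (sub_ne_zero.2 g0) (by
      simp only [Val, map_one] at *
      linear_combination γ ^ k * φ (γ ^ k) * (c2 - γ * c1) - (d3 - γ * d1))
    have d5 := gc _ _ (Units.map (φ : K →* K) (γ ^ k)) c1 gb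
    have d9 := D.val_conj c1 (Units.map (φ : K →* K) (γ ^ k))
    simp only [Units.coe_map, MonoidHom.coe_coe, h2, Units.val_pow_eq_pow_val, d6] at d5 d9
    convert (key (2 * k) _ d9 d5).2 using 1
    simp only [map_pow, div_pow, mul_comm 2, pow_mul]
    field_simp
  have qk : ∀ k : ℕ, Q (γ ^ k) := fun k => by
    induction k with
    | zero => simpa using q1 1 one_ne_zero (map_one φ)
    | succ k ih => simpa only [pow_succ] using qm _ _ (by simp) g0 ih qg
  obtain ⟨k, hk⟩ := hγ (.mk0 (c * β) (mul_ne_zero h3 b0))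
  exact qk k a c h1 h3 (by rw [show (γ : K) ^ k = c * β from congrArg Units.val hk, map_mul, b1]; ring)

section core
variable (D : Dat φ u h w)

/-- the unipotent subgroup -/
def UU : Subgroup G where
  carrier := {g | ∃ a b, Val φ a b ∧ g = u a b}
  one_mem' := ⟨0, 0, by simp [Val], D.zero.symm⟩
  mul_mem' := by
    rintro _ _ ⟨a, b, h1, rfl⟩ ⟨c, d, h2, rfl⟩
    exact ⟨_, _, D.val_mul h1 h2, D.mul ..⟩
  inv_mem' := by
    rintro _ ⟨a, b, h1, rfl⟩
    exact ⟨_, _, by simp only [Val, map_neg, D.φφ] at *; linear_combination h1, D.inv h1⟩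

theorem mem_UU {a b : K} (hv : Val φ a b) : u a b ∈ UU D := ⟨a, b, hv, rfl⟩

theorem conj_UU (t : Kˣ) {x : G} (hx : x ∈ UU D) : h t * x * (h t)⁻¹ ∈ UU D := by
  obtain ⟨a, b, h1, rfl⟩ := hx
  exact ⟨_, _, D.val_conj h1 t, D.conj ..⟩

theorem sep' {x y : G} {t : Kˣ} (hx : x ∈ UU D) (hy : y ∈ UU D) (e : w * x * w = h t * y) : x = 1 ∧ t = 1 ∧ y = 1 := by
  obtain ⟨a, b, h1, rfl⟩ := hx
  obtain ⟨c, d, h2, rfl⟩ := hy
  obtain ⟨rfl, rfl⟩ := D.sep _ _ _ _ _ e
  obtain rfl : a = 0 := by simpa [Val] using h1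
  simpa [D.zero, D.ww, eq_comm] using e

include D in
theorem dec' {a b : K} (hv : Val φ a b) (hb : b ≠ 0) :
    w * u a b * w = u (-a / φ b) (1 / b) * w * h (.mk0 b hb) * u (-a / b) (1 / b) := by
  rw [show u a b = _ from D.dec a (.mk0 b hb) hv]
  simp [mul_assoc, ← mul_assoc w w, D.ww]

theorem uniq {f f' g g' : G} {s t : Kˣ} (h1 : f ∈ UU D) (h2 : f' ∈ UU D) (h3 : g ∈ UU D) (h4 : g' ∈ UU D)
    (e : f * w * h s * g = f' * w * h t * g') : f = f' ∧ g = g' := by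
  obtain ⟨a, -, b⟩ := sep' D (mul_mem (inv_mem h2) h1) (conj_UU D s (mul_mem h4 (inv_mem h3))) (t := t * s⁻¹) (by
    rw [← mul_left_inj (h s * g), map_mul, map_inv, ← mul_right_inj (f' * w)]
    simpa [mul_assoc, ← mul_assoc w w, D.ww] using e)
  exact ⟨(inv_mul_eq_one.1 a).symm, (mul_inv_eq_one.1 (conj_eq_one_iff.1 b)).symm⟩

/-- a Borel subgroup and a Weyl element in a cover -/
structure Cov (π : J →* G) (U H : Subgroup J) (n : J) : Prop where
  U1 : U.map π = UU D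
  U2 : ∀ x ∈ U, π x = 1 → x = 1
  H1 : H.map π = h.range
  H2 : ∀ x ∈ H, π x = 1 → x = 1
  HU : ∀ y ∈ H, ∀ x ∈ U, y * x * y⁻¹ ∈ U
  nH : ∀ y ∈ H, n * y * n ∈ H
  nn : n * n = 1
  n1 : π n = w

/-- good elements -/
def Good (U H : Subgroup J) (n x : J) : Prop := ∃ f ∈ U, ∃ y ∈ H, ∃ g ∈ U, n * x * n = f * n * y * g

variable {D} {π : J →* G} {U H : Subgroup J} {n : J} (C : Cov D π U H n)
include C

theorem Cov.mem {x : J} (hx : x ∈ U) : π x ∈ UU D := C.U1.le ⟨x, hx, rfl⟩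

theorem Cov.eq {x y : J} (hx : x ∈ U) (hy : y ∈ U) (e : π x = π y) : x = y :=
  mul_inv_eq_one.1 (C.U2 _ (mul_mem hx (inv_mem hy)) (by simp [e]))

theorem Cov.dec {x : J} {a b : K} (hv : Val φ a b) (hb : b ≠ 0) (e : π x = u a b) (hx : Good U H n x) :
    ∃ f ∈ U, ∃ y ∈ H, ∃ g ∈ U, n * x * n = f * n * y * g ∧ π f = u (-a / φ b) (1 / b) ∧ π g = u (-a / b) (1 / b) := by
  obtain ⟨f, h1, y, h2, g, h3, h4⟩ := hx
  obtain ⟨t, ht⟩ := C.H1.le ⟨y, h2, rfl⟩
  have := congrArg π h4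
  simp only [map_mul, e, C.n1, dec' D hv hb, ← ht] at this
  exact ⟨f, h1, y, h2, g, h3, h4, uniq D (C.mem h1) (mem_UU D (D.val_div hv (by rw [D.φφ, mul_comm]) hb)) (C.mem h3)
    (mem_UU D (D.val_div hv rfl hb)) this.symm⟩

theorem Cov.ninv : n⁻¹ = n := inv_eq_of_mul_eq_one_left C.nn

theorem Cov.conj {x y : J} (hy : y ∈ H) (hx : Good U H n x) : Good U H n (y * x * y⁻¹) := by
  obtain ⟨f, h1, z, h2, g, h3, h4⟩ := hx
  have h5 := C.nH y hy
  refine ⟨_, C.HU _ h5 f h1, _, mul_mem (mul_mem hy h2) (inv_mem h5), _, C.HU _ h5 g h3, ?_⟩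
  rw [show x = n⁻¹ * (f * n * z * g) * n⁻¹ by rw [← h4]; group]
  simp [mul_assoc, C.ninv, ← mul_assoc n n, C.nn]

theorem Cov.inj (hN : ∀ c, φ c = c → ∃ t, t * φ t = c) {γ : Kˣ} (hγ : ∀ s : Kˣ, ∃ n : ℕ, γ ^ n = s) (g0 : φ γ ≠ γ)
    {β b : K} (b0 : β ≠ 0) (b1 : φ β = -β) (c1 : Val φ 1 b) (c2 : b * φ γ + φ b * γ = 0) {x z : J} (hx : x ∈ U) (hz : z ∈ U)
    (e1 : π x = u 1 b) (e2 : π z = u 0 β) (gx : Good U H n x) (gz : Good U H n z) (ht : U ⊔ H ⊔ zpowers n = ⊤) :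
    Function.Injective π := by
  have key : ∀ a c, Val φ a c → c ≠ 0 → ∃ x ∈ U, π x = u a c ∧ Good U H n x := fun a c => by
    refine all_good D.φφ hN hγ g0 (Gd := fun a c => ∃ x ∈ U, π x = u a c ∧ Good U H n x) ?_ ?_ ?_ b0 b1 ⟨z, hz, e2, gz⟩
      c1 c2 ⟨x, hx, e1, gx⟩
    · rintro a b t - ⟨x, h1, h2, h3⟩
      obtain ⟨y, h4, h5⟩ := C.H1.ge ⟨t, rfl⟩
      exact ⟨_, C.HU y h4 x h1, by simp [h5, h2, D.conj], C.conj h4 h3⟩
    · rintro a b hv hb ⟨x, h1, h2, h3⟩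
      obtain ⟨f, a1, y, a2, g, a3, a4, -, a5⟩ := C.dec hv hb h2 h3
      obtain ⟨k, h4, h5⟩ := C.H1.ge ⟨.mk0 b hb, rfl⟩
      have h6 : φ b ≠ 0 := by simpa
      refine ⟨_, C.HU k h4 _ (inv_mem a3), ?_, C.conj h4 ⟨x⁻¹, inv_mem h1, _, C.nH y a2, _,
        C.HU _ (inv_mem (C.nH y a2)) f a1, ?_⟩⟩
      · rw [map_mul, map_mul, map_inv, map_inv, h5, a5, D.inv (D.val_div hv rfl hb), D.conj]
        congr 1 <;> simp <;> field_simp
      · rw [show g = (f * n * y)⁻¹ * (n * x * n) by rw [a4]; group]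
        simp [mul_assoc, C.ninv, ← mul_assoc n n, C.nn]
    · rintro a b e hv hb he h0 ⟨x, h1, h2, h3⟩ ⟨x', h4, h5, h6⟩ ⟨x'', h7, h8, f'', c1, y'', c2, g'', c3, c4⟩
      obtain ⟨f, a1, y, a2, g, a3, a4, -, a5⟩ := C.dec hv hb h2 h3
      obtain ⟨f', b1, y', b2, g', b3, b4, b5, -⟩ := C.dec (by simp [Val, h0]) he h5 h6
      obtain rfl := C.eq h7 (mul_mem a3 b1) (by simp [h8, a5, b5, D.mul])
      refine ⟨_, mul_mem h1 h4, by simp [h2, h5, D.mul], _, mul_mem a1 (C.HU _ (C.nH y a2) _ c1), _,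
        mul_mem (mul_mem a2 c2) b2, _, mul_mem (C.HU _ (inv_mem b2) _ c3) b3, ?_⟩
      rw [show x = n⁻¹ * (f * n * y * g) * n⁻¹ by rw [← a4]; group, show x' = n⁻¹ * (f' * n * y' * g') * n⁻¹ by rw [← b4]; group,
        show f'' = n * (g * f') * n * (n * y'' * g'')⁻¹ by rw [c4]; group]
      simp [mul_assoc, C.ninv, ← mul_assoc n n, C.nn]
  let B : Set J := {g | ∃ x ∈ U, ∃ y ∈ H, g = x * y ∨ ∃ f ∈ U, g = f * n * y * x}
  have hB : (⊤ : Subgroup J) ≤ TM.lst B := ht ▸ sup_le (sup_le (TM.le_lst ?_) (TM.le_lst ?_)) ((zpowers_le.2 ?_))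
  · refine (injective_iff_map_eq_one π).2 fun g e => ?_
    obtain ⟨x, h1, y, h2, h3 | ⟨f, h3, h4⟩⟩ := (hB (mem_top g) 1).1 ⟨1, one_mem _, 1, one_mem _, .inl (by simp)⟩ <;>
      obtain ⟨t, ht⟩ := C.H1.le ⟨y, h2, rfl⟩
    · rw [mul_one] at h3
      obtain ⟨-, rfl, h5⟩ := sep' D (one_mem _) (conj_UU D t⁻¹ (C.mem h1)) (t := t) (by
        rw [mul_one, D.ww, ← e, h3, map_mul, ← ht]; simp [mul_assoc])
      rw [h3, C.U2 x h1 (conj_eq_one_iff.1 h5), C.H2 y h2 (by rw [← ht, map_one]), mul_one]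
    · obtain ⟨a, c, -, h5⟩ := conj_UU D t (inv_mem (C.mem (mul_mem h1 h3)))
      refine (D.ne a c t⁻¹ ?_).elim
      rw [← h5, ← C.n1, show n = f⁻¹ * (g * 1) * x⁻¹ * y⁻¹ by rw [h4]; group]
      simp [e, ht, mul_assoc]
  · rintro g hg _ ⟨x, h1, y, h2, rfl | ⟨f, h3, rfl⟩⟩
    exacts [⟨_, mul_mem hg h1, y, h2, .inl (by group)⟩, ⟨x, h1, y, h2, .inr ⟨_, mul_mem hg h3, by group⟩⟩]
  · rintro g hg _ ⟨x, h1, y, h2, rfl | ⟨f, h3, rfl⟩⟩
    · exact ⟨_, C.HU g hg x h1, _, mul_mem hg h2, .inl (by group)⟩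
    · exact ⟨x, h1, _, mul_mem (C.nH g hg) h2, .inr ⟨_, C.HU g hg f h3, by simp [mul_assoc, ← mul_assoc n n, C.nn]⟩⟩
  have : ∀ y ∈ B, n * y ∈ B := by
    rintro _ ⟨x, h1, y, h2, rfl | ⟨f, h3, rfl⟩⟩
    · exact ⟨_, C.HU _ (inv_mem h2) x h1, y, h2, .inr ⟨1, one_mem _, by group⟩⟩
    obtain ⟨a, c, h4, h5⟩ := C.mem h3
    by_cases h6 : c = 0
    · subst h6
      obtain rfl : a = 0 := by simpa [Val] using h4
      exact ⟨_, C.HU _ h2 x h1, y, h2, .inl (by simp [C.U2 f h3 (h5.trans D.zero), ← mul_assoc, C.nn])⟩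
    obtain ⟨f', h7, h8, f, a1, y', a2, g, a3, a4⟩ := key a c h4 h6
    obtain rfl := C.eq h3 h7 (h5.trans h8.symm)
    exact ⟨_, mul_mem (C.HU _ (inv_mem h2) g a3) h1, _, mul_mem a2 h2, .inr ⟨f, a1, by
      simp only [← mul_assoc, a4]; group⟩⟩
  exact fun y => ⟨this y, fun hy => by simpa [← mul_assoc, C.nn] using this _ hy⟩

end core

theorem exists_word {ι κ : Type*} (e : κ → FreeGroup ι) (f : FreeGroup ι →* G) {g : G}
    (hg : g ∈ closure (Set.range fun i => f (e i))) : ∃ r, f r = g ∧ ∀ {J : Type} [Group J] (f' : FreeGroup ι →* J),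
      f' r ∈ closure (Set.range fun i => f' (e i)) := by
  rw [Set.range_comp' f, ← MonoidHom.map_closure] at hg
  obtain ⟨r, h1, h2⟩ := hg
  exact ⟨r, h2, fun f' => by rw [Set.range_comp' f', ← MonoidHom.map_closure]; exact ⟨r, h1, rfl⟩⟩

theorem lift_mod {ι : Type*} (Z : Subgroup J) (x : ι → normalizer (Z : Set J)) (r : FreeGroup ι) :
    FreeGroup.lift (fun i => (x i : normalizer (Z : Set J) ⧸ Z.subgroupOf _)) r = 1 ↔
      FreeGroup.lift (fun i => (x i : J)) r ∈ Z := by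
  have a : FreeGroup.lift (fun i => (x i : normalizer (Z : Set J) ⧸ Z.subgroupOf _)) =
    (QuotientGroup.mk' _).comp (FreeGroup.lift x) := by ext; simp
  have b : FreeGroup.lift (fun i => (x i : J)) = (Subgroup.subtype _).comp (FreeGroup.lift x) := by ext; simp
  rw [a, b]
  exact QuotientGroup.eq_one_iff _

theorem norm_cn {g : J} (hg : IsOfFinOrder g) (z : J) : g ∈ normalizer (closure (Set.range (cn g z)) : Set J) := by
  have a : ∀ n : ℕ, ∀ x ∈ closure (Set.range (cn g z)), g ^ n * x * (g ^ n)⁻¹ ∈ closure (Set.range (cn g z)) := fun n =>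
    (closure_le ((closure (Set.range (cn g z))).comap (MulAut.conj (g ^ n)).toMonoidHom)).2 (by
      rintro _ ⟨i, rfl⟩; exact subset_closure ⟨n + i, cn_add ..⟩)
  obtain ⟨n, hn⟩ := (hg.mem_powers_iff_mem_zpowers).2 (inv_mem (mem_zpowers g))
  exact fun x => ⟨by simpa using a 1 x, fun e => by simpa [show g ^ n = _ from hn, mul_assoc] using a n _ e⟩

variable (φ) in
/-- the field data -/
structure Fd [Fintype K] (q : ℕ) (ζ : Kˣ) : Prop where
  hφ : ∀ t, φ t = t ^ q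
  hK : Fintype.card K = q ^ 2
  hq : 3 ≤ q
  gen : ∀ s : Kˣ, ∃ n : ℕ, ζ ^ n = s

namespace Fd

variable [Fintype K] {q : ℕ} {ζ : Kˣ} (X : Fd φ q ζ)
include X

local notation "θ" => (ζ : K) ^ 2 / φ ζ
local notation "k₀" => RingHom.eqLocusField φ (RingHom.id K)

theorem h2 (t : K) : φ (φ t) = t := by rw [X.hφ, X.hφ, ← pow_mul, ← sq, ← X.hK, FiniteField.pow_card]

theorem hN (c : K) (hc : φ c = c) : ∃ t, t * φ t = c := (exists_norm_eq X.hK (X.hφ c ▸ hc)).imp fun t ht => X.hφ t ▸ ht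

theorem pow_pred {t : K} (ht : t ≠ 0) : t ^ (q - 1) = φ t / t := by
  rw [X.hφ, eq_div_iff ht, ← pow_succ, Nat.sub_add_cancel (by have := X.hq; omega)]

theorem ord {r : ℕ} (r0 : 0 < r) (e : (θ ^ (q - 1)) ^ r = 1) : q + 1 ≤ 3 * r := by
  have h0 : orderOf ζ = (q + 1) * (q - 1) := by
    rw [orderOf_eq_card_of_forall_mem_powers X.gen, Nat.card_units, Nat.card_eq_fintype_card, X.hK, ← Nat.sq_sub_sq]
  have h1 : ζ ^ (3 * r * (q - 1)) = 1 := Units.ext (by
    rw [X.pow_pred (by simp)] at e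
    rw [Units.val_pow_eq_pow_val, mul_comm, pow_mul, X.pow_pred ζ.ne_zero, pow_mul, Units.val_one, ← e]
    simp [X.h2]; field_simp)
  have := X.hq
  exact Nat.le_of_dvd (by omega) (Nat.dvd_of_mul_dvd_mul_right (by omega) (h0 ▸ orderOf_dvd_of_pow_eq_one h1))

theorem ne : φ θ ≠ θ := fun e => by
  have := X.ord one_pos (by rw [X.pow_pred (by simp), e, pow_one, div_self (by simp)])
  have := X.hq
  omega

theorem ne' : φ ζ ≠ ζ := fun e => X.ne (by simp [e])

/-- the generator of the fixed field -/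
def ν : k₀ := ⟨ζ * φ ζ, by simp [RingHom.mem_eqLocusField, X.h2, mul_comm]⟩

theorem ν_gen (s : k₀) (hs : s ≠ 0) : ∃ n : ℕ, s = X.ν ^ n := by
  obtain ⟨t, ht⟩ := X.hN s s.2
  obtain ⟨n, hn⟩ := X.gen (.mk0 t (by rintro rfl; simp [eq_comm, hs] at ht))
  exact ⟨n, Subtype.ext (by simp [ν, ← ht, mul_pow, ← show _ = t from congrArg Units.val hn])⟩

theorem θ_pow : θ ^ (q + 1) = X.ν := by
  rw [pow_succ, ← X.hφ]; simp [ν, X.h2]; field_simp

theorem exists_AB : ∃ A B : K →+ k₀, (∀ s, s = A s + B s * θ) ∧ ∀ a b : k₀, A (a + b * θ) = a ∧ B (a + b * θ) = b := by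
  have h0 := sub_ne_zero.2 X.ne
  have h1 := sub_ne_zero.2 X.ne.symm
  generalize θ = t at *
  refine ⟨AddMonoidHom.mk' (fun s => ⟨(s * φ t - φ s * t) / (φ t - t), ?_⟩) fun a b => Subtype.ext ?_,
    AddMonoidHom.mk' (fun s => ⟨(φ s - s) / (φ t - t), ?_⟩) fun a b => Subtype.ext ?_, fun s => ?_, fun a b => ?_⟩
  · simp [RingHom.mem_eqLocusField, X.h2]; field_simp; ring
  · simp; ring
  · simp [RingHom.mem_eqLocusField, X.h2]; field_simp; ring
  · simp; ring
  · simp; field_simp; ring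
  · constructor <;> refine Subtype.ext ?_ <;> simp [show φ a = a from a.2, show φ b = b from b.2] <;> field_simp <;> ring

theorem rp7 : RP.{v} θ 7 :=
  have ⟨A, B, h1, h2⟩ := X.exists_AB; rp_seven (k₀).subtype X.θ_pow X.ν_gen A B h1 h2

theorem all_mem {S : AddSubgroup K} (h : ∀ i : ℕ, θ ^ i ∈ S) (s : K) : s ∈ S := by
  obtain ⟨A, B, h1, -⟩ := X.exists_AB
  have : ∀ (a : k₀) (i : ℕ), a * θ ^ i ∈ S := fun a i => by
    by_cases ha : a = 0
    · simp [ha]
    obtain ⟨n, rfl⟩ := X.ν_gen a ha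
    rw [SubmonoidClass.coe_pow, ← X.θ_pow, ← pow_mul, ← pow_add]
    exact h _
  rw [h1 s]
  exact add_mem (by simpa using this _ 0) (by simpa using this _ 1)

theorem cube_mem {S : AddSubgroup K} (h : ∀ i < 3, θ ^ i ∈ S) (h' : ∀ s ∈ S, θ ^ (q - 1) * s ∈ S) : θ ^ 3 ∈ S := by
  classical
  let R : Subring K := {
    carrier := {c | ∀ s ∈ S, c * s ∈ S}
    one_mem' := by simp
    zero_mem' := by simp
    mul_mem' := fun ha hb s hs => mul_assoc _ _ s ▸ ha _ (hb s hs)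
    add_mem' := fun ha hb s hs => add_mul _ _ s ▸ add_mem (ha s hs) (hb s hs)
    neg_mem' := fun ha s hs => neg_mul _ s ▸ neg_mem (ha s hs) }
  let L := R.toSubfield fun x hx => by
    by_cases h0 : x = 0
    · simp [h0]
    have := FiniteField.pow_card_sub_one_eq_one x h0
    rw [show Fintype.card K - 1 = Fintype.card K - 2 + 1 by have := Fintype.one_lt_card (α := K); omega, pow_succ] at this
    exact eq_inv_of_mul_eq_one_left this ▸ pow_mem hx _
  have a1 : Fintype.card K = Fintype.card L ^ Module.finrank L K := Module.card_eq_pow_finrank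
  have a2 := X.ord (r := Fintype.card L - 1) (by have := Fintype.one_lt_card (α := L); omega)
    (congrArg Subtype.val (FiniteField.pow_card_sub_one_eq_one (⟨_, h'⟩ : L) (by simp [Subtype.ext_iff])))
  have a3 : Module.finrank L K ≤ 3 := by_contra fun e => by
    obtain ⟨r, hr⟩ : ∃ r, Fintype.card L = r + 1 := ⟨_, (Nat.sub_add_cancel Fintype.card_pos).symm⟩
    have : ((r + 1) ^ 2) ^ 2 ≤ q ^ 2 := by
      rw [← X.hK, a1, hr, ← pow_mul]; exact Nat.pow_le_pow_right (by omega) (by omega)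
    have := (Nat.pow_le_pow_iff_left two_ne_zero).1 this
    rw [hr, Nat.add_sub_cancel] at a2
    nlinarith [sq_nonneg ((r : ℤ) - 1)]
  have hi : IsIntegral L θ := Algebra.IsIntegral.isIntegral _
  have := aeval_modByMonic_eq_self_of_root (p := Polynomial.X ^ 3) (minpoly.aeval L θ)
  rw [aeval_eq_sum_range' ((natDegree_modByMonic_lt _ (minpoly.monic hi) (minpoly.ne_one _ _)).trans_le
    ((minpoly.natDegree_le _).trans a3)), aeval_X_pow] at this
  rw [← this]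
  exact sum_mem fun i hi => (coeff (_ : L[X]) i).2 _ (h i (by simpa using hi))

variable (D : Dat φ u h w)
include D

local notation "β" => (θ - φ θ)

omit X in
theorem cn_u (a b : K) (i : ℕ) : cn (h ζ) (u a b) i = u (θ ^ i * a) ((ζ * φ ζ) ^ i * b) := by
  rw [cn, ← map_pow, D.conj]; simp [div_pow, mul_pow, ← pow_mul, mul_comm]

omit X in
theorem z_eq {b : K} (hv : Val φ 1 b) : ⁅u 1 b, cn (h ζ) (u 1 b) 1⁆ = u 0 β := by
  rw [commutatorElement_def, mul_inv_eq_iff_eq_mul, mul_inv_eq_iff_eq_mul, cn_u D]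
  simp only [D.mul]
  congr 1 <;> simp <;> ring

theorem Z_add : Add' (fun s : k₀ => u 0 (s * β)) ∧ ∀ s : k₀, h ζ * u 0 (s * β) * (h ζ)⁻¹ = u 0 (↑(X.ν * s) * β) :=
  ⟨fun s t => by simp [D.mul, add_mul], fun s => by simp [D.conj, ν, mul_assoc]⟩

theorem Z_mem {M : Subgroup G} (hM : ∀ i, cn (h ζ) (u 0 β) i ∈ M) {a b c : K} (h1 : Val φ a b) (h2 : Val φ a c) :
    u a b * (u a c)⁻¹ ∈ M := by
  have b0 := sub_ne_zero.2 X.ne.symm
  have e1 : φ β = -β := by rw [map_sub, X.h2, neg_sub]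
  have e2 : φ (b - c) = -(b - c) := by simp only [Val, map_sub] at *; linear_combination h1 - h2
  rw [show u a b = u 0 (b - c) * u a c by simp [D.mul], mul_inv_cancel_right, ← div_mul_cancel₀ (b - c) b0]
  let s : k₀ := ⟨(b - c) / β, by rw [RingHom.mem_eqLocusField, map_div₀, e1, e2, neg_div_neg_eq]; rfl⟩
  by_cases hs : s = 0
  · rw [show (b - c) / β = 0 from congrArg Subtype.val hs, zero_mul, D.zero]; exact one_mem _
  obtain ⟨n, hn⟩ := X.ν_gen s hs
  rw [show (b - c) / β = _ from congrArg Subtype.val hn]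
  simpa [cn_u D, ν] using hM n

omit X in
/-- the first coordinates -/
def SS (M : Subgroup G) : AddSubgroup K where
  carrier := {a | ∃ b, Val φ a b ∧ u a b ∈ M}
  zero_mem' := ⟨0, by simp [Val], D.zero ▸ one_mem _⟩
  add_mem' := fun ⟨_, h1, h2⟩ ⟨_, h3, h4⟩ => ⟨_, D.val_mul h1 h3, D.mul _ _ _ _ ▸ mul_mem h2 h4⟩
  neg_mem' := fun ⟨_, h1, h2⟩ => ⟨_, by simp only [Val, map_neg, D.φφ] at *; linear_combination h1, D.inv h1 ▸ inv_mem h2⟩

theorem SS_mem {M : Subgroup G} (hM : ∀ i, cn (h ζ) (u 0 β) i ∈ M) {a b : K} (h1 : a ∈ SS D M) (h2 : Val φ a b) : u a b ∈ M :=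
  have ⟨_, h3, h4⟩ := h1; by simpa using mul_mem (X.Z_mem D hM h2 h3) h4

omit X in
theorem val_cn {b : K} (hv : Val φ 1 b) (i : ℕ) : Val φ (θ ^ i * 1) ((ζ * φ ζ) ^ i * b) := by
  simpa [div_pow, mul_pow, ← pow_mul, mul_comm] using D.val_conj hv (ζ ^ i)

theorem U_eq {b : K} (hv : Val φ 1 b) : closure (Set.range (cn (h ζ) (u 1 b))) = UU D := by
  refine le_antisymm ((closure_le _).2 ?_) ?_
  · rintro _ ⟨i, rfl⟩
    exact ⟨_, _, val_cn D hv i, cn_u D ..⟩
  rintro _ ⟨a, c, h1, rfl⟩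
  refine X.SS_mem D (fun i => ?_) (X.all_mem (S := SS D _) (fun i => ⟨_, by simpa using val_cn D hv i,
    Subgroup.subset_closure (Set.mem_range.2 ⟨i, by rw [cn_u D, mul_one]⟩)⟩) a) h1
  rw [← z_eq D hv, cn, conjugate_commutatorElement, ← cn_add]
  have a : ∀ j, cn (h ζ) (u 1 b) j ∈ closure (Set.range (cn (h ζ) (u 1 b))) := fun j => Subgroup.subset_closure ⟨j, rfl⟩
  exact mul_mem (mul_mem (mul_mem (a i) (a _)) (inv_mem (a i))) (inv_mem (a _))

omit X D in
/-- generators of the centralizer of the commutator -/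
def eA (m : ℕ) (x g : J) : ℕ ⊕ Fin 3 × ℕ → J :=
  Sum.elim (cn g ⁅x, cn g x 1⁆) fun p => cn (g ^ m) (cn g x p.1) p.2

omit X D in
theorem map_eA (f : J →* G) (m : ℕ) (x g : J) : (fun i => f (eA m x g i)) = eA m (f x) (f g) := by
  ext (i | i) <;> simp [eA, map_cn]

theorem A_mem {b : K} (hv : Val φ 1 b) : cn (h ζ) (u 1 b) 3 ∈ closure (Set.range (eA (q - 1) (u 1 b) (h ζ))) := by
  set M := closure (Set.range (eA (q - 1) (u 1 b) (h ζ)))
  have a : M ≤ M.comap (MulAut.conj (h ζ ^ (q - 1))).toMonoidHom := (closure_le _).2 (by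
    rintro _ ⟨i | ⟨i, j⟩, rfl⟩
    exacts [subset_closure ⟨.inl (q - 1 + i), cn_add ..⟩, subset_closure ⟨.inr (i, j + 1), cn_succ ..⟩])
  rw [cn_u D]
  refine X.SS_mem D (fun i => Subgroup.subset_closure (Set.mem_range.2 ⟨.inl i, by simp [eA, z_eq D hv]⟩)) ?_ (val_cn D hv 3)
  rw [mul_one]
  refine X.cube_mem (fun i hi => ⟨_, by simpa using val_cn D hv i, Subgroup.subset_closure ⟨.inr (⟨i, hi⟩, 0), by
    simp [eA, cn_zero, cn_u D]⟩⟩) fun s ⟨c, h1, h2⟩ => ⟨_, ?_, (cn_u (ζ := ζ) D s c (q - 1)) ▸ (show cn _ _ _ ∈ M from a h2)⟩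
  simpa [div_pow, mul_pow, ← pow_mul, mul_comm] using D.val_conj h1 (ζ ^ (q - 1))

theorem mod_Z {b : K} (hv : Val φ 1 b) {r : FreeGroup (Fin 2)} (hr : ∀ {G' : Type v} [Group G'] (Y : K → G') (g : G'),
    Add' Y → (∀ s, g * Y s * g⁻¹ = Y (θ * s)) → FreeGroup.lift ![Y 1, g] r = 1) :
    FreeGroup.lift ![u 1 b, h ζ] r ∈ closure (Set.range (cn (h ζ) (u 0 β))) := by
  set Z := closure (Set.range (cn (h ζ) (u 0 β)))
  have hZ : ∀ i, cn (h ζ) (u 0 β) i ∈ Z := fun i => Subgroup.subset_closure ⟨i, rfl⟩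
  have a1 : ∀ a c, u a c ∈ normalizer (Z : Set G) := fun a c => centralizer_le_normalizer _ (by
    rw [centralizer_closure]
    rintro _ ⟨i, rfl⟩
    simp [cn_u D, D.mul, add_comm])
  have a2 : h ζ ∈ normalizer (Z : Set G) := norm_cn (h.isOfFinOrder (isOfFinOrder_of_finite ζ)) _
  have a3 : ∀ a, ∃ c, Val φ a c := X.all_mem (S := (SS D ⊤).comap (.id K)) (fun i => ⟨_, by simpa using val_cn D hv i, trivial⟩)
    |> fun e a => (e a).imp fun _ e => e.1
  choose c hc using a3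
  have a4 : ∀ a c c', Val φ a c → Val φ a c' → ((⟨u a c, a1 a c⟩ : normalizer (Z : Set G)) :
    normalizer (Z : Set G) ⧸ Z.subgroupOf _) = (⟨u a c', a1 a c'⟩ : normalizer (Z : Set G)) := fun a c c' e e' =>
      QuotientGroup.eq_iff_div_mem.2 (by simpa [div_eq_mul_inv, mem_subgroupOf] using X.Z_mem D hZ e e')
  have := hr (fun s => ((⟨u s (c s), a1 _ _⟩ : normalizer (Z : Set G)) : normalizer (Z : Set G) ⧸ Z.subgroupOf _))
    (⟨h ζ, a2⟩ : normalizer (Z : Set G))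
    (fun s t => (a4 _ _ _ (hc _) (D.val_mul (hc s) (hc t))).trans (congrArg _ (Subtype.ext (D.mul ..).symm)))
    fun s => .trans (congrArg QuotientGroup.mk (Subtype.ext (D.conj ..))) (a4 _ _ _ (D.val_conj (hc s) ζ) (hc _))
  rw [a4 _ _ _ (hc 1) hv] at this
  convert (lift_mod Z ![⟨_, a1 1 b⟩, ⟨_, a2⟩] r).1 (by convert this with i; fin_cases i <;> rfl) with i
  fin_cases i <;> rfl

theorem borel {J : Type} [Group J] {π : J →* G} {x g : J} {b : K} (hv : Val φ 1 b) (hx : π x = u 1 b) (hg : π g = h ζ)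
    (fin : g ^ Nat.card Kˣ = 1) {Y : k₀ → J} (y1 : Add' Y) (y2 : Y 1 = ⁅x, cn g x 1⁆) (y3 : ∀ s, g * Y s * g⁻¹ = Y (X.ν * s))
    (c : ∀ i : Fin 3, Commute (Y 1) (cn g x i)) (c3 : cn g x 3 ∈ closure (Set.range (eA (q - 1) x g)))
    {L : List (FreeGroup (Fin 2))} (hL : ∀ {J : Type} [Group J] (u h : J), (∀ r ∈ L, FreeGroup.lift ![u, h] r = 1) →
      ∃ X : K → J, Add' X ∧ X 1 = u ∧ ∀ s, h * X s * h⁻¹ = X (θ * s))
    (hr : ∀ r ∈ L, FreeGroup.lift ![x, g] r ∈ closure (Set.range (cn g (Y 1)))) :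
    ∀ y ∈ closure (Set.range (cn g x)), π y = 1 → y = 1 := by
  set Z := closure (Set.range (cn g (Y 1)))
  have a0 : Commute (Y 1) (g ^ (q - 1)) := by
    rw [commute_iff_eq, eq_comm, ← mul_inv_eq_iff_eq_mul, conj_pow_act y3, mul_one]
    exact congrArg Y (Subtype.ext (by rw [SubmonoidClass.coe_pow, X.pow_pred (by simp [ν]), X.ν.2]; simp [ν]))
  have a1 : ∀ i, ∀ j : Fin 3, Commute (Y 1) (cn g x (i + j)) := fun i => by
    induction i with
    | zero => simpa using c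
    | succ i ih =>
      intro j
      have : closure (Set.range (eA (q - 1) x g)) ≤ (centralizer {Y 1}).comap (MulAut.conj (g ^ i)).toMonoidHom :=
        (closure_le _).2 (by
          rintro _ ⟨l | ⟨l, m⟩, rfl⟩ _ rfl
          · have := y1.comm 1 (X.ν ^ (i + l) * 1)
            rw [← y1.cn y3, cn_add] at this
            simp only [eA, ← y2]
            exact this
          · have := ((a0.pow_right m).mul_right (ih l)).mul_right (a0.pow_right m).inv_right
            convert this.eq using 2 <;> simp only [eA, cn, Sum.elim_inr, MulEquiv.coe_toMonoidHom, MulAut.conj_apply] <;> group)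
      fin_cases j
      exacts [ih 1, by simpa [add_assoc] using ih 2, by
        change Commute _ (cn g x (i + 3))
        rw [cn_add]
        exact this c3 _ rfl]
  have fin' : IsOfFinOrder g := isOfFinOrder_iff_pow_eq_one.2 ⟨_, Nat.card_pos, fin⟩
  have a2 : x ∈ normalizer (Z : Set J) := centralizer_le_normalizer _ (by
    rw [centralizer_closure]
    rintro _ ⟨i, rfl⟩
    have := conj_comm (g ^ i) (a1 ((Nat.card Kˣ - 1) * i) 0)
    rwa [← cn_add, Fin.val_zero, add_zero, add_comm, ← add_one_mul, Nat.sub_one_add_one Nat.card_pos.ne', cn, pow_mul, fin, one_pow, inv_one,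
      one_mul, mul_one] at this)
  have a3 := norm_cn fin' (Y 1)
  obtain ⟨W, w1, w2, w3⟩ := hL ((⟨x, a2⟩ : normalizer (Z : Set J)) : normalizer (Z : Set J) ⧸ Z.subgroupOf _)
    (⟨g, a3⟩ : normalizer (Z : Set J)) fun r e => by
      convert (lift_mod Z ![⟨_, a2⟩, ⟨_, a3⟩] r).2 (by convert hr r e with i; fin_cases i <;> rfl) with i
      fin_cases i <;> rfl
  have a4 : ∀ y ∈ closure (Set.range (cn g x)), ∃ e : y ∈ normalizer (Z : Set J), ∃ a c, Val φ a c ∧ π y = u a c ∧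
      ((⟨y, e⟩ : normalizer (Z : Set J)) : normalizer (Z : Set J) ⧸ Z.subgroupOf _) = W a := fun y hy => by
    induction hy using closure_induction with
    | mem y hy =>
      obtain ⟨i, rfl⟩ := hy
      refine ⟨mul_mem (mul_mem (pow_mem a3 i) a2) (inv_mem (pow_mem a3 i)), _, _, val_cn D hv i, by rw [map_cn, hx, hg, cn_u D], ?_⟩
      rw [← w1.cn w3, w2]
      exact map_cn (QuotientGroup.mk' (Z.subgroupOf (normalizer (Z : Set J)))) ⟨g, a3⟩ ⟨x, a2⟩ i
    | one => exact ⟨one_mem _, 0, 0, by simp [Val], by simp [D.zero], w1.zero.symm⟩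
    | mul y z _ _ hy hz =>
      obtain ⟨e, a, c, h1, h2, h3⟩ := hy
      obtain ⟨e', a', c', h4, h5, h6⟩ := hz
      exact ⟨mul_mem e e', _, _, D.val_mul h1 h4, by rw [map_mul, h2, h5, D.mul], by rw [w1, ← h3, ← h6]; rfl⟩
    | inv y _ hy =>
      obtain ⟨e, a, c, h1, h2, h3⟩ := hy
      exact ⟨inv_mem e, -a, φ c, by simp only [Val, map_neg, D.φφ] at *; linear_combination h1, by rw [map_inv, h2, D.inv h1],
        by rw [w1.neg, ← h3]; rfl⟩
  have a5 : ∀ a c, u a c = 1 → c = 0 := fun a c e => (D.sep a c 0 0 1 (by simp [e, D.ww, D.zero])).1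
  intro y hy e
  obtain ⟨e1, a, c, h1, h2, h3⟩ := a4 y hy
  obtain rfl := a5 a c (h2.symm.trans e)
  obtain rfl : a = 0 := by simpa [Val] using h1
  have a6 : Z ≤ y1.hom.range := (closure_le _).2 (by rintro _ ⟨i, rfl⟩; exact ⟨.ofAdd _, (y1.cn y3 1 i).symm⟩)
  obtain ⟨s, rfl⟩ := a6 ((QuotientGroup.eq_one_iff (⟨y, e1⟩ : normalizer (Z : Set J))).1 (h3.trans w1.zero))
  by_contra h4
  obtain ⟨n, hn⟩ := X.ν_gen s.toAdd fun e => h4 (show Y s.toAdd = 1 by rw [e, y1.zero])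
  change π (Y s.toAdd) = 1 at e
  rw [hn, ← mul_one (_ ^ n), ← y1.cn y3, map_cn, y2, map_commutatorElement, map_cn, hx, hg, z_eq D hv, cn_u D] at e
  exact mul_ne_zero (by simp) (sub_ne_zero.2 X.ne.symm) (a5 _ _ e)

theorem good_word {b : K} (hv : Val φ 1 b) {F : Type} {f : FreeGroup F →* G} {U H N : FreeGroup F} (e1 : f U = u 1 b)
    (e2 : f H = h ζ) (e3 : f N = w) {a c : K} (h1 : Val φ a c) (h2 : c ≠ 0) : ∃ r, f r = w * u a c * w ∧
      ∀ {J : Type} [Group J] (f' : FreeGroup F →* J) x, f' N * x * f' N = f' r →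
        Good (closure (Set.range (cn (f' H) (f' U)))) (zpowers (f' H)) (f' N) x := by
  have a : ∀ g ∈ UU D, g ∈ closure (Set.range fun i => f (cn H U i)) := by simp only [map_cn, e1, e2, X.U_eq D hv]; exact fun _ => id
  obtain ⟨r, a1, a2⟩ := exists_word _ f (a _ (mem_UU D (D.val_div h1 (c := φ c) (by rw [D.φφ, mul_comm]) h2)))
  obtain ⟨s, b1, b2⟩ := exists_word _ f (a _ (mem_UU D (D.val_div h1 rfl h2)))
  obtain ⟨i, hi⟩ := X.gen (.mk0 c h2)
  exact ⟨r * N * H ^ i * s, by simp only [map_mul, map_pow, a1, b1, e2, e3, dec' D h1 h2, ← hi], fun f' x e =>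
    ⟨_, by simpa only [map_cn] using a2 f', _, npow_mem_zpowers _ i, _, by simpa only [map_cn] using b2 f', by simp [e]⟩⟩

omit X D in
/-- the relators -/
def LL {F : Type*} [Group F] (q : ℕ) (L4 L7 : List (FreeGroup (Fin 2))) (W : FreeGroup (Fin 2) → F) (U H N Z r1 r2 r3 : F) : List F :=
  L4.map (FreeGroup.lift ![Z, H]) ++ L7.map (fun r => FreeGroup.lift ![U, H] r * (W r)⁻¹) ++
    [⁅Z, cn H U 0⁆, ⁅Z, cn H U 1⁆, ⁅Z, cn H U 2⁆, cn H U 3 * r3⁻¹, N * N, N * H * N * H ^ q, N * U * N * r1⁻¹, N * Z * N * r2⁻¹]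

omit X D in
theorem LL_iff {F : Type*} [Group F] {q : ℕ} {L4 L7 : List (FreeGroup (Fin 2))} {W : FreeGroup (Fin 2) → F} {U H N Z r1 r2 r3 : F}
    (g : F →* J) : (∀ r ∈ LL q L4 L7 W U H N Z r1 r2 r3, g r = 1) ↔ (∀ r ∈ L4, FreeGroup.lift ![g Z, g H] r = 1) ∧
      (∀ r ∈ L7, FreeGroup.lift ![g U, g H] r = g (W r)) ∧ (∀ i : Fin 3, Commute (g Z) (cn (g H) (g U) i)) ∧
      cn (g H) (g U) 3 = g r3 ∧ g N * g N = 1 ∧ g N * g H * g N * g H ^ q = 1 ∧ g N * g U * g N = g r1 ∧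
      g N * g Z * g N = g r2 := by
  have : ∀ a b r, g (FreeGroup.lift ![a, b] r) = FreeGroup.lift ![g a, g b] r := fun a b =>
    DFunLike.congr_fun (show g.comp (FreeGroup.lift ![a, b]) = _ by ext i; fin_cases i <;> simp)
  simp only [LL, List.forall_mem_append, List.forall_mem_map, List.forall_mem_cons, this, map_mul, map_inv, map_cn, map_pow,
    map_commutatorElement, mul_inv_eq_one, commutatorElement_eq_one_iff_commute, Fin.forall_fin_succ, and_assoc]
  simp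

theorem core : ∃ b, Val φ 1 b ∧ ∃ L : List (FreeGroup (Fin 3)), L.length ≤ 20 ∧ (∀ r ∈ L, FreeGroup.lift ![u 1 b, h ζ, w] r = 1) ∧
    ∀ r, FreeGroup.lift ![u 1 b, h ζ, w] r = 1 → PresentedGroup.mk {r | r ∈ L} r = 1 := by
  obtain ⟨b, hv, hb⟩ : ∃ b, Val φ 1 b ∧ b * φ ζ + φ b * ζ = 0 := ⟨ζ / (φ ζ - ζ), by
    have := sub_ne_zero.2 X.ne'
    have := sub_ne_zero.2 X.ne'.symm
    simp only [Val, map_one, map_div₀, map_sub, X.h2]
    constructor <;> field_simp <;> ring⟩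
  have b0 := sub_ne_zero.2 X.ne.symm
  have b1 : φ β = -β := by rw [map_sub, X.h2, neg_sub]
  obtain ⟨L4, l1, l2, l3⟩ := rp_four.{v} X.ν_gen
  obtain ⟨L7, m1, m2, m3⟩ := X.rp7.{v}
  let U : FreeGroup (Fin 3) := .of 0
  let H : FreeGroup (Fin 3) := .of 1
  let N : FreeGroup (Fin 3) := .of 2
  let Z := ⁅U, cn H U 1⁆
  set f := FreeGroup.lift ![u 1 b, h ζ, w]
  have e1 : f U = u 1 b := by simp [f, U]
  have e2 : f H = h ζ := by simp [f, H]
  have e3 : f N = w := by simp [f, N]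
  have e4 : f Z = u 0 β := by simp only [Z, map_commutatorElement, map_cn, e1, e2, z_eq D hv]
  obtain ⟨r1, a1, a2⟩ := X.good_word D hv e1 e2 e3 hv (by rintro rfl; simp [Val] at hv)
  obtain ⟨r2, a3, a4⟩ := X.good_word D hv e1 e2 e3 (a := 0) (by simp only [Val, b1]; simp) b0
  obtain ⟨r3, a5, a6⟩ := exists_word (eA (q - 1) U H) f (by rw [map_eA, e1, e2]; exact X.A_mem D hv)
  choose! W w1 w2 using fun r (hr : r ∈ L7) => exists_word (cn H Z) f (g := FreeGroup.lift ![u 1 b, h ζ] r)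
    (by simp only [map_cn, e2, e4]; exact X.mod_Z D hv fun Y g y1 y2 => m2 Y g y1 y2 r hr)
  have h0 : ∀ r ∈ LL q L4 L7 W U H N Z r1 r2 r3, f r = 1 := (LL_iff f).2 (by
    simp only [e1, e2, e3, e4, a1, a3, a5, D.ww, D.wh, true_and, and_true]
    refine ⟨by simpa using l2 _ _ (X.Z_add D).1 (X.Z_add D).2, fun r hr => (w1 r hr).symm, fun i => ?_, ?_⟩
    · simp [cn_u D, commute_iff_eq, D.mul, add_comm]
    · rw [← map_pow, ← map_mul, show ζ ^ q = Units.map (φ : K →* K) ζ from Units.ext (by simp [X.hφ]), inv_mul_cancel, map_one])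
  refine ⟨b, hv, _, by simp [LL]; omega, h0, ?_⟩
  set g := PresentedGroup.mk {r | r ∈ LL q L4 L7 W U H N Z r1 r2 r3}
  obtain ⟨c1, c2, c3, c4, c5, c6, c7, c8⟩ := (LL_iff g).1 fun r hr => PresentedGroup.one_of_mem hr
  let π := PresentedGroup.toGroup (rels := {r | r ∈ LL q L4 L7 W U H N Z r1 r2 r3}) h0
  have hπ : ∀ r, π (g r) = f r := fun _ => rfl
  have n1 : ∀ i : ℤ, g N * g H ^ i * g N = (g H ^ q)⁻¹ ^ i := fun i => by
    rw [← eq_inv_of_mul_eq_one_left c6]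
    simpa only [inv_eq_of_mul_eq_one_left c5] using (conj_zpow (a := g N) (b := g H) (i := i)).symm
  have fin : g H ^ Nat.card Kˣ = 1 := by
    have := congrArg (fun x => g N * x * g N) (n1 1)
    simp only [zpow_one, ← mul_assoc, c5, one_mul, mul_assoc (g H), mul_one, ← zpow_natCast, ← zpow_neg, n1, ← zpow_mul] at this
    rw [Nat.card_units, Nat.card_eq_fintype_card, X.hK, ← mul_left_inj (g H), ← pow_succ,
      Nat.sub_one_add_one (by have := X.hq; positivity), one_mul, eq_comm, ← zpow_natCast]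
    simpa [sq] using this
  obtain ⟨Y, y1, y2, y3⟩ := l3 _ _ c1
  have e5 : g Z = ⁅g U, cn (g H) (g U) 1⁆ := by simp only [Z, map_commutatorElement, map_cn]
  have fin' : IsOfFinOrder (g H) := isOfFinOrder_iff_pow_eq_one.2 ⟨_, Nat.card_pos, fin⟩
  have C : Cov D π (closure (Set.range (cn (g H) (g U)))) (zpowers (g H)) (g N) := {
    U1 := by rw [MonoidHom.map_closure, ← Set.range_comp', ← X.U_eq D hv]; simp only [map_cn, hπ, e1, e2]
    U2 := X.borel D hv ((hπ U).trans e1) ((hπ H).trans e2) fin y1 (y2.trans e5) y3 (y2 ▸ c3) (c4 ▸ map_eA g _ U H ▸ a6 g) m3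
      fun r hr => by simpa only [map_cn, c2 r hr, y2] using w2 r hr g
    H1 := by
      rw [MonoidHom.map_zpowers, hπ, e2, ← MonoidHom.map_zpowers, h.range_eq_map]
      exact congrArg _ (eq_top_iff.2 fun s _ => have ⟨n, hn⟩ := X.gen s; hn ▸ npow_mem_zpowers ζ n)
    H2 := by
      rintro _ ⟨i, rfl⟩ e
      have := (D.sep 0 0 0 0 (ζ ^ i) (by simpa [hπ, e2, D.zero, D.ww, eq_comm] using e)).2
      rw [← orderOf_dvd_iff_zpow_eq_one, orderOf_eq_card_of_forall_mem_powers X.gen] at this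
      obtain ⟨j, rfl⟩ := this
      simp only [zpow_mul, zpow_natCast, fin, one_zpow]
    HU := fun y hy x => (zpowers_le.2 (norm_cn fin' (g U)) hy x).1
    nH := by
      rintro _ ⟨i, rfl⟩
      exact n1 i ▸ zpow_mem (inv_mem (npow_mem_zpowers _ _)) _
    nn := c5
    n1 := (hπ N).trans e3 }
  have u0 : ∀ i, cn (g H) (g U) i ∈ closure (Set.range (cn (g H) (g U))) := fun i => Subgroup.subset_closure ⟨i, rfl⟩
  have u1 := cn_zero (g H) (g U) ▸ u0 0
  refine fun r e => C.inj X.hN X.gen X.ne' b0 b1 hv hb u1 (e5 ▸ mul_mem (mul_mem (mul_mem u1 (u0 1)) (inv_mem u1)) (inv_mem (u0 1)))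
    ((hπ U).trans e1) ((hπ Z).trans e4) (a2 g _ c7) (a4 g _ c8) ?_ (by rw [hπ, e, map_one])
  rw [eq_top_iff, ← PresentedGroup.closure_range_of, closure_le]
  rintro _ ⟨i, rfl⟩
  fin_cases i
  exacts [mem_sup_left (mem_sup_left u1), mem_sup_left (mem_sup_right (mem_zpowers _)), mem_sup_right (mem_zpowers _)]

end Fd

open Matrix

variable {F : Type*} [Field F] [Fintype F] {q : ℕ} (hF : Fintype.card F = q ^ 2)

local notation "𝐉" => !![(0 : F), 0, 1; 0, 1, 0; 1, 0, 0]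
local notation "σ" => frob hF

theorem uM_mem {a b : F} (hv : Val σ a b) : uM σ a b ∈ suMat hF 𝐉 := by
  rw [mem_suMat, uM_val]
  ext i j
  rw [Val] at hv
  fin_cases i <;> fin_cases j <;> simp [mul_apply, Fin.sum_univ_three, frob_frob, -frob_apply]
  linear_combination hv

theorem hM_mem (t : Fˣ) : hM σ t ∈ suMat hF 𝐉 := by
  rw [mem_suMat, hM_val]
  ext i j
  fin_cases i <;> fin_cases j <;> simp [mul_apply, Fin.sum_univ_three, frob_frob, -frob_apply]

theorem wM_mem : wM ∈ suMat hF 𝐉 := by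
  rw [mem_suMat, wM_val]
  ext i j
  fin_cases i <;> fin_cases j <;> simp [mul_apply, Fin.sum_univ_three, -frob_apply]

theorem su_le {M : Subgroup (SpecialLinearGroup (Fin 3) F)} (h1 : ∀ a b, Val σ a b → uM σ a b ∈ M) (h2 : ∀ t, hM σ t ∈ M)
    (h3 : wM ∈ M) : suMat hF 𝐉 ≤ M := by
  have e : ∀ g ∈ suMat hF 𝐉, ∀ i j, σ (g.1 0 i) * g.1 2 j + σ (g.1 1 i) * g.1 1 j + σ (g.1 2 i) * g.1 0 j = 𝐉 i j := fun g hg i j => by
    rw [← (mem_suMat hF).1 hg]
    simp [mul_apply, Fin.sum_univ_three, -frob_apply]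
    ring
  have key : ∀ g ∈ suMat hF 𝐉, g.1 2 0 = 0 → g ∈ M := fun g hg h0 => by
    have a1 : g.1 1 0 = 0 := by simpa [h0, -frob_apply] using e g hg 0 0
    have a2 := e g hg 0 2
    have a3 := e g hg 0 1
    have a4 := e g hg 1 1
    have a5 := e g hg 1 2
    have a6 := e g hg 2 2
    have a7 := g.2
    rw [det_fin_three] at a7
    have a0 : g.1 0 0 ≠ 0 := fun e => by simp [h0, a1, e, -frob_apply] at a2
    have a8 : g.1 2 1 = 0 := by simpa [h0, a1, a0, -frob_apply] using a3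
    simp [h0, a1, a8, -frob_apply] at a2 a4 a5 a6 a7
    have a9 : σ (g.1 0 0) ≠ 0 := (_root_.map_ne_zero _).2 a0
    have b1 : g.1 2 2 = (σ (g.1 0 0))⁻¹ := eq_inv_of_mul_eq_one_right a2
    have b2 : g.1 1 1 = σ (g.1 0 0) / g.1 0 0 := by rw [b1] at a7; field_simp at a7 ⊢; exact a7
    have b3 : g.1 1 2 = -σ (g.1 0 1) / g.1 0 0 := by
      rw [b1, b2, map_div₀, frob_frob] at a5; field_simp at a5 ⊢; linear_combination a5
    convert mul_mem (h2 (.mk0 _ a0)) (h1 (g.1 0 1 / g.1 0 0) (g.1 0 2 / g.1 0 0) ?_)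
    · refine Subtype.ext ?_
      rw [Matrix.SpecialLinearGroup.coe_mul, hM_val, uM_val]
      ext i j
      fin_cases i <;> fin_cases j <;> simp [mul_apply, Fin.sum_univ_three, h0, a1, a8, b1, b2, b3, -frob_apply] <;> field_simp
    · simp only [Val, b1, b3, map_div₀, map_inv₀, map_neg, frob_frob] at a6 ⊢
      field_simp at a6 ⊢
      linear_combination a6
  intro g hg
  by_cases h0 : g.1 2 0 = 0
  · exact key g hg h0
  have a1 := e g hg 0 0
  have a2 : σ (g.1 2 0) ≠ 0 := (_root_.map_ne_zero _).2 h0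
  have a3 : Val σ (σ (g.1 1 0 / g.1 2 0)) (σ (g.1 0 0 / g.1 2 0)) := by
    simp only [Val, map_div₀, frob_frob]
    field_simp
    simpa [add_comm, add_left_comm, mul_comm, -frob_apply] using a1
  simpa [← mul_assoc] using mul_mem (inv_mem (mul_mem h3 (h1 _ _ a3))) (key (wM * uM σ _ _ * g)
    (mul_mem (mul_mem (wM_mem hF) (uM_mem hF a3)) hg) (by
      simp [wM_val, uM_val, mul_apply, Fin.sum_univ_three, -frob_apply]
      field_simp
      simpa [add_assoc, add_comm, add_left_comm, mul_comm, -frob_apply] using a1))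

include hF in
theorem su3_pr (hq : 3 ≤ q) : HasPr (Cfsg.SU 3 F q) 3 20 := by
  obtain ⟨ζ, hζ⟩ := IsCyclic.exists_monoid_generator (α := Fˣ)
  have X : Fd σ q ζ := ⟨fun _ => rfl, hF, hq, hζ⟩
  obtain ⟨b, hv, L, l1, l2, l3⟩ := X.core (dat σ X.h2)
  obtain ⟨e⟩ := nonempty_suMat_equiv hF (M := 𝐉) (by ext i j; fin_cases i <;> fin_cases j <;> simp [-frob_apply])
    (by simp [det_fin_three]) (Fintype.card_fin 3)
  let x : Fin 3 → suMat hF 𝐉 := ![⟨_, uM_mem hF hv⟩, ⟨_, hM_mem hF ζ⟩, ⟨_, wM_mem hF⟩]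
  have a : ∀ r, FreeGroup.lift x r = 1 ↔ FreeGroup.lift ![uM σ 1 b, hM σ ζ, wM] r = 1 := fun r => by
    rw [← show (Subgroup.subtype _).comp (FreeGroup.lift x) = FreeGroup.lift ![uM σ 1 b, hM σ ζ, wM] by
      ext i : 1; fin_cases i <;> simp [x]]
    simp
  refine HasPr.congr ⟨x, (Pr.of_list ?_ L (by simpa only [a]) (by simpa only [a])).mono l1⟩ e
  have m : ∀ i, (x i).1 ∈ (closure (Set.range x)).map (Subgroup.subtype _) := fun i => ⟨_, Subgroup.subset_closure ⟨i, rfl⟩, rfl⟩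
  refine eq_top_iff.2 fun g _ => (mem_map_iff_mem Subtype.val_injective).1 (su_le hF (fun a c e => ?_) (fun t => ?_) (m 2) g.2)
  · refine (X.U_eq (dat σ X.h2) hv).ge.trans ((closure_le _).2 ?_) (mem_UU _ e)
    rintro _ ⟨i, rfl⟩
    exact mul_mem (mul_mem (pow_mem (m 1) i) (m 0)) (inv_mem (pow_mem (m 1) i))
  · obtain ⟨n, rfl⟩ := hζ t
    exact map_pow (hM σ) ζ n ▸ pow_mem (m 1) n

include hF in
theorem su_center_cyclic {n : ℕ} (hn : 2 ≤ n) : IsCyclic (center (Cfsg.SU n F q)) := by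
  have a := fun g : center (Cfsg.SU n F q) => (su_mem_center_iff hF hn g.1).1 g.2
  choose c hc using a
  have i : Fin n := ⟨0, by omega⟩
  have e : ∀ g, c g = g.1.1.1 i i := fun g => by simp [hc]
  refine isCyclic_of_injective_ringHom (R := F) ⟨⟨c, by simp [e]⟩, fun g h => ?_⟩ fun g h e =>
    Subtype.ext (Subtype.ext (Subtype.ext (by rw [hc, hc]; exact congrArg _ e)))
  exact (e (g * h)).trans (show (g.1.1.1 * h.1.1.1) i i = c g * c h by simp [hc])

end H11.U3
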