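import Cfsg.Agent.H11.TU4
import Cfsg.Agent.H11.Gen2
import Cfsg.Agent.H11.PrU3
import Cfsg.Agent.H14.TwGen

/-! # Two-generation of the unitary groups -/

set_option autoImplicit false
set_option linter.unusedSectionVars false
set_option maxHeartbeats 400000

namespace H11.TM.SU

open Subgroup H14 H14.RootSys H14.PreSt H14.St H14.St.Tw H11.Mn H11.Mn.TD Cfsg H8.SUT H11.SU3 H11.Md H11.PSL Polynomial
open Matrix hiding SpecialLinearGroup
open scoped commutatorElement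

/-- Steinberg's trick, relational form. -/
theorem extract' {G K : Type*} [Group G] [Field K] {Co : G → K → Prop} (h1 : Co 1 0)
    (hm : ∀ {x y s t}, Co x s → Co y t → Co (x * y) (s + t)) (hi : ∀ {x s}, Co x s → Co x⁻¹ (-s)) {h g x : G} {c c' : K}
    (h2 : ∀ {x s}, Co x s → Co (h * x * h⁻¹) (c * s))
    (h3 : ∀ {x s}, Co x s → Co (g * h * g⁻¹ * x * (g * h * g⁻¹)⁻¹) (c' * s)) (hc : Commute h (g * h * g⁻¹)) (c1 : c ≠ 1)
    (c2 : c' ≠ 1) (hs : Function.Surjective (aeval c : ℤ[X] → K)) {M : Subgroup G} (hh : h ∈ M) (hx : Co x 1) (hy : x * g ∈ M)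
    (t : K) : ∃ y ∈ M, Co y t := by
  set k := g * h * g⁻¹
  have a : x * k * x⁻¹ ∈ M := by
    have := mul_mem (mul_mem hy hh) (inv_mem hy)
    rwa [show x * g * h * (x * g)⁻¹ = x * k * x⁻¹ by simp only [k]; group] at this
  have b := mul_mem (mul_mem (mul_mem hh a) (inv_mem hh)) (inv_mem a)
  rw [show h * (x * k * x⁻¹) * h⁻¹ * (x * k * x⁻¹)⁻¹ = (h * x * h⁻¹) * ((h * k * h⁻¹) *
      ((h * x * h⁻¹)⁻¹ * x) * k⁻¹) * x⁻¹ by group, hc.eq, mul_inv_cancel_right] at b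
  have e := hm (hm (h2 hx) (h3 (hm (hi (h2 hx)) hx))) (hi hx)
  have d : c * 1 + c' * (-(c * 1) + 1) + -1 ≠ 0 := by
    rw [show _ + _ = (c - 1) * (1 - c') by ring]; exact mul_ne_zero (sub_ne_zero.2 c1) (sub_ne_zero.2 c2.symm)
  generalize c * 1 + c' * (-(c * 1) + 1) + -1 = d' at e d
  rw [← div_mul_cancel₀ t d]
  refine span_of_surj hs (P := fun s => ∃ y ∈ M, Co y (s * d')) ⟨1, one_mem _, by simpa⟩
    (fun s ⟨y, a, b⟩ => ⟨_, inv_mem a, neg_mul s d' ▸ hi b⟩)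
    (fun s t ⟨y, a, b⟩ ⟨z, a', b'⟩ => ⟨_, mul_mem a a', add_mul s t d' ▸ hm b b'⟩) (fun n => ?_) _
  induction n with
  | zero => exact ⟨_, b, by simpa using e⟩
  | succ n ih =>
    obtain ⟨y, a, b⟩ := ih
    exact ⟨_, mul_mem (mul_mem hh a) (inv_mem hh), by rw [pow_succ', mul_assoc c]; exact h2 b⟩

variable {m : ℕ} {K : Type*} [Field K] {φ : K →+* K} {a b c d o : Fin (m + 1)}

local notation "𝐆" => Matrix.SpecialLinearGroup (Fin (m + 1)) K
local notation "𝓡" => Wd.R (wdA m)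
local notation "𝐔" => PreSt.U (St.toPreSt (slSt m K))
local notation "𝐓" => T m φ
local notation "tv" => Matrix.SpecialLinearGroup.transvection
local notation:50 a:51 " ## " b:51 => a ≠ b ∧ b ≠ a ∧ a ≠ Fin.rev b ∧ b ≠ Fin.rev a

variable (φ) in
/-- unitary monomial matrices -/
structure Mo (g : 𝐆) (π : Equiv.Perm (Fin (m + 1))) (e : Fin (m + 1) → K) : Prop where
  eq : g.1 = (diagonal e).submatrix π.symm _root_.id
  rev : ∀ i, π i.rev = (π i).rev
  un : ∀ i, e i * φ (e i.rev) = 1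

namespace Mo

variable {g g' : Matrix.SpecialLinearGroup (Fin (m + 1)) K} {π π' : Equiv.Perm (Fin (m + 1))} {e e' : Fin (m + 1) → K} (H : Mo φ g π e)
include H

theorem ne (i : Fin (m + 1)) : e i ≠ 0 := left_ne_zero_of_mul_eq_one (H.un i)

theorem val (i j : Fin (m + 1)) : g.1 i j = if i = π j then e j else 0 := by
  simp only [H.eq, submatrix_apply, diagonal_apply, Equiv.symm_apply_eq, id_eq]
  split_ifs with h <;> simp [h]

theorem mem : g ∈ (𝐓).fix := (σ_eq_iff φ _).2 (by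
  ext i j
  have := H.un j
  simp only [H8.SUT.J, mul_apply, transpose_apply, map_apply, H.val, apply_ite φ, map_zero, submatrix_apply, one_apply, id_eq,
    ite_mul, mul_ite, zero_mul, mul_zero, mul_one, Finset.sum_ite_eq', Finset.mem_univ, if_true, Fin.rev_eq_iff, ← H.rev,
    π.apply_eq_iff_eq]
  by_cases h : i = j.rev
  · simp [h, mul_comm (φ _), this]
  · simp [h, show j ≠ i.rev from fun e => h (by simp [e])])

theorem conj_tv (h : a ≠ b) (t : K) : g * tv h t * g⁻¹ = tv (π.injective.ne h) (e a / e b * t) := by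
  rw [mul_inv_eq_iff_eq_mul]
  refine Subtype.ext ?_
  have := H.ne b
  simp only [Matrix.SpecialLinearGroup.coe_mul, Matrix.SpecialLinearGroup.transvection_coe, mul_add, add_mul, mul_one, one_mul]
  congr 1
  ext i j
  by_cases h1 : b = j <;> by_cases h2 : π a = i <;> (try subst h1) <;> (try subst h2) <;>
    simp [mul_apply, single_apply, H.val, ite_and, eq_comm, *] <;> field_simp

theorem div_rev (a b : Fin (m + 1)) : e b.rev / e a.rev = φ (e a / e b) := by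
  have h1 := H.un a.rev
  have h2 := H.un b.rev
  rw [Fin.rev_rev] at h1 h2
  rw [eq_inv_of_mul_eq_one_left h1, eq_inv_of_mul_eq_one_left h2, map_div₀, inv_div_inv]

theorem conj_M (h : a ≠ b) (t : K) : g * xM φ h t * g⁻¹ = xM φ (π.injective.ne h) (e a / e b * t) := by
  rw [xM, ← conj_mul, H.conj_tv, H.conj_tv, xM, H.div_rev]
  simp [H.rev]

theorem conj_S (ho : o.rev = o) (hπ : π o = o) (h : a ≠ o) (h' : π a ≠ o) (s u : K) :
    g * xS φ ho h s u * g⁻¹ = xS φ ho h' (e a / e o * s) (e a / e a.rev * u) := by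
  have := H.div_rev a o
  rw [ho] at this
  rw [xS, y, ← conj_mul, ← conj_mul, H.conj_tv, H.conj_tv, H.conj_tv, xS, y, this]
  simp [H.rev, hπ]

theorem conj (H' : Mo φ g' 1 e') : Mo φ (g * g' * g⁻¹) 1 (e' ∘ π.symm) := ⟨by
    have : g.1 * g'.1 = diagonal (e' ∘ π.symm) * g.1 := by
      ext i j
      rw [show g'.1 = diagonal e' from H'.eq, mul_diagonal, diagonal_mul, H.val]
      split_ifs with h <;> simp [h, mul_comm]
    rw [Matrix.SpecialLinearGroup.coe_mul, Matrix.SpecialLinearGroup.coe_mul, this, mul_assoc,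
      ← Matrix.SpecialLinearGroup.coe_mul, mul_inv_cancel]
    exact mul_one _, fun _ => rfl, fun i => by
  simpa [show π.symm i.rev = (π.symm i).rev by simp [Equiv.symm_apply_eq, H.rev]] using H'.un (π.symm i)⟩

omit H in
theorem comm (H : Mo φ g 1 e) (H' : Mo φ g' 1 e') : Commute g g' := Subtype.ext (by
  change g.1 * g'.1 = g'.1 * g.1
  rw [show g'.1 = diagonal e' from H'.eq, show g.1 = diagonal e from H.eq]
  simp [mul_comm])

end Mo

theorem exists_dg (h2 : ∀ t, φ (φ t) = t) (a b : Fin (m + 1)) {ζ : K} (h0 : ζ ≠ 0) : ∃ g : 𝐆, Mo φ g 1 fun i =>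
    (if i = a then ζ else 1) * (if i = b then ζ⁻¹ else 1) * ((if i = a.rev then (φ ζ)⁻¹ else 1) * if i = b.rev then φ ζ else 1) := by
  have : φ ζ ≠ 0 := by simpa
  refine ⟨⟨diagonal fun i => (if i = a then ζ else 1) * (if i = b then ζ⁻¹ else 1) * ((if i = a.rev then (φ ζ)⁻¹ else 1) *
    if i = b.rev then φ ζ else 1), by rw [det_diagonal]; simp only [Finset.prod_mul_distrib]; simp [*]⟩,
    rfl, fun _ => rfl, fun i => ?_⟩
  simp only [Fin.rev_inj, Fin.rev_eq_iff, Fin.rev_rev]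
  split_ifs <;> simp [h2] <;> field_simp

theorem exists_mo (h2 : ∀ t, φ (φ t) = t) (hφ : ∃ t, φ t ≠ t) (h : a ≠ a.rev) {π : Equiv.Perm (Fin (m + 1))}
    (hπ : ∀ i, π i.rev = (π i).rev) : ∃ g e, Mo φ g π e := by
  obtain ⟨t, ht⟩ := hφ
  obtain ⟨δ, d0, d1⟩ : ∃ δ, δ ≠ 0 ∧ δ / φ δ = (Equiv.Perm.sign π : ℤ) := by
    rcases Int.units_eq_one_or (Equiv.Perm.sign π) with e | e
    · exact ⟨1, one_ne_zero, by simp [e]⟩
    · have := sub_ne_zero.2 ht
      exact ⟨t - φ t, sub_ne_zero.2 ht.symm, by simp [e, h2]; field_simp; ring⟩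
  have : φ δ ≠ 0 := by simpa
  let e := fun i => (if i = a then δ else 1) * if i = a.rev then (φ δ)⁻¹ else 1
  refine ⟨⟨(diagonal e).submatrix π.symm _root_.id, ?_⟩, e, rfl, hπ, fun i => ?_⟩
  · rw [det_permute, det_diagonal, Finset.prod_mul_distrib]
    simp [← div_eq_mul_inv, d1, ← Int.cast_mul]
  · simp only [e, Fin.rev_inj, Fin.rev_eq_iff, Fin.rev_rev]
    split_ifs <;> simp [*]
    field_simp

theorem big_of (h2 : ∀ t, φ (φ t) = t) {M : Subgroup (Matrix.SpecialLinearGroup (Fin (m + 1)) K)}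
    (hM : ∀ a b (h : a ## b), a ≠ a.rev → b ≠ b.rev → (a : ℕ) + 1 = b ∨ (b : ℕ) + 1 = a → ∀ t, xM φ h.1 t ∈ M)
    (hL : ∀ (a : Fin (m + 1)) (h : a ≠ a.rev), (a : ℕ) + 1 = a.rev ∨ (a.rev : ℕ) + 1 = a → ∀ t, -φ t = t → tv h t ∈ M)
    (hS : ∀ o a (ho : o.rev = o) (h : a ≠ o) s u, Val φ s u → xS φ ho h s u ∈ M) : (𝐓).Big M := by
  have S : ∀ i : Fin m, 2 * (i : ℕ) + 2 = m → (𝐓).Up ((𝐓).orb i) ≤ M ∧ (𝐓).Um ((𝐓).orb i) ≤ M := fun i hi => by
    obtain ⟨a, ha⟩ : ∃ a : Fin (m + 1), (a : ℕ) = i := ⟨⟨i, by omega⟩, rfl⟩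
    obtain ⟨o, hb⟩ : ∃ a : Fin (m + 1), (a : ℕ) = i + 1 := ⟨⟨i + 1, by omega⟩, rfl⟩
    have ho : o.rev = o := by rw [Fin.ext_iff, Fin.val_rev]; omega
    have a1 : a ≠ o := by rw [Ne, Fin.ext_iff]; omega
    have a2 : a.rev ≠ o := (oa ho a1).symm
    have hA := roots_adj (J := (𝐓).orb i) (fun j => by rw [H8.SUT.mem_orb, Fin.ext_iff, Fin.ext_iff, Fin.val_rev]; omega)
      ha hb (by rw [Fin.val_rev]; omega) a1 (oa ho a1) (aa ho a1)
    rw [Up, Um, show {r | _} = AS ho a1 from Set.ext hA, neg_set (A := AS ho a1) (B := AS ho a2) hA fun r => by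
      simp [AS, neg_rtA, RootSys.neg_eq_iff, ho]; tauto]
    constructor <;> intro g hg <;> obtain ⟨s, u, h1, rfl⟩ := (mem_S h2 ho _).1 hg <;> exact hS _ _ ho _ s u h1
  intro i
  by_cases i1 : 2 * (i : ℕ) + 2 = m
  · exact S i i1
  by_cases i2 : 2 * (i : ℕ) = m
  · rw [← orb_eq (H8.SUT.mem_orb.2 (Or.inr rfl))]
    exact S _ (by rw [Fin.val_rev]; omega)
  have hA := roots_orth (φ := φ) i1 i2
  have e0 : (i.castSucc : ℕ) + 1 = i.succ := rfl
  by_cases i3 : 2 * (i : ℕ) + 1 = m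
  · have e : i.succ = i.castSucc.rev := by simp only [Fin.ext_iff, Fin.val_rev, Fin.val_succ, Fin.val_castSucc]; omega
    generalize (Fin.castSucc_lt_succ (i := i)).ne = h1 at hA
    generalize i.castSucc = a, i.succ = b at h1 hA e e0
    subst e
    simp only [Fin.rev_rev, Set.pair_eq_singleton] at hA
    have h3 : a.rev ≠ a.rev.rev := by simpa using h1.symm
    rw [Up, Um, show {r | _} = _ from Set.ext hA, neg_set (B := {rtA h3}) hA fun r => by simp [neg_rtA, RootSys.neg_eq_iff]]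
    constructor <;> intro g hg <;> obtain ⟨t, h1, rfl⟩ := (mem_L _).1 hg <;> exact hL _ _ (by simp only [Fin.rev_rev, e0, or_true, true_or]) t h1
  have e : i.castSucc ≠ i.castSucc.rev ∧ i.succ ≠ i.succ.rev ∧ i.castSucc ≠ i.succ.rev ∧ i.succ ≠ i.castSucc.rev := by
    simp only [Ne, Fin.ext_iff, Fin.val_rev, Fin.val_succ, Fin.val_castSucc]; omega
  generalize (Fin.castSucc_lt_succ (i := i)).ne = h1 at hA
  generalize i.castSucc = a, i.succ = b at h1 hA e e0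
  obtain ⟨e1, e2, e3, e4⟩ := e
  rw [Up, Um, show {r | _} = _ from Set.ext hA, neg_set (B := {rtA h1.symm, rtA (rv h1.symm)}) hA fun r => by
    simp [neg_rtA, RootSys.neg_eq_iff]]
  constructor <;> intro g hg
  · obtain ⟨t, rfl⟩ := (mem_M h2 h1 e1 e2 e3).1 hg
    exact hM a b ⟨h1, h1.symm, e3, e4⟩ e1 e2 (.inl e0) t
  · obtain ⟨t, rfl⟩ := (mem_M h2 h1.symm e2 e1 e4).1 hg
    exact hM b a ⟨h1.symm, h1, e4, e3⟩ e2 e1 (.inr e0) t

theorem exists_cox (hm : 1 ≤ m) : ∃ π : Equiv.Perm (Fin (m + 1)), (∀ i, π i.rev = (π i).rev) ∧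
    ∀ i : Fin (m + 1), (2 * (i : ℕ) + 2 < m → (π i : ℕ) = i + 1) ∧ (2 * (i : ℕ) + 2 = m ∨ 2 * (i : ℕ) + 1 = m → (π i : ℕ) = m) ∧
      (2 * (i : ℕ) = m → π i = i) := by
  let f : Fin (m + 1) → Fin (m + 1) := fun i => ⟨if 2 * (i : ℕ) + 2 < m then i + 1 else if 2 * (i : ℕ) < m then m else
    if 2 * (i : ℕ) = m then i else if 2 * (i : ℕ) ≤ m + 2 then 0 else i - 1, by split_ifs <;> omega⟩
  refine ⟨.ofBijective f (Finite.injective_iff_bijective.1 fun i j e => ?_), fun i => ?_, fun i => ?_⟩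
  · simp only [f, Fin.ext_iff] at e ⊢
    split_ifs at e <;> omega
  · simp only [f, Fin.ext_iff, Equiv.ofBijective_apply, Fin.val_rev]
    split_ifs <;> omega
  · simp only [f, Fin.ext_iff, Equiv.ofBijective_apply]
    split_ifs <;> omega

section
variable (h2 : ∀ t, φ (φ t) = t) (hφ : ∃ t, φ t ≠ t) {g w : Matrix.SpecialLinearGroup (Fin (m + 1)) K}
  {π : Equiv.Perm (Fin (m + 1))} {e e' : Fin (m + 1) → K} (H : Mo φ g 1 e) (W : Mo φ w π e')
  (hπ : ∀ i : Fin (m + 1), (2 * (i : ℕ) + 2 < m → (π i : ℕ) = i + 1) ∧ (2 * (i : ℕ) + 2 = m ∨ 2 * (i : ℕ) + 1 = m → (π i : ℕ) = m) ∧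
      (2 * (i : ℕ) = m → π i = i))
include h2 hφ

theorem exists_im {t : K} (ht : -φ t = t) : ∃ s, t = s - φ s := by
  obtain ⟨x, hx⟩ := hφ
  have := sub_ne_zero.2 hx
  have := sub_ne_zero.2 hx.symm
  exact ⟨t * (x / (x - φ x)), by simp only [map_mul, map_div₀, map_sub, h2, neg_eq_iff_eq_neg.1 ht]; field_simp; ring⟩

theorem exists_val' (s : K) : ∃ u, Val φ s u := by
  obtain ⟨x, hx⟩ := hφ
  have := sub_ne_zero.2 hx
  have := sub_ne_zero.2 hx.symm
  exact ⟨-(s * φ s) * (x / (x - φ x)), by simp only [Val, map_mul, map_neg, map_div₀, map_sub, h2]; field_simp; ring⟩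

include H W hπ

omit h2 hφ H in
theorem orbit {P : Fin (m + 1) → Prop} (h0 : P 0) (h : ∀ i, P i → P (π i)) (i : Fin (m + 1)) (hi : i ≠ i.rev) : P i := by
  have a : ∀ z : Fin (m + 1) → Fin (m + 1), (∀ i, π (z i) = z (π i)) → P (z 0) → ∀ n : ℕ, ∀ i : Fin (m + 1), (i : ℕ) = n →
      2 * n < m → P (z i) := fun z hz h1 n => by
    induction n with
    | zero => exact fun i e _ => (Fin.ext e : i = 0) ▸ h1
    | succ n ih =>
      intro i e e'
      have := h _ (ih ⟨n, by omega⟩ rfl (by omega))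
      rwa [hz, show π ⟨n, _⟩ = i from Fin.ext (((hπ _).1 (by simp only; omega)).trans e.symm)] at this
  have b := a (fun i => i) (fun _ => rfl) h0
  rw [Ne, Fin.ext_iff, Fin.val_rev] at hi
  by_cases h1 : 2 * (i : ℕ) < m
  · exact b _ i rfl h1
  have := h _ (b ((m - 1) / 2) ⟨_, by omega⟩ rfl (by omega))
  rw [show π ⟨(m - 1) / 2, _⟩ = Fin.rev 0 from Fin.ext (((hπ _).2.1 (by simp only; omega)).trans (by simp))] at this
  simpa using a Fin.rev W.rev this _ i.rev rfl (by rw [Fin.val_rev]; omega)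

theorem odd_core (ho : o.rev = o) (h0 : 0 ≠ o) (hs : Function.Surjective (aeval (e 0 / e o) : ℤ[X] → K)) (c1 : e 0 / e o ≠ 1)
    (c2 : e (π.symm 0) / e o ≠ 1) : ∃ a ∈ (𝐓).fix, ∃ b ∈ (𝐓).fix, ∀ M, a ∈ M → b ∈ M → (𝐓).Big M := by
  have D := dat φ h2
  obtain ⟨u, hu⟩ := exists_val' h2 hφ 1
  have po : π o = o := (hπ o).2.2 (by have := congrArg Fin.val ho; rw [Fin.val_rev] at this; omega)
  refine ⟨g, H.mem, _, mul_mem (xS_mem h2 ho h0 hu) W.mem, fun M a1 a2 => ?_⟩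
  let Co : Fin (m + 1) → 𝐆 → K → Prop := fun a x s => ∃ h : a ≠ o, ∃ u, Val φ s u ∧ x = xS φ ho h s u
  have cj : ∀ {g π e}, Mo φ g π e → π o = o → ∀ {a x s}, Co a x s → Co (π a) (g * x * g⁻¹) (e a / e o * s) := by
    rintro g π e H po a _ s ⟨h, u, hv, rfl⟩
    have h' : π a ≠ o := po ▸ π.injective.ne h
    have := H.conj_S ho po h h' s u
    exact ⟨h', _, (y_fix h2 ho h' (show xS φ ho h' _ _ ∈ _ from
      this ▸ mul_mem (mul_mem H.mem (xS_mem h2 ho h hv)) (inv_mem H.mem))).1, this⟩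
  have S : ∀ a (h : a ≠ o), (∀ s, ∃ y ∈ M, Co a y s) → ∀ s u, Val φ s u → xS φ ho h s u ∈ M := fun a h ha s u hv => by
    obtain ⟨_, b1, _, v, b2, rfl⟩ := ha s
    obtain ⟨t, ht⟩ := exists_im h2 hφ (t := u - v) (by simp only [Val, map_sub] at *; linear_combination b2 - hv)
    obtain ⟨_, b3, _, v', -, rfl⟩ := ha t
    obtain ⟨_, b4, _, v'', -, rfl⟩ := ha 1
    have := mul_mem (mul_mem (mul_mem (mul_mem b4 b3) (inv_mem b4)) (inv_mem b3)) b1
    rwa [← commutatorElement_def, comm_SS, ← xS_zero (φ := φ) ho h, xS_mul, zero_add, map_one, mul_one, one_mul, ← ht,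
      zero_mul, sub_zero, sub_add_cancel] at this
  have a3 := extract' (Co := Co 0) ⟨h0, 0, by simp [Val], by simp [xS_zero]⟩
    (by rintro _ _ s t ⟨_, u, b1, rfl⟩ ⟨_, v, b2, rfl⟩; exact ⟨h0, _, D.val_mul b1 b2, xS_mul ..⟩)
    (by
      rintro _ s ⟨_, u, b1, rfl⟩
      refine ⟨h0, φ u, by simp only [Val, map_neg, h2] at *; linear_combination b1, inv_eq_of_mul_eq_one_right ?_⟩
      rw [xS_mul, add_neg_cancel, xS_zero, map_neg, mul_neg, sub_neg_eq_add, b1]; simp)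
    (cj H rfl) (cj (W.conj H) rfl) (H.comm (W.conj H)) c1 (by simpa [π.symm_apply_eq.2 po.symm] using c2) hs a1
    ⟨h0, u, hu, rfl⟩ a2
  have a4 : w ∈ M := (mul_mem_cancel_left (S 0 h0 a3 1 u hu)).1 a2
  have a5 : ∀ a (h : a ≠ o) s u, Val φ s u → xS φ ho h s u ∈ M := fun a h => S a h (orbit W hπ
    (P := fun a => ∀ s, ∃ y ∈ M, Co a y s) a3 (fun a ha s => by
      obtain ⟨y, b1, b2⟩ := ha (s / (e' a / e' o))
      exact ⟨_, mul_mem (mul_mem a4 b1) (inv_mem a4), by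
        simpa [mul_div_cancel₀, W.ne] using cj W po b2⟩) a (aa ho h))
  refine big_of h2 (fun a b h ha hb _ t => ?_) (fun a h h' => ?_) fun o' a ho' h => ?_
  · obtain ⟨u, hu⟩ := exists_val' h2 hφ (-t)
    obtain ⟨v, hv⟩ := exists_val' h2 hφ 1
    have := nz ho ha
    have := nz ho hb
    have b1 := a5 a (nz ho ha).1 _ _ hu
    have b2 := a5 b.rev (nz ho hb).2.2.2.symm _ _ hv
    convert mul_mem (mul_mem (mul_mem b1 b2) (inv_mem b1)) (inv_mem b2)
    exact (comm_eq (by clear b1 b2 a5 a3 S cj; mx)).symm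
  · have := congrArg Fin.val ho
    simp only [Fin.val_rev] at this h'
    omega
  · obtain rfl : o' = o := by
      have := congrArg Fin.val ho
      have := congrArg Fin.val ho'
      simp only [Fin.val_rev, Fin.ext_iff] at *
      omega
    exact a5 a h

theorem even_core (hm : m % 2 = 1) (h1 : (o : ℕ) = 1) (h3 : 3 ≤ m) (hs : Function.Surjective (aeval (e 0 / e o) : ℤ[X] → K))
    (c1 : e 0 / e o ≠ 1) (c2 : e (π.symm 0) / e (π.symm o) ≠ 1) :
    ∃ a ∈ (𝐓).fix, ∃ b ∈ (𝐓).fix, ∀ M, a ∈ M → b ∈ M → (𝐓).Big M := by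
  have hr : ∀ a : Fin (m + 1), a ≠ a.rev := fun a => by rw [Ne, Fin.ext_iff, Fin.val_rev]; omega
  have h0 : 0 ≠ o := by rw [Ne, Fin.ext_iff]; simp [h1]
  refine ⟨g, H.mem, _, mul_mem (xM_mem h2 h0 (hr _) (hr _) 1) W.mem, fun M a1 a2 => ?_⟩
  obtain ⟨a3, a4⟩ := G2.extract (xM_add h0 (hr _) (hr _)) (H.conj_M h0) ((W.conj H).conj_M h0) (H.comm (W.conj H)) c1 c2 hs a1 a2
  let Q : Fin (m + 1) → Fin (m + 1) → Prop := fun a b => ∀ h : a ≠ b, ∀ t, xM φ h t ∈ M
  have q1 : ∀ {a b}, Q a b → Q (π a) (π b) := fun {a b} h h' t => by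
    have := W.conj_M (mt (congrArg π) h') (t / (e' a / e' b))
    rw [mul_div_cancel₀ _ (by simp [W.ne])] at this
    exact this ▸ mul_mem (mul_mem a4 (h _ _)) (inv_mem a4)
  have q2 : ∀ {a b}, Q a b → Q b.rev a.rev := fun {a b} h h' t => by
    have h4 : a ≠ b := by simpa using h'.symm
    convert h h4 (-φ t) using 1
    have := hr a
    have := hr b
    have := h4.symm
    mx
  have q3 : ∀ {a b c}, a ## c → c ## b → (a = b ∨ a ## b) → Q a c → Q c b → Q a b := fun {a b c} h1 h2 h3 h4 h5 h t => by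
    replace h3 := h3.resolve_left h
    convert mul_mem (mul_mem (mul_mem (h4 h1.1 t) (h5 h2.1 1)) (inv_mem (h4 h1.1 t))) (inv_mem (h5 h2.1 1))
    have := hr a
    have := hr b
    have := hr c
    exact (comm_eq (by clear h4 h5 q1 q2 a2 a3; mx)).symm
  have q4 : ∀ a b, a ## b → Q a b → Q a b.rev → ∀ t, -φ t = t → tv (hr a) t ∈ M := fun a b h h4 h5 t ht => by
    obtain ⟨s, rfl⟩ := exists_im h2 hφ ht
    have := mul_mem (mul_mem (mul_mem (h4 h.1 1) (h5 h.2.2.1 s)) (inv_mem (h4 h.1 1))) (inv_mem (h5 h.2.2.1 s))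
    rwa [← commutatorElement_def, comm_MM h (hr _) (hr _), map_one, mul_one, one_mul] at this
  have q5 := orbit W hπ (P := fun a => Q a (π a)) (by
    rw [show π 0 = o from Fin.ext (((hπ 0).1 (by simp; omega)).trans (by simp [h1]))]; exact fun _ => a3) fun _ => q1
  have q6 : ∀ a b : Fin (m + 1), (a : ℕ) + 1 = b → 2 * (a : ℕ) + 2 < m → Q a b ∧ Q b a := fun a b h h' => by
    obtain rfl : π a = b := Fin.ext (((hπ a).1 h').trans h)
    exact ⟨q5 a (hr a), by simpa [W.rev] using q2 (q5 a.rev (hr _))⟩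
  have q7 : ∀ n : ℕ, ∀ a : Fin (m + 1), (a : ℕ) = n + 1 → 2 * (a : ℕ) < m → Q 0 a ∧ Q a 0 := fun n => by
    induction n with
    | zero => exact fun a h h' => q6 0 a (by simp [h]) (by simp; omega)
    | succ n ih =>
      intro a h h'
      have b1 := ih ⟨n + 1, by omega⟩ rfl (by simp only; omega)
      have b2 := q6 ⟨n + 1, by omega⟩ a h.symm (by simp only; omega)
      constructor
      · refine q3 ?_ ?_ (.inr ?_) b1.1 b2.1 <;> simp only [Ne, Fin.ext_iff, Fin.val_rev, Fin.val_zero] <;> omega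
      · refine q3 ?_ ?_ (.inr ?_) b2.2 b1.2 <;> simp only [Ne, Fin.ext_iff, Fin.val_rev, Fin.val_zero] <;> omega
  refine big_of h2 (fun a b h ha hb h' => ?_) (fun a h h' => ?_) fun o' a ho' h => (hr _ ho'.symm).elim
  · have := h
    simp only [Ne, Fin.ext_iff, Fin.val_rev] at this
    by_cases h4 : 2 * (a : ℕ) < m <;> rcases h' with h' | h'
    · exact (q6 a b h' (by omega)).1 _
    · exact (q6 b a h' (by omega)).2 _
    · simpa using q2 (q6 b.rev a.rev (by simp only [Fin.val_rev]; omega) (by simp only [Fin.val_rev]; omega)).1 (by simpa using h.1)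
    · simpa using q2 (q6 a.rev b.rev (by simp only [Fin.val_rev]; omega) (by simp only [Fin.val_rev]; omega)).2 (by simpa using h.1)
  · obtain ⟨c, hc⟩ : ∃ c : Fin (m + 1), 2 * (c : ℕ) + 1 = m := ⟨⟨m / 2, by omega⟩, by simp only; omega⟩
    have b1 := q7 (c - 1) c (by omega) (by omega)
    have b2 : π c = Fin.rev 0 := Fin.ext (((hπ c).2.1 (.inr hc)).trans (by simp))
    have b3 := q5 c (hr c)
    have b4 := q5 c.rev (hr _)
    rw [W.rev, b2, Fin.rev_rev] at b4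
    rw [b2] at b3
    obtain rfl | rfl : a = c ∨ a = c.rev := by simp only [Fin.ext_iff, Fin.val_rev] at h' ⊢; omega
    · exact q4 _ 0 (by simp only [Ne, Fin.ext_iff, Fin.val_rev, Fin.val_zero]; omega) b1.2 b3
    · exact q4 _ 0 (by simp only [Ne, Fin.ext_iff, Fin.val_rev, Fin.val_zero]; omega) b4 (q2 b1.1)

end

open H11.U3 in
theorem su_two_gen {F : Type*} [Field F] [Fintype F] {q : ℕ} (hF : Fintype.card F = q ^ 2) {n : ℕ} (hn : 3 ≤ n)
    (h3 : ¬ (n = 3 ∧ q = 2)) : ∃ a b : SU n F q, closure {a, b} = ⊤ := by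
  obtain ⟨m, rfl⟩ : ∃ m, n = m + 1 := ⟨n - 1, by omega⟩
  have hq := two_le_of_card_sq hF
  have hφ : ∃ t, frob hF t ≠ t := not_forall.1 fun h => frob_ne_id hF (RingHom.ext h)
  have h2 := frob_frob hF
  obtain ⟨e⟩ := nonempty_suMat_equiv hF (M := H8.SUT.J m F) (n := m + 1) (by
    ext a b
    simp [-frob_apply, H8.SUT.J, Matrix.one_apply, apply_ite (frob hF), Fin.rev_eq_iff, eq_comm (a := b)])
    (left_ne_zero_of_mul_eq_one (by rw [← det_mul, H8.SUT.J_J, det_one])) (Fintype.card_fin _)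
  have h : (T m (frob hF)).Emb (suMat hF (H8.SUT.J m F)).subtype :=
    ⟨Subtype.val_injective, by ext g; rw [Subgroup.range_subtype]; exact (σ_eq_iff _ g).symm, ex h2 (frob_ne_id hF)⟩
  have hG := range_eq_gen h.ex (slSt_hmul m F) (h.range ▸ Tw.big_fix _) h.mem (perfect_of_equiv e.symm (su_perfect hF hn h3))
  refine G2.two_gen_map e.toMonoidHom e.surjective (h.two_gen (fun M hM => (h.range.ge.trans hG.le).trans hM.gen_le) ?_)
  obtain ⟨π, p1, p2⟩ := exists_cox (m := m) (by omega)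
  obtain ⟨w, e', W⟩ := exists_mo h2 hφ (a := 0) (by rw [Ne, Fin.ext_iff, Fin.val_rev]; simp; omega) p1
  obtain ⟨ζ, z0, z1, z2⟩ := exists_gen F
  have z3 : ∀ k, 0 < k → k < q ^ 2 - 1 → ζ ^ k ≠ 1 := fun k a b e => by
    have := Nat.le_of_dvd a ((z2 k).1 e)
    rw [Nat.card_eq_fintype_card, hF] at this
    omega
  have q4 : 4 ≤ q ^ 2 := Nat.pow_le_pow_left hq 2
  have z4 : ζ ≠ 1 := by simpa using z3 1 one_pos (by omega)
  have z5 : frob hF ζ ≠ ζ := fun e => z3 (q - 1) (by omega) (by have : q < q ^ 2 := by nlinarith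
                                                                omega)
    (mul_right_cancel₀ z0 (by rw [← pow_succ, Nat.sub_add_cancel (by omega), one_mul]; exact e))
  obtain ⟨c, hc⟩ : ∃ c : Fin (m + 1), 2 * (c : ℕ) + 2 = m ∨ 2 * (c : ℕ) + 1 = m := ⟨⟨(m - 1) / 2, by omega⟩, by simp only; omega⟩
  have c0 : π.symm 0 = c.rev := by
    rw [Equiv.symm_apply_eq, p1, show π c = Fin.rev 0 from Fin.ext (((p2 c).2.1 hc).trans (by simp)), Fin.rev_rev]
  rcases hc with hc | hc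
  · obtain ⟨o, ho⟩ : ∃ o : Fin (m + 1), 2 * (o : ℕ) = m := ⟨⟨m / 2, by omega⟩, by simp only; omega⟩
    have o1 : o.rev = o := by rw [Fin.ext_iff, Fin.val_rev]; omega
    have o2 : 0 ≠ o := by rw [Ne, Fin.ext_iff, Fin.val_zero]; omega
    have o3 := oa o1 o2
    have o4 := aa o1 o2
    by_cases e0 : c = 0
    · obtain ⟨g, H⟩ := exists_dg h2 0 o z0
      have X : Fd (frob hF) q (.mk0 ζ z0) := ⟨fun _ => rfl, hF, by rw [e0] at hc; simp at hc; omega, fun s =>
        (z1 s s.ne_zero).imp fun n e => Units.ext (by simp [e])⟩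
      have e1 : ζ / (ζ⁻¹ * frob hF ζ) = ζ ^ 2 / frob hF ζ := by field_simp
      have e2 := X.ne
      refine odd_core h2 hφ H W p2 o1 o2 ?_ ?_ ?_ <;>
        simp only [c0, e0, o1, o2, o2.symm, o3, o3.symm, o4, o4.symm, if_true, if_false, mul_one, one_mul, e1]
      · exact X.all_mem (S := (aeval _ : ℤ[X] →ₐ[ℤ] F).range.toSubring.toAddSubgroup) fun i => ⟨Polynomial.X ^ i, by simp⟩
      · exact fun e => e2 (by rw [Units.val_mk0, e, map_one])
      · refine fun e => e2 ?_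
        have : frob hF ζ ≠ 0 := (_root_.map_ne_zero _).2 z0
        have e3 : frob hF (ζ ^ 2 / frob hF ζ) = 1 := by rw [map_div₀, map_pow, h2]; field_simp at e ⊢; exact e.symm
        rw [Units.val_mk0, ← h2 (_ / _), e3, map_one, map_one]
    · obtain ⟨g, H⟩ := exists_dg h2 0 c z0
      have a1 : o ≠ c ∧ o ≠ c.rev ∧ 0 ≠ c.rev ∧ c ≠ c.rev := by simp only [Ne, Fin.ext_iff, Fin.val_rev, Fin.val_zero]; omega
      refine odd_core h2 hφ H W p2 o1 o2 ?_ ?_ ?_ <;>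
        simp only [c0, e0, Ne.symm e0, o2.symm, o3, o4, a1, a1.2.2.1.symm, a1.2.2.2.symm, if_true, if_false, mul_one, one_mul,
          Fin.rev_inj, div_one]
      exacts [surj_of_gen z1, z4, fun e => z4 ((frob hF).injective (e.trans (map_one _).symm))]
  obtain ⟨o, ho⟩ : ∃ o : Fin (m + 1), (o : ℕ) = 1 := ⟨⟨1, by omega⟩, rfl⟩
  obtain ⟨g, H⟩ := exists_dg h2 0 o z0
  have a1 : 0 ≠ o ∧ 0 ≠ o.rev ∧ o ≠ o.rev ∧ o ≠ Fin.rev 0 ∧ (0 : Fin (m + 1)) ≠ Fin.rev 0 ∧ c.rev ≠ 0 ∧ c.rev ≠ o ∧ c ≠ 0 := by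
    simp only [Ne, Fin.ext_iff, Fin.val_rev, Fin.val_zero]; omega
  have a2 : π.symm o = 0 := by
    rw [Equiv.symm_apply_eq]; exact Fin.ext (ho.trans ((p2 0).1 (by simp; omega)).symm)
  refine even_core h2 hφ H W p2 (by omega) ho (by omega) ?_ ?_ ?_ <;>
    simp only [c0, a2, a1, a1.1.symm, if_true, if_false, mul_one, one_mul, Fin.rev_inj, div_inv_eq_mul]
  · exact sq ζ ▸ surj_sq z0 z2
  · exact sq ζ ▸ z3 2 two_pos (by omega)
  · split_ifs
    exacts [by rwa [Ne, div_eq_one_iff_eq z0], by simpa using z4]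

end H11.TM.SU
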