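import Cfsg.Agent.H11.LS3
import Cfsg.Agent.H11.SUMat
import Cfsg.Agent.H11.SUSimple

/-!
# Landazuri-Seitz bounds for `SU_n`
-/

set_option autoImplicit false

namespace H11.LS

open Module Finset Matrix

section B3

variable {F ι κ : Type*} [Field F]

/-- Three by three block matrices. -/
def b3 (A : Matrix ι ι F) (B : Matrix ι κ F) (C : Matrix ι ι F) (D : Matrix κ ι F)
    (E : Matrix κ κ F) (G : Matrix κ ι F) (H : Matrix ι ι F) (I : Matrix ι κ F) (J : Matrix ι ι F) :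
    Matrix (ι ⊕ κ ⊕ ι) (ι ⊕ κ ⊕ ι) F :=
  fromBlocks A (fromCols B C) (fromRows D H) (fromBlocks E G I J)

theorem b3_mul [Fintype ι] [Fintype κ] (A B C D E G H I J A' B' C' D' E' G' H' I' J') :
    (b3 A B C D E G H I J : Matrix (ι ⊕ κ ⊕ ι) _ F) * b3 A' B' C' D' E' G' H' I' J' =
      b3 (A * A' + B * D' + C * H') (A * B' + B * E' + C * I') (A * C' + B * G' + C * J')
        (D * A' + E * D' + G * H') (D * B' + E * E' + G * I') (D * C' + E * G' + G * J')
        (H * A' + I * D' + J * H') (H * B' + I * E' + J * I') (H * C' + I * G' + J * J') := by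
  ext (i | i | i) (j | j | j) <;> simp [b3, mul_apply, Fintype.sum_sum_type, add_assoc]

theorem b3_congr {A B C D E G H I J A' B' C' D' E' G' H' I' J'} (h1 : A = A') (h2 : B = B')
    (h3 : C = C') (h4 : D = D') (h5 : E = E') (h6 : G = G') (h7 : H = H') (h8 : I = I')
    (h9 : J = J') :
    (b3 A B C D E G H I J : Matrix (ι ⊕ κ ⊕ ι) _ F) = b3 A' B' C' D' E' G' H' I' J' := by
  subst_vars; rfl

theorem det_b3 [Fintype ι] [Fintype κ] [DecidableEq ι] [DecidableEq κ] (A B C E G J) :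
    (b3 A B C 0 E G 0 0 J : Matrix (ι ⊕ κ ⊕ ι) _ F).det = A.det * E.det * J.det := by
  simp [b3, det_fromBlocks_zero₂₁, mul_assoc]

theorem b3_one [DecidableEq ι] [DecidableEq κ] :
    (b3 1 0 0 0 1 0 0 0 1 : Matrix (ι ⊕ κ ⊕ ι) _ F) = 1 := by simp [b3]

variable (σ : F →+* F)

/-- Conjugate transpose. -/
def ct {α β : Type*} (A : Matrix α β F) : Matrix β α F := (A.map σ)ᵀ

theorem ct_b3 (A B C D E G H I J) : ct σ (b3 A B C D E G H I J : Matrix (ι ⊕ κ ⊕ ι) _ F) =
    b3 (ct σ A) (ct σ D) (ct σ H) (ct σ B) (ct σ E) (ct σ I) (ct σ C) (ct σ G) (ct σ J) := by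
  ext (i | i | i) (j | j | j) <;> rfl

variable {α β γ : Type*}

@[simp] theorem ct_zero : ct σ (0 : Matrix α β F) = 0 := by ext; simp [ct]
@[simp] theorem ct_one [DecidableEq α] : ct σ (1 : Matrix α α F) = 1 := by
  simp [ct, Matrix.map_one _ (map_zero σ) (map_one σ)]
@[simp] theorem ct_add (A B : Matrix α β F) : ct σ (A + B) = ct σ A + ct σ B := by ext; simp [ct]
@[simp] theorem ct_neg (A : Matrix α β F) : ct σ (-A) = -ct σ A := by ext; simp [ct]
@[simp] theorem ct_smul (c : F) (A : Matrix α β F) : ct σ (c • A) = σ c • ct σ A := by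
  ext; simp [ct]
@[simp] theorem ct_mul [Fintype β] (A : Matrix α β F) (B : Matrix β γ F) :
    ct σ (A * B) = ct σ B * ct σ A := by simp [ct, Matrix.map_mul]
theorem ct_ct (hσ : ∀ a, σ (σ a) = a) (A : Matrix α β F) : ct σ (ct σ A) = A := by
  ext; simp [ct, hσ]
theorem det_ct [Fintype α] [DecidableEq α] (A : Matrix α α F) : (ct σ A).det = σ A.det := by
  rw [ct, det_transpose, RingHom.map_det]; rfl

end B3

section SU

variable {F : Type*} [Field F] [Fintype F] {q : ℕ} (hF : Fintype.card F = q ^ 2)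
  {ι κ : Type*} [Fintype ι] [Fintype κ] [DecidableEq ι] [DecidableEq κ]

variable (F ι κ) in
/-- The Gram matrix. -/
def gram : Matrix (ι ⊕ κ ⊕ ι) (ι ⊕ κ ⊕ ι) F := b3 0 0 1 0 1 0 1 0 0

variable (ι κ) in
/-- The unitary group in a Witt basis. -/
abbrev SUw := suMat hF (gram F ι κ)

omit [Fintype ι] [Fintype κ] in
theorem gram_herm : (gram F ι κ)ᵀ = (gram F ι κ).map (frob hF) := by
  have := ct_b3 (frob hF) (ι := ι) (κ := κ) 0 0 1 0 1 0 1 0 0
  simp only [ct_zero, ct_one] at this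
  rw [gram, ← transpose_transpose (Matrix.map _ _)]
  exact congrArg transpose this.symm

omit [Fintype F] in
theorem gram_det : (gram F ι κ).det ≠ 0 := fun h => by
  have : gram F ι κ * gram F ι κ = 1 := by simp [gram, b3_mul, b3_one]
  simpa [h] using congrArg det this

variable (ι κ) in
theorem suw_equiv {n : ℕ} (hn : Fintype.card ι + Fintype.card κ + Fintype.card ι = n) :
    Nonempty (SUw hF ι κ ≃* Cfsg.SU n F q) :=
  nonempty_suMat_equiv hF (gram_herm hF) gram_det (by simp [← hn, add_assoc])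

theorem ctct {α β : Type*} (A : Matrix α β F) : ct (frob hF) (ct (frob hF) A) = A :=
  ct_ct _ (frob_frob hF) A

/-- Elements of the unipotent radical. -/
def suN (a : Matrix ι κ F) (S : Matrix ι ι F) (h : S + ct (frob hF) S + a * ct (frob hF) a = 0) :
    SUw hF ι κ :=
  ⟨⟨b3 1 a S 0 1 (-ct (frob hF) a) 0 0 1, by simp [det_b3]⟩, show ct (frob hF) _ * _ * _ = _ by
    simp only [gram, ct_b3, b3_mul]
    refine b3_congr ?_ ?_ ?_ ?_ ?_ ?_ ?_ ?_ ?_ <;> simp [ctct]
    rw [← h]; abel⟩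

/-- Elements of the Levi factor. -/
def suL (h g : Matrix ι ι F) (D : Matrix κ κ F) (hg : h * g = 1) (hD : ct (frob hF) D * D = 1)
    (hd : h.det * D.det * g.det ^ q = 1) : SUw hF ι κ :=
  ⟨⟨b3 h 0 0 0 D 0 0 0 (ct (frob hF) g), by simp [det_b3, det_ct, hd]⟩,
    show ct (frob hF) _ * _ * _ = _ by
      simp only [gram, ct_b3, b3_mul]
      refine b3_congr ?_ ?_ ?_ ?_ ?_ ?_ ?_ ?_ ?_ <;> simp [ctct, hD, mul_eq_one_comm.1 hg]
      rw [← ct_mul, mul_eq_one_comm.1 hg, ct_one]⟩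

theorem suw_ext {a b : SUw hF ι κ} (h : a.1.1 = b.1.1) : a = b := Subtype.ext (Subtype.ext h)

theorem suw_mul (a b : SUw hF ι κ) : (a * b).1.1 = a.1.1 * b.1.1 := rfl

theorem suN_mul {a a' : Matrix ι κ F} {S S' : Matrix ι ι F} {h h'} :
    (suN hF a S h * suN hF a' S' h').1.1 =
      b3 1 (a + a') (S + S' - a * ct (frob hF) a') 0 1 (-ct (frob hF) (a + a')) 0 0 1 := by
  simp only [suw_mul, suN, b3_mul]
  refine b3_congr ?_ ?_ ?_ ?_ ?_ ?_ ?_ ?_ ?_ <;> simp <;> abel

/-- Column vectors. -/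
abbrev cv (u : ι → F) : Matrix ι Unit F := replicateCol Unit u

variable (ι κ) in
/-- The Siegel radical of `SU`. -/
def suSieg {θ : F} (hθ : θ ^ q = -θ) : Sieg (frob hF) (ι → F) (SUw hF ι κ) where
  x u w := suN hF 0 (θ • (cv u * ct (frob hF) (cv w) + cv w * ct (frob hF) (cv u)))
    (by simp [ctct, hθ])
  add u w w' := suw_ext hF (by
    rw [suN_mul]; simp [suN, Matrix.mul_add, Matrix.add_mul]; congr 1; abel)
  comm u w u' w' := suw_ext hF (by rw [suN_mul, suN_mul]; simp [add_comm])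
  swap u w := by simp only [add_comm]
  smul t u w := by
    have : (t ^ q) ^ q = t := frob_frob hF t
    simp [this]

theorem suSieg_ind {θ : F} (hθ : θ ^ q = -θ) {g : Matrix ι ι F} (hg : IsUnit g.det)
    {D : Matrix κ κ F} (hD : ct (frob hF) D * D = 1) (hd : D.det * g.det ^ q = g.det)
    {g' : End F (ι → F)} (h : ∀ u, g *ᵥ u = g' u) : (suSieg hF ι κ hθ).Ind g' :=
  ⟨suL hF g⁻¹ g D (nonsing_inv_mul g hg) hD (by rw [mul_assoc, hd, det_nonsing_inv_mul_det g hg]),
    fun u w => suw_ext hF (by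
      simp only [suw_mul, suSieg, suN, suL, b3_mul, ← h, cv, replicateCol_mulVec]
      refine b3_congr ?_ ?_ ?_ ?_ ?_ ?_ ?_ ?_ ?_ <;>
        simp [Matrix.mul_add, Matrix.add_mul, ← Matrix.mul_assoc, nonsing_inv_mul g hg])⟩

theorem suSieg_tv {θ : F} (hθ : θ ^ q = -θ) (v : ι → F) (f : Dual F (ι → F)) (h : f v = 0) :
    (suSieg hF ι κ hθ).Ind (1 + f.smulRight v) := by
  obtain ⟨g, hg, hg'⟩ := exists_mat_tv v f h
  exact suSieg_ind hF hθ (by simp [hg]) (D := 1) (by simp) (by simp [hg]) hg'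

theorem suSieg_not_center {θ : F} (hθ : θ ^ q = -θ) (hθ0 : θ ≠ 0) {τ : F} (hτ : τ + τ ^ q = 1)
    (i : ι) :
    (suSieg hF ι κ hθ).x (Pi.single i 1) (τ • Pi.single i 1) ∉ Subgroup.center _ := fun h => by
  have : Nontrivial (ι ⊕ κ ⊕ ι) := ⟨Sum.inl i, Sum.inr (Sum.inr i), by simp⟩
  obtain ⟨a, ha⟩ := herm_scalar_of_mem_center (hermMatC_nondeg hF (gram_herm hF) gram_det)
    (by rw [finrank_fintype_fun_eq_card]; exact Fintype.one_lt_card) le_rfl _
    ((mem_center_equiv (suMatEquiv hF (gram_herm hF)) _).2 h)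
  have h1 : ((suSieg hF ι κ hθ).x (Pi.single i 1) (τ • Pi.single i 1)).1.1 *ᵥ _ = _ :=
    ha (Pi.single (Sum.inr (Sum.inr i)) 1)
  have h2 := congrFun h1 (Sum.inl i)
  have hq := two_le_of_card_sq hF
  simp [suSieg, suN, b3, ct, mul_apply, ← mul_add, hθ0, add_comm _ τ, hτ] at h2

variable {k V : Type*} [Field k] [AddCommGroup V] [Module k V] [IsAlgClosed k]
  [FiniteDimensional k V]

theorem su_bound_even {θ : F} (hθ : θ ^ q = -θ) (ρ : SUw hF ι κ →* End k V)
    (hp : (ringChar F : k) ≠ 0) (h2 : 2 ≤ Fintype.card ι) {e : ι → F} {t : F}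
    (hnt : ρ ((suSieg hF ι κ hθ).x e (t • e)) ≠ 1) :
    (q ^ 2) ^ Fintype.card ι - 1 ≤ (q + 1) * finrank k V := by
  classical
  have := (suSieg hF ι κ hθ).bound' ρ (frob_frob hF) hp (r := q + 1) (by omega)
    (fun s => by simp [pow_succ']) (suSieg_tv hF hθ)
    (fun v w => trans_of_tv (by simpa using h2) (fun _ _ => Sieg.Ind.mul) (suSieg_tv hF hθ))
    hnt (d := 1) fun _ _ _ _ h _ => one_le_finrank h
  simpa [hF] using this

theorem suSieg_trans {θ : F} (hθ : θ ^ q = -θ) (v w : ι → F) (hv : v ≠ 0) (hw : w ≠ 0) :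
    ∃ g : End F (ι → F), g v = w ∧ (suSieg hF ι Unit hθ).Ind g := by
  by_cases h2 : 2 ≤ finrank F (ι → F)
  · exact trans_of_tv h2 (fun _ _ => Sieg.Ind.mul) (suSieg_tv hF hθ) hv hw
  obtain ⟨s, rfl⟩ := (finrank_eq_one_iff_of_nonzero' v hv).1 (by
    have : Nontrivial (ι → F) := ⟨_, _, hv⟩
    exact le_antisymm (Nat.le_of_lt_succ (not_le.1 h2)) finrank_pos) w
  have hs : s ≠ 0 := by rintro rfl; simp at hw
  have h1 : (s ^ q) ^ q = s := frob_frob hF s
  refine ⟨s • 1, rfl, suSieg_ind hF hθ (g := s • 1) (by simp [hs])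
    (D := ((s / s ^ q) ^ Fintype.card ι) • 1) ?_ ?_ fun u => by simp [smul_mulVec]⟩
  · simp only [ct_smul, ct_one, smul_mul_smul, map_pow, map_div₀, frob_apply, h1, ← mul_pow]
    rw [div_mul_div_cancel₀ hs, div_self (pow_ne_zero _ hs)]; simp
  · simp only [det_smul, det_one, mul_one, Fintype.card_unit, pow_one]
    rw [pow_right_comm s _ q, ← mul_pow, div_mul_cancel₀ _ (pow_ne_zero _ hs)]

theorem su_bound_odd {ω τ : F} (hω : ω - ω ^ q ≠ 0) (hθ : (ω - ω ^ q) ^ q = -(ω - ω ^ q))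
    (hτ : τ + τ ^ q = 1) (ρ : SUw hF ι Unit →* End k V)
    (hp : (ringChar F : k) ≠ 0) {e : ι → F} {t : F}
    (hnt : ρ ((suSieg hF ι Unit hθ).x e (t • e)) ≠ 1) :
    ((q ^ 2) ^ Fintype.card ι - 1) * q ≤ (q + 1) * finrank k V := by
  classical
  have := (suSieg hF ι Unit hθ).bound' ρ (frob_frob hF) hp (r := q + 1) (by omega)
    (fun s => by simp [pow_succ']) (suSieg_tv hF hθ) (suSieg_trans hF hθ) hnt (d := q)
    fun ψ hψ hψσ χ hχ he => ?_
  · simpa [hF] using this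
  have hqq : ∀ s : F, (s ^ q) ^ q = s := frob_frob hF
  let y : F → SUw hF ι Unit := fun c => suN hF (c • cv e) ((-τ * (c * c ^ q)) • (cv e *
    ct (frob hF) (cv e))) (by
      simp only [ct_smul, ct_mul, ctct, Matrix.smul_mul, Matrix.mul_smul, smul_smul, ← add_smul,
        map_mul, map_neg, frob_apply, hqq]
      rw [show -τ * (c * c ^ q) + -τ ^ q * (c ^ q * c) + c ^ q * c = (1 - (τ + τ ^ q)) * (c * c ^ q)
        by ring, hτ]; simp)
  have hyx : ∀ c p, Commute ((suSieg hF ι Unit hθ).op ρ p) (ρ (y c)) := fun c p =>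
    Commute.map (suw_ext hF (by simp only [suSieg, y, suN_mul]; simp [add_comm])) ρ
  have hyW : ∀ c, ∀ v ∈ wt ((suSieg hF ι Unit hθ).op ρ) χ,
      ρ (y c) v ∈ wt ((suSieg hF ι Unit hθ).op ρ) χ := fun c v hv =>
    map_mem_wt (s := id) (fun p => (hyx c p).eq) hv
  let K := {a : F // a ^ q = a}
  have hc : ∀ a b : K, Commute (ρ (y a)) (ρ (y b)) := fun a b =>
    Commute.map (suw_ext hF (by
      simp only [y, suN_mul, ct_smul, Matrix.smul_mul, Matrix.mul_smul, smul_smul, frob_apply, a.2,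
        b.2]
      rw [add_comm (a.1 • _), add_comm ((-τ * (a * a)) • _), mul_comm a.1 b.1])) ρ
  have hyy : ∀ a b : K, y a * y (ω * b) =
      y (ω * b) * y a * (suSieg hF ι Unit hθ).x e ((τ * (a * b)) • e) := fun a b => by
    refine suw_ext hF ?_
    rw [suw_mul hF (_ * _)]
    simp only [y, suN_mul, suSieg]
    simp only [suN, b3_mul]
    refine b3_congr ?_ ?_ ?_ ?_ ?_ ?_ ?_ ?_ ?_ <;> simp [add_comm]
    simp only [smul_smul, ← add_smul, ← sub_smul, ← neg_smul, mul_pow, a.2, b.2]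
    congr 1
    linear_combination (-(ω - ω ^ q) * a * b) * hτ
  obtain ⟨v, hv, hv0, η, hη⟩ := exists_common_eig hc hχ fun a => hyW a
  have hu : ∀ g, Function.Injective (ρ g) := fun g =>
    ((Module.End.isUnit_iff _).1 ((Group.isUnit g).map ρ)).1
  have := Fintype.ofFinite K
  refine ((card_fixed hF).symm.trans Nat.card_eq_fintype_card).trans_le ?_
  refine card_le_of_wt hc (κ := K) (χ := fun b a => η a * ψ (τ * (a * b))) (fun b b' h => ?_)
    (v := fun b : K => ρ (y (ω * b)) v) (fun b => mem_wt.2 fun a => ?_)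
    (fun b h => hv0 (hu _ (by simpa using h))) fun b => hyW _ _ hv
  · refine Subtype.ext (eq_of_psi ψ hψ fun s => ?_)
    have h1 : ∀ b : K, ψ (τ * ((s + s ^ q) * b)) = ψ (s * b) := fun b => by
      rw [show τ * ((s + s ^ q) * b) = τ * s * b + τ * s ^ q * b by ring, AddChar.map_add_eq_mul,
        ← hψσ (τ * s ^ q * b), ← AddChar.map_add_eq_mul]
      simp only [map_mul, frob_apply, hqq, b.2]
      congr 1
      linear_combination (s * b) * hτ
    let a : K := ⟨s + s ^ q, by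
      have := map_add (frob hF) s (s ^ q)
      simp only [frob_apply, hqq] at this
      rw [this, add_comm]⟩
    have h2 : η a ≠ 0 := fun h => hv0 (hu (y a) (by rw [mem_wt.1 hη a, h]; simp))
    rw [← h1, ← h1]
    exact mul_left_cancel₀ h2 (congrFun h a)
  · have h1 := mem_wt.1 hv (e, (τ * (a * b)) • e)
    rw [he, Sieg.op] at h1
    rw [← End.mul_apply, ← map_mul, hyy, map_mul, map_mul, End.mul_apply, End.mul_apply, h1,
      map_smul, mem_wt.1 hη a, map_smul, map_smul, smul_smul, mul_comm]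

end SU

end H11.LS
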