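import Cfsg.Agent.H11.Th1

/-! Products of conjugates in general linear groups: framework. -/

set_option autoImplicit false
set_option linter.unusedSectionVars false

namespace H11.Lv

open Module Submodule LinearMap H22.CY Polynomial

universe u

variable {K : Type u} [Field K] {V V' W W' : Type u} [AddCommGroup V] [Module K V] [AddCommGroup V'] [Module K V']
  [AddCommGroup W] [Module K W] [AddCommGroup W'] [Module K W']

/-- transport of automorphisms -/
def tr (e : V ≃ₗ[K] V') : (V ≃ₗ[K] V) ≃* (V' ≃ₗ[K] V') where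
  toFun A := (e.symm.trans A).trans e
  invFun B := (e.trans B).trans e.symm
  left_inv A := by ext; simp
  right_inv A := by ext; simp
  map_mul' A B := by ext; simp

@[simp] theorem tr_apply (e : V ≃ₗ[K] V') (A : V ≃ₗ[K] V) (u : V') : tr e A u = e (A (e.symm u)) := rfl

@[simp] theorem det_tr (e : V ≃ₗ[K] V') (A : V ≃ₗ[K] V) : (tr e A).det = A.det := LinearEquiv.det_conj A e

theorem tr_self (h A : V ≃ₗ[K] V) : tr h A = h * A * h⁻¹ := rfl

theorem tr_tr (e : V ≃ₗ[K] V') (e' : V' ≃ₗ[K] W) (A : V ≃ₗ[K] V) : tr e' (tr e A) = tr (e.trans e') A := rfl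

@[simp] theorem tr_symm_tr (e : V ≃ₗ[K] V') (A : V ≃ₗ[K] V) : tr e.symm (tr e A) = A := by ext; simp

@[simp] theorem tr_tr_symm (e : V ≃ₗ[K] V') (A : V' ≃ₗ[K] V') : tr e (tr e.symm A) = A := by ext; simp

/-- scalars -/
def sc (V : Type u) [AddCommGroup V] [Module K V] : Kˣ →* (V ≃ₗ[K] V) where
  toFun c := LinearEquiv.smulOfUnit c
  map_one' := by ext; simp [LinearEquiv.smulOfUnit]
  map_mul' a b := by ext; simp [LinearEquiv.smulOfUnit, mul_smul]

@[simp] theorem sc_apply (c : Kˣ) (u : V) : sc V c u = (c : K) • u := rfl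

theorem sc_coe (c : Kˣ) : (sc V c).toLinearMap = (c : K) • (1 : End K V) := rfl

theorem sc_comm (c : Kˣ) (A : V ≃ₗ[K] V) : sc V c * A = A * sc V c := by ext; simp

theorem det_sc (c : Kˣ) : (sc V c).det = c ^ finrank K V :=
  Units.ext (by simp [sc_coe, det_smul])

@[simp] theorem tr_sc (e : V ≃ₗ[K] V') (c : Kˣ) : tr e (sc V c) = sc V' c := by ext; simp

/-- direct sums -/
def pr (A : W ≃ₗ[K] W) (B : W' ≃ₗ[K] W') : (W × W') ≃ₗ[K] (W × W') := A.prodCongr B

@[simp] theorem pr_apply (A : W ≃ₗ[K] W) (B : W' ≃ₗ[K] W') (u : W × W') : pr A B u = (A u.1, B u.2) := rfl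

theorem pr_mul (A A' : W ≃ₗ[K] W) (B B' : W' ≃ₗ[K] W') : pr A B * pr A' B' = pr (A * A') (B * B') := rfl

theorem pr_inv (A : W ≃ₗ[K] W) (B : W' ≃ₗ[K] W') : (pr A B)⁻¹ = pr A⁻¹ B⁻¹ := rfl

theorem pr_sc (c : Kˣ) : pr (sc W c) (sc W' c) = sc (W × W') c := rfl

/-- block upper triangular maps -/
def UT (X : (W × W') ≃ₗ[K] (W × W')) (A : W ≃ₗ[K] W) (B : W' ≃ₗ[K] W') : Prop :=
  (∀ x, X (x, 0) = (A x, 0)) ∧ ∀ u, (X u).2 = B u.2

theorem UT.pr (A : W ≃ₗ[K] W) (B : W' ≃ₗ[K] W') : UT (pr A B) A B := ⟨fun x => by simp, fun _ => rfl⟩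

theorem UT.mul {X Y : (W × W') ≃ₗ[K] (W × W')} {A A' : W ≃ₗ[K] W} {B B' : W' ≃ₗ[K] W'} (h : UT X A B)
    (h' : UT Y A' B') : UT (X * Y) (A * A') (B * B') :=
  ⟨fun x => by simp [h.1, h'.1], fun u => by simp [h.2, h'.2]⟩

theorem UT.inv {X : (W × W') ≃ₗ[K] (W × W')} {A : W ≃ₗ[K] W} {B : W' ≃ₗ[K] W'} (h : UT X A B) : UT X⁻¹ A⁻¹ B⁻¹ :=
  ⟨fun x => X.injective (by simp [h.1]), fun u => B.injective (by simp [← h.2])⟩

theorem UT.det [FiniteDimensional K W] [FiniteDimensional K W'] {X : (W × W') ≃ₗ[K] (W × W')} {A : W ≃ₗ[K] W}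
    {B : W' ≃ₗ[K] W'} (h : UT X A B) : X.det = A.det * B.det := by
  classical
  let b := finBasis K W
  let b' := finBasis K W'
  have : toMatrix (b.prod b') (b.prod b') X.toLinearMap = Matrix.fromBlocks (toMatrix b b A.toLinearMap)
      (toMatrix b' b (fst K _ _ ∘ₗ X.toLinearMap ∘ₗ inr K _ _)) 0 (toMatrix b' b' B.toLinearMap) := by
    ext (i | i) (j | j) <;> simp [toMatrix_apply, h.1, h.2]
  refine Units.ext ?_
  rw [LinearEquiv.coe_det, ← det_toMatrix (b.prod b'), this, Matrix.det_fromBlocks_zero₂₁]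
  simp

theorem det_pr [FiniteDimensional K W] [FiniteDimensional K W'] (A : W ≃ₗ[K] W) (B : W' ≃ₗ[K] W') :
    (pr A B).det = A.det * B.det := (UT.pr A B).det

theorem ut_of_ex {A : V ≃ₗ[K] V} {B : W ≃ₗ[K] W} {C : W' ≃ₗ[K] W'} (i : W →ₗ[K] V) (p : V →ₗ[K] W')
    (hi : Function.Injective i) (hp : Function.Surjective p) (he : range i = ker p) (h1 : ∀ x, A (i x) = i (B x))
    (h2 : ∀ u, p (A u) = C (p u)) : ∃ e : V ≃ₗ[K] W × W', UT (tr e A) B C := by
  obtain ⟨s, hs⟩ := p.exists_rightInverse_of_surjective (range_eq_top.2 hp)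
  have h3 : ∀ y, p (s y) = y := fun y => congr($hs y)
  have h4 : ∀ x, p (i x) = 0 := fun x => he.le ⟨x, rfl⟩
  let e := LinearEquiv.ofBijective (coprod i s) ⟨(injective_iff_map_eq_zero _).2 fun ⟨x, y⟩ h => by
      have h5 : y = 0 := by simpa [h3, h4] using congrArg p h
      exact Prod.ext (hi (by simpa [h5] using h)) h5, fun u => by
      obtain ⟨x, hx⟩ := he.ge (show p (u - s (p u)) = 0 by simp [h3])
      exact ⟨(x, p u), by simp [hx]⟩⟩
  have h6 : ∀ x, e x = i x.1 + s x.2 := fun _ => rfl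
  have h5 : ∀ u, (e.symm u).2 = p u := fun u => by
    obtain ⟨x, rfl⟩ := e.surjective u
    rw [e.symm_apply_apply]; simp [h6, h3, h4]
  refine ⟨e.symm, fun x => e.injective (by rw [tr_apply, e.apply_symm_apply]; simp [h6, h1]), fun u => ?_⟩
  rw [tr_apply, h5, h2, ← h5]; simp

/-- the unipotent radical -/
def un (N : W' →ₗ[K] W) : (W × W') ≃ₗ[K] (W × W') where
  toFun u := (u.1 + N u.2, u.2)
  invFun u := (u.1 - N u.2, u.2)
  map_add' _ _ := by ext <;> simp; abel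
  map_smul' _ _ := by ext <;> simp
  left_inv u := by simp
  right_inv u := by simp

@[simp] theorem un_apply (N : W' →ₗ[K] W) (u : W × W') : un N u = (u.1 + N u.2, u.2) := rfl

theorem un_ut (N : W' →ₗ[K] W) : UT (un N) 1 1 := ⟨fun x => by simp, fun _ => rfl⟩

/-- no non-zero intertwiner -/
def Disj (A : W ≃ₗ[K] W) (B : W' ≃ₗ[K] W') : Prop := ∀ N : W' →ₗ[K] W, (∀ y, N (B y) = A (N y)) → N = 0

theorem Disj.inv {A : W ≃ₗ[K] W} {B : W' ≃ₗ[K] W'} (h : Disj A B) : Disj A⁻¹ B⁻¹ := fun N hN => h N fun y => by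
  have := hN (B y)
  rw [LinearEquiv.coe_inv, LinearEquiv.symm_apply_apply] at this
  simp [this]

theorem UT.split [FiniteDimensional K W] [FiniteDimensional K W'] {X : (W × W') ≃ₗ[K] (W × W')} {A : W ≃ₗ[K] W}
    {B : W' ≃ₗ[K] W'} (h : UT X A B) (hd : Disj A B) :
    ∃ g : (W × W') ≃ₗ[K] (W × W'), g.det = 1 ∧ g * X * g⁻¹ = Lv.pr A B := by
  let Φ : (W' →ₗ[K] W) →ₗ[K] (W' →ₗ[K] W) := llcomp K W' W W A.toLinearMap - lcomp K W B.toLinearMap
  have h1 : Function.Surjective Φ := injective_iff_surjective.1 ((injective_iff_map_eq_zero _).2 fun N hN =>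
    hd N fun y => (sub_eq_zero.1 (congr($hN y) :)).symm)
  obtain ⟨N, hN⟩ := h1 (fst K _ _ ∘ₗ X.toLinearMap ∘ₗ inr K _ _)
  refine ⟨un N, by simpa using (un_ut N).det, mul_inv_eq_iff_eq_mul.2 (LinearEquiv.ext fun ⟨x, y⟩ => ?_)⟩
  have h2 : A (N y) - N (B y) = (X (0, y)).1 := congr($hN y)
  have h3 : X (x, y) = (A x, 0) + X (0, y) := by rw [← h.1, ← map_add]; simp
  ext
  · simp [h3, ← h2, h.2]; abel
  · simp [h.2]

/-- products of conjugates, recording the determinants of the conjugating maps -/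
inductive In (A : V ≃ₗ[K] V) : List Kˣ → (V ≃ₗ[K] V) → Prop
  | nil : In A [] 1
  | cons (h : V ≃ₗ[K] V) {L : List Kˣ} {X : V ≃ₗ[K] V} : In A L X → In A (h.det :: L) (h * A * h⁻¹ * X)

variable {A B X Y : V ≃ₗ[K] V} {L L' : List Kˣ}

theorem In.cons' {γ : Kˣ} (h : V ≃ₗ[K] V) (hγ : h.det = γ) (H : In A L X) (e : Y = h * A * h⁻¹ * X) :
    In A (γ :: L) Y := hγ ▸ e ▸ H.cons h

theorem In.append (h : In A L X) (h' : In A L' Y) : In A (L ++ L') (X * Y) := by
  induction h with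
  | nil => simpa
  | cons g _ ih => exact ih.cons' g rfl (by group)

theorem In.conj (h : In A L X) (g : V ≃ₗ[K] V) : In A (L.map (g.det * ·)) (g * X * g⁻¹) := by
  induction h with
  | nil => simpa using In.nil
  | cons k _ ih => exact ih.cons' (g * k) (map_mul _ _ _) (by group)

theorem In.conj1 (h : In A L X) {g : V ≃ₗ[K] V} (hg : g.det = 1) : In A L (g * X * g⁻¹) := by
  simpa [hg] using h.conj g

theorem In.base {g : V ≃ₗ[K] V} (h : In (g * A * g⁻¹) L X) : In A (L.map (· * g.det)) X := by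
  induction h with
  | nil => exact In.nil
  | cons k _ ih => exact ih.cons' (k * g) (map_mul _ _ _) (by group)

theorem In.det (h : In A L X) : X.det = A.det ^ L.length := by
  induction h with
  | nil => simp
  | cons k _ ih => simp [ih, pow_succ']

theorem In.tr (h : In A L X) (e : V ≃ₗ[K] V') : In (tr e A) L (tr e X) := by
  induction h with
  | nil => simpa using In.nil
  | cons k _ ih => exact ih.cons' (Lv.tr e k) (det_tr _ _) (by simp)

theorem In.of_tr {e : V ≃ₗ[K] V'} {X : V' ≃ₗ[K] V'} (h : In (Lv.tr e A) L X) : In A L (Lv.tr e.symm X) := by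
  simpa using h.tr e.symm

theorem In.smul (h : In A L X) (c : Kˣ) : In (sc V c * A) L (sc V (c ^ L.length) * X) := by
  induction h with
  | nil => simpa using In.nil
  | cons k _ ih => exact ih.cons' k rfl (by ext; simp [pow_succ', mul_smul, -map_pow])

theorem In.sc (c : Kˣ) (hV : ∀ γ, ∃ h : V ≃ₗ[K] V, h.det = γ) (L : List Kˣ) : In (sc V c) L (sc V (c ^ L.length)) := by
  induction L with
  | nil => simpa using In.nil
  | cons γ L ih => obtain ⟨h, hh⟩ := hV γ; exact ih.cons' h hh (by ext; simp [pow_succ, mul_smul])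

theorem In.ut [FiniteDimensional K W] [FiniteDimensional K W'] {A : (W × W') ≃ₗ[K] (W × W')} {B X : W ≃ₗ[K] W}
    {C : W' ≃ₗ[K] W'} (hA : UT A B C) (h : In B L X) : ∀ {L' : List Kˣ} {Y : W' ≃ₗ[K] W'}, In C L' Y →
      L.length = L'.length → ∃ Z, In A (List.zipWith (· * ·) L L') Z ∧ UT Z X Y := by
  induction h with
  | nil =>
    rintro _ _ (_ | _) e
    · exact ⟨1, In.nil, UT.pr 1 1⟩
    · simp at e
  | cons k _ ih =>
    rintro _ _ (_ | ⟨k', h'⟩) e
    · simp at e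
    · obtain ⟨Z, h1, h2⟩ := ih h' (by simpa using e)
      exact ⟨_, h1.cons' (pr k k') (det_pr _ _) rfl, (((UT.pr k k').mul hA).mul (UT.pr k k').inv).mul h2⟩

/-- the class does not split in the special linear group -/
def Inv (A : V ≃ₗ[K] V) : Prop := ∀ γ : Kˣ, ∃ h : V ≃ₗ[K] V, h.det = γ ∧ h * A = A * h

theorem In.inv (hA : Inv A) (h : In A L X) : ∀ {L' : List Kˣ}, L'.length = L.length → In A L' X := by
  induction h with
  | nil => intro L' e; obtain rfl := List.length_eq_zero_iff.1 e; exact In.nil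
  | cons k _ ih =>
    rintro (_ | ⟨γ, L'⟩) e
    · simp at e
    · obtain ⟨g, h1, h2⟩ := hA (k.det⁻¹ * γ)
      refine (ih (by simpa using e)).cons' (k * g) (by simp [h1]) ?_
      rw [mul_assoc k g, h2]; group

theorem Inv.adj (hA : Inv A) (h : V ≃ₗ[K] V) (γ : Kˣ) : ∃ g : V ≃ₗ[K] V, g.det = γ ∧ g * A * g⁻¹ = h * A * h⁻¹ := by
  obtain ⟨g, h1, h2⟩ := hA (h.det⁻¹ * γ)
  exact ⟨h * g, by simp [h1], by rw [mul_assoc h g, h2]; group⟩

theorem Inv.inv (hA : Inv A) : Inv A⁻¹ := fun γ =>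
  (hA γ).imp fun _ h => ⟨h.1, (Commute.inv_right h.2).eq⟩

theorem Inv.tr (hA : Inv A) (e : V ≃ₗ[K] V') : Inv (tr e A) := fun γ =>
  let ⟨h, h1, h2⟩ := hA γ; ⟨Lv.tr e h, by simpa, by rw [← map_mul, h2, map_mul]⟩

/-- a product of `k` conjugates -/
def PG (A : V ≃ₗ[K] V) (k : ℕ) (X : V ≃ₗ[K] V) : Prop := ∃ L : List Kˣ, L.length = k ∧ In A L X

/-- a product of `k` conjugates by maps with any prescribed determinants -/
def PP (A : V ≃ₗ[K] V) (k : ℕ) (X : V ≃ₗ[K] V) : Prop := ∀ L : List Kˣ, L.length = k → In A L X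

variable {k l : ℕ}

theorem PP.pg (h : PP A k X) : PG A k X := ⟨.replicate k 1, by simp, h _ (by simp)⟩

theorem PG.pp (h : PG A k X) (hA : Inv A) : PP A k X := fun _ e =>
  let ⟨_, h1, h2⟩ := h; h2.inv hA (e.trans h1.symm)

theorem PG.conj (h : PG A k X) (g : V ≃ₗ[K] V) : PG A k (g * X * g⁻¹) :=
  let ⟨_, h1, h2⟩ := h; ⟨_, by simpa, h2.conj g⟩

theorem PG.base {g : V ≃ₗ[K] V} (h : PG (g * A * g⁻¹) k X) : PG A k X :=
  let ⟨_, h1, h2⟩ := h; ⟨_, by simpa, h2.base⟩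

theorem PG.mul (h : PG A k X) (h' : PG A l Y) : PG A (k + l) (X * Y) :=
  let ⟨_, h1, h2⟩ := h; let ⟨_, h3, h4⟩ := h'; ⟨_, by simp [h1, h3], h2.append h4⟩

theorem PG.tr (h : PG A k X) (e : V ≃ₗ[K] V') : PG (tr e A) k (tr e X) :=
  let ⟨L, h1, h2⟩ := h; ⟨L, h1, h2.tr e⟩

theorem PG.one (A g : V ≃ₗ[K] V) : PG A 1 (g * A * g⁻¹) := ⟨[g.det], rfl, In.nil.cons' g rfl (by simp)⟩

theorem PG.zero (A : V ≃ₗ[K] V) : PG A 0 1 := ⟨[], rfl, In.nil⟩

theorem PG.det (h : PG A k X) : X.det = A.det ^ k := let ⟨_, h1, h2⟩ := h; h1 ▸ h2.det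

theorem PG.comp (h : PG A k B) (h' : PG B l X) : PG A (l * k) X := by
  obtain ⟨L, rfl, h'⟩ := h'
  induction h' with
  | nil => simpa using PG.zero A
  | cons g _ ih => simpa [add_mul, add_comm] using (h.conj g).mul ih

theorem zip_eq (L L' : List Kˣ) (e : L.length = L'.length) :
    List.zipWith (· * ·) L (List.zipWith (fun a b => a⁻¹ * b) L L') = L' ∧
      List.zipWith (· * ·) (List.zipWith (fun a b => a⁻¹ * b) L L') L = L' := by
  induction L generalizing L' with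
  | nil => simp [List.length_eq_zero_iff.1 e.symm]
  | cons a L ih =>
    obtain _ | ⟨b, L'⟩ := L'
    · simp at e
    · simp [ih L' (by simpa using e), mul_right_comm]

section
variable [FiniteDimensional K W] [FiniteDimensional K W'] {A : (W × W') ≃ₗ[K] (W × W')} {B X : W ≃ₗ[K] W}
  {C Y : W' ≃ₗ[K] W'}

theorem In.split (hA : UT A B C) (h : In B L X) (h' : In C L' Y) (e : L.length = L'.length) (hd : Disj X Y) :
    In A (List.zipWith (· * ·) L L') (pr X Y) := by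
  obtain ⟨Z, h1, h2⟩ := h.ut hA h' e
  obtain ⟨g, h3, h4⟩ := h2.split hd
  exact h4 ▸ h1.conj1 h3

theorem PG.split_r (hA : UT A B C) (h : PG B k X) (h' : PP C k Y) (hd : Disj X Y) : PP A k (pr X Y) := fun L e => by
  obtain ⟨L₁, h1, h2⟩ := h
  have := h2.split hA (h' (List.zipWith (fun a b => a⁻¹ * b) L₁ L) (by simp [h1, e])) (by simp [h1, e]) hd
  rwa [(zip_eq _ _ (h1.trans e.symm)).1] at this

theorem PP.split_l (hA : UT A B C) (h : PP B k X) (h' : PG C k Y) (hd : Disj X Y) : PP A k (pr X Y) := fun L e => by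
  obtain ⟨L₁, h1, h2⟩ := h'
  have := (h (List.zipWith (fun a b => a⁻¹ * b) L₁ L) (by simp [h1, e])).split hA h2 (by simp [h1, e]) hd
  rwa [(zip_eq _ _ (h1.trans e.symm)).2] at this

theorem PG.split (hA : UT A B C) (h : PG B k X) (h' : PG C k Y) (hd : Disj X Y) : PG A k (pr X Y) := by
  obtain ⟨L₁, h1, h2⟩ := h
  obtain ⟨L₂, h3, h4⟩ := h'
  exact ⟨_, by simp [h1, h3], h2.split hA h4 (h1.trans h3.symm) hd⟩

end

end H11.Lv
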