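import Cfsg.Agent.H11.Lv1

/-! Cyclic elements with a simple eigenvalue, and covering properties. -/

set_option autoImplicit false
set_option linter.unusedSectionVars false

namespace H11.Lv

open Module Submodule LinearMap H22.CY Polynomial

universe u

variable {K : Type u} [Field K] {V V' W W' : Type u} [AddCommGroup V] [Module K V] [AddCommGroup V'] [Module K V']
  [AddCommGroup W] [Module K W] [AddCommGroup W'] [Module K W'] {A B X Y Z g : V ≃ₗ[K] V} {k l : ℕ}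

theorem exd {p : Submodule K V} {v : V} (hv : v ∉ p) (c : K) : ∃ f : Dual K V, f v = c ∧ ∀ x ∈ p, f x = 0 := by
  obtain ⟨f, h1, h2⟩ := p.exists_le_ker_of_notMem hv
  exact ⟨(c / f v) • f, by simp [h1], fun x hx => by simp [show f x = 0 from h2 hx]⟩

/-- `1 + v ⊗ f` -/
noncomputable def dil (f : Dual K V) (v : V) (h : 1 + f v ≠ 0) : V ≃ₗ[K] V := LinearEquiv.dilatransvection h.isUnit

@[simp] theorem dil_apply (f : Dual K V) (v : V) (h : 1 + f v ≠ 0) (x : V) : dil f v h x = x + f x • v :=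
  LinearEquiv.dilatransvection.apply

theorem det_dil [FiniteDimensional K V] (f : Dual K V) (v : V) (h : 1 + f v ≠ 0) :
    ((dil f v h).det : K) = 1 + f v := by simp [dil]

/-- not a scalar -/
def NS (A : V ≃ₗ[K] V) : Prop := ∀ c : K, A.toLinearMap ≠ c • 1

theorem ns_iff : NS A ↔ ∃ v, A v ∉ K ∙ v := by
  refine ⟨fun hA => ?_, fun ⟨v, hv⟩ c e => hv (mem_span_singleton.2 ⟨c, (congr($e v) :).symm⟩)⟩
  by_contra! H
  obtain ⟨c, hc⟩ := exists_eq_smul_id_of_forall_notLinearIndependent (f := A.toLinearMap) fun v h => by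
    obtain ⟨c, e⟩ := mem_span_singleton.1 (H v)
    simpa using (LinearIndependent.pair_iff.1 h c (-1) (by simp [e])).2
  exact hA c hc

theorem ns_iff' : NS A ↔ ∀ c : K, ∃ v, A v ≠ c • v :=
  forall_congr' fun _ => by simp [LinearMap.ext_iff]

theorem NS.tr (h : NS A) (e : V ≃ₗ[K] V') : NS (tr e A) := ns_iff'.2 fun c =>
  let ⟨v, hv⟩ := ns_iff'.1 h c; ⟨e v, by simpa [← map_smul] using hv⟩

theorem NS.conj (h : NS A) (g : V ≃ₗ[K] V) : NS (g * A * g⁻¹) := h.tr g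

theorem NS.inv (h : NS A) : NS A⁻¹ := ns_iff'.2 fun c => by
  by_contra! H
  obtain ⟨v, hv⟩ := ns_iff'.1 h c⁻¹
  have := H (A v)
  rw [LinearEquiv.coe_inv, A.symm_apply_apply] at this
  by_cases hc : c = 0
  · rw [hc, zero_smul] at this; simp [this] at hv
  · exact hv ((eq_inv_smul_iff₀ hc).2 this.symm)

theorem NS.smul (h : NS A) (c : Kˣ) : NS (sc V c * A) := ns_iff'.2 fun d =>
  let ⟨v, hv⟩ := ns_iff'.1 h ((c : K)⁻¹ * d)
  ⟨v, fun e => hv (by rw [mul_smul, eq_inv_smul_iff₀ c.ne_zero]; exact e)⟩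

theorem NS.nontrivial (h : NS A) : Nontrivial V := let ⟨_, hv⟩ := ns_iff'.1 h 0; ⟨_, _, hv⟩

theorem NS.two_le [FiniteDimensional K V] (h : NS A) : 2 ≤ finrank K V := by
  obtain ⟨v, hv⟩ := ns_iff.1 h
  by_contra! H
  have hv0 : v ≠ 0 := by rintro rfl; simp at hv
  exact hv ((eq_top_of_finrank_eq (by have := finrank_span_singleton (K := K) hv0; have := (K ∙ v).finrank_le; omega)).ge
    mem_top)

theorem NS.of_surj {C : W ≃ₗ[K] W} (p : V →ₗ[K] W) (h : ∀ u, p (A u) = C (p u)) {F : Submodule K V} (hF : ker p ≤ F)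
    {v : V} (hv : A v ∉ F ⊔ K ∙ v) : NS C := ns_iff'.2 fun c => ⟨p v, fun e => hv (by
  have : A v - c • v ∈ F := hF (by simp [h, e])
  simpa using add_mem_sup this (smul_mem _ c (mem_span_singleton_self v)))⟩

theorem NS.of_inj {C : W ≃ₗ[K] W} (i : W →ₗ[K] V) (h : ∀ u, A (i u) = i (C u)) {w : W} (hw : A (i w) ∉ K ∙ i w) :
    NS C := ns_iff'.2 fun c => ⟨w, fun e => hw (by rw [h, e, map_smul]; exact smul_mem _ c (mem_span_singleton_self _))⟩

/-- cyclic -/
def CY (A : V ≃ₗ[K] V) : Prop := ∃ v, Cyc A.toLinearMap v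

theorem CY.tr (h : CY A) (e : V ≃ₗ[K] V') : CY (tr e A) := let ⟨v, hv⟩ := h; ⟨e v, hv.map e (by simp)⟩

theorem CY.conj (h : CY A) (g : V ≃ₗ[K] V) : CY (g * A * g⁻¹) := h.tr g

theorem inv_mem [FiniteDimensional K V] {p : Submodule K V} (h : ∀ u ∈ p, A u ∈ p) (u : V) (hu : u ∈ p) :
    A⁻¹ u ∈ p := by
  have h3 : Function.Injective (A.toLinearMap.restrict h) := fun x y e => Subtype.ext (A.injective congr($e))
  obtain ⟨w, hw⟩ := injective_iff_surjective.1 h3 ⟨u, hu⟩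
  obtain rfl : A w = u := congr($hw)
  simp

theorem CY.inv [FiniteDimensional K V] (h : CY A) : CY A⁻¹ :=
  h.imp fun _ hv p h1 h2 => hv p h1 (inv_mem (A := A⁻¹) h2)

theorem CY.smul (h : CY A) (c : Kˣ) : CY (sc V c * A) :=
  h.imp fun _ hv p h1 h2 => hv p h1 fun u hu => (p.smul_mem_iff c.ne_zero).1 (h2 u hu)

theorem CY.ns [FiniteDimensional K V] (h : CY A) (h2 : 2 ≤ finrank K V) : NS A := fun c e => by
  obtain ⟨v, hv⟩ := h
  have := hv (K ∙ v) (mem_span_singleton_self v) fun u hu => by rw [e]; exact smul_mem _ c hu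
  have h3 := finrank_span_le_card (R := K) ({v} : Set V)
  rw [this, finrank_top] at h3
  simp at h3; omega

/-- an eigenvector off the corresponding invariant hyperplane -/
def EP (A : V ≃ₗ[K] V) : Prop :=
  ∃ (θ : K) (u : V) (ω : Dual K V), A u = θ • u ∧ (∀ x, ω (A x) = θ * ω x) ∧ ω u = 1

theorem ep_of {θ : K} {u : V} (h : A u = θ • u) (h' : ∀ x, A x - θ • x ≠ u) : EP A := by
  obtain ⟨ω, h1, h2⟩ := exd (p := range (A.toLinearMap - θ • 1)) (v := u) (fun ⟨x, e⟩ => h' x e) 1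
  exact ⟨θ, u, ω, h, fun x => by simpa [sub_eq_zero] using h2 _ ⟨x, rfl⟩, h1⟩

theorem EP.inv' [FiniteDimensional K V] (h : EP A) : Inv A := fun γ => by
  obtain ⟨θ, u, ω, h1, h2, h3⟩ := h
  refine ⟨dil (((γ : K) - 1) • ω) u (by simp [h3]), Units.ext (by simp [det_dil, h3, -LinearEquiv.coe_det]), ?_⟩
  ext x; simp [h1, h2, smul_smul]; ring_nf

theorem EP.tr (h : EP A) (e : V ≃ₗ[K] V') : EP (tr e A) :=
  let ⟨θ, u, ω, h1, h2, h3⟩ := h; ⟨θ, e u, ω ∘ₗ e.symm.toLinearMap, by simp [h1], by simp [h2], by simp [h3]⟩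

theorem EP.inv (h : EP A) : EP A⁻¹ := by
  obtain ⟨θ, u, ω, h1, h2, h3⟩ := h
  have h0 : θ ≠ 0 := by rintro rfl; simp at h1; simp [h1] at h3
  refine ⟨θ⁻¹, u, ω, A.injective (by simp [h1, h0]), fun x => ?_, h3⟩
  obtain ⟨x, rfl⟩ := A.surjective x
  simp [h2, h0]

theorem EP.pr_l {A : W ≃ₗ[K] W} (h : EP A) (B : W' ≃ₗ[K] W') : EP (pr A B) :=
  let ⟨θ, u, ω, h1, h2, h3⟩ := h; ⟨θ, (u, 0), ω ∘ₗ fst K _ _, by simp [h1], by simp [h2], by simp [h3]⟩

theorem EP.pr_r {B : W' ≃ₗ[K] W'} (h : EP B) (A : W ≃ₗ[K] W) : EP (pr A B) :=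
  let ⟨θ, u, ω, h1, h2, h3⟩ := h; ⟨θ, (0, u), ω ∘ₗ snd K _ _, by simp [h1], by simp [h2], by simp [h3]⟩

theorem ep_sc [Nontrivial V] (c : Kˣ) : EP (sc V c) := by
  obtain ⟨u, hu⟩ := exists_ne (0 : V)
  exact ep_of (θ := c) (u := u) rfl fun x => by simpa using hu.symm

theorem exists_det [FiniteDimensional K V] [Nontrivial V] (γ : Kˣ) : ∃ h : V ≃ₗ[K] V, h.det = γ :=
  ((ep_sc (V := V) 1).inv' γ).imp fun _ h => h.1

/-- cyclic with a simple eigenvalue -/
def DT (A : V ≃ₗ[K] V) : Prop := CY A ∧ EP A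

theorem DT.tr (h : DT A) (e : V ≃ₗ[K] V') : DT (tr e A) := ⟨h.1.tr e, h.2.tr e⟩

theorem DT.inv [FiniteDimensional K V] (h : DT A) : DT A⁻¹ := ⟨h.1.inv, h.2.inv⟩

theorem facG [Finite K] [FiniteDimensional K V] (hg : NS g) (hX : DT X) (hZ : CY Z) (hd : Z.det = g.det * X.det) :
    ∃ h h' : V ≃ₗ[K] V, g * (h * X * h⁻¹) = h' * Z * h'⁻¹ := by
  obtain ⟨⟨v, hv⟩, θ, u, ω, h1, h2, h3⟩ := hX
  obtain ⟨z, hz⟩ := hZ
  obtain ⟨n, hn⟩ : ∃ n, finrank K V = n + 1 := ⟨_, (Nat.succ_pred_eq_of_pos (by have := hg.two_le; omega)).symm⟩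
  have h4 : ∀ x ∈ ker ω, X.toLinearMap x ∈ ker ω := fun x hx => by simp [h2, show ω x = 0 from hx]
  let Y := X.toLinearMap.restrict h4
  have h5 : ∀ x, X ((spl h3).symm x) = (spl h3).symm (blk Y θ x) := fun x => by
    simp [spl, blk_apply, h1, Y, smul_smul, mul_comm]
  have h6 : Cyc (blk Y θ) (spl h3 v) := hv.map _ fun x => (spl h3).symm.injective (by simp [← h5])
  have h7 : Cyc Y (spl h3 v).1 := fun p a b => eq_top_iff.2 fun w _ =>
    (h6 (p.comap (fst K _ _)) a fun x hx => b _ hx).ge (mem_top (x := (w, 0)))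
  have h8 : ω v ≠ 0 := fun e => by simpa [h3] using (hv (ker ω) e h4).ge (mem_top (x := u))
  have h9 : Function.Surjective (Y - θ • 1 : End K (ker ω)) := fun w => by
    have := hv (range (X.toLinearMap - θ • 1) ⊔ K ∙ v) (mem_sup_right (mem_span_singleton_self v)) fun x hx => by
      simpa using add_mem (mem_sup_left (mem_range_self (X.toLinearMap - θ • 1) x)) (smul_mem _ θ hx)
    obtain ⟨_, ⟨x, rfl⟩, y, hy, e⟩ := mem_sup.1 (this.ge (mem_top (x := (w : V))))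
    obtain ⟨c, rfl⟩ := mem_span_singleton.1 hy
    have hc : c = 0 := by simpa [h2, h8, show ω w = 0 from w.2] using congrArg ω e
    refine ⟨(spl h3 x).1, Subtype.ext ?_⟩
    rw [← e, hc]; simp [spl, Y, h1, smul_sub, smul_smul, mul_comm]
  have h10 : X.toLinearMap.det = Y.det * θ := by rw [← det_blk]; exact det_eq_of _ h5
  obtain ⟨h₁, h₂, h⟩ := fac hn hn (finrank_ker h3 hn) hg h7 ⟨injective_iff_surjective.2 h9, h9⟩ hz
    (by rw [← h10]; simpa using congrArg Units.val hd) Z.isUnit_det'.ne_zero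
  refine ⟨(spl h3).trans h₁, h₂, eq_mul_inv_iff_mul_eq.2 (LinearEquiv.ext fun x => Eq.trans ?_ (h x))⟩
  simp [h5]

/-- every non-scalar element with the right determinant is a product of `k` conjugates -/
def NG (A : V ≃ₗ[K] V) (k : ℕ) : Prop := ∀ g, NS g → g.det = A.det ^ k → PG A k g

/-- the same with prescribed determinants of the conjugating maps -/
def NP (A : V ≃ₗ[K] V) (k : ℕ) : Prop := ∀ g, NS g → g.det = A.det ^ k → PP A k g

theorem NP.ng (h : NP A k) : NG A k := fun g h1 h2 => (h g h1 h2).pg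

theorem NG.np (h : NG A k) (hA : Inv A) : NP A k := fun g h1 h2 => (h g h1 h2).pp hA

theorem NP.of_tr {e : V ≃ₗ[K] V'} (h : NP (tr e A) k) : NP A k := fun g h1 h2 L e' => by
  simpa using (h _ (h1.tr e) (by simpa) L e').of_tr

theorem NG.of_tr {e : V ≃ₗ[K] V'} (h : NG (tr e A) k) : NG A k := fun g h1 h2 => by
  simpa using (h _ (h1.tr e) (by simpa)).tr e.symm

variable [FiniteDimensional K V]

theorem exists_ns (hA : NS A) (g : V ≃ₗ[K] V) (γ : Kˣ) : ∃ h : V ≃ₗ[K] V, h.det = γ ∧ NS ((h * A * h⁻¹)⁻¹ * g) := by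
  have := hA.nontrivial
  obtain ⟨h, rfl⟩ := exists_det (V := V) γ
  by_contra! H
  obtain ⟨x, hx⟩ := ns_iff.1 (hA.conj h)
  obtain ⟨φ, h1, h2⟩ := exd hx 1
  replace h2 := h2 x (mem_span_singleton_self x)
  let t := dil φ x (by simp [h2])
  have h3 : t x = x := by simp [t, h2]
  obtain ⟨c, hc⟩ := not_forall.1 (H h rfl)
  obtain ⟨d, hd⟩ := not_forall.1 (H (t * h) (Units.ext (by simp [t, det_dil, h2, -LinearEquiv.coe_det])))
  rw [show t * h * A * (t * h)⁻¹ = t * (h * A * h⁻¹) * t⁻¹ by group] at hd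
  generalize h * A * h⁻¹ = B at *
  have h4 : g x = c • B x := by simpa using congrArg B (congr($(not_not.1 hc) x) :)
  have h5 : g x = d • t (B (t.symm x)) := by simpa using congrArg (t * B * t⁻¹) (congr($(not_not.1 hd) x) :)
  rw [t.symm_apply_eq.2 h3.symm, dil_apply, h1, h4] at h5
  have h6 : c = d := by simpa [h1, h2] using congrArg φ h5
  have h7 : x ≠ 0 := by rintro rfl; simp at hx
  have h8 : d = 0 := by simpa [h6, h7] using h5
  simp [h6, h8, h7] at h4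

theorem NP.succ (hA : NS A) (h : NP A k) : NP A (k + 1) := by
  rintro g - h2 (_ | ⟨γ, L⟩) e
  · simp at e
  obtain ⟨s, h3, h4⟩ := exists_ns hA g γ
  exact (h _ h4 (by simp [h2, pow_succ']) L (by simpa using e)).cons' s h3 (by group)

theorem NG.succ (hA : NS A) (h : NG A k) : NG A (k + 1) := fun g _ h2 => by
  obtain ⟨s, -, h4⟩ := exists_ns hA g 1
  have := (PG.one A s).mul (h _ h4 (by simp [h2, pow_succ']))
  rwa [mul_inv_cancel_left, add_comm] at this

theorem NP.mono (hA : NS A) (h : NP A k) (hl : k ≤ l) : NP A l := by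
  induction hl with
  | refl => exact h
  | step _ ih => exact ih.succ hA

theorem NG.mono (hA : NS A) (h : NG A k) (hl : k ≤ l) : NG A l := by
  induction hl with
  | refl => exact h
  | step _ ih => exact ih.succ hA

/-- some scalar is a product of `k` conjugates by maps of determinant one -/
def Id (A : V ≃ₗ[K] V) (k : ℕ) : Prop := ∃ c : Kˣ, In A (.replicate k 1) (sc V c)

theorem Id.of_tr {e : V ≃ₗ[K] V'} (h : Id (tr e A) k) : Id A k := h.imp fun c h => by simpa using h.of_tr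

theorem NP.id (hA : NS A) (h : NP A k) (hd : A.det ^ (k + 1) = 1) : Id A (k + 1) :=
  ⟨1, (h _ hA.inv (by rw [map_inv, inv_eq_iff_mul_eq_one, ← pow_succ', hd]) (.replicate k 1) (by simp)).cons' 1
    (map_one _) (by simp)⟩

variable [Finite K]

/-- a cyclic element with a simple eigenvalue among the products -/
def DP (A : V ≃ₗ[K] V) (k : ℕ) : Prop := ∀ L : List Kˣ, L.length = k → ∃ X, In A L X ∧ DT X

theorem PP.dp (h : PP A k X) (hX : DT X) : DP A k := fun L e => ⟨X, h L e, hX⟩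

theorem fac' (hg : NS g) (hX : DT X) (hZ : CY Z) (hd : g.det = X.det * Z.det) :
    ∃ h h' : V ≃ₗ[K] V, h.det = 1 ∧ g = (h * X * h⁻¹) * (h' * Z * h'⁻¹) := by
  obtain ⟨h, h', e⟩ := facG hg.inv hX hZ.inv (by simp [hd])
  obtain ⟨s, h1, h2⟩ := hX.2.inv'.adj h 1
  refine ⟨s, h', h1, ?_⟩
  rw [h2, inv_mul_eq_iff_eq_mul.1 e]; group

theorem DP.np (h : DP A k) : NP A (k + k) := fun g h1 h2 L e => by
  obtain ⟨X, a1, a2⟩ := h (L.take k) (by simp [e])
  obtain ⟨Y, b1, b2⟩ := h (L.drop k) (by simp [e])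
  obtain ⟨s, t, c1, c2⟩ := fac' h1 a2 b2.1 (by simp [h2, a1.det, b1.det, e, pow_add])
  obtain ⟨t', c3, c4⟩ := b2.2.inv'.adj t 1
  simpa [c4, ← c2] using (a1.conj1 c1).append (b1.conj1 c3)

theorem ng_of (h : PG A k X) (hX : DT X) (h' : PG A l Z) (hZ : CY Z) : NG A (k + l) := fun g h1 h2 => by
  obtain ⟨s, t, -, c2⟩ := fac' h1 hX hZ (by simp [h2, h.det, h'.det, pow_add])
  exact c2 ▸ (h.conj s).mul (h'.conj t)

theorem fac2 (hA : NS A) (hB : CY B) (hX : DT X) (hd : X.det = A.det * B.det) :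
    ∃ h h' : V ≃ₗ[K] V, X = (h * A * h⁻¹) * (h' * B * h'⁻¹) := by
  obtain ⟨h, h', e⟩ := facG hA.inv hX hB (by simp [hd])
  refine ⟨h⁻¹, h⁻¹ * h', ?_⟩
  rw [show X = h⁻¹ * (A * (A⁻¹ * (h * X * h⁻¹))) * h by group, e]; group

theorem pg_two (hA : NS A) (hA' : CY A) (hX : DT X) (hd : X.det = A.det ^ 2) : PG A 2 X := by
  obtain ⟨h, h', e⟩ := fac2 hA hA' hX (by rw [hd, sq])
  exact e ▸ (PG.one A h).mul (PG.one A h')

theorem PG.fac (h : PG A k X) (hX : DT X) (hA : NS A) (hZ : CY Z) (hd : Z.det = A.det * X.det) :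
    PG A (1 + k) Z := by
  obtain ⟨s, t, e⟩ := facG hA hX hZ hd
  have := ((PG.one A 1).mul (h.conj s)).conj t⁻¹
  rwa [one_mul, inv_one, mul_one, e, show t⁻¹ * (t * Z * t⁻¹) * t⁻¹⁻¹ = Z by group] at this

end H11.Lv
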