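import Cfsg.Agent.H11.Lv2

/-! Polynomial models, irreducible polynomials with prescribed constant term, simple operators. -/

set_option autoImplicit false
set_option linter.unusedSectionVars false

namespace H11.Lv

open Module Submodule LinearMap H22.CY Polynomial H11.Th

universe u

variable {K : Type u} [Field K] {V V' W W' : Type u} [AddCommGroup V] [Module K V] [AddCommGroup V'] [Module K V']
  [AddCommGroup W] [Module K W] [AddCommGroup W'] [Module K W'] {A B : V ≃ₗ[K] V} {k m : ℕ} {f g : K[X]} {d : Kˣ}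

/-- cyclic and killed by `f` -/
def CK (A : V ≃ₗ[K] V) (f : K[X]) : Prop := CY A ∧ aeval A.toLinearMap f = 0

theorem CK.tr (h : CK A f) (e : V ≃ₗ[K] V') : CK (tr e A) f := ⟨h.1.tr e, LinearMap.ext fun u => by
  obtain ⟨u, rfl⟩ := e.surjective u
  simpa [h.2] using (semi (X' := A.toLinearMap) (Y := (Lv.tr e A).toLinearMap) e.toLinearMap (by simp) f u).symm⟩

theorem bez {A : End K V} (h : IsCoprime f g) (h1 : aeval A f = 0) (u : V) : ∃ p : K[X], aeval A (p * g) u = u := by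
  obtain ⟨a, b, e⟩ := h
  exact ⟨b, by simpa [h1] using congr(aeval A $e u)⟩

theorem CK.disj {A : W ≃ₗ[K] W} {B : W' ≃ₗ[K] W'} (h : CK A f) (h' : CK B g) (hc : IsCoprime f g) : Disj A B :=
  fun N hN => LinearMap.ext fun y => by
    obtain ⟨p, hp⟩ := bez hc h.2 (N y)
    rw [← hp, ← semi (X' := B.toLinearMap) N hN]; simp [h'.2]

theorem aeval_mem {A : End K V} {p : Submodule K V} (h : ∀ u ∈ p, A u ∈ p) (f : K[X]) {u : V} (hu : u ∈ p) :
    aeval A f u ∈ p := by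
  have := semi (X' := A.restrict h) (Y := A) p.subtype (fun _ => rfl) f ⟨u, hu⟩
  exact this ▸ Subtype.prop _

theorem aeval_pr (A : W ≃ₗ[K] W) (B : W' ≃ₗ[K] W') (f : K[X]) (u : W × W') :
    aeval (pr A B).toLinearMap f u = (aeval A.toLinearMap f u.1, aeval B.toLinearMap f u.2) :=
  Prod.ext (semi (fst K W W') (fun _ => rfl) f u) (semi (snd K W W') (fun _ => rfl) f u)

theorem CK.pr {A : W ≃ₗ[K] W} {B : W' ≃ₗ[K] W'} (h : CK A f) (h' : CK B g) (hc : IsCoprime f g) :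
    CK (pr A B) (f * g) := by
  obtain ⟨⟨v, hv⟩, h1⟩ := h
  obtain ⟨⟨w, hw⟩, h2⟩ := h'
  refine ⟨⟨(v, w), fun p a b => eq_top_iff.2 fun ⟨x, y⟩ _ => ?_⟩, LinearMap.ext fun u => ?_⟩
  · obtain ⟨s, hs⟩ := bez hc h1 v
    have h3 := aeval_mem b (s * g) a
    rw [aeval_pr, hs, map_mul, h2, mul_zero, LinearMap.zero_apply] at h3
    have h4 : (0, w) ∈ p := by simpa using p.sub_mem a h3
    simpa using p.add_mem ((hv (p.comap (inl K _ _)) h3 fun u hu => by simpa using b _ hu).ge (mem_top (x := x)))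
      ((hw (p.comap (inr K _ _)) h4 fun u hu => by simpa using b _ hu).ge (mem_top (x := y)))
  · rw [aeval_pr, map_mul, h1, mul_comm f, map_mul, h2]; simp

theorem CK.ne (h : CK A f) {θ : K} (h' : f.eval θ ≠ 0) {u : V} (e : A u = θ • u) : u = 0 := by
  have := End.aeval_apply_of_mem_apply_eq_smul (p := f) (f := A.toLinearMap) e
  rw [h.2] at this
  exact (smul_eq_zero.1 this.symm).resolve_left h'

theorem ck_sc [FiniteDimensional K V] (h : finrank K V = 1) (θ : Kˣ) : CK (sc V θ) (X - C (θ : K)) := by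
  obtain ⟨v, h1, h2⟩ := finrank_eq_one_iff'.1 h
  exact ⟨⟨v, fun p a _ => eq_top_iff.2 fun w _ => let ⟨c, e⟩ := h2 w; e ▸ p.smul_mem c a⟩, by
    simp [sc_coe, Algebra.algebraMap_eq_smul_one]⟩

/-- monic of degree `m`, the characteristic polynomial of a map of determinant `d` -/
def Good (f : K[X]) (m : ℕ) (d : Kˣ) : Prop := f.Monic ∧ f.natDegree = m ∧ f.coeff 0 = (-1) ^ m * d

theorem exists_ck [FiniteDimensional K V] (h : Good f (finrank K V) d) : ∃ A : V ≃ₗ[K] V, CK A f ∧ A.det = d := by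
  obtain ⟨hf, hn, h0⟩ := h
  let pb := AdjoinRoot.powerBasis hf.ne_zero
  have := pb.finite
  let e : AdjoinRoot f ≃ₗ[K] V := .ofFinrankEq _ _ (by simp [pb.finrank, pb, hn])
  have h2 : (Algebra.lmul K _ (AdjoinRoot.root f)).det = d := by
    have := Algebra.PowerBasis.norm_gen_eq_coeff_zero_minpoly pb
    rw [AdjoinRoot.minpoly_powerBasis_gen_of_monic hf, h0, show pb.dim = finrank K V from hn, ← mul_assoc,
      ← mul_pow] at this
    exact this.trans (by simp)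
  let A := equivOfDetNeZero _ (h2 ▸ d.ne_zero)
  have h1 : CK A f := ⟨⟨1, fun p h1 h2 => eq_top_iff.2 fun u _ => by
    obtain ⟨g, rfl⟩ := AdjoinRoot.mk_surjective u
    induction g using Polynomial.induction_on with
    | C a => simpa [Algebra.smul_def] using p.smul_mem a h1
    | add _ _ a b => exact map_add (AdjoinRoot.mk f) _ _ ▸ p.add_mem (a trivial) (b trivial)
    | monomial k a ih =>
      rw [pow_succ, ← mul_assoc, mul_comm, map_mul, AdjoinRoot.mk_X]; exact h2 _ (ih trivial)⟩,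
    (aeval_algHom_apply (Algebra.lmul K _) _ _).trans (by simp)⟩
  exact ⟨tr e A, h1.tr e, (det_tr _ _).trans (Units.ext ((LinearEquiv.coe_det _).trans h2))⟩

theorem exists_dt [FiniteDimensional K V] (hV : finrank K V = m + 1) (h : Good f m d) {θ : Kˣ} (h1 : f.eval (θ : K) ≠ 0) :
    ∃ A : V ≃ₗ[K] V, CK A (f * (X - C (θ : K))) ∧ EP A ∧ A.det = d * θ := by
  obtain ⟨A, h2, h3⟩ := exists_ck (V := Fin m → K) (f := f) (d := d) (by simpa)
  let e : ((Fin m → K) × K) ≃ₗ[K] V := .ofFinrankEq _ _ (by simp [hV])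
  exact ⟨tr e (pr A (sc K θ)), (h2.pr (ck_sc (by simp) θ) ((irreducible_X_sub_C _).coprime_iff_not_dvd.2
    (by rwa [dvd_iff_isRoot])).symm).tr e, ((ep_sc θ).pr_r A).tr e, by simp [det_pr, det_sc, h3]⟩

open IntermediateField in
theorem exists_irr [Finite K] (hm : m ≠ 0) (d : Kˣ) : ∃ f, Good f m d ∧ Irreducible f := by
  obtain ⟨p, hp⟩ := CharP.exists K
  have : Fact p.Prime := ⟨CharP.char_is_prime K p⟩
  have : NeZero m := ⟨hm⟩
  let L := FiniteField.Extension K p m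
  have hL : finrank K L = m := FiniteField.finrank_extension K p m
  obtain ⟨γ, hγ⟩ := IsCyclic.exists_generator (α := Lˣ)
  obtain ⟨x, hx⟩ := FiniteField.unitsMap_norm_surjective K L d
  have hq : 1 < Nat.card K := Finite.one_lt_card
  obtain ⟨n, rfl⟩ := (mem_powers_iff_mem_zpowers.2 (hγ x) :)
  obtain ⟨e, h1, h2, h3⟩ : ∃ e, 0 < e ∧ e ≤ Nat.card K - 1 ∧ Algebra.norm K ((γ : L) ^ e) = d := by
    have h0 : 0 < Nat.card K - 1 := by omega
    refine ⟨(n + (Nat.card K - 1) - 1) % (Nat.card K - 1) + 1, by omega, Nat.mod_lt _ h0, ?_⟩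
    have h1 : Units.map (Algebra.norm K (S := L)) γ ^ (Nat.card K - 1) = 1 := by
      rw [← Nat.card_units]; exact pow_card_eq_one'
    have h2 : Units.map (Algebra.norm K (S := L)) γ ^ ((n + (Nat.card K - 1) - 1) % (Nat.card K - 1) + 1) = d := by
      rw [pow_succ, ← pow_eq_pow_mod _ h1, ← pow_succ, Nat.sub_add_cancel (by omega), pow_add, h1, mul_one, ← map_pow]
      exact hx
    simpa using congrArg Units.val h2
  generalize ha : (γ : L) ^ e = a at h3
  have hi : IsIntegral K a := .of_finite K a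
  have h4 : finrank K K⟮a⟯ = m := by
    refine le_antisymm (K⟮a⟯.toSubalgebra.toSubmodule.finrank_le.trans hL.le) ?_
    have h0 : AdjoinSimple.gen K a ≠ 0 := fun e => by simpa [← ha] using congrArg Subtype.val e
    have h5 : Units.mk0 _ h0 ^ Nat.card (K⟮a⟯)ˣ = 1 := pow_card_eq_one'
    have h6 : γ ^ (e * Nat.card (K⟮a⟯)ˣ) = 1 := Units.ext (by
      simpa [pow_mul, ha, -pow_card_eq_one'] using congrArg (fun z : (K⟮a⟯)ˣ => (z.1 : L)) h5)
    have h7 := Nat.le_of_dvd (Nat.mul_pos h1 Nat.card_pos) (orderOf_dvd_of_pow_eq_one h6)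
    rw [orderOf_eq_card_of_forall_mem_zpowers hγ, Nat.card_units, Nat.card_units, natCard_eq_pow_finrank (K := K),
      natCard_eq_pow_finrank (K := K) (V := K⟮a⟯), hL] at h7
    by_contra! H
    have h8 := Nat.pow_le_pow_right hq.le H
    have h9 := Nat.one_le_pow (finrank K K⟮a⟯) _ (one_pos.trans hq)
    rw [Nat.succ_eq_add_one, pow_succ] at h8
    generalize Nat.card K ^ finrank K K⟮a⟯ = s at *
    generalize Nat.card K ^ m = t at *
    obtain ⟨s, rfl⟩ := Nat.exists_eq_add_of_le' h9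
    obtain ⟨q, hq⟩ := Nat.exists_eq_add_of_lt hq
    rw [hq] at h2 h8
    have : e * (s + 1 - 1) ≤ (q + 1) * s := Nat.mul_le_mul (by omega) (by omega)
    have : (s + 1) * (1 + q + 1) = (q + 1) * s + s + q + 2 := by ring
    omega
  have h5 : finrank K⟮a⟯ L = 1 := by
    have := finrank_mul_finrank K K⟮a⟯ L
    rw [h4, hL] at this
    exact (Nat.mul_eq_left hm).1 this
  have h6 := Algebra.PowerBasis.norm_gen_eq_coeff_zero_minpoly (adjoin.powerBasis hi)
  rw [adjoin.powerBasis_gen, minpoly_gen, adjoin.powerBasis_dim, ← adjoin.finrank hi, h4] at h6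
  rw [Algebra.norm_eq_norm_adjoin, h5, pow_one, h6] at h3
  exact ⟨minpoly K a, ⟨minpoly.monic hi, (adjoin.finrank hi).symm.trans h4, by
    rw [← h3, ← mul_assoc, ← mul_pow]; simp⟩, minpoly.irreducible hi⟩

/-- no proper invariant subspace -/
def Simp (A : V ≃ₗ[K] V) : Prop := ∀ p : Submodule K V, (∀ u ∈ p, A u ∈ p) → p = ⊥ ∨ p = ⊤

theorem Simp.cyc (h : Simp A) {v : V} (hv : v ≠ 0) : Cyc A.toLinearMap v := fun p h1 h2 =>
  (h p h2).resolve_left fun e => hv (by simpa [e] using h1)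

theorem Simp.cy [Nontrivial V] (h : Simp A) : CY A := let ⟨v, hv⟩ := exists_ne (0 : V); ⟨v, h.cyc hv⟩

theorem Simp.tr (h : Simp A) (e : V ≃ₗ[K] V') : Simp (tr e A) := fun p hp => or_iff_not_imp_left.2 fun h0 => by
  obtain ⟨v, h1, h2⟩ := (Submodule.ne_bot_iff p).1 h0
  have := (h.cyc (e.symm.map_ne_zero_iff.2 h2)).map e (Y := (Lv.tr e A).toLinearMap) (by simp)
  exact this p (by simpa) hp

theorem Simp.ne [FiniteDimensional K V] (h : Simp A) (h2 : 2 ≤ finrank K V) {θ : K} {u : V} (e : A u = θ • u) :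
    u = 0 := by_contra fun hu => by
  have := h.cyc hu (K ∙ u) (mem_span_singleton_self u) fun x hx => by
    obtain ⟨c, rfl⟩ := mem_span_singleton.1 hx
    simp [e, smul_mem, mem_span_singleton_self]
  have h3 := finrank_span_singleton (K := K) hu
  rw [this, finrank_top] at h3
  omega

theorem Simp.inv' [Finite K] [FiniteDimensional K V] [Nontrivial V] (h : Simp A) : Inv A := fun γ => by
  obtain ⟨v, hv⟩ := exists_ne (0 : V)
  have h0 : ∀ (p : K[X]) u, A (aeval A.toLinearMap p u) = aeval A.toLinearMap p (A u) :=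
    semi (X' := A.toLinearMap) (Y := A.toLinearMap) A.toLinearMap fun _ => rfl
  have h1 : ∀ p : K[X], aeval A.toLinearMap p = 0 ∨ Function.Injective (aeval A.toLinearMap p) := fun p =>
    (h (ker (aeval A.toLinearMap p)) fun u hu => by rw [mem_ker, ← h0, hu, map_zero]).symm.imp ker_eq_top.1 ker_eq_bot.1
  let I := RingHom.ker (aeval (R := K) A.toLinearMap)
  have hI : I.IsPrime := ⟨fun e => one_ne_zero ((map_one _).symm.trans (e.ge (mem_top (x := 1)))), fun {a b} e =>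
    (h1 a).imp id fun h2 => LinearMap.ext fun u => h2 (by
      rw [← End.mul_apply, ← map_mul, show aeval A.toLinearMap (a * b) = 0 from e]; simp)⟩
  let φ : (K[X] ⧸ I) →ₐ[K] End K V := Ideal.Quotient.liftₐ I (aeval A.toLinearMap) fun _ h => h
  let ev : (K[X] ⧸ I) →ₗ[K] V := LinearMap.applyₗ v ∘ₗ φ.toLinearMap
  have h2 : ∀ p, ev (Ideal.Quotient.mk I p) = aeval A.toLinearMap p v := fun _ => rfl
  have h3 : Function.Bijective ev := ⟨(injective_iff_map_eq_zero _).2 fun a ha => by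
    obtain ⟨p, rfl⟩ := Ideal.Quotient.mk_surjective a
    exact Ideal.Quotient.eq_zero_iff_mem.2 ((h1 p).resolve_right fun e => hv (e (ha.trans (map_zero _).symm))),
    fun u => let ⟨p, hp⟩ := evl_surj (h.cyc hv) u; ⟨_, (h2 p).trans hp⟩⟩
  have := Module.finite_of_finite K (M := V)
  have : Finite (K[X] ⧸ I) := .of_injective _ h3.1
  letI := (Finite.isField_of_domain (K[X] ⧸ I)).toField
  obtain ⟨a, ha⟩ := FiniteField.norm_surjective K (K[X] ⧸ I) γ
  have h4 : (φ a).det = γ := (det_eq_of (.ofBijective ev h3) (Y := Algebra.lmul K _ a) fun u => by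
    change φ a (φ u v) = φ (a * u) v
    simp).trans ha
  obtain ⟨p, rfl⟩ := Ideal.Quotient.mk_surjective a
  exact ⟨equivOfDetNeZero _ (h4 ▸ γ.ne_zero), Units.ext ((LinearEquiv.coe_det _).trans h4),
    LinearEquiv.ext fun u => (h0 p u).symm⟩

/-- a family of polynomials -/
noncomputable def fam (m : ℕ) (d : Kˣ) (s : K) : K[X] := X ^ m + (C s * X + C ((-1) ^ m * (d : K)))

theorem fam_good (hm : 2 ≤ m) (d : Kˣ) (s : K) : Good (fam m d s) m d := by
  refine ⟨monic_X_pow_add (degree_linear_lt.trans_le (by exact_mod_cast hm)), ?_, by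
    simp [fam, coeff_X_pow, -map_mul, -map_pow]; omega⟩
  rw [fam, natDegree_add_eq_left_of_natDegree_lt] <;> rw [natDegree_X_pow]
  exact natDegree_linear_le.trans_lt (by omega)

theorem fam_uniq (hm : 2 ≤ m) (d : Kˣ) (p : K[X]) : ∃ a, ∀ s, s ≠ a → p = 1 ∨ Irreducible p → IsCoprime p (fam m d s) := by
  by_cases h : ∃ a, p ∣ fam m d a
  swap
  · exact ⟨0, fun s _ hp => hp.elim (fun e => e ▸ isCoprime_one_left) fun hp =>
      hp.coprime_iff_not_dvd.2 fun e => h ⟨s, e⟩⟩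
  obtain ⟨a, ha⟩ := h
  refine ⟨a, fun s hs hp => hp.elim (fun e => e ▸ isCoprime_one_left) fun hp => hp.coprime_iff_not_dvd.2 fun e => ?_⟩
  have h1 : p ∣ X := by
    have := dvd_sub e ha
    rw [show fam m d s - fam m d a = C (s - a) * X by simp [fam]; ring] at this
    exact (IsUnit.dvd_mul_left (isUnit_C.2 (sub_ne_zero.2 hs).isUnit)).1 this
  have h2 := X_dvd_iff.1 ((hp.associated_of_dvd irreducible_X h1).symm.dvd.trans e)
  simp [(fam_good hm d s).2.2] at h2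

variable [Finite K]

theorem ex_ne (hK : 4 ≤ Nat.card K) (a b c : K) : ∃ x, x ≠ a ∧ x ≠ b ∧ x ≠ c := by
  classical
  have := Fintype.ofFinite K
  obtain ⟨x, -, hx⟩ := Finset.exists_mem_notMem_of_card_lt_card (s := {a, b, c}) (t := (Finset.univ : Finset K))
    (Finset.card_le_three.trans_lt (by rw [Finset.card_univ, Fintype.card_eq_nat_card]; omega))
  exact ⟨x, by simpa [not_or] using hx⟩

theorem ex_sq (hK : 4 ≤ Nat.card K) (d : K) : ∃ x : Kˣ, (x : K) * x ≠ d := by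
  by_cases h : ∃ r, d = r * r
  · obtain ⟨r, rfl⟩ := h
    obtain ⟨x, h1, h2⟩ := ex_ne hK 0 r (-r)
    exact ⟨.mk0 x h1, fun e => not_or.2 h2 (mul_self_eq_mul_self_iff.1 e)⟩
  · exact ⟨1, fun e => h ⟨_, e.symm⟩⟩

theorem rootless (hm : 2 ≤ m) (d : Kˣ) : ∃ s, ∀ θ, (fam m d s).eval θ ≠ 0 := by
  by_contra! H
  choose r hr using H
  have h0 : ∀ s, r s ≠ 0 := fun s e => by simpa [fam, e, zero_pow (show m ≠ 0 by omega)] using hr s
  have h1 : Function.Injective r := fun s t e => mul_right_cancel₀ (h0 s) (by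
    have h1 := hr s
    have h2 := hr t
    rw [← e] at h2
    simp only [fam, eval_add, eval_mul, eval_C, eval_X] at h1 h2
    linear_combination h1 - h2)
  obtain ⟨s, hs⟩ := Finite.injective_iff_surjective.1 h1 0
  exact h0 s hs

theorem rootless2 (hK : 4 ≤ Nat.card K) (d : Kˣ) (a : K) : ∃ s, s ≠ a ∧ ∀ θ, (fam 2 d s).eval θ ≠ 0 := by
  classical
  by_contra! H
  obtain ⟨x, hx⟩ := ex_sq hK d
  have H' : ∀ s, s ≠ a → ∃ θ : K, θ ≠ 0 ∧ θ ≠ x ∧ θ ^ 2 + s * θ + d = 0 := fun s hs => by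
    obtain ⟨θ, h⟩ := H s hs
    replace h : θ ^ 2 + s * θ + d = 0 := by simpa [fam, add_assoc] using h
    by_cases h1 : θ = x
    · refine ⟨d / x, by simp, fun e => hx ((div_eq_iff x.ne_zero).1 e).symm, ?_⟩
      rw [h1] at h
      field_simp
      linear_combination d * h
    · exact ⟨θ, by rintro rfl; simp at h, h1, h⟩
  choose! r h0 h1 h2 using H'
  let r' : K → K := fun s => if s = a then 0 else r s
  have h3 : Function.Injective r' := fun s t e => by
    by_cases hs : s = a <;> by_cases ht : t = a <;> simp only [r', hs, ht, if_true, if_false] at e ⊢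
    · exact absurd e.symm (h0 t ht)
    · exact absurd e (h0 s hs)
    · exact mul_right_cancel₀ (h0 s hs) (by have := h2 t ht; rw [← e] at this; linear_combination h2 s hs - this)
  obtain ⟨s, hs⟩ := Finite.injective_iff_surjective.1 h3 x
  by_cases h : s = a <;> simp only [r', h, if_true, if_false] at hs
  · exact x.ne_zero hs.symm
  · exact h1 s h hs

/-- the part of a characteristic polynomial prime to a simple root -/
def Mid (g : K[X]) (c₁ c₃ : K) : Prop :=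
  g.Monic ∧ (g = 1 ∨ Irreducible g) ∧ (2 ≤ g.natDegree → g.coeff 0 ≠ c₁ ∧ g.coeff 0 ≠ c₃)

theorem exists_mid (hK : 4 ≤ Nat.card K) (hm : m ≠ 0) (d : Kˣ) (c₁ c₃ : K) :
    ∃ (θ : Kˣ) (g : K[X]), Good g m (d / θ) ∧ g.eval (θ : K) ≠ 0 ∧ Mid g c₁ c₃ := by
  by_cases h : m = 1
  · obtain ⟨θ, hθ⟩ := ex_sq hK d
    refine ⟨θ, X - C (d / θ : Kˣ).1, ⟨monic_X_sub_C _, by simp [h], by simp [h]⟩, ?_, monic_X_sub_C _,
      .inr (irreducible_X_sub_C _), by simp⟩
    simpa [sub_eq_zero, eq_div_iff] using hθ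
  obtain ⟨x, h0, h1, h2⟩ := ex_ne hK 0 ((-1) ^ m * d / c₁) ((-1) ^ m * d / c₃)
  obtain ⟨g, h3, h4⟩ := exists_irr hm (d / .mk0 x h0)
  have h5 : ∀ c, x ≠ (-1) ^ m * d / c → g.coeff 0 ≠ c := fun c h e => h (by
    rw [← e, h3.2.2]; simp; field_simp)
  exact ⟨.mk0 x h0, g, h3, h4.not_isRoot_of_natDegree_ne_one (h3.2.1 ▸ h), h3.1, .inr h4, fun _ => ⟨h5 _ h1, h5 _ h2⟩⟩

theorem cop_irr (h1 : f.Monic) (h2 : Irreducible f) (h3 : g.Monic) (h4 : Irreducible g) (h : f ≠ g) : IsCoprime f g :=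
  h2.coprime_iff_not_dvd.2 fun e => h (eq_of_monic_of_associated h1 h3 (h2.associated_of_dvd h4 e))

theorem Mid.cop {c₁ c₃ : K} (h : Mid g c₁ c₃) (θ : K) (h1 : f.Monic) (h2 : Irreducible f) (h3 : 2 ≤ f.natDegree)
    (h4 : f.coeff 0 = c₁ ∨ f.coeff 0 = c₃) : IsCoprime f (g * (X - C θ)) := by
  refine IsCoprime.mul_right (h.2.1.elim (fun e => e ▸ isCoprime_one_right) fun h5 => cop_irr h1 h2 h.1 h5 ?_)
    (cop_irr h1 h2 (monic_X_sub_C _) (irreducible_X_sub_C _) (by rintro rfl; simp at h3))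
  rintro rfl
  exact not_or.2 (h.2.2 h3) h4

theorem Mid.third (hK : 4 ≤ Nat.card K) {c₁ : K} (hm : 2 ≤ m) (h : Mid g c₁ ((-1) ^ m * d)) (θ : K) (h1 : f.Monic)
    (h2 : Irreducible f) : ∃ p, Good p m d ∧ IsCoprime f p ∧ IsCoprime (g * (X - C θ)) p ∧
      (m = 2 → ∀ θ, p.eval θ ≠ 0) := by
  by_cases h0 : m = 2
  · subst h0
    obtain ⟨s, h3, h4⟩ := rootless2 hK d (f.coeff 1)
    have h5 := fam_good le_rfl d s
    have h6 : Irreducible (fam 2 d s) := (h5.1.irreducible_iff_roots_eq_zero_of_degree_le_three h5.2.1.ge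
      (h5.2.1.le.trans (by omega))).2 (Multiset.eq_zero_of_forall_notMem fun θ e => h4 θ (isRoot_of_mem_roots e))
    refine ⟨_, h5, cop_irr h1 h2 h5.1 h6 ?_, (h.cop θ h5.1 h6 h5.2.1.ge (.inr h5.2.2)).symm, fun _ => h4⟩
    rintro rfl
    simp [fam, coeff_X_pow, coeff_C, -map_mul, -map_pow] at h3
  obtain ⟨a, ha⟩ := fam_uniq hm d f
  obtain ⟨b, hb⟩ := fam_uniq hm d g
  obtain ⟨c, hc⟩ := fam_uniq hm d (X - C θ)
  obtain ⟨s, h3, h4, h5⟩ := ex_ne hK a b c
  exact ⟨_, fam_good hm d s, ha s h3 (.inr h2), (hb s h4 h.2.1).mul_left (hc s h5 (.inr (irreducible_X_sub_C _))),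
    fun e => absurd e h0⟩

variable [FiniteDimensional K V]

theorem exists_dt' (hK : 4 ≤ Nat.card K) (hV : 2 ≤ finrank K V) (d : Kˣ) (c₁ c₃ : K) :
    ∃ (A : V ≃ₗ[K] V) (θ : K) (g : K[X]), CK A (g * (X - C θ)) ∧ EP A ∧ A.det = d ∧ Mid g c₁ c₃ := by
  obtain ⟨m, hm⟩ : ∃ m, finrank K V = m + 1 := ⟨finrank K V - 1, by omega⟩
  obtain ⟨θ, g, h1, h2, h3⟩ := exists_mid hK (m := m) (by omega) d c₁ c₃
  obtain ⟨A, h4, h5, h6⟩ := exists_dt hm h1 h2
  exact ⟨A, θ, g, h4, h5, by simp [h6], h3⟩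

theorem CY.ng (hK : 4 ≤ Nat.card K) (h : CY A) (hA : NS A) : NG A 3 := by
  obtain ⟨D, _, _, h1, h2, h3, -⟩ := exists_dt' hK hA.two_le (A.det ^ 2) 0 0
  exact ng_of (pg_two hA h ⟨h1.1, h2⟩ h3) ⟨h1.1, h2⟩ (by simpa using PG.one A 1) h

theorem DT.np (h : DT A) : NP A 2 := (((PG.one A 1).pp h.2.inv').dp (by simpa)).np

theorem CY.pg (hK : 4 ≤ Nat.card K) (h : CY A) (hA : NS A) (hk : 2 ≤ k) (hB : DT B) (hd : B.det = A.det ^ k) :
    PG A k B := by
  obtain rfl | hk := hk.eq_or_lt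
  · exact pg_two hA h hB hd
  · exact (h.ng hK hA).mono hA hk B (hB.1.ns hA.two_le) hd

theorem Simp.mid (hK : 4 ≤ Nat.card K) [Nontrivial V] (h : Simp A) (hk : 2 ≤ k) (c₁ c₃ : K) :
    ∃ (B : V ≃ₗ[K] V) (θ : K) (g : K[X]), PP A k B ∧ CK B (g * (X - C θ)) ∧ EP B ∧ Mid g c₁ c₃ := by
  by_cases hV : 2 ≤ finrank K V
  · obtain ⟨B, θ, g, h1, h2, h3, h4⟩ := exists_dt' hK hV (A.det ^ k) c₁ c₃
    exact ⟨B, θ, g, (h.cy.pg hK (h.cy.ns hV) hk ⟨h1.1, h2⟩ h3).pp h.inv', h1, h2, h4⟩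
  have h1 : finrank K V = 1 := by have := finrank_pos (R := K) (M := V); omega
  obtain ⟨c, hc⟩ := not_forall.1 fun e : NS A => hV e.two_le
  have h0 : c ≠ 0 := by
    rintro rfl
    obtain ⟨v, hv⟩ := exists_ne (0 : V)
    simpa [hv] using congr($(not_not.1 hc) v)
  obtain rfl : A = sc V (.mk0 c h0) := LinearEquiv.toLinearMap_injective (not_not.1 hc)
  exact ⟨sc V (.mk0 c h0 ^ k), _, 1, fun L e => e ▸ In.sc _ exists_det L, by rw [one_mul]; exact ck_sc h1 _, ep_sc _,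
    monic_one, .inl rfl, by simp⟩

end H11.Lv
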