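import Cfsg.Agent.H11.Lv3

/-! Scalar multiples of transvections and homologies. -/

set_option autoImplicit false
set_option linter.unusedSectionVars false

namespace H11.Lv

open Module Submodule LinearMap H22.CY

universe u

variable {K : Type u} [Field K] {V V' W W' : Type u} [AddCommGroup V] [Module K V] [AddCommGroup V'] [Module K V']
  [AddCommGroup W] [Module K W] [AddCommGroup W'] [Module K W'] {A B : V ≃ₗ[K] V} {k : ℕ}

theorem two_proper {p q : Submodule K V} (hp : p ≠ ⊤) (hq : q ≠ ⊤) : ∃ x, x ∉ p ∧ x ∉ q := by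
  obtain ⟨a, -, ha⟩ := SetLike.exists_of_lt hp.lt_top
  obtain ⟨b, -, hb⟩ := SetLike.exists_of_lt hq.lt_top
  by_cases h1 : a ∈ q
  · by_cases h2 : b ∈ p
    · exact ⟨a + b, fun h => ha ((p.add_mem_iff_left h2).1 h), fun h => hb ((q.add_mem_iff_right h1).1 h)⟩
    · exact ⟨b, h2, hb⟩
  · exact ⟨a, ha, h1⟩

theorem mem_sup_span {p : Submodule K V} {x y : V} : x ∈ p ⊔ K ∙ y ↔ ∃ c : K, x - c • y ∈ p := by
  refine ⟨fun h => ?_, fun ⟨c, h⟩ => by simpa using add_mem_sup h (smul_mem _ c (mem_span_singleton_self y))⟩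
  obtain ⟨f, h1, z, h2, rfl⟩ := mem_sup.1 h
  obtain ⟨c, rfl⟩ := mem_span_singleton.1 h2
  exact ⟨c, by simpa⟩

/-- similar -/
def Sm (A : V ≃ₗ[K] V) (B : V' ≃ₗ[K] V') : Prop := ∃ e, tr e A = B

theorem Sm.trans {B : V' ≃ₗ[K] V'} {C : W ≃ₗ[K] W} (h : Sm A B) (h' : Sm B C) : Sm A C :=
  let ⟨e, h1⟩ := h; let ⟨e', h2⟩ := h'; ⟨e.trans e', by rw [← tr_tr, h1, h2]⟩

theorem Sm.symm {B : V' ≃ₗ[K] V'} (h : Sm A B) : Sm B A := let ⟨e, h1⟩ := h; ⟨e.symm, by simp [← h1]⟩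

theorem Sm.of {B : V' ≃ₗ[K] V'} (e : V ≃ₗ[K] V') (h : ∀ u, e (A u) = B (e u)) : Sm A B :=
  ⟨e, LinearEquiv.ext fun u => by simp [h]⟩

theorem Sm.pr {B : V' ≃ₗ[K] V'} {C : W ≃ₗ[K] W} {D : W' ≃ₗ[K] W'} (h : Sm A B) (h' : Sm C D) : Sm (pr A C) (pr B D) := by
  obtain ⟨e, rfl⟩ := h
  obtain ⟨e', rfl⟩ := h'
  exact .of (e.prodCongr e') (by simp)

theorem Sm.pg (h : Sm A B) : PG A 1 B := let ⟨e, h1⟩ := h; h1 ▸ PG.one A e

theorem sm_sc [FiniteDimensional K V] [FiniteDimensional K V'] (h : finrank K V = finrank K V') (c : Kˣ) :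
    Sm (sc V c) (sc V' c) := ⟨.ofFinrankEq _ _ h, tr_sc _ _⟩

/-- a product of conjugates, up to a change of the space -/
def HG (A : V ≃ₗ[K] V) (k : ℕ) (Z : V' ≃ₗ[K] V') : Prop := ∃ X, PG A k X ∧ Sm X Z

theorem HG.sm {Z : V' ≃ₗ[K] V'} {Z' : W ≃ₗ[K] W} (h : HG A k Z) (h' : Sm Z Z') : HG A k Z' :=
  let ⟨X, h1, h2⟩ := h; ⟨X, h1, h2.trans h'⟩

theorem HG.mul {Z B : V' ≃ₗ[K] V'} (h : HG A k Z) (h' : Sm A B) : HG A (k + 1) (B * Z) := by
  obtain ⟨X, h1, e, rfl⟩ := h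
  exact ⟨_, add_comm 1 k ▸ (h'.trans ⟨e.symm, rfl⟩).pg.mul h1, e, by simp⟩

theorem PG.smul {X : V ≃ₗ[K] V} (h : PG A k X) (c : Kˣ) : PG (sc V c * A) k (sc V (c ^ k) * X) :=
  let ⟨L, h1, h2⟩ := h; ⟨L, h1, h1 ▸ h2.smul c⟩

theorem NG.smul (h : NG A k) (c : Kˣ) : NG (sc V c * A) k := fun g h1 h2 => by
  have := (h _ (h1.smul (c ^ k)⁻¹) (by simp [h2, det_sc, mul_pow, ← pow_mul, mul_comm k])).smul c
  rwa [← mul_assoc, ← map_mul, mul_inv_cancel, map_one, one_mul] at this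

theorem sm_regroup (Y : W ≃ₗ[K] W) (B : V ≃ₗ[K] V) (C : V' ≃ₗ[K] V') : Sm (pr Y (pr B C)) (pr (pr B Y) C) :=
  .of ((LinearEquiv.prodAssoc K _ _ _).symm.trans ((LinearEquiv.prodComm K _ _).prodCongr (.refl K _))) fun _ => rfl

theorem sm_assoc (Y : W ≃ₗ[K] W) (B : V ≃ₗ[K] V) (C : V' ≃ₗ[K] V') : Sm (pr Y (pr B C)) (pr (pr Y B) C) :=
  .of (LinearEquiv.prodAssoc K _ _ _).symm fun _ => rfl

theorem Sm.refl (A : V ≃ₗ[K] V) : Sm A A := ⟨.refl K V, rfl⟩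

variable [FiniteDimensional K V] [FiniteDimensional K V'] [FiniteDimensional K W] [FiniteDimensional K W']

theorem scal_pow (a : Kˣ) (k : ℕ) : ∀ (W E : Type u) [AddCommGroup W] [Module K W] [FiniteDimensional K W]
    [AddCommGroup E] [Module K E] [FiniteDimensional K E], finrank K W = k * finrank K V →
      finrank K W + finrank K E = finrank K V + finrank K V' →
      HG (pr (sc V a) (sc V' 1)) k (pr (sc W a) (sc E 1)) := by
  induction k with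
  | zero =>
    intro W E _ _ _ _ _ _ h1 h2
    have := finrank_zero_iff.1 (h1.trans (zero_mul _))
    have h3 : pr (sc W a) (sc E 1) = sc _ 1 := LinearEquiv.ext fun _ => Prod.ext (Subsingleton.elim _ _) rfl
    exact ⟨sc _ 1, by simpa using PG.zero _, h3 ▸ sm_sc (by simp [h2]) 1⟩
  | succ k ih =>
    intro W E _ _ _ _ _ _ h1 h2
    have h3 := (ih (Fin (k * finrank K V) → K) (V × E) (by simp) (by simp [← h2, h1]; ring)).sm
      (sm_regroup _ (sc V 1) (sc E 1))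
    refine (h3.mul (((Sm.refl _).pr (sm_sc (V' := (Fin (k * finrank K V) → K) × E) (by
      simp only [finrank_prod, finrank_fin_fun]; rw [h1, add_mul] at h2; omega) 1)).trans
      (sm_assoc _ (sc _ 1) (sc E 1)))).sm ?_
    simp only [pr_mul, map_one, mul_one, one_mul, pr_sc]
    exact (sm_sc (by simp [h1]; ring) a).pr (.refl _)

theorem scal_pow' (a : Kˣ) (h : finrank K V' = k * finrank K V) :
    PG (pr (sc V a) (sc V' 1)) (k + 1) (sc (V × V') a) := by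
  obtain ⟨X, h1, e, h2⟩ := scal_pow (V := V) (V' := V') a (k + 1) (V × V') PUnit (by simp [h]; ring)
    (by simp [finrank_zero_of_subsingleton])
  have : pr (sc (V × V') a) (sc PUnit 1) = sc _ a := LinearEquiv.ext fun _ => Prod.ext rfl (Subsingleton.elim _ _)
  rwa [show X = sc _ a by rw [← tr_symm_tr e X, h2, this, tr_sc]] at h1

theorem scal_quot {p : Submodule K V} (hp : ∀ x ∈ p, A x ∈ p) (h : finrank K p + 1 = finrank K V) :
    ∃ c : K, ∀ x, A x - c • x ∈ p := by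
  obtain ⟨y, -, hy⟩ := SetLike.exists_of_lt (show p < ⊤ from lt_top_iff_ne_top.2 (by rintro rfl; simp at h))
  have h1 : ∀ x, ∃ c : K, x - c • y ∈ p := fun x =>
    mem_sup_span.1 ((eq_top_of_finrank_eq ((finrank_sup_span_singleton hy).trans h)).ge mem_top)
  obtain ⟨c, hc⟩ := h1 (A y)
  refine ⟨c, fun x => ?_⟩
  obtain ⟨d, hd⟩ := h1 x
  convert p.sub_mem (p.add_mem (hp _ hd) (p.smul_mem d hc)) (p.smul_mem c hd) using 1
  simp only [map_sub, map_smul]; module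

/-- `1 + u ⊗ φ` with `φ u = τ` -/
def TT (τ : K) (B : V ≃ₗ[K] V) : Prop :=
  ∃ (u : V) (φ : Dual K V), u ≠ 0 ∧ φ ≠ 0 ∧ φ u = τ ∧ ∀ x, B x = x + φ x • u

theorem TT.det {τ : K} (h : TT τ B) : (B.det : K) = 1 + τ := by
  obtain ⟨u, φ, -, -, rfl, h⟩ := h
  rw [LinearEquiv.coe_det, show B.toLinearMap = transvection φ u from LinearMap.ext h, transvection.det]

theorem ex_one {φ : Dual K V} (h : φ ≠ 0) : ∃ x, φ x = 1 := by
  obtain ⟨x, hx⟩ := DFunLike.ne_iff.1 h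
  exact ⟨(φ x)⁻¹ • x, by simpa using inv_mul_cancel₀ hx⟩

theorem ex_map {φ : Dual K V} {ψ : Dual K V'} {x : V} {y : V'} (h1 : φ x = 1) (h2 : ψ y = 1) (ε : ker φ ≃ₗ[K] ker ψ) :
    ∃ e : V ≃ₗ[K] V', e x = y ∧ (∀ z, ψ (e z) = φ z) ∧ ∀ w : ker φ, e w = ε w := by
  refine ⟨((spl h1).trans (ε.prodCongr (.refl K K))).trans (spl h2).symm, by simp [spl_self, spl, h1], fun z => ?_,
    fun w => by simp [spl, show φ w = 0 from w.2]⟩
  simp [spl, h2, show ∀ w : ker ψ, ψ w = 0 from fun w => w.2]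

theorem ex_map' {φ : Dual K V} {ψ : Dual K V'} {x : V} {y : V'} (h1 : φ x = 1) (h2 : ψ y = 1)
    (h : finrank K V = finrank K V') : ∃ e : V ≃ₗ[K] V', e x = y ∧ ∀ z, ψ (e z) = φ z := by
  obtain ⟨e, h3, h4, -⟩ := ex_map h1 h2 (.ofFinrankEq _ _ (by
    have := (spl h1).finrank_eq
    have := (spl h2).finrank_eq
    simp only [finrank_prod] at *
    omega))
  exact ⟨e, h3, h4⟩

theorem TT.sm {τ : K} (h : TT τ A) (h' : TT τ B) : Sm A B := by
  obtain ⟨u, φ, a1, a2, rfl, a4⟩ := h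
  obtain ⟨v, ψ, b1, b2, b3, b4⟩ := h'
  suffices ∃ e : V ≃ₗ[K] V, e u = v ∧ ∀ z, ψ (e z) = φ z by
    obtain ⟨e, h1, h2⟩ := this
    exact .of e fun x => by simp [a4, b4, h1, h2]
  by_cases h0 : φ u = 0
  · obtain ⟨x, hx⟩ := ex_one a2
    obtain ⟨y, hy⟩ := ex_one b2
    obtain ⟨α, hα⟩ := Projective.exists_dual_eq_one K (x := (⟨u, h0⟩ : ker φ)) fun e => a1 congr($e)
    obtain ⟨β, hβ⟩ := Projective.exists_dual_eq_one K (x := (⟨v, b3.trans h0⟩ : ker ψ)) fun e => b1 congr($e)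
    obtain ⟨ε, hε, -⟩ := ex_map' hα hβ (by
      have := (spl hx).finrank_eq
      have := (spl hy).finrank_eq
      simp only [finrank_prod] at *
      omega)
    obtain ⟨e, -, h1, h2⟩ := ex_map hx hy ε
    exact ⟨e, (h2 ⟨u, h0⟩).trans (congrArg _ hε), h1⟩
  · obtain ⟨e, h1, h2⟩ := ex_map' (x := (φ u)⁻¹ • u) (y := (φ u)⁻¹ • v) (φ := φ) (ψ := ψ) (by simp [h0])
      (by simp [h0, b3]) rfl
    exact ⟨e, by simpa [h0] using h1, h2⟩

variable [Finite K]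

theorem pg_tv (hK : 4 ≤ Nat.card K) (h : TT 0 A) {u : V} {φ : Dual K V} (h1 : u ≠ 0) (h2 : φ ≠ 0) (h3 : φ u = 0)
    (k : ℕ) : ∀ a : K, a ≠ 0 → PG A (k + 1) (dil (a • φ) u (by simp [h3])) := by
  have h4 : ∀ a : K, a ≠ 0 → PG A 1 (dil (a • φ) u (by simp [h3])) := fun a ha =>
    (h.sm ⟨u, a • φ, h1, smul_ne_zero ha h2, by simp [h3], fun _ => dil_apply _ _ _ _⟩).pg
  induction k with
  | zero => exact h4
  | succ k ih =>
    intro a ha
    obtain ⟨b, h5, h6, -⟩ := ex_ne hK 0 a a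
    convert (ih b h5).mul (h4 (a - b) (sub_ne_zero.2 h6.symm)) using 1
    ext x; simp [h3]; module

theorem tt_main (hK : 4 ≤ Nat.card K) {τ : K} (h : TT τ A) (j : ℕ) : ∀ (g : V ≃ₗ[K] V) (F : Submodule K V),
    (∀ x ∈ F, g x = x) → finrank K F + (j + 2) = finrank K V → ∀ v, g v ∉ F ⊔ K ∙ v → g.det = A.det ^ (j + 2) →
      PG A (j + 2) g := by
  have h0 : 1 + τ ≠ 0 := h.det ▸ A.det.ne_zero
  have key : ∀ (g : V ≃ₗ[K] V) (F : Submodule K V), (∀ x ∈ F, g x = x) → ∀ v, g v ∉ F ⊔ K ∙ v → ∀ ξ : Dual K V,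
      (∀ x ∈ (F ⊔ K ∙ v) ⊔ K ∙ g v, ξ x = 0) → v ∉ F ∧ ∃ (φ : Dual K V) (s s' : V ≃ₗ[K] V), φ (g v - v) = τ ∧ φ ≠ 0 ∧
        (∀ x, s x = x + φ x • (g v - v)) ∧ (∀ x, s' x = x + (φ x + ξ x) • (g v - v)) ∧ TT τ s ∧ TT τ s' ∧
        (∀ x ∈ F ⊔ K ∙ v, (s⁻¹ * g) x = x) ∧ ∀ x ∈ F ⊔ K ∙ v, (s'⁻¹ * g) x = x := by
    intro g F hF v hv ξ hξ
    have h1 : v ∉ F := fun e => hv (mem_sup_left ((hF v e).symm ▸ e))
    have h2 : v ∈ F ⊔ K ∙ v := mem_sup_right (mem_span_singleton_self v)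
    obtain ⟨α, a1, a2⟩ := exd h1 1
    obtain ⟨β, b1, b2⟩ := exd hv (1 + τ - α (g v))
    have h3 : ∀ ξ : Dual K V, (∀ x ∈ (F ⊔ K ∙ v) ⊔ K ∙ g v, ξ x = 0) → (α + β + ξ) (g v - v) = τ ∧ α + β + ξ ≠ 0 ∧
        ∃ s : V ≃ₗ[K] V, (∀ x, s x = x + ((α + β) x + ξ x) • (g v - v)) ∧ TT τ s ∧
          ∀ x ∈ F ⊔ K ∙ v, (s⁻¹ * g) x = x := fun ξ hξ => by
      have c1 := hξ _ (mem_sup_left h2)
      have c2 := hξ _ (mem_sup_right (mem_span_singleton_self _))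
      have c3 : (α + β + ξ) (g v - v) = τ := by simp [a1, b1, b2 v h2, c1, c2]
      have c4 : α + β + ξ ≠ 0 := fun e => by simpa [a1, b2 v h2, c1] using congr($e v)
      refine ⟨c3, c4, dil _ _ (c3 ▸ h0), fun _ => dil_apply _ _ _ _, ⟨_, _, sub_ne_zero.2 fun e => hv (by rwa [e]), c4,
        c3, fun _ => dil_apply _ _ _ _⟩, fun x hx => (LinearEquiv.symm_apply_eq _).2 ?_⟩
      obtain ⟨c, hc⟩ := mem_sup_span.1 hx
      obtain ⟨f, rfl⟩ : ∃ f, x = f + c • v := ⟨x - c • v, by simp⟩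
      rw [add_sub_cancel_right] at hc
      simp [hF f hc, a2 f hc, b2 f (mem_sup_left hc), hξ f (mem_sup_left (mem_sup_left hc)), a1, b2 v h2, c1, smul_sub]
    obtain ⟨c1, c2, s, c3, c4, c5⟩ := h3 0 (by simp)
    obtain ⟨-, -, s', d3, d4, d5⟩ := h3 ξ hξ
    exact ⟨h1, α + β, s, s', by simpa using c1, by simpa using c2, by simpa using c3, d3, c4, d4, c5, d5⟩
  have hd : ∀ {s g : V ≃ₗ[K] V} {m : ℕ}, TT τ s → g.det = A.det ^ (m + 1) → (s⁻¹ * g).det = A.det ^ m :=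
    fun {s g m} h1 h2 => by simp [h2, show s.det = A.det from Units.ext (h1.det.trans h.det.symm), pow_succ']
  induction j with
  | zero =>
    intro g F hF hr v hv hg
    obtain ⟨h1, φ, s, -, c1, c2, c3, -, c4, -, c5, -⟩ := key g F hF v hv 0 (by simp)
    have h2 : finrank K (F ⊔ K ∙ v :) + 1 = finrank K V := by rw [finrank_sup_span_singleton h1]; omega
    obtain ⟨y, -, hy⟩ := SetLike.exists_of_lt (show F ⊔ K ∙ v < ⊤ from lt_top_iff_ne_top.2 fun e => by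
      rw [e, finrank_top] at h2; omega)
    obtain ⟨ψ, d1, d2⟩ := exd hy 1
    have h3 : ∀ x, (s⁻¹ * g) x = x + ψ x • ((s⁻¹ * g) y - y) := fun x => by
      obtain ⟨c, hc⟩ := mem_sup_span.1 ((eq_top_of_finrank_eq ((finrank_sup_span_singleton hy).trans h2)).ge
        (mem_top (x := x)))
      obtain ⟨f, rfl⟩ : ∃ f, x = f + c • y := ⟨x - c • y, by simp⟩
      rw [add_sub_cancel_right] at hc
      rw [map_add, map_add, c5 f hc, d2 f hc, map_smul, map_smul, d1]; module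
    have h4 : ψ ((s⁻¹ * g) y - y) = τ := by
      have := congrArg Units.val (hd c4 hg)
      rw [pow_one, h.det, LinearEquiv.coe_det, show (s⁻¹ * g).toLinearMap = transvection ψ _ from
        LinearMap.ext h3, transvection.det] at this
      exact add_left_cancel this
    by_cases h5 : (s⁻¹ * g) y - y = 0
    · rw [h5, map_zero] at h4
      subst h4
      convert pg_tv hK h (sub_ne_zero.2 fun e => hv (by
        rw [e]; exact mem_sup_right (mem_span_singleton_self v))) c2 c1 1 1 one_ne_zero using 1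
      ext x
      have := h3 x
      rw [h5, smul_zero, add_zero, LinearEquiv.mul_apply, LinearEquiv.coe_inv, s.symm_apply_eq] at this
      simp [this, c3]
    · simpa using (h.sm c4).pg.mul (h.sm ⟨_, ψ, h5, fun e => by simp [e] at d1, h4, h3⟩).pg
  | succ j ih =>
    intro g F hF hr v hv hg
    have h1 := (key g F hF v hv 0 (by simp)).1
    have h2 : finrank K (F ⊔ K ∙ v :) + (j + 2) = finrank K V := by rw [finrank_sup_span_singleton h1]; omega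
    have h3 : (F ⊔ K ∙ v) ⊔ K ∙ g v ≠ ⊤ := fun e => by
      have := finrank_sup_span_singleton hv
      rw [e, finrank_top] at this; omega
    obtain ⟨ξ, h4, h5⟩ := exists_le_ker_of_lt_top _ h3.lt_top
    obtain ⟨-, φ, s, s', -, -, c3, d3, c4, d4, c5, d5⟩ := key g F hF v hv ξ h5
    obtain ⟨x, h6, h7⟩ := two_proper h3 (q := ker (ξ ∘ₗ g.toLinearMap)) fun e => h4 (LinearMap.ext fun z => by
      simpa using e.ge (mem_top (x := g.symm z)))
    suffices ∃ s : V ≃ₗ[K] V, TT τ s ∧ (∀ x ∈ F ⊔ K ∙ v, (s⁻¹ * g) x = x) ∧ (s⁻¹ * g) x ∉ (F ⊔ K ∙ v) ⊔ K ∙ x by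
      obtain ⟨s, e1, e2, e3⟩ := this
      simpa [add_comm 1] using (h.sm e1).pg.mul (ih _ _ e2 h2 x e3 (hd e1 hg))
    by_contra! H
    have e1 := H s c4 c5
    have e2 := H s' d4 d5
    have e3 := c3 ((s⁻¹ * g) x)
    have e4 := d3 ((s'⁻¹ * g) x)
    rw [← LinearEquiv.mul_apply, mul_inv_cancel_left] at e3 e4
    generalize (s⁻¹ * g) x = y at *
    generalize (s'⁻¹ * g) x = y' at *
    have h8 : v ∈ F ⊔ K ∙ v := mem_sup_right (mem_span_singleton_self v)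
    have h9 : g v - v ∈ (F ⊔ K ∙ v) ⊔ K ∙ g v := sub_mem (mem_sup_right (mem_span_singleton_self _)) (mem_sup_left h8)
    have e5 : y - y' = (φ y' + ξ y' - φ y) • (g v - v) := by linear_combination (norm := module) e4 - e3
    have e6 : φ y' + ξ y' - φ y = 0 := by_contra fun e => by
      obtain ⟨c, hc⟩ := mem_sup_span.1 ((smul_mem_iff ((F ⊔ K ∙ v) ⊔ K ∙ x) e).1 (e5 ▸ sub_mem e1 e2))
      by_cases h10 : c = 0
      · exact hv (by simpa [h10] using add_mem hc h8)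
      · exact h6 ((smul_mem_iff _ h10).1 (by simpa using sub_mem h9 (mem_sup_left hc)))
    rw [e6, zero_smul, sub_eq_zero] at e5
    exact h7 (by simpa [e3, show ξ (g v - v) = 0 from h5 h9, -map_sub, e5] using e6)

/-- a scalar plus a map of rank at most one -/
def R1 (A : V ≃ₗ[K] V) : Prop := ∃ (c : K) (u : V), ∀ x, A x - c • x ∈ K ∙ u

theorem R1.tt (h : R1 A) (hA : NS A) : ∃ (c : Kˣ) (τ : K) (t : V ≃ₗ[K] V), TT τ t ∧ A = sc V c * t := by
  obtain ⟨c, u, h⟩ := h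
  obtain ⟨y, hy⟩ := ns_iff'.1 hA c
  have hu : u ≠ 0 := by rintro rfl; exact hy (by simpa [sub_eq_zero] using h y)
  have hc : c ≠ 0 := by
    rintro rfl
    have h1 : (K ∙ u) = ⊤ := eq_top_iff.2 fun x _ => by simpa using h (A.symm x)
    have h2 := finrank_span_singleton (K := K) hu
    have := hA.two_le
    rw [h1, finrank_top] at h2; omega
  obtain ⟨ω, hω⟩ := Projective.exists_dual_eq_one K hu
  have h1 : ∀ x, A x = c • x + ω (A x - c • x) • u := fun x => by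
    obtain ⟨d, hd⟩ := mem_span_singleton.1 (h x)
    rw [← hd, map_smul, hω, smul_eq_mul, mul_one, hd]; simp
  refine ⟨.mk0 c hc, _, sc V (.mk0 c hc)⁻¹ * A, ⟨u, c⁻¹ • ω ∘ₗ (A.toLinearMap - c • 1), hu, fun e => hy ?_, rfl,
    fun x => ?_⟩, by simp⟩
  · have : ω (A y - c • y) = 0 := by simpa [hc, -map_sub] using congr($e y)
    rw [h1, this]; simp
  · change c⁻¹ • A x = x + (c⁻¹ * ω (A x - c • x)) • u
    nth_rw 1 [h1 x]
    simp [hc, mul_smul]

theorem R1.ng (hK : 4 ≤ Nat.card K) (h : R1 A) (hA : NS A) : NG A (finrank K V) := by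
  obtain ⟨c, τ, t, h1, rfl⟩ := h.tt hA
  obtain ⟨j, hj⟩ := Nat.exists_eq_add_of_le' hA.two_le
  refine NG.smul (fun g h2 h3 => ?_) c
  obtain ⟨v, hv⟩ := ns_iff.1 h2
  rw [hj] at h3 ⊢
  exact tt_main hK h1 j g ⊥ (by simp) (by simp [hj]) v (by simpa) h3

theorem R1.ep (h : R1 A) (hA : NS A) (h3 : 3 ≤ finrank K V) : EP A := by
  obtain ⟨c, τ, t, ⟨u, φ, h1, h2, -, h4⟩, rfl⟩ := h.tt hA
  obtain ⟨y, hy⟩ := ex_one h2
  obtain ⟨x, h5, h6⟩ := SetLike.not_le_iff_exists.1 fun e : ker φ ≤ K ∙ u => by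
    have := finrank_mono e
    have := (spl hy).finrank_eq
    simp only [finrank_prod, finrank_span_singleton h1, finrank_self] at *
    omega
  exact ep_of (θ := c) (u := x) (by simp [h4, show φ x = 0 from h5]) fun z e => h6 (by
    simp [← e, h4, smul_mem, mem_span_singleton_self])

theorem R1.id (hK : 4 ≤ Nat.card K) (h : R1 A) (hA : NS A) (h3 : 3 ≤ finrank K V) : Id A (finrank K V) := by
  have hI := (h.ep hA h3).inv'
  obtain ⟨c, τ, t, h1, rfl⟩ := h.tt hA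
  obtain ⟨j, hj⟩ := Nat.exists_eq_add_of_le' hA.two_le
  suffices ∃ d, PG t (finrank K V) (sc V d) by
    obtain ⟨d, hd⟩ := this
    exact ⟨c ^ finrank K V * d, by rw [map_mul]; exact (hd.smul c).pp hI _ (by simp)⟩
  obtain ⟨u, φ, h2, h4, h5, h6⟩ := id h1
  by_cases h0 : τ = 0
  · subst h0
    refine ⟨1, ?_⟩
    convert (pg_tv hK h1 h2 h4 h5 j (-1) (by simp)).mul (Sm.refl t).pg using 1
    ext x; simp [h6, h5]
  · have h7 : (τ⁻¹ • φ) u = 1 := by simp [h5, h0]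
    have h8 : Sm (pr (sc K t.det) (sc (ker (τ⁻¹ • φ)) 1)) t := (Sm.of ((spl h7).trans (.prodComm K _ _)) fun x => by
      ext <;> simp [spl, h6, h1.det, h5, h0, -LinearEquiv.coe_det]
      · field_simp
      · match_scalars <;> field_simp <;> ring).symm
    obtain ⟨e, he⟩ := h8
    have := (scal_pow' (V := K) (V' := ker (τ⁻¹ • φ)) (k := j + 1) t.det (by simpa using finrank_ker h7 hj)).tr e
    rw [he, tr_sc] at this
    exact ⟨_, hj ▸ this⟩

end H11.Lv
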