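import Cfsg.Agent.H11.Lv4

/-! Two-dimensional spaces. -/

set_option autoImplicit false
set_option linter.unusedSectionVars false

namespace H11.Lv

open Module Submodule LinearMap H22.CY Polynomial

universe u

variable {K : Type u} [Field K] {V V' W W' : Type u} [AddCommGroup V] [Module K V] [AddCommGroup V'] [Module K V']
  [AddCommGroup W] [Module K W] [AddCommGroup W'] [Module K W'] {A B : V ≃ₗ[K] V} {k : ℕ} {t : K}

theorem det2 (M : (K × K) ≃ₗ[K] (K × K)) :
    (M.det : K) = (M (1, 0)).1 * (M (0, 1)).2 - (M (0, 1)).1 * (M (1, 0)).2 := by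
  rw [LinearEquiv.coe_det, ← det_toMatrix (Basis.finTwoProd K), Matrix.det_fin_two]
  simp [toMatrix_apply]

/-- a two by two matrix -/
def mk2 (a b c d : K) (h : a * d - b * c ≠ 0) : (K × K) ≃ₗ[K] (K × K) where
  toFun u := (a * u.1 + b * u.2, c * u.1 + d * u.2)
  invFun u := ((d * u.1 - b * u.2) / (a * d - b * c), (a * u.2 - c * u.1) / (a * d - b * c))
  map_add' _ _ := by ext <;> simp <;> ring
  map_smul' _ _ := by ext <;> simp <;> ring
  left_inv u := by ext <;> simp only <;> rw [div_eq_iff h] <;> ring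
  right_inv u := by ext <;> simp only [← mul_div_assoc, ← add_div] <;> rw [div_eq_iff h] <;> ring

@[simp] theorem mk2_apply (a b c d : K) (h : a * d - b * c ≠ 0) (u : K × K) :
    mk2 a b c d h u = (a * u.1 + b * u.2, c * u.1 + d * u.2) := rfl

theorem det_mk2 (a b c d : K) (h : a * d - b * c ≠ 0) : ((mk2 a b c d h).det : K) = a * d - b * c := by
  simp [det2, -LinearEquiv.coe_det]

/-- the companion matrix -/
def cp (t : K) (δ : Kˣ) : (K × K) ≃ₗ[K] (K × K) := mk2 0 (-δ) 1 t (by simp)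

/-- the quadratic relation with trace `t` -/
def Qr (A : V ≃ₗ[K] V) (t : K) : Prop := ∀ u, A (A u) = t • A u - (A.det : K) • u

theorem Qr.tr (h : Qr A t) (e : V ≃ₗ[K] V') : Qr (tr e A) t := fun u => by simp [h _]

theorem qr2 (M : (K × K) ≃ₗ[K] (K × K)) : Qr M ((M (1, 0)).1 + (M (0, 1)).2) := fun u => by
  have h : ∀ u : K × K, M u = u.1 • M (1, 0) + u.2 • M (0, 1) := fun u => by rw [← map_smul, ← map_smul, ← map_add]; simp
  rw [det2, h (M u), h u]
  ext <;> simp <;> ring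

theorem Qr.uniq [Nontrivial V] {s : K} (h : Qr A t) (h' : Qr A s) : t = s := by
  obtain ⟨v, hv⟩ := exists_ne (0 : V)
  exact smul_left_injective K (A.map_ne_zero_iff.2 hv) (sub_left_injective ((h v).symm.trans (h' v)))

/-- no eigenvector -/
def NE (A : V ≃ₗ[K] V) : Prop := ∀ (θ : K) u, A u = θ • u → u = 0

theorem NE.ns [Nontrivial V] (h : NE A) : NS A := fun c e =>
  let ⟨v, hv⟩ := exists_ne (0 : V); hv (h c v congr($e v))

theorem NE.inv (h : NE A) : NE A⁻¹ := fun θ u e => by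
  have h1 : u = θ • A u := by simpa using congrArg A e
  by_cases h0 : θ = 0
  · simpa [h0] using h1
  · exact h θ⁻¹ u ((eq_inv_smul_iff₀ h0).2 h1.symm)

theorem NE.tr (h : NE A) (e : V ≃ₗ[K] V') : NE (tr e A) := fun θ u h1 => by
  simpa using h θ (e.symm u) (e.injective (by simpa using h1))

theorem Qr.root (h : Qr A t) (hA : NE A) [Nontrivial V] (θ : K) : θ ^ 2 - t * θ + A.det ≠ 0 := fun e => by
  obtain ⟨v, hv⟩ := exists_ne (0 : V)
  refine hv (hA (t - θ) v (sub_eq_zero.1 (hA θ _ ?_)))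
  rw [map_sub, map_smul, h, show (A.det : K) = t * θ - θ ^ 2 by linear_combination e]; module

/-- the quadratic polynomial -/
noncomputable def q2 (t d : K) : K[X] := X ^ 2 - C t * X + C d

theorem cop_q2 {s d : K} (h : t ≠ s) (hd : d ≠ 0) : IsCoprime (q2 t d) (q2 s d) := by
  refine ⟨C d⁻¹ * (1 - (X - C t) * C (s - t)⁻¹), C d⁻¹ * ((X - C t) * C (s - t)⁻¹), ?_⟩
  have h1 : C d⁻¹ * C d = (1 : K[X]) := by rw [← map_mul, inv_mul_cancel₀ hd, map_one]
  have h2 : C (s - t)⁻¹ * (C s - C t) = (1 : K[X]) := by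
    rw [← map_sub, ← map_mul, inv_mul_cancel₀ (sub_ne_zero.2 h.symm), map_one]
  simp only [q2]
  linear_combination h1 - C d⁻¹ * (X - C t) * X * h2

variable [FiniteDimensional K V] [FiniteDimensional K V'] [FiniteDimensional K W] [FiniteDimensional K W']

theorem sim2 (h2 : finrank K V = 2) (hA : NS A) : ∃ t, Sm A (cp t A.det) := by
  obtain ⟨v, hv⟩ := ns_iff.1 hA
  let e := linearEquivOfInjective (coprod (toSpanSingleton K V v) (toSpanSingleton K V (A v)))
    ((injective_iff_map_eq_zero _).2 fun ⟨x, y⟩ h => by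
      have h1 : x • v + y • A v = 0 := h
      have h3 : y = 0 := by_contra fun e => hv ((smul_mem_iff _ e).1 (by
        rw [eq_neg_of_add_eq_zero_right h1]; exact neg_mem (smul_mem _ _ (mem_span_singleton_self v))))
      have h4 : v ≠ 0 := by rintro rfl; simp at hv
      simpa [h3, h4] using h1) (by simp [h2])
  have h1 : ∀ u, e u = u.1 • v + u.2 • A v := fun _ => rfl
  obtain ⟨⟨a, b⟩, h3⟩ := e.surjective (A (A v))
  have h4 : ∀ u, tr e.symm A u = (a * u.2, u.1 + b * u.2) := fun u => e.injective (by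
    rw [tr_apply, e.apply_symm_apply, e.symm_symm, h1, h1, map_add, map_smul, map_smul, ← h3, h1]; module)
  have h5 := det2 (tr e.symm A)
  rw [det_tr, h4, h4] at h5
  exact ⟨b, e.symm, LinearEquiv.ext fun u => by simp [h4, cp, h5, -LinearEquiv.coe_det, -tr_apply]⟩

theorem qr_cp (t : K) (δ : Kˣ) : Qr (cp t δ) t := by simpa [cp] using qr2 (cp t δ)

theorem ex_qr (h2 : finrank K V = 2) (hA : NS A) : ∃ t, Qr A t := by
  obtain ⟨t, e, h⟩ := sim2 h2 hA
  exact ⟨t, by simpa [← h] using (qr_cp t A.det).tr e.symm⟩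

theorem Qr.sm (h : Qr A t) (h2 : finrank K V = 2) (hA : NS A) : Sm A (cp t A.det) := by
  obtain ⟨s, e, h1⟩ := sim2 h2 hA
  obtain rfl := (h1 ▸ h.tr e : Qr (cp s A.det) t).uniq (qr_cp s A.det)
  exact ⟨e, h1⟩

theorem Qr.sm' {B : V' ≃ₗ[K] V'} (h : Qr A t) (h2 : finrank K V = 2) (hA : NS A) (h' : Qr B t) (h3 : finrank K V' = 2)
    (hB : NS B) (hd : A.det = B.det) : Sm A B := (h.sm h2 hA).trans (hd ▸ (h'.sm h3 hB).symm)

theorem NS.cy2 (hA : NS A) (h2 : finrank K V = 2) : CY A := by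
  obtain ⟨t, e, h⟩ := sim2 h2 hA
  have : CY (cp t A.det) := ⟨(1, 0), fun p h1 h3 => eq_top_iff.2 fun ⟨x, y⟩ _ => by
    simpa [cp] using p.add_mem (p.smul_mem x h1) (p.smul_mem y (h3 _ h1))⟩
  simpa [← h] using this.tr e.symm

theorem Qr.ck (h : Qr A t) (h2 : finrank K V = 2) (hA : NS A) : CK A (q2 t A.det) :=
  ⟨hA.cy2 h2, LinearMap.ext fun u => by simp [q2, sq, h u, -LinearEquiv.coe_det]⟩

theorem adj2 (h2 : finrank K V = 2) (hA : NS A) : Sm A (sc V A.det * A⁻¹) := by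
  obtain ⟨t, h⟩ := ex_qr h2 hA
  have h1 : (sc V A.det * A⁻¹).det = A.det := by simp [det_sc, h2, sq]
  refine h.sm' h2 hA (fun u => ?_) h2 (hA.inv.smul _) h1.symm
  obtain ⟨u, rfl⟩ := (A * A).surjective u
  rw [h1]
  simp only [LinearEquiv.mul_apply, sc_apply, LinearEquiv.coe_inv, A.symm_apply_apply, map_smul]
  rw [h u]; module

theorem eig_of (hA : ¬Simp A) (h3 : finrank K V ≤ 3) : ¬NE A := fun h => hA fun p hp => by
  by_contra! H
  have h1 := finrank_lt H.2
  have h2 : finrank K p ≠ 0 := fun e => H.1 (finrank_eq_zero.1 e)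
  by_cases h4 : finrank K p = 1
  · obtain ⟨v, h5, h6⟩ := finrank_eq_one_iff'.1 h4
    obtain ⟨c, hc⟩ := h6 ⟨_, hp _ v.2⟩
    exact h5 (Subtype.ext (h c v (congrArg Subtype.val hc).symm))
  · obtain ⟨c, hc⟩ := scal_quot hp (by omega)
    have : Function.Surjective (A.toLinearMap - c • 1 : End K V) :=
      injective_iff_surjective.1 ((injective_iff_map_eq_zero _).2 fun u e => h c u (sub_eq_zero.1 e))
    exact H.2 (eq_top_iff.2 fun x _ => let ⟨y, e⟩ := this x; e ▸ hc y)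

theorem r1_of (hA : ¬NE A) (h2 : finrank K V = 2) : R1 A := by
  simp only [NE, not_forall] at hA
  obtain ⟨θ, u, h, hu⟩ := hA
  obtain ⟨c, hc⟩ := scal_quot (A := A) (p := K ∙ u) (fun x hx => by
    obtain ⟨c, rfl⟩ := mem_span_singleton.1 hx
    simp [h, smul_mem, mem_span_singleton_self]) (by rw [finrank_span_singleton hu, h2])
  exact ⟨c, u, hc⟩

variable [Finite K]

theorem conic (t τ δ : K) (h : ∀ θ, θ ^ 2 - t * θ + δ ≠ 0) :
    ∃ x y z : K, x * (t - x) - y * z = δ ∧ -δ * z + (y + t * (t - x)) = τ := by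
  suffices ∃ x z : K, x ^ 2 + t * x * z + δ * z ^ 2 - t * x + (τ - t ^ 2) * z + δ = 0 by
    obtain ⟨x, z, e⟩ := this
    exact ⟨x, τ - t ^ 2 + t * x + δ * z, z, by linear_combination -e, by ring⟩
  have := Fintype.ofFinite K
  by_cases h2 : ringChar K = 2
  · obtain ⟨r, hr⟩ := FiniteField.isSquare_of_char_two h2 (t ^ 2 - τ)
    have := ringChar.of_eq h2
    exact ⟨r, 1, by linear_combination -hr + δ * CharTwo.two_eq_zero (R := K)⟩
  have h3 : (2 : K) ≠ 0 := Ring.two_ne_zero h2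
  obtain ⟨a, z, e⟩ := FiniteField.exists_root_sum_quadratic (f := X ^ 2)
    (g := C (4 * δ - t ^ 2) * X ^ 2 + C (4 * τ - 2 * t ^ 2) * X + C (4 * δ - t ^ 2)) (by simp)
    (degree_quadratic fun e => h (t / 2) (by field_simp; linear_combination e)) (FiniteField.odd_card_of_char_ne_two h2)
  refine ⟨(a - t * z + t) / 2, z, ?_⟩
  simp only [eval_add, eval_mul, eval_C, eval_X, eval_pow] at e
  field_simp
  linear_combination e

theorem pg_ne (h2 : finrank K V = 2) (hA : NE A) (hB : NE B) (hd : B.det = A.det ^ 2) : PG A 2 B := by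
  have := nontrivial_of_finrank_eq_succ h2
  obtain ⟨t, h1⟩ := ex_qr h2 hA.ns
  obtain ⟨τ, h3⟩ := ex_qr h2 hB.ns
  obtain ⟨x, y, z, h4, h5⟩ := conic t τ A.det (h1.root hA)
  have h6 : ∀ {M : (K × K) ≃ₗ[K] (K × K)} {s : K}, Qr M s → (∀ θ, θ ^ 2 - s * θ + M.det ≠ 0) → NS M :=
    fun {M s} h h' c e => h' c (by
      have h7 : ∀ u, M u = c • u := fun u => congr($e u)
      have := congrArg Prod.fst (h (1, 0))
      simp only [h7, Prod.smul_mk, smul_eq_mul, Prod.fst_sub] at this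
      linear_combination this)
  let M := mk2 x y z (t - x) (h4 ▸ A.det.ne_zero)
  have h7 : M.det = A.det := Units.ext ((det_mk2 _ _ _ _ _).trans h4)
  have h8 : Qr M t := by simpa [M] using qr2 M
  have h9 : (cp t A.det * M).det = B.det := by
    rw [map_mul, h7, hd, sq]; congr 1; exact Units.ext ((det_mk2 _ _ _ _ _).trans (by simp))
  have h10 : Qr (cp t A.det * M) τ := by simpa [M, cp, ← h5] using qr2 (cp t A.det * M)
  have h11 : HG A 1 M := ⟨A, (Sm.refl A).pg, h1.sm' h2 hA.ns h8 (by simp) (h6 h8 (h7 ▸ h1.root hA)) h7.symm⟩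
  obtain ⟨Z, h12, e, rfl⟩ := (h11.mul (h1.sm h2 hA.ns)).sm
    (h10.sm' (by simp) (h6 h10 (h9 ▸ h3.root hB)) h3 h2 hB.ns h9)
  exact h12.conj e

theorem part2 (hK : 4 ≤ Nat.card K) (h2 : finrank K V = 2) (hA : NS A) (hk : 2 ≤ k) (hB : NE B ∨ DT B)
    (hd : B.det = A.det ^ k) : PG A k B := by
  have := hA.nontrivial
  obtain hB | hB := hB
  · by_cases h : NE A
    · obtain rfl | hk := hk.eq_or_lt
      · exact pg_ne h2 h hB hd
      · exact ((hA.cy2 h2).ng hK hA).mono hA hk B hB.ns hd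
    · exact ((r1_of h h2).ng hK hA).mono hA (h2 ▸ hk) B hB.ns hd
  · exact (hA.cy2 h2).pg hK hA hk hB hd

/-- a Jordan block of size two -/
def JT (A : V ≃ₗ[K] V) (c : Kˣ) : Prop := finrank K V = 2 ∧ NS A ∧ A.det = c ^ 2 ∧ Qr A (2 * c)

theorem jt_of (h2 : finrank K V = 2) (hA : NS A) (h : ¬Inv A) : ∃ c, JT A c := by
  have := hA.nontrivial
  obtain ⟨t, h1⟩ := ex_qr h2 hA
  have h3 := eig_of (fun e => h e.inv') (by omega)
  simp only [NE, not_forall] at h3
  obtain ⟨θ, u, h3, hu⟩ := h3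
  have h4 : θ ^ 2 - t * θ + A.det = 0 := by
    have := h1 u
    rw [h3, map_smul, h3] at this
    exact smul_left_injective K hu (by linear_combination (norm := module) this)
  have h5 : θ ≠ 0 := by rintro rfl; simp [hu] at h3
  have h6 : t = 2 * θ := by_contra fun e => h (ep_of h3 fun x hx => e (by
    have : (2 * θ - t) • u = 0 := by
      have h7 := congrArg A hx
      rw [map_sub, map_smul, h1, h3, show (A.det : K) = t * θ - θ ^ 2 by linear_combination h4] at h7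
      linear_combination (norm := module) (t - θ) • hx - h7
    exact (sub_eq_zero.1 ((smul_eq_zero_iff_left hu).1 this)).symm)).inv'
  exact ⟨.mk0 θ h5, h2, hA, Units.ext (by simp [-LinearEquiv.coe_det]; linear_combination h4 + θ * h6), h6 ▸ h1⟩

theorem JT.two {c : Kˣ} (hK : 4 ≤ Nat.card K) (h : JT A c) (γ γ' : Kˣ) (t : K) :
    ∃ Z s, In A [γ, γ'] Z ∧ NS Z ∧ Qr Z s ∧ s ≠ t := by
  let J := mk2 (c : K) c 0 c (by simp)
  have h1 : J.det = c ^ 2 := Units.ext ((det_mk2 _ _ _ _ _).trans (by simp [sq]))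
  obtain ⟨e, he⟩ := h.2.2.2.sm' h.1 h.2.1 (B := J) (by simpa [J, two_mul] using qr2 J) (by simp)
    (ns_iff'.2 fun d => by
      by_contra! H
      have := H (0, 1)
      simp [J] at this) (h.2.2.1.trans h1.symm)
  have key : ∀ s : Kˣ, ∃ Z, In A [γ, γ'] Z ∧ NS Z ∧ Qr Z (c ^ 2 * (2 - γ * γ' * (s * s))) := fun s => by
    let g := mk2 (γ : K) 0 0 1 (by simp)
    let g' := mk2 0 (-(s : K)⁻¹) (s * γ') 0 (by simp)
    have h2 := (In.nil.cons' (A := J) g' (γ := γ') (Units.ext ((det_mk2 _ _ _ _ _).trans (by simp))) rfl).cons' g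
      (γ := γ) (Units.ext ((det_mk2 _ _ _ _ _).trans (by simp))) rfl
    have h3 : g * J * g⁻¹ = mk2 (c : K) (c * γ) 0 c (by simp) := mul_inv_eq_iff_eq_mul.2 (LinearEquiv.ext fun u => by
      ext <;> simp [g, J]; ring)
    have h4 : g' * J * g'⁻¹ = mk2 (c : K) 0 (-(c * γ' * (s * s))) c (by simp) :=
      mul_inv_eq_iff_eq_mul.2 (LinearEquiv.ext fun u => by ext <;> simp [g', J] <;> field_simp; ring)
    rw [h3, h4, mul_one, ← he] at h2
    refine ⟨_, h2.of_tr, NS.tr (ns_iff'.2 fun d => ⟨(0, 1), by simp⟩) _, Qr.tr ?_ _⟩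
    convert qr2 _ using 1
    simp; ring
  obtain ⟨s, hs⟩ := ex_sq hK 1
  obtain ⟨Z, h2⟩ := key 1
  obtain ⟨Z', h3⟩ := key s
  by_contra! H
  exact hs (by simpa using (H _ _ h3.1 h3.2.1 h3.2.2).trans (H _ _ h2.1 h2.2.1 h2.2.2).symm)

end H11.Lv
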