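import Cfsg.Agent.H11.Lv5

/-! A simple operator plus a scalar. -/

set_option autoImplicit false
set_option linter.unusedSectionVars false

namespace H11.Lv

open Module Submodule LinearMap H22.CY

universe u

variable {K : Type u} [Field K] {V V' W W' : Type u} [AddCommGroup V] [Module K V] [AddCommGroup V'] [Module K V']
  [AddCommGroup W] [Module K W] [AddCommGroup W'] [Module K W'] [FiniteDimensional K V] [FiniteDimensional K V']
  [FiniteDimensional K W] [FiniteDimensional K W'] {B : V ≃ₗ[K] V} {Y : W ≃ₗ[K] W} {c : Kˣ} {i m : ℕ}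

theorem link [Nontrivial V] [Nontrivial W] (hB : Simp B) (hY : CY Y) : ∃ N : W →ₗ[K] V, CY (un N * pr B Y) := by
  obtain ⟨y, hy⟩ := hY
  let Φ : (W →ₗ[K] V) →ₗ[K] (W →ₗ[K] V) := lcomp K V Y.toLinearMap - llcomp K W V V B.toLinearMap
  by_contra! H
  have h1 : ∀ M, ∃ T : W →ₗ[K] V, T y = 0 ∧ Φ T = M := fun M => by
    obtain ⟨p, h1, h2, h3⟩ : ∃ p : Submodule K (V × W), (0, y) ∈ p ∧
        (∀ u ∈ p, (B u.1 + M u.2, Y u.2) ∈ p) ∧ p ≠ ⊤ := by
      by_contra! h
      exact H (M ∘ₗ Y.symm.toLinearMap) ⟨(0, y), fun p h1 h2 => h p h1 fun u hu => by simpa using h2 u hu⟩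
    have h4 : Function.Surjective (snd K V W ∘ₗ p.subtype) := fun w => by
      obtain ⟨u, h5, h6⟩ := (hy (p.map (snd K V W)) ⟨_, h1, rfl⟩ (by
        rintro _ ⟨u, hu, rfl⟩; exact ⟨_, h2 u hu, rfl⟩)).ge (mem_top (x := w))
      exact ⟨⟨u, h5⟩, h6⟩
    have h5 := (hB (p.comap (inl K V W)) fun u hu => by simpa using h2 _ hu).resolve_right fun e =>
      h3 (eq_top_iff.2 fun ⟨b, w⟩ _ => by
        obtain ⟨⟨⟨b', _⟩, h5⟩, rfl⟩ := h4 w
        simpa using p.add_mem h5 (e.ge (mem_top (x := b - b'))))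
    obtain ⟨s, hs⟩ := (snd K V W ∘ₗ p.subtype).exists_rightInverse_of_surjective (range_eq_top.2 h4)
    have h6 : ∀ u ∈ p, (s u.2).1.1 = u.1 := fun u hu => sub_eq_zero.1 (h5.le (show (_, 0) ∈ p by
      convert p.sub_mem (s u.2).2 hu using 1
      exact Prod.ext rfl (sub_eq_zero.2 congr($hs u.2)).symm))
    refine ⟨fst K V W ∘ₗ p.subtype ∘ₗ s, h6 _ h1, LinearMap.ext fun w => sub_eq_iff_eq_add'.2 ?_⟩
    have := h6 _ (h2 _ (s w).2)
    rwa [show (s w).1.2 = w from congr($hs w)] at this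
  have h2 : Function.Injective Φ := injective_iff_surjective.2 fun M => (h1 M).imp fun _ h => h.2
  obtain ⟨φ, hφ⟩ := Projective.exists_dual_eq_one K hy.ne_zero
  obtain ⟨b, hb⟩ := exists_ne (0 : V)
  obtain ⟨T, h3, h4⟩ := h1 (Φ (φ.smulRight b))
  simp [h2 h4, hφ, hb] at h3

theorem Simp.smul (h : Simp B) (c : Kˣ) : Simp (sc V c * B) := fun p hp =>
  h p fun u hu => (p.smul_mem_iff c.ne_zero).1 (hp u hu)

theorem disj_sc (h : ∀ u, B u = (c : K) • u → u = 0) : Disj B (sc W c) := fun N hN =>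
  LinearMap.ext fun y => h _ (by simp [← hN])

theorem dt_blk (hY : CY Y) (h : ∀ u, Y u = (c : K) • u → u = 0) (hV : finrank K V = 1) : DT (pr Y (sc V c)) := by
  obtain ⟨y, hy⟩ := hY
  have h1 : Function.Injective (Y.toLinearMap - (c : K) • 1 : End K W) :=
    (injective_iff_map_eq_zero _).2 fun u e => h u (sub_eq_zero.1 e)
  obtain ⟨e, he⟩ := (Sm.refl Y).pr (sm_sc (V := K) (V' := V) (by simp [hV]) c)
  exact he ▸ DT.tr ⟨⟨_, hy.blk ⟨h1, injective_iff_surjective.1 h1⟩⟩, (ep_sc c).pr_r Y⟩ e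

theorem sm_L (h : finrank K W + finrank K W' = finrank K V') : Sm (pr B (sc V' c)) (pr (pr B (sc W c)) (sc W' c)) :=
  ((Sm.refl _).pr (sm_sc (V' := W × W') (by simp [h]) c)).trans (sm_assoc _ (sc _ c) (sc _ c))

variable (V' B c) in
/-- the state after `i` factors -/
def St (i m : ℕ) : Prop := ∀ (W E : Type u) [AddCommGroup W] [Module K W] [FiniteDimensional K W]
  [AddCommGroup E] [Module K E] [FiniteDimensional K E], finrank K W = m →
    m + finrank K E = finrank K V + finrank K V' → ∃ Y : W ≃ₗ[K] W, CY Y ∧ (∀ u, Y u = (c ^ i : Kˣ).1 • u → u = 0) ∧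
      HG (pr B (sc V' c)) i (pr Y (sc E (c ^ i)))

theorem St.of {A : V' ≃ₗ[K] V'} {Y : W ≃ₗ[K] W} (h : finrank K W = finrank K W') (h1 : CY Y)
    (h2 : ∀ u, Y u = (c : K) • u → u = 0) {Z : V ≃ₗ[K] V} (h3 : HG A i (pr Y Z)) :
    ∃ Y : W' ≃ₗ[K] W', CY Y ∧ (∀ u, Y u = (c : K) • u → u = 0) ∧ HG A i (pr Y Z) := by
  let e : W ≃ₗ[K] W' := .ofFinrankEq _ _ h
  exact ⟨tr e Y, h1.tr e, fun u h => by simpa using h2 (e.symm u) (e.injective (by simpa using h)),
    h3.sm (Sm.pr ⟨e, rfl⟩ (.refl _))⟩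

theorem St.base (hB : Simp B) (h2 : 2 ≤ finrank K V) : St V' B c 1 (finrank K V) := by
  intro W E _ _ _ _ _ _ h1 h3
  have := nontrivial_of_finrank_pos (R := K) (M := V) (by omega)
  refine St.of h1.symm hB.cy (fun u => hB.ne h2) ⟨_, (Sm.refl _).pg, ?_⟩
  rw [pow_one]
  exact (Sm.refl _).pr (sm_sc (by omega) c)

theorem St.link (hB : Simp B) (h2 : 2 ≤ finrank K V) (hm : m ≠ 0) (h : St V' B c i m) :
    St V' B c (i + 1) (m + finrank K V) := by
  intro W E _ _ _ _ _ _ h1 h3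
  have := nontrivial_of_finrank_pos (R := K) (M := V) (by omega)
  have := nontrivial_of_finrank_pos (R := K) (M := Fin m → K) (by simp; omega)
  obtain ⟨Y, a1, a2, a3⟩ := h (Fin m → K) (V × E) (by simp) (by simp; omega)
  obtain ⟨N, hN⟩ := Lv.link (hB.smul (c ^ i)) (a1.smul c)
  obtain ⟨g, -, hg⟩ := ((un_ut N).mul (UT.pr B (sc _ c))).split (by simpa using disj_sc fun u => hB.ne h2)
  have h4 := (a3.sm (sm_regroup _ (sc V _) (sc E _))).mul ((sm_L (W := Fin m → K) (W' := E) (by simp; omega)).trans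
    (Sm.pr (Sm.symm (A := un N * pr B (sc _ c)) ⟨g, (tr_self g _).trans (by simpa using hg)⟩) (.refl _)))
  rw [pr_mul, mul_assoc, pr_mul, ← sc_comm, ← map_mul, ← pow_succ'] at h4
  refine St.of (by simp; omega) hN (fun ⟨b, w⟩ e => ?_) h4
  have h5 : w = 0 := a2 w (smul_right_injective _ c.ne_zero (by simpa [pow_succ', mul_smul] using congrArg Prod.snd e))
  subst h5
  exact Prod.ext (hB.ne h2 (θ := c) (smul_right_injective V (c ^ i).ne_zero (by
    simpa [pow_succ, mul_smul, -map_pow] using congrArg Prod.fst e))) rfl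

variable [Finite K]

theorem exists_ne' (h : 2 ≤ finrank K V) (d : Kˣ) : ∃ Z : V ≃ₗ[K] V, CY Z ∧ NE Z ∧ Z.det = d := by
  obtain ⟨s, hs⟩ := rootless h d
  obtain ⟨Z, h1, h2⟩ := exists_ck (fam_good h d s)
  exact ⟨Z, h1.1, fun θ u => h1.ne (hs θ), h2⟩

theorem St.fac (hB : Simp B) (h2 : 2 ≤ finrank K V) (hm : finrank K V ≤ m) (h : St V' B c i m) :
    St V' B c (i + 1) (m + 1) := by
  intro W E _ _ _ _ _ _ h1 h3
  have := nontrivial_of_finrank_pos (R := K) (M := V) (by omega)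
  obtain ⟨Y, a1, a2, a3⟩ := h (Fin m → K) (K × E) (by simp) (by simp; omega)
  let e : (V × (Fin (m + 1 - finrank K V) → K)) ≃ₗ[K] (Fin m → K) × K := .ofFinrankEq _ _ (by simp; omega)
  have h4 : NS (tr e (pr B (sc _ c))) := NS.tr (ns_iff'.2 fun d => by
    obtain ⟨v, hv⟩ := exists_ne (0 : V)
    exact ⟨(v, 0), fun h => hv (hB.ne h2 (congrArg Prod.fst h))⟩) e
  obtain ⟨Z, b1, b2, b3⟩ := exists_ne' (V := (Fin m → K) × K) (by simp; omega)
    ((tr e (pr B (sc _ c))).det * (pr Y (sc K (c ^ i))).det)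
  obtain ⟨g, g', h5⟩ := facG h4 (dt_blk a1 a2 (by simp)) b1 b3
  have h6 := ((a3.sm (sm_assoc _ (sc K _) (sc E _))).sm (Sm.pr ⟨g, rfl⟩ (.refl _))).mul
    ((sm_L (W' := E) (by simp; omega)).trans (Sm.pr ⟨e, rfl⟩ (.refl _)))
  rw [pr_mul, tr_self, h5, ← map_mul, ← pow_succ'] at h6
  exact St.of (by simp; omega) (b1.conj g') (b2.tr g' _) h6

theorem St.all (hB : Simp B) (h2 : 2 ≤ finrank K V) (a r : ℕ) : St V' B c (1 + r + a) (finrank K V + r + a * finrank K V) := by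
  induction a with
  | zero =>
    induction r with
    | zero => simpa using St.base hB h2
    | succ r ih => simpa [add_assoc] using (ih.fac hB h2 (by omega))
  | succ a ih => simpa [add_mul, add_assoc] using ih.link hB h2 (by omega)

theorem typeL (hK : 4 ≤ Nat.card K) (hB : Simp B) (h2 : 2 ≤ finrank K V) [Nontrivial V'] :
    NP (pr B (sc V' c)) (finrank K (V × V')) ∧
      ((pr B (sc V' c)).det = 1 → Id (pr B (sc V' c)) (finrank K (V × V'))) := by
  have := nontrivial_of_finrank_pos (R := K) (M := V) (by omega)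
  have hI : Inv (pr B (sc V' c)) := ((ep_sc c).pr_r B).inv'
  have hA : NS (pr B (sc V' c)) := ns_iff'.2 fun d => by
    obtain ⟨v, hv⟩ := exists_ne (0 : V)
    exact ⟨(v, 0), fun h => hv (hB.ne h2 (congrArg Prod.fst h))⟩
  have h0 := finrank_pos (R := K) (M := V')
  obtain ⟨a, r, h1, h3⟩ : ∃ a r, finrank K V' = r + a * finrank K V + 1 ∧ r < finrank K V :=
    ⟨(finrank K V' - 1) / finrank K V, (finrank K V' - 1) % finrank K V, by
      rw [Nat.mod_add_div']; omega, Nat.mod_lt _ (by omega)⟩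
  obtain ⟨Y, a1, a2, D, a3, e, a4⟩ := St.all (V' := V') (c := c) hB h2 a r
    (Fin (finrank K V + r + a * finrank K V) → K) K (by simp) (by simp; omega)
  have h4 : DT D := by simpa only [← a4, tr_symm_tr] using (dt_blk (V := K) a1 a2 (by simp)).tr e.symm
  have h5 := ((a3.pp hI).dp h4).np
  have h6 : 2 * a ≤ a * finrank K V := by nlinarith
  rw [finrank_prod]
  refine ⟨h5.mono hA (by omega), fun hd => ?_⟩
  suffices (∃ k, k < finrank K V + finrank K V' ∧ NP (pr B (sc V' c)) k) ∨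
      Id (pr B (sc V' c)) (finrank K V + finrank K V') by
    refine this.elim (fun ⟨k, h7, h8⟩ => ?_) id
    obtain ⟨n, hn⟩ := Nat.exists_eq_add_of_lt h7
    exact hn ▸ (h8.mono hA (Nat.le_add_right k n)).id hA (by simp [hd])
  by_cases h7 : 1 + r + a + (1 + r + a) < finrank K V + finrank K V'
  · exact .inl ⟨_, h7, h5⟩
  by_cases h8 : finrank K V = 2
  · have h9 : PG (pr B (sc V' c)) 2 (sc _ (c ^ 2) * pr (sc V (B.det / c ^ 2)) (sc V' 1)) := by
      convert (Sm.refl _).pg.mul ((adj2 h8 (hB.cy.ns h2)).pr (.refl (sc V' c))).pg using 1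
      ext u <;> simp [sq, smul_smul, -LinearEquiv.coe_det, -map_div, -map_mul]
      field_simp
    have h10 := h9.comp ((scal_pow' (V := V) (V' := V') (k := a + 1) (B.det / c ^ 2) (by rw [h8] at h1 h3 h7 ⊢; omega)).smul (c ^ 2))
    rw [← map_mul, show (a + 1 + 1) * 2 = finrank K V + finrank K V' by rw [h8] at h1 h3 h7 ⊢; omega] at h10
    exact .inr ⟨_, h10.pp hI _ (by simp)⟩
  have h9 : 3 * a ≤ a * finrank K V := by nlinarith [show 3 ≤ finrank K V by omega]
  obtain rfl : a = 0 := by omega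
  obtain ⟨Y, b1, -, Z, b3, e, b4⟩ := St.all (V' := V') (c := c) hB h2 1 0 (V × V) PUnit (by simp)
    (by simp [finrank_zero_of_subsingleton]; omega)
  obtain ⟨e', b5⟩ : Sm Y (pr Y (sc PUnit (c ^ (1 + 0 + 1)))) :=
    .of LinearEquiv.prodUnique.symm fun _ => Prod.ext rfl (Subsingleton.elim _ _)
  exact .inl ⟨_, by omega, (ng_of a3 h4 b3 (by simpa only [b5, ← b4, tr_symm_tr] using (b1.tr e').tr e.symm)).np hI⟩

end H11.Lv
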