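import Cfsg.Agent.H11.Lv6

/-! Combining the parts of a filtration; dimension three. -/

set_option autoImplicit false
set_option linter.unusedSectionVars false

namespace H11.Lv

open Module Submodule LinearMap H22.CY Polynomial

universe u

variable {K : Type u} [Field K] [Finite K] {V W W' W'' : Type u} [AddCommGroup V] [Module K V]
  [AddCommGroup W] [Module K W] [AddCommGroup W'] [Module K W'] [AddCommGroup W''] [Module K W'']
  [FiniteDimensional K V] [FiniteDimensional K W] [FiniteDimensional K W'] [FiniteDimensional K W''] {k : ℕ}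

/-- the final result -/
def Res (A : V ≃ₗ[K] V) : Prop := NP A (finrank K V) ∧ (A.det = 1 → Id A (finrank K V))

theorem Sm.res {A : V ≃ₗ[K] V} {B : W ≃ₗ[K] W} (h : Sm A B) (h' : Res B) : Res A := by
  obtain ⟨e, rfl⟩ := h
  rw [Res, e.finrank_eq]
  exact ⟨h'.1.of_tr, fun hd => (h'.2 (by simpa)).of_tr⟩

theorem NP.res {A : V ≃ₗ[K] V} (h : NP A k) (hA : NS A) (hk : k < finrank K V) : Res A := by
  refine ⟨h.mono hA hk.le, fun hd => ?_⟩
  obtain ⟨n, hn⟩ := Nat.exists_eq_add_of_lt hk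
  exact hn ▸ (h.mono hA (Nat.le_add_right k n)).id hA (by simp [hd])

theorem PP.conj {A X : V ≃ₗ[K] V} (h : PP A k X) (g : V ≃ₗ[K] V) : PP A k (g * X * g⁻¹) := fun L e => by
  simpa [Function.comp_def] using (h (L.map (g.det⁻¹ * ·)) (by simpa)).conj g

/-- admissible targets for a part -/
def Ok (B : W ≃ₗ[K] W) (k : ℕ) (l : W ≃ₗ[K] W) : Prop :=
  CY l ∧ (finrank K W = 2 → NE l ∨ DT l) ∧ l.det = B.det ^ k

/-- all admissible targets are reached -/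
def Pt (B : W ≃ₗ[K] W) (k : ℕ) : Prop := 2 ≤ finrank K W ∧ 2 ≤ k ∧ ∀ l, Ok B k l → PG B k l

theorem pt_of (hK : 4 ≤ Nat.card K) {B : W ≃ₗ[K] W} (hB : NS B) (ih : 3 ≤ finrank K W → NP B (finrank K W))
    (hk : finrank K W ≤ k) : Pt B k := by
  refine ⟨hB.two_le, hB.two_le.trans hk, fun l h => ?_⟩
  obtain h2 | h2 := hB.two_le.eq_or_lt
  · exact part2 hK h2.symm hB (h2.le.trans hk) (h.2.1 h2.symm) h.2.2
  · exact ((ih h2).mono hB hk l (h.1.ns h2.le) h.2.2).pg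

theorem ex_irr (B : W ≃ₗ[K] W) (h : 2 ≤ finrank K W) (k : ℕ) : ∃ l f, Ok B k l ∧ CK l f ∧ f.Monic ∧ Irreducible f ∧
    2 ≤ f.natDegree := by
  obtain ⟨f, h1, h2⟩ := exists_irr (m := finrank K W) (by omega) (B.det ^ k)
  obtain ⟨l, h3, h4⟩ := exists_ck h1
  exact ⟨l, f, ⟨h3.1, fun _ => .inl fun θ u => h3.ne (h2.not_isRoot_of_natDegree_ne_one (by rw [h1.2.1]; omega)), h4⟩,
    h3, h1.1, h2, h1.2.1 ▸ h⟩

section
variable {A : (W × W') ≃ₗ[K] (W × W')} {B : W ≃ₗ[K] W} {C : W' ≃ₗ[K] W'}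

theorem two_l (hK : 4 ≤ Nat.card K) (h : UT A B C) [Nontrivial W] (hB : Simp B) (hC : Pt C k) : DP A k := by
  obtain ⟨l, f, a1, a2, a3, a4, a5⟩ := ex_irr C hC.1 k
  obtain ⟨l', θ, g, b1, b2, b3, b4⟩ := hB.mid hK hC.2.1 (f.coeff 0) 0
  have h1 := (b4.cop θ a3 a4 a5 (.inl rfl)).symm
  exact (b1.split_l h (hC.2.2 l a1) (b2.disj a2 h1)).dp ⟨(b2.pr a2 h1).1, b3.pr_l _⟩

theorem two_r (hK : 4 ≤ Nat.card K) (h : UT A B C) [Nontrivial W'] (hB : Pt B k) (hC : Simp C) : DP A k := by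
  obtain ⟨l, f, a1, a2, a3, a4, a5⟩ := ex_irr B hB.1 k
  obtain ⟨l', θ, g, b1, b2, b3, b4⟩ := hC.mid hK hB.2.1 (f.coeff 0) 0
  have h1 := b4.cop θ a3 a4 a5 (.inl rfl)
  exact ((hB.2.2 l a1).split_r h b1 (a2.disj b2 h1)).dp ⟨(a2.pr b2 h1).1, b3.pr_r _⟩

theorem three (hK : 4 ≤ Nat.card K) {A' : (V × (W × W')) ≃ₗ[K] (V × (W × W'))} {D : V ≃ₗ[K] V} (h' : UT A' D A)
    (h : UT A B C) [Nontrivial W] (hD : Pt D k) (hB : Simp B) (hC : Pt C k) : DP A' k := by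
  obtain ⟨l, f, a1, a2, a3, a4, a5⟩ := ex_irr D hD.1 k
  obtain ⟨l', θ, g, b1, b2, b3, b4⟩ := hB.mid hK hC.2.1 (f.coeff 0) ((-1) ^ finrank K W' * (C.det ^ k : Kˣ))
  obtain ⟨p, c1, c2, c3, c4⟩ := b4.third hK hC.1 θ a3 a4
  obtain ⟨l'', c5, c6⟩ := exists_ck c1
  have h1 := (b4.cop θ a3 a4 a5 (.inl rfl)).mul_right c2
  have h2 := b2.pr c5 c3
  exact ((hD.2.2 l a1).split_r h' (b1.split_l h (hC.2.2 l'' ⟨c5.1, fun e => .inl fun θ u => c5.ne (c4 e θ), c6⟩)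
    (b2.disj c5 c3)) (a2.disj h2 h1)).dp ⟨(a2.pr h2 h1).1, (b3.pr_l _).pr_r _⟩

theorem Disj.tr {V' : Type u} [AddCommGroup V'] [Module K V'] (h : Disj B C) (e : W ≃ₗ[K] V) (e' : W' ≃ₗ[K] V') :
    Disj (tr e B) (tr e' C) := fun N hN => LinearMap.ext fun y => by
  simpa using congr($(h (e.symm.toLinearMap ∘ₗ N ∘ₗ e'.toLinearMap) fun y => by
    simpa [e.symm_apply_eq] using hN (e' y)) (e'.symm y))

theorem id_of {A X : V ≃ₗ[K] V} {Y : V ≃ₗ[K] V} {c : Kˣ} (h : In A (.replicate k 1) X) (h' : In A (.replicate k 1) Y)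
    (hY : EP Y) (e : Sm Y (sc V c * X⁻¹)) : Id A (k + k) := by
  obtain ⟨g, hg⟩ := e
  obtain ⟨s, h1, h2⟩ := hY.inv'.adj g 1
  have := h.append (h'.conj1 h1)
  rw [h2, ← tr_self, hg, sc_comm, mul_inv_cancel_left, List.replicate_append_replicate] at this
  exact ⟨c, this⟩

theorem eq_part (hK : 4 ≤ Nat.card K) (h : UT A B C) (h1 : finrank K W = k) (h2 : finrank K W' = k) (hk : 2 ≤ k)
    (H : ∀ l l', Ok B k l → Ok C k l' → Disj l l' → PP A k (pr l l')) : Res A := by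
  obtain ⟨l', f, a1, a2, a3, a4, a5⟩ := ex_irr C (h2 ▸ hk) k
  obtain ⟨l, θ, g, b1, b2, b3, b4⟩ := exists_dt' (V := W) hK (h1 ▸ hk) (B.det ^ k) (f.coeff 0) 0
  have h3 := b4.cop θ a3 a4 a5 (.inl rfl)
  have h4 := H l l' ⟨b1.1, fun _ => .inr ⟨b1.1, b2⟩, b3⟩ a1 (b1.disj a2 h3.symm)
  rw [Res, finrank_prod, h1, h2]
  refine ⟨(h4.dp ⟨(b1.pr a2 h3.symm).1, b2.pr_l _⟩).np, fun hd => ?_⟩
  let e : W ≃ₗ[K] W' := .ofFinrankEq _ _ (h1.trans h2.symm)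
  rw [h.det] at hd
  have h5 := H (tr e.symm l'⁻¹) (tr e l⁻¹) ⟨a1.1.inv.tr _, fun h => (a1.2.1 (by omega)).imp (fun h => h.inv.tr _)
    fun h => h.inv.tr _, by simp [a1.2.2, eq_inv_of_mul_eq_one_left hd]⟩ ⟨b1.1.inv.tr _,
    fun _ => .inr ⟨b1.1.inv.tr _, b2.inv.tr _⟩, by simp [b3, eq_inv_of_mul_eq_one_right hd]⟩
    ((a2.disj b1 h3).inv.tr _ _)
  exact id_of (c := 1) (h4 _ (by simp)) (h5 _ (by simp)) ((b2.inv.tr _).pr_r _)
    (.of ((LinearEquiv.prodComm K _ _).trans (e.symm.prodCongr e)) fun u => by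
      simp [pr_inv, ← map_inv, -LinearEquiv.coe_inv])

theorem jj_eq (hK : 4 ≤ Nat.card K) (h : UT A B C) {c : Kˣ} (hB : JT B c) (hC : JT C c) : Res A := by
  obtain ⟨l, _, _, b1, b2, b3, -⟩ := exists_dt' (V := W) hK hB.1.ge (B.det ^ 2) 0 0
  have b4 := b1.1.ns hB.1.ge
  obtain ⟨t, b5⟩ := ex_qr hB.1 b4
  obtain ⟨_ | ⟨a, _ | ⟨a', _ | _⟩⟩, h1, h2⟩ := pg_two hB.2.1 (hB.2.1.cy2 hB.1) ⟨b1.1, b2⟩ b3 <;> simp at h1
  have key : ∀ γ γ', ∃ X, In A [γ, γ'] X ∧ DT X ∧ Sm X (sc _ l.det * X⁻¹) := fun γ γ' => by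
    obtain ⟨Z, s, c1, c2, c3, c4⟩ := hC.two hK (a⁻¹ * γ) (a'⁻¹ * γ') t
    have c5 : Z.det = l.det := by simp [c1.det, b3, hB.2.2.1, hC.2.2.1]
    have c6 := b5.ck hB.1 b4
    have c7 := c5 ▸ c3.ck hC.1 c2
    have c8 := cop_q2 c4.symm l.det.ne_zero
    exact ⟨_, by simpa using h2.split h c1 rfl (c6.disj c7 c8), ⟨(c6.pr c7 c8).1, b2.pr_l _⟩,
      (adj2 hB.1 b4).pr (c5 ▸ adj2 hC.1 c2)⟩
  rw [Res, finrank_prod, hB.1, hC.1]
  refine ⟨DP.np ?_, fun _ => ?_⟩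
  · rintro (_ | ⟨γ, _ | ⟨γ', _ | _⟩⟩) e <;> simp at e
    exact (key γ γ').imp fun _ h => ⟨h.1, h.2.1⟩
  · obtain ⟨X, h3, h4, h5⟩ := key 1 1
    exact id_of (k := 2) h3 h3 h4.2 h5

theorem UT.tr {V' : Type u} [AddCommGroup V'] [Module K V'] (h : UT A B C) (e : W ≃ₗ[K] V) (e' : W' ≃ₗ[K] V') :
    UT (tr (e.prodCongr e') A) (tr e B) (tr e' C) := ⟨fun x => by simp [h.1], fun u => by simp [h.2]⟩

end

/-- the Jordan block -/
def jb (c : Kˣ) : (K × K) ≃ₗ[K] (K × K) := mk2 (c : K) c 0 c (by simp)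

theorem jt_jb (c : Kˣ) : JT (jb c) c :=
  ⟨by simp, ns_iff'.2 fun d => ⟨(0, 1), by simp [jb]⟩, Units.ext ((det_mk2 _ _ _ _ _).trans (by simp [sq])),
    by simpa [jb, two_mul] using qr2 (jb c)⟩

theorem JT.sm {B : W ≃ₗ[K] W} {c : Kˣ} (h : JT B c) : Sm B (jb c) :=
  h.2.2.2.sm' h.1 h.2.1 (jt_jb c).2.2.2 (by simp) (jt_jb c).2.1 (h.2.2.1.trans (jt_jb c).2.2.1.symm)

/-- a diagonal matrix -/
def dg (a b : Kˣ) : (K × K) ≃ₗ[K] (K × K) := pr (sc K a) (sc K b)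

theorem dt_dg {a b : Kˣ} (h : a ≠ b) : DT (dg a b) :=
  dt_blk (ck_sc (by simp) a).1 (fun u e => by simpa [Units.val_inj, h] using e) (by simp)

theorem det_dg (a b : Kˣ) : (dg a b).det = a * b := by simp [dg, det_pr, det_sc]

theorem disj_dg {a b c : Kˣ} (h : a ≠ c) (h' : b ≠ c) : ∀ u, dg a b u = (c : K) • u → u = 0 := fun u e => by
  simpa [dg, Prod.ext_iff, Units.val_inj, h, h'] using e

theorem eq_two (hK : 4 ≤ Nat.card K) {A : (W × W') ≃ₗ[K] (W × W')} {B : W ≃ₗ[K] W} {C : W' ≃ₗ[K] W'} (h : UT A B C)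
    (h1 : finrank K W = 2) (h2 : finrank K W' = 2) (hB : NS B) (hC : NS C) (hI : Inv B ∨ Inv C) : Res A := by
  have h3 := (pt_of hK hB (by omega) h1.le).2.2
  have h4 := (pt_of hK hC (by omega) h2.le).2.2
  exact eq_part hK h h1 h2 le_rfl fun l l' a b c => hI.elim (fun e => ((h3 l a).pp e).split_l h (h4 l' b) c)
    fun e => (h3 l a).split_r h ((h4 l' b).pp e) c

theorem eq_all (hK : 4 ≤ Nat.card K) {A : (W × W') ≃ₗ[K] (W × W')} {B : W ≃ₗ[K] W} {C : W' ≃ₗ[K] W'} (h : UT A B C)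
    (h1 : finrank K W = k) (h2 : finrank K W' = k) (hB : NS B) (hC : NS C)
    (ih : 3 ≤ finrank K W → NP B (finrank K W)) (ih' : 3 ≤ finrank K W' → NP C (finrank K W')) : Res A := by
  obtain h3 | h3 := hB.two_le.eq_or_lt
  swap
  · exact eq_part hK h h1 h2 (by omega) fun l l' a b c => (h1 ▸ ih h3 l (a.1.ns h3.le) (h1 ▸ a.2.2)).split_l h
      ((pt_of hK hC ih' h2.le).2.2 l' b) c
  by_cases hI : Inv B ∨ Inv C
  · exact eq_two hK h h3.symm (by omega) hB hC hI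
  obtain ⟨b, hb⟩ := jt_of h3.symm hB fun e => hI (.inl e)
  obtain ⟨c, hc⟩ := jt_of (by omega) hC fun e => hI (.inr e)
  obtain rfl | hbc := eq_or_ne b c
  · exact jj_eq hK h hb hc
  have h4 : ∀ c : K, q2 (2 * c) (c ^ 2) = (X - Polynomial.C c) ^ 2 := fun c => by
    simp only [q2, map_mul, map_pow, map_ofNat]; ring
  obtain ⟨g, -, hg⟩ := h.split ((hb.2.2.2.ck hb.1 hB).disj (hc.2.2.2.ck hc.1 hC) (by
    rw [hb.2.2.1, hc.2.2.1, Units.val_pow_eq_pow_val, Units.val_pow_eq_pow_val, h4, h4]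
    exact (isCoprime_X_sub_C_of_isUnit_sub (sub_ne_zero.2 (Units.val_injective.ne hbc)).isUnit).pow))
  refine ((Sm.trans ⟨g, hg⟩ (hb.sm.pr hc.sm)).trans ⟨.prodProdProdComm K K K K K, rfl⟩).res
    (eq_two hK (B := dg b c) (C := dg b c) ⟨fun x => by simp [jb, dg], fun u => by simp [jb, dg]⟩ (by simp) (by simp)
      ((dt_dg hbc).1.ns (by simp)) ((dt_dg hbc).1.ns (by simp)) (.inl (dt_dg hbc).2.inv'))

variable {A : V ≃ₗ[K] V}

theorem cyc3 (h3 : finrank K V = 3) (hA : NS A) (h : ¬R1 A) : CY A := by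
  obtain ⟨v, hv⟩ := ns_iff.1 hA
  have h0 : v ≠ 0 := by rintro rfl; simp at hv
  have h1 : finrank K ((K ∙ v) ⊔ K ∙ A v :) = 2 := by rw [finrank_sup_span_singleton hv, finrank_span_singleton h0]
  have h2 : ∀ x ∉ (K ∙ v) ⊔ K ∙ A v, ∀ p : Submodule K V, v ∈ p → A v ∈ p → x ∈ p → p = ⊤ := fun x hx p a b c =>
    eq_top_iff.2 ((eq_top_of_finrank_eq (by rw [finrank_sup_span_singleton hx, h1, h3])).ge.trans
      (by simp [a, b, c]))
  by_contra H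
  have h4 : ∀ x ∈ (K ∙ v) ⊔ K ∙ A v, A x ∈ (K ∙ v) ⊔ K ∙ A v := fun x hx => by
    have : A (A v) ∈ (K ∙ v) ⊔ K ∙ A v := by_contra fun e => H ⟨v, fun p a b => h2 _ e p a (b _ a) (b _ (b _ a))⟩
    exact (show _ ≤ comap A.toLinearMap ((K ∙ v) ⊔ K ∙ A v) by simp [this, mem_sup_right]) hx
  obtain ⟨c, hc⟩ := scal_quot h4 (by omega)
  obtain ⟨z, -, hz⟩ := SetLike.exists_of_lt (show (K ∙ v) ⊔ K ∙ A v < ⊤ from lt_top_iff_ne_top.2 fun e => by
    rw [e, finrank_top] at h1; omega)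
  let N : End K V := A.toLinearMap - c • 1
  have h5 : range N = (K ∙ v) ⊔ K ∙ A v := eq_of_le_of_finrank_le (by rintro _ ⟨x, rfl⟩; exact hc x) (by
    by_contra! e
    obtain ⟨u, hu⟩ := finrank_le_one_iff.1 (show finrank K (range N) ≤ 1 by omega)
    exact h ⟨c, u, fun x => let ⟨d, hd⟩ := hu ⟨_, x, rfl⟩; mem_span_singleton.2 ⟨d, congrArg Subtype.val hd⟩⟩)
  have h6 : ∀ x, N x = v → x ∈ (K ∙ v) ⊔ K ∙ A v := fun x e => by_contra fun hx => H ⟨x, fun p a b =>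
    have : v ∈ p := e ▸ p.sub_mem (b _ a) (p.smul_mem c a)
    h2 _ hx p this (b _ this) a⟩
  obtain ⟨x, hx⟩ := h5.ge (mem_sup_left (mem_span_singleton_self v))
  have h7 : (K ∙ v) ⊔ K ∙ A v ≤ map N ((K ∙ v) ⊔ K ∙ A v) := by
    simp only [sup_le_iff, span_singleton_le_iff_mem]
    exact ⟨⟨x, h6 x hx, hx⟩, A x, h4 x (h6 x hx), by simp [← hx, N]⟩
  obtain ⟨y, h8, h9⟩ := h7 (hc z)
  exact hz (by simpa using add_mem (sub_mem (h6 (x + (z - y)) (by rw [map_add, map_sub, hx, h9]; simp [N])) (h6 x hx)) h8)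

theorem u3 (h3 : finrank K V = 3) (h : ¬Inv A) : ∃ c, ∃ e : V ≃ₗ[K] (K × K) × K, UT (tr e A) (jb c) (sc K c) := by
  have := nontrivial_of_finrank_eq_succ h3
  have h1 : ∀ (θ : K) u, A u = θ • u → ∃ x, A x - θ • x = u := fun θ u e => by_contra fun H =>
    h (ep_of e (not_exists.1 H)).inv'
  have h2 := eig_of (fun e => h e.inv') h3.le
  simp only [NE, not_forall] at h2
  obtain ⟨θ, u, h2, hu⟩ := h2
  obtain ⟨w, hw⟩ := h1 θ u h2
  have h4 : θ ≠ 0 := by rintro rfl; simp [hu] at h2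
  have h5 : A w = θ • w + u := by rw [← hw]; simp
  let i := coprod (toSpanSingleton K V u) (toSpanSingleton K V (θ • w))
  have h6 : ∀ x, A (i x) = i (jb (.mk0 θ h4) x) := fun x => by simp [i, jb, h2, h5]; module
  have h7 : Function.Injective i := (injective_iff_map_eq_zero _).2 fun x e => by
    have e1 : x.1 • u + x.2 • θ • w = 0 := e
    have e2 : x.2 = 0 := by
      have := congrArg (fun y => A y - θ • y) e1
      simp only [map_add, map_smul, h2, h5, map_zero, smul_zero, sub_zero] at this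
      have h : (x.2 * θ) • u = 0 := by linear_combination (norm := module) this
      simpa [hu, h4] using h
    exact Prod.ext (by simpa [e2, hu] using e1) e2
  have h8 : finrank K (range i) = 2 := by simp [finrank_range_of_inj h7]
  obtain ⟨c, hc⟩ := scal_quot (A := A) (p := range i) (by rintro _ ⟨x, rfl⟩; exact ⟨_, (h6 x).symm⟩) (by omega)
  have h9 : range i ≠ ⊤ := fun e => by rw [e, finrank_top] at h8; omega
  obtain rfl : θ = c := by_contra fun H => by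
    obtain ⟨y, a1, a2⟩ : ∃ y, A y = c • y ∧ y ≠ 0 := by
      by_contra! e
      have : Function.Surjective (A.toLinearMap - c • 1 : End K V) :=
        injective_iff_surjective.1 ((injective_iff_map_eq_zero _).2 fun u h => e u (sub_eq_zero.1 h))
      exact h9 (eq_top_iff.2 fun x _ => let ⟨y, e⟩ := this x; e ▸ hc y)
    obtain ⟨z, rfl⟩ := h1 c y a1
    obtain ⟨x, hx⟩ := hc z
    rw [← hx, h6, ← map_smul, h7.eq_iff] at a1
    have a3 : x.2 = 0 := by simpa [jb, H] using congrArg Prod.snd a1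
    have a4 : x.1 = 0 := by simpa [jb, H, a3] using congrArg Prod.fst a1
    exact a2 (by rw [← hx, show x = 0 from Prod.ext a4 a3, map_zero])
  obtain ⟨φ, b1, b2⟩ := exists_le_ker_of_lt_top _ h9.lt_top
  obtain ⟨y, hy⟩ := ex_one b1
  exact ⟨_, ut_of_ex i φ h7 (fun c => ⟨c • y, by simp [hy]⟩)
    (eq_of_le_of_finrank_le b2 (by rw [finrank_ker hy h3, h8])) h6 fun x => by simpa [sub_eq_zero] using b2 (hc x)⟩

theorem np3 (hK : 4 ≤ Nat.card K) {A : ((K × K) × K) ≃ₗ[K] ((K × K) × K)} {c : Kˣ} (h : UT A (jb c) (sc K c))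
    (hA : CY A) : NP A 3 := by
  have h1 : ∀ a b : Kˣ, a ≠ b → a ≠ c ^ 2 → b ≠ c ^ 2 → a * b = (c ^ 2) ^ 2 →
      PP A 2 (pr (dg a b) (sc K (c ^ 2))) ∧ DT (pr (dg a b) (sc K (c ^ 2))) := fun a b h1 h2 h3 h4 =>
    ⟨(pg_two (jt_jb c).2.1 ((jt_jb c).2.1.cy2 (by simp)) (dt_dg h1) (by rw [det_dg, h4, (jt_jb c).2.2.1])).split_r h
      (fun L e => e ▸ In.sc c exists_det L) (disj_sc (disj_dg h2 h3)), dt_blk (dt_dg h1).1 (disj_dg h2 h3) (by simp)⟩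
  obtain ⟨ν, hν⟩ := ex_sq hK 1
  replace hν : ν * ν ≠ 1 := fun e => hν (congrArg Units.val e)
  have h2 : ν ≠ ν⁻¹ ∧ ν ≠ 1 ∧ ν⁻¹ ≠ 1 := ⟨fun e => hν (eq_inv_iff_mul_eq_one.1 e), by rintro rfl; simp at hν,
    by rw [Ne, inv_eq_one]; rintro rfl; simp at hν⟩
  intro g hg hd
  by_cases hI : Inv g
  · rintro (_ | ⟨γ₁, _ | ⟨γ₂, _ | ⟨γ₃, _ | _⟩⟩⟩) e <;> simp at e
    obtain ⟨h3, h4⟩ := h1 (c ^ 2 * ν) (c ^ 2 * ν⁻¹) (by simpa using h2.1) (by simpa using h2.2.1)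
      (by simpa using h2.2.2) (by rw [mul_mul_mul_comm]; simp [sq])
    obtain ⟨s, t, -, h5⟩ := fac' hg h4 hA (by rw [hd, h3.pg.det, pow_succ])
    obtain ⟨z, h6, h7⟩ := hI (γ₃ * t.det⁻¹)
    rw [← mul_inv_eq_iff_eq_mul.2 h7]
    convert (h3.conj (z * s) [γ₁, γ₂] rfl).append (In.nil.cons' (γ := γ₃) (z * t) (by simp [h6]) rfl) using 1
    · rfl
    · rw [h5]; group
  obtain ⟨d, s, h3⟩ := u3 (A := g⁻¹) (by simp) fun e => hI (by simpa using e.inv)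
  have h4 : (c ^ 3 * d) ^ 3 = 1 := by
    have h4 := h3.det
    rw [det_tr, map_inv, hd, h.det, (jt_jb c).2.2.1, (jt_jb d).2.2.1, det_sc, det_sc, finrank_self,
      inv_eq_iff_mul_eq_one] at h4
    rw [← h4]; simp only [mul_pow, ← pow_mul]; group
  suffices PP A 3 (tr s g⁻¹)⁻¹ by simpa [tr_self, mul_assoc] using this.conj s⁻¹
  generalize tr s g⁻¹ = G at *
  obtain ⟨a, b, a', b', h5, h6, h7, h8, h9, e, h10⟩ : ∃ a b a' b' : Kˣ, (PP A 2 (pr (dg a b) (sc K (c ^ 2))) ∧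
      DT (pr (dg a b) (sc K (c ^ 2)))) ∧ a' ≠ b' ∧ a' ≠ c * d ∧ b' ≠ c * d ∧ a' * b' = c ^ 2 * d ^ 2 ∧
      Sm (pr (dg a b) (sc K (c ^ 2))) (pr (dg a' b') (sc K (c * d)))⁻¹ := by
    by_cases h5 : c ^ 3 * d = 1
    · have h6 : c * d = (c ^ 2)⁻¹ := by rw [eq_inv_iff_mul_eq_one, ← h5, mul_right_comm, ← pow_succ']
      refine ⟨_, _, (c ^ 2 * ν)⁻¹, (c ^ 2 * ν⁻¹)⁻¹, h1 (c ^ 2 * ν) (c ^ 2 * ν⁻¹) (by simpa using h2.1)
        (by simpa using h2.2.1) (by simpa using h2.2.2) (by rw [mul_mul_mul_comm]; simp [sq]),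
        by simpa using h2.1.symm, by simpa [h6] using h2.2.1, by simpa [h6] using h2.2.1, ?_, .refl K _, ?_⟩
      · rw [← mul_pow, h6, ← mul_inv, mul_mul_mul_comm]; simp [sq]
      · simp [h6, dg, pr_inv, ← map_inv]; rfl
    · generalize hκ : c ^ 3 * d = κ at h4 h5
      obtain rfl : d = (c ^ 3)⁻¹ * κ := by simp [← hκ]
      have h6 : κ ≠ κ⁻¹ := fun e => h5 (by rw [← h4, pow_succ, sq, eq_inv_iff_mul_eq_one.1 e, one_mul])
      have h7 : c * ((c ^ 3)⁻¹ * κ) = (c ^ 2 * κ⁻¹)⁻¹ := by rw [mul_inv]; group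
      refine ⟨_, _, (c ^ 2 * κ)⁻¹, (c ^ 2)⁻¹, h1 (c ^ 2 * κ) (c ^ 2 * κ⁻¹) (by simpa using h6) (by simpa using h5)
        (by simpa using h5) (by rw [mul_mul_mul_comm]; simp [sq]), by simpa using h5, by simpa [h7] using h6.symm,
        by simpa [h7] using h5, ?_, .of (((LinearEquiv.prodAssoc K _ _ _).trans ((LinearEquiv.refl K K).prodCongr
          (.prodComm K K K))).trans (LinearEquiv.prodAssoc K _ _ _).symm) fun u => ?_⟩
      · rw [← mul_pow, h7, inv_pow, mul_pow, inv_pow κ, show κ ^ 2 = κ⁻¹ from eq_inv_of_mul_eq_one_left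
          (pow_succ κ 2 ▸ h4), inv_inv, ← mul_inv, mul_right_comm, ← sq]
      · simp only [h7, dg, pr_inv, ← map_inv, inv_inv]; rfl
  rintro (_ | ⟨γ₁, _ | ⟨γ₂, _ | ⟨γ₃, _ | _⟩⟩⟩) e' <;> simp at e'
  obtain ⟨s, t, h11⟩ := fac2 (jt_jb c).2.1 ((jt_jb d).2.1.cy2 (by simp)) (dt_dg h6)
    (by rw [det_dg, h9, (jt_jb c).2.2.1, (jt_jb d).2.2.1])
  let s' := pr s (sc K (γ₃ * s.det⁻¹))
  let t' := pr t (sc K t.det⁻¹)
  have h12 : UT (s' * A * s'⁻¹ * (t' * G * t'⁻¹)) _ _ := (((UT.pr _ _).mul h).mul (UT.pr _ _).inv).mul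
    (((UT.pr _ _).mul h3).mul (UT.pr _ _).inv)
  rw [← h11, sc_comm _ (sc K c), mul_inv_cancel_right, sc_comm _ (sc K d), mul_inv_cancel_right, ← map_mul] at h12
  obtain ⟨z, h13, h14⟩ := h12.split (disj_sc (disj_dg h7 h8))
  have h15 := ((h5.1.conj e [γ₁, γ₂] rfl).append (In.nil.cons' (γ := γ₃) (z * s')
    (by simp [h13, s', det_pr, det_sc]) rfl)).conj1 (g := (z * t')⁻¹) (by simp [h13, t', det_pr, det_sc])
  rw [← tr_self e, h10, ← h14] at h15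
  convert h15 using 1
  · rfl
  · group

theorem id3 (h3 : finrank K V = 3) (hA : CY A) (hd : A.det = 1) : Id A 3 := by
  suffices ∃ s : V ≃ₗ[K] V, s.det = 1 ∧ s ^ 3 = 1 ∧ (A * s) ^ 3 = 1 by
    obtain ⟨s, h1, h2, h4⟩ := this
    refine ⟨1, ((In.nil.cons' (s * s) (by simp [h1]) rfl).cons' s h1 rfl).cons' 1 (map_one _) ?_⟩
    rw [map_one]
    refine (mul_inv_eq_one.2 (h4.trans h2.symm)).symm.trans ?_
    simp only [pow_succ]; group
  have h1 : ∀ s : V ≃ₗ[K] V, CK s ((X ^ 2 + X + 1) * (X - C ((1 : Kˣ) : K))) → ∀ g, (g * s * g⁻¹) ^ 3 = 1 :=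
    fun s h g => by
      have : s ^ 3 = 1 := LinearEquiv.ext fun u => by
        have := congr($(h.2) u)
        rw [show (X ^ 2 + X + 1) * (X - C ((1 : Kˣ) : K)) = X ^ 3 - 1 by simp; ring] at this
        simpa [sub_eq_zero, pow_succ] using this
      simp [this]
  by_cases h : (3 : K) = 0
  · obtain ⟨s, h2, h4⟩ := exists_ck (V := V) (f := (X ^ 2 + X + 1) * (X - C ((1 : Kˣ) : K))) (d := 1)
      ⟨by monicity!, by rw [h3]; compute_degree!, by simp [h3]; norm_num⟩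
    obtain ⟨v, hv⟩ := hA
    obtain ⟨w, hw⟩ := h2.1
    obtain ⟨e, l, -, h5⟩ := br 3 h3 h3 hv hw
    have h6 : ∀ x, (A⁻¹ * (e * s * e⁻¹)) x = x + (-l ∘ₗ e.symm.toLinearMap) x • A.symm v := fun x => A.injective (by
      have := h5 (e.symm x)
      simp only [LinearEquiv.coe_coe, e.apply_symm_apply] at this
      simp [this])
    have h7 : (A⁻¹ * (e * s * e⁻¹)).det = 1 := by simp [hd, h4]
    have h8 := congrArg Units.val h7
    rw [LinearEquiv.coe_det, show (A⁻¹ * (e * s * e⁻¹)).toLinearMap = transvection _ _ from LinearMap.ext h6,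
      transvection.det, Units.val_one, add_eq_left] at h8
    refine ⟨_, h7, LinearEquiv.ext fun x => ?_, by rw [mul_inv_cancel_left]; exact h1 s h2 e⟩
    generalize A⁻¹ * (e * s * e⁻¹) = t at *
    generalize -l ∘ₗ e.symm.toLinearMap = φ at *
    simp only [pow_succ, pow_zero, one_mul, LinearEquiv.mul_apply, h6, map_add, map_smul, h8, LinearEquiv.coe_one,
      id_eq]
    linear_combination (norm := module) (φ x * h) • A.symm v
  · obtain ⟨s, h2, h4, h5⟩ := exists_dt (V := V) (f := X ^ 2 + X + 1) (m := 2) (d := 1) (θ := 1) h3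
      ⟨by monicity!, by compute_degree!, by simp⟩ (by simpa [one_add_one_eq_two, two_add_one_eq_three])
    obtain ⟨g, g', e⟩ := facG (hA.ns (by omega)) ⟨h2.1, h4⟩ h2.1 (by simp [hd])
    exact ⟨_, by simp [h5], h1 s h2 g, e ▸ h1 s h2 g'⟩

theorem res_r1 (hK : 4 ≤ Nat.card K) (h3 : 3 ≤ finrank K V) (hA : NS A) (h : R1 A) : Res A :=
  ⟨(h.ng hK hA).np (h.ep hA h3).inv', fun _ => h.id hK hA h3⟩

theorem res3 (hK : 4 ≤ Nat.card K) (h3 : finrank K V = 3) (hA : NS A) : Res A := by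
  by_cases h : R1 A
  · exact res_r1 hK h3.ge hA h
  have h1 := cyc3 h3 hA h
  rw [Res, h3]
  refine ⟨?_, id3 h3 h1⟩
  by_cases hI : Inv A
  · exact (h1.ng hK hA).np hI
  · obtain ⟨c, e, h2⟩ := u3 h3 hI
    exact (np3 hK h2 (h1.tr e)).of_tr

end H11.Lv
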