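import Cfsg.Agent.H11.Lv7

/-! The covering number of special linear groups. -/

set_option autoImplicit false
set_option linter.unusedSectionVars false

namespace H11.Lv

open Module Submodule LinearMap H22.CY

universe u

variable {K : Type u} [Field K] [Finite K] {V W Q : Type u} [AddCommGroup V] [Module K V]
  [AddCommGroup W] [Module K W] [AddCommGroup Q] [Module K Q]
  [FiniteDimensional K V] [FiniteDimensional K W] [FiniteDimensional K Q] {A : V ≃ₗ[K] V} {p q : Submodule K V} {k : ℕ}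

/-- invariant subspaces -/
def Iv (A : V ≃ₗ[K] V) (p : Submodule K V) : Prop := ∀ u ∈ p, A u ∈ p

/-- not a scalar on the subspace -/
def NSr (A : V ≃ₗ[K] V) (p : Submodule K V) : Prop := ∃ v ∈ p, A v ∉ K ∙ v

/-- not a scalar on the quotient -/
def NSq (A : V ≃ₗ[K] V) (p : Submodule K V) : Prop := ∃ v, A v ∉ p ⊔ K ∙ v

theorem NSr.mono (h : NSr A p) (h' : p ≤ q) : NSr A q := h.imp fun _ h => ⟨h' h.1, h.2⟩

theorem NSq.mono (h : NSq A p) (h' : q ≤ p) : NSq A q := h.imp fun _ h e => h (sup_le_sup_right h' _ e)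

theorem Iv.rs (h : Iv A p) : ∃ B : p ≃ₗ[K] p, ∀ x, A (p.subtype x) = p.subtype (B x) :=
  have h3 : Function.Injective (A.toLinearMap.restrict h) := fun _ _ e => Subtype.ext (A.injective congr($e))
  ⟨.ofBijective _ ⟨h3, injective_iff_surjective.1 h3⟩, fun _ => rfl⟩

theorem Iv.qt (h : Iv A p) : ∃ C : (V ⧸ p) ≃ₗ[K] V ⧸ p, ∀ u, p.mkQ (A u) = C (p.mkQ u) :=
  have h3 : Function.Surjective (p.mapQ p A.toLinearMap h) := fun x => by
    obtain ⟨x, rfl⟩ := p.mkQ_surjective x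
    exact ⟨p.mkQ (A.symm x), congrArg p.mkQ (A.apply_symm_apply x)⟩
  ⟨.ofBijective _ ⟨injective_iff_surjective.2 h3, h3⟩, fun _ => rfl⟩

theorem Iv.scal (h : Iv A p) (h' : ¬NSq A p) : ∃ θ : K, ∀ x, A x - θ • x ∈ p := by
  obtain ⟨C, hC⟩ := h.qt
  have : ¬NS C := fun e => by
    obtain ⟨v, hv⟩ := ns_iff.1 e
    obtain ⟨v, rfl⟩ := p.mkQ_surjective v
    refine h' ⟨v, fun e => hv ?_⟩
    obtain ⟨c, hc⟩ := mem_sup_span.1 e
    exact mem_span_singleton.2 ⟨c, by rw [← hC, ← map_smul]; exact ((Submodule.Quotient.eq p).2 hc).symm⟩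
  simp only [ns_iff', not_forall, not_exists, not_not] at this
  exact this.imp fun c hc x => (Submodule.Quotient.eq p).1 ((hC x).trans (hc _))

theorem simp_of {B : W ≃ₗ[K] W} {C : Q ≃ₗ[K] Q} (π : V →ₗ[K] Q) (i : W →ₗ[K] Q) (hπ : Function.Surjective π)
    (hi : Function.Injective i) (h1 : ∀ u, π (A u) = C (π u)) (h2 : ∀ x, C (i x) = i (B x))
    (H : ∀ p, Iv A p → ker π ≤ p → p ≤ comap π (range i) → p = ker π ∨ p = comap π (range i)) : Simp B := fun q hq =>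
  (H (comap π (map i q)) (fun u ⟨x, a, b⟩ => ⟨B x, hq x a, by rw [h1, ← b, h2]⟩) (ker_le_comap _)
    (comap_mono map_le_range)).imp (fun e => eq_bot_iff.2 fun x hx => by
      obtain ⟨v, hv⟩ := hπ (i x)
      exact hi (hv.symm.trans ((e.le ⟨x, hx, hv.symm⟩ :).trans (map_zero i).symm))) fun e => eq_top_iff.2 fun x _ => by
      obtain ⟨v, hv⟩ := hπ (i x)
      obtain ⟨y, a, b⟩ := e.ge (show v ∈ comap π (range i) from ⟨x, hv.symm⟩)
      exact hi (b.trans hv) ▸ a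

theorem ex_min (P : Submodule K V → Prop) (h : P p) : ∃ q, P q ∧ q ≤ p ∧ ∀ r, P r → r ≤ q → r = q := by
  obtain ⟨q, h1, h2⟩ := wellFounded_lt.has_min {q | P q ∧ q ≤ p} ⟨p, h, le_rfl⟩
  exact ⟨q, h1.1, h1.2, fun r a b => b.eq_or_lt.resolve_right (h2 r ⟨a, b.trans h1.2⟩)⟩

theorem ex_max (P : Submodule K V → Prop) (h : P p) : ∃ q, P q ∧ p ≤ q ∧ ∀ r, P r → q ≤ r → r = q := by
  obtain ⟨q, h1, h2⟩ := wellFounded_gt.has_min {q | P q ∧ p ≤ q} ⟨p, h, le_rfl⟩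
  exact ⟨q, h1.1, h1.2, fun r a b => (b.eq_or_lt.resolve_right (h2 r ⟨a, h1.2.trans b⟩)).symm⟩

theorem iv_sh (θ : K) (u : V) : (A.toLinearMap - θ • 1 : End K V) (A u) = A ((A.toLinearMap - θ • 1 : End K V) u) := by
  simp

theorem minS (h : Iv A p) (h' : NSr A p) (H : ∀ r, Iv A r ∧ NSr A r → r ≤ p → r = p) :
    (∀ r, Iv A r → r ≤ p → r = ⊥ ∨ r = p) ∨ (finrank K p ≤ 2 ∧ ∃ (θ : K) (m : V), m ∈ p ∧ m ≠ 0 ∧ A m = θ • m) := by
  refine or_iff_not_imp_left.2 fun e => ?_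
  push Not at e
  obtain ⟨r, a1, a2, a3, a4⟩ := e
  obtain ⟨m, a5, a6⟩ := r.ne_bot_iff.1 a3
  obtain ⟨θ, a7⟩ := mem_span_singleton.1 (show A m ∈ K ∙ m from by_contra fun e => a4 (H r ⟨a1, m, a5, e⟩ a2))
  refine ⟨?_, θ, m, a2 a5, a6, a7.symm⟩
  obtain ⟨v, b1, b2⟩ := h'
  let N : End K V := A.toLinearMap - θ • 1
  have h1 : ∀ u ∈ p, N u ∈ p := fun u hu => p.sub_mem (h u hu) (p.smul_mem θ hu)
  obtain ⟨c, hc⟩ := mem_span_singleton.1 (show A (N v) ∈ K ∙ N v from by_contra fun e => by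
    have h2 := H (map N p) ⟨by rintro _ ⟨u, hu, rfl⟩; exact ⟨A u, h u hu, iv_sh θ u⟩, _, ⟨v, b1, rfl⟩, e⟩
      (map_le_iff_le_comap.2 h1)
    have h3 : Function.Surjective (N.restrict h1) := fun x =>
      let ⟨y, a, b⟩ := h2.ge x.2; ⟨⟨y, a⟩, Subtype.ext b⟩
    exact a6 (congrArg Subtype.val (injective_iff_surjective.2 h3 (a₁ := ⟨m, a2 a5⟩) (a₂ := 0)
      (Subtype.ext (by simp [N, a7])))))
  have h4 : v ∈ (K ∙ v) ⊔ K ∙ A v := mem_sup_left (mem_span_singleton_self v)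
  have h5 : A v ∈ (K ∙ v) ⊔ K ∙ A v := mem_sup_right (mem_span_singleton_self _)
  have h6 : A (A v) = (c + θ) • A v - (c * θ) • v := by
    simp only [N, LinearMap.sub_apply, LinearMap.smul_apply, End.one_apply, LinearEquiv.coe_coe, map_sub,
      map_smul] at hc
    linear_combination (norm := module) -hc
  rw [← H ((K ∙ v) ⊔ K ∙ A v) ⟨fun x hx => (show _ ≤ comap A.toLinearMap ((K ∙ v) ⊔ K ∙ A v) by
    simp [h5, h6, sub_mem (smul_mem _ _ h5) (smul_mem _ _ h4)]) hx, v, h4, b2⟩ (by simp [b1, h v b1]),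
    finrank_sup_span_singleton b2, finrank_span_singleton (by rintro rfl; simp at b2)]

theorem minQ (h : Iv A p) (h' : NSq A p) (H : ∀ r, Iv A r ∧ NSq A r → p ≤ r → r = p) :
    (∀ r, Iv A r → p ≤ r → r = p ∨ r = ⊤) ∨ finrank K (V ⧸ p) ≤ 2 := by
  refine or_iff_not_imp_left.2 fun e => ?_
  push Not at e
  obtain ⟨r, a1, a2, a3, a4⟩ := e
  obtain ⟨θ, a5⟩ := a1.scal fun e => a3 (H r ⟨a1, e⟩ a2)
  let N : End K V := A.toLinearMap - θ • 1
  have h1 : p ≤ comap N p := fun u hu => p.sub_mem (h u hu) (p.smul_mem θ hu)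
  have h2 : Iv A (comap N p) := fun u hu => (iv_sh θ u ▸ h _ hu :)
  obtain ⟨c, hc⟩ := h2.scal fun e => by
    have h3 := H _ ⟨h2, e⟩ h1
    have h4 : Function.Injective (p.mapQ p N h1) := by
      rw [← ker_eq_bot, mapQ, ker_liftQ_eq_bot _ _ _ (by rw [ker_comp, ker_mkQ, h3])]
    refine a4 (eq_top_iff.2 fun x _ => ?_)
    obtain ⟨y, hy⟩ := injective_iff_surjective.1 h4 (p.mkQ x)
    obtain ⟨y, rfl⟩ := p.mkQ_surjective y
    simpa [N] using r.sub_mem (a5 y) (a2 ((Submodule.Quotient.eq p).1 hy))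
  obtain ⟨v, hv⟩ := h'
  obtain ⟨φ, b1, b2⟩ := exd hv 1
  have b3 : ∀ x ∈ p, φ x = 0 := fun x hx => b2 x (mem_sup_left hx)
  have b4 : φ v = 0 := b2 v (mem_sup_right (mem_span_singleton_self v))
  have h5 := H (ker (φ.prod (φ ∘ₗ A.toLinearMap))) ⟨fun x hx => by
      have := b3 _ (hc x)
      have h6 : φ x = 0 := congrArg Prod.fst hx
      have h7 : φ (A x) = 0 := congrArg Prod.snd hx
      simpa [N, h6, h7] using this, v, fun e => by
      obtain ⟨d, hd⟩ := mem_sup_span.1 e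
      simpa [b1, b4] using congrArg Prod.fst hd⟩ fun x hx => by simp [b3 x hx, b3 _ (h x hx)]
  rw [← h5, (quotKerEquivRange _).finrank_eq]
  simpa using Submodule.finrank_le (range (φ.prod (φ ∘ₗ A.toLinearMap)))

theorem Iv.ut (h : Iv A p) : ∃ (B : p ≃ₗ[K] p) (C : (V ⧸ p) ≃ₗ[K] V ⧸ p) (e : V ≃ₗ[K] p × (V ⧸ p)),
    (∀ x, A (p.subtype x) = p.subtype (B x)) ∧ (∀ u, p.mkQ (A u) = C (p.mkQ u)) ∧ UT (tr e A) B C ∧
      (NSr A p → NS B) ∧ (NSq A p → NS C) := by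
  obtain ⟨B, h1⟩ := h.rs
  obtain ⟨C, h2⟩ := h.qt
  obtain ⟨e, h3⟩ := ut_of_ex _ _ p.injective_subtype p.mkQ_surjective (by simp) h1 h2
  exact ⟨B, C, e, h1, h2, h3, fun ⟨v, a, b⟩ => .of_inj _ h1 (w := ⟨v, a⟩) b,
    fun ⟨v, a⟩ => .of_surj _ h2 p.ker_mkQ.le a⟩

variable (K) in
/-- the induction hypothesis -/
def IH (n : ℕ) : Prop := ∀ (W : Type u) [AddCommGroup W] [Module K W] [FiniteDimensional K W], finrank K W < n →
  3 ≤ finrank K W → ∀ B : W ≃ₗ[K] W, NS B → NP B (finrank K W)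

theorem IH.pt {n : ℕ} (ih : IH K n) (hK : 4 ≤ Nat.card K) {B : W ≃ₗ[K] W} (hB : NS B)
    (h : finrank K W ≤ (n - 1) / 2) : Pt B ((n - 1) / 2) :=
  pt_of hK hB (fun e => ih W (by omega) e B hB) h

theorem DP.res {e : V ≃ₗ[K] W} (hA : NS A) (h : DP (tr e A) ((finrank K V - 1) / 2)) : Res A :=
  h.np.of_tr.res hA (by have := hA.two_le; omega)

theorem split2 (hK : 4 ≤ Nat.card K) (ih : IH K (finrank K V)) (h : Iv A p) (h1 : NSr A p) (h2 : NSq A p) :
    Res A := by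
  have hA : NS A := let ⟨v, _, hv⟩ := h1; ns_iff.2 ⟨v, hv⟩
  obtain ⟨M, ⟨a1, a2⟩, a3, a4⟩ := ex_min (fun r => Iv A r ∧ NSr A r) ⟨h, h1⟩
  obtain ⟨M', ⟨b1, b2⟩, b3, b4⟩ := ex_max (fun r => Iv A r ∧ NSq A r) ⟨h, h2⟩
  have h4 : 4 ≤ finrank K V := by
    obtain ⟨B, C, e, -, -, -, c1, c2⟩ := h.ut
    have := (c1 h1).two_le
    have := (c2 h2).two_le
    have := p.finrank_quotient_add_finrank
    omega
  by_cases s1 : finrank K V / 2 < finrank K M
  · obtain ⟨B, C, e, c1, c2, c3, c4, c5⟩ := a1.ut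
    have := (c4 a2).nontrivial
    have := M.finrank_quotient_add_finrank
    exact (two_l hK c3 (simp_of .id M.subtype Function.surjective_id M.injective_subtype (fun _ => rfl) c1
      fun r d1 _ d2 => by simpa using (minS a1 a2 a4).resolve_right (by omega) r d1 (by simpa using d2))
      (ih.pt hK (c5 (h2.mono a3)) (by omega))).res hA
  by_cases s2 : finrank K V / 2 < finrank K (V ⧸ M')
  · obtain ⟨B, C, e, c1, c2, c3, c4, c5⟩ := b1.ut
    have := (c5 b2).nontrivial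
    have := M'.finrank_quotient_add_finrank
    exact (two_r hK c3 (ih.pt hK (c4 (h1.mono b3)) (by omega)) (simp_of M'.mkQ .id M'.mkQ_surjective
      Function.injective_id c2 (fun _ => rfl)
      fun r d1 d2 _ => by simpa using (minQ b1 b2 b4).resolve_right (by omega) r d1 (by simpa using d2))).res hA
  obtain ⟨U, ⟨c1, c2, c3⟩, c4, c5⟩ := ex_max (fun r => Iv A r ∧ r ≤ M' ∧ finrank K r ≤ finrank K V / 2)
    ⟨a1, a3.trans b3, not_lt.1 s1⟩
  obtain ⟨B, C, e, d1, d2, d3, d4, d5⟩ := c1.ut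
  replace d4 := d4 (a2.mono c4)
  have h5 := U.finrank_quotient_add_finrank
  have h6 := M'.finrank_quotient_add_finrank
  by_cases s3 : finrank K (V ⧸ U) = finrank K U
  · have := d4.two_le
    exact Sm.res ⟨e, rfl⟩ (eq_all hK d3 rfl s3 d4 (d5 (b2.mono c2)) (fun e => ih _ (by omega) e _ d4)
      fun e => ih _ (by omega) e _ (d5 (b2.mono c2)))
  obtain ⟨U', ⟨e1, e2⟩, e3, e4⟩ := ex_min (fun r => Iv A r ∧ U < r) (p := M')
    ⟨b1, c2.lt_of_ne (by rintro rfl; omega)⟩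
  have h7 : finrank K V / 2 < finrank K U' := by_contra fun e => e2.ne' (c5 U' ⟨e1, e3, not_lt.1 e⟩ e2.le)
  have h8 : comap U.mkQ (map U.mkQ U') = U' := by simp [e2.le]
  have h9 : Iv C (map U.mkQ U') := by rintro _ ⟨u, hu, rfl⟩; exact ⟨A u, e1 u hu, d2 u⟩
  obtain ⟨B', C', e', f1, f2, f3, -, f4⟩ := h9.ut
  obtain ⟨e'', f5⟩ := ut_of_ex (C := tr e' C) U.subtype (e'.toLinearMap ∘ₗ U.mkQ) U.injective_subtype
    (e'.surjective.comp U.mkQ_surjective) (by simp) d1 fun u => by simpa using d2 u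
  have : Nontrivial (map U.mkQ U') := nontrivial_iff_ne_bot.2 fun e => e2.ne' (by rw [← h8, e, comap_bot, ker_mkQ])
  have h10 := (quotientQuotientEquivQuotient U U' e2.le).finrank_eq
  have h11 := U'.finrank_quotient_add_finrank
  obtain ⟨v, hv⟩ := b2.mono e3
  exact (three hK f5 f3 (ih.pt hK d4 (by omega)) (simp_of U.mkQ _ U.mkQ_surjective (injective_subtype _) d2 f1
    fun r g1 g2 g3 => by
      rw [range_subtype, h8] at *
      exact g2.eq_or_lt.imp .symm fun g => e4 r ⟨g1, by simpa using g⟩ g3)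
    (ih.pt hK (.of_surj ((map U.mkQ U').mkQ ∘ₗ U.mkQ) (fun u => (congrArg _ (d2 u)).trans (f2 _)) (by rw [ker_comp, ker_mkQ, h8]) hv)
      (by omega))).res hA

theorem two_proper' {r : Submodule K V} (hp : ¬r ≤ p) (hq : ¬r ≤ q) : ∃ x ∈ r, x ∉ p ∧ x ∉ q := by
  obtain ⟨x, h1, h2⟩ := two_proper (fun e => hp (comap_subtype_eq_top.1 e)) fun e => hq (comap_subtype_eq_top.1 e)
  exact ⟨x, x.2, h1, h2⟩

theorem nosplit (hK : 4 ≤ Nat.card K) (h4 : 4 ≤ finrank K V) (hA : NS A) (hR : ¬R1 A)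
    (H : ∀ p, Iv A p → NSr A p → ¬NSq A p) : Res A := by
  obtain ⟨M, ⟨a1, a2⟩, -, a4⟩ := ex_min (fun r => Iv A r ∧ NSr A r) (p := ⊤)
    ⟨fun _ _ => mem_top, (ns_iff.1 hA).imp fun _ h => ⟨mem_top, h⟩⟩
  obtain ⟨l, hl⟩ := a1.scal (H M a1 a2)
  obtain h | ⟨h, θ, m, b1, b2, b3⟩ := minS a1 a2 a4
  · obtain rfl | hM := eq_or_ne M ⊤
    · have h1 : Simp A := fun r hr => h r hr le_top
      have := hA.nontrivial
      exact ((h1.cy.ng hK hA).np h1.inv').res hA (by omega)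
    obtain ⟨B, C, e, c1, c2, c3, c4, -⟩ := a1.ut
    have h1 : Simp B := simp_of .id M.subtype Function.surjective_id M.injective_subtype (fun _ => rfl) c1
      fun r d1 _ d2 => by simpa using h r d1 (by simpa using d2)
    have := Submodule.Quotient.nontrivial_iff.2 hM
    have h2 : ∀ x, C x = l • x := fun x => by
      obtain ⟨x, rfl⟩ := M.mkQ_surjective x
      exact (c2 x).symm.trans ((Submodule.Quotient.eq M).2 (hl x))
    have h3 : l ≠ 0 := by
      rintro rfl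
      obtain ⟨x, hx⟩ := exists_ne (0 : V ⧸ M)
      simpa [hx] using h2 x
    obtain rfl : C = sc _ (.mk0 l h3) := LinearEquiv.ext h2
    obtain ⟨g, -, hg⟩ := c3.split (disj_sc fun u => h1.ne (c4 a2).two_le)
    exact (Sm.trans ⟨e, rfl⟩ ⟨g, hg⟩).res (typeL hK h1 (c4 a2).two_le)
  let N : End K V := A.toLinearMap - l • 1
  have hN : ∀ x, N x ∈ M := hl
  have h1 : comap N (K ∙ m) ≠ ⊤ := fun e => hR ⟨l, m, fun x => e.ge mem_top⟩
  obtain ⟨x, -, hx⟩ := SetLike.exists_of_lt h1.lt_top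
  have h2 : (K ∙ m) ⊔ K ∙ N x = M := eq_of_le_of_finrank_le (by simp [b1, hN])
    (by rwa [finrank_sup_span_singleton (v := N x) hx, finrank_span_singleton b2])
  have h3 : ∀ z, ∃ c : K, z - c • x ∈ comap N (K ∙ m) := fun z => by
    simpa using mem_sup_span.1 (h2.ge (hN z))
  have h5 : ∀ y, M ⊔ K ∙ y ≠ ⊤ := fun y e => by
    have := finrank_add_le_finrank_add_finrank M (K ∙ y)
    have := finrank_span_le_card (R := K) ({y} : Set V)
    rw [e, finrank_top] at *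
    simp at this; omega
  obtain ⟨y, c1, c2, c3⟩ := two_proper' (r := comap N (K ∙ m)) (p := M) (q := ker N)
    (fun e => h5 x (eq_top_iff.2 fun z _ => mem_sup_span.2 ((h3 z).imp fun _ h => e h))) fun e =>
      hR ⟨l, N x, fun z => let ⟨c, hc⟩ := h3 z; mem_span_singleton.2 ⟨c,
        (show N z = _ by simpa [sub_eq_zero] using e hc).symm⟩⟩
  obtain ⟨z, d1, d2⟩ := two_proper h1 (h5 y)
  have h6 : (K ∙ m) ≤ M := by simpa
  have h7 : ∀ (c : K) y, c • y ∈ M → y ∉ M → c = 0 := fun c y a b => by_contra fun e => b ((M.smul_mem_iff e).1 a)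
  refine absurd ⟨z, fun e => ?_⟩ (H ((K ∙ m) ⊔ K ∙ y) (fun u hu => (show _ ≤ comap A.toLinearMap ((K ∙ m) ⊔ K ∙ y) by
    simpa [b3] using ⟨mem_sup_left (smul_mem _ _ (mem_span_singleton_self m)), mem_sup_span.2 ⟨l, c1⟩⟩) hu)
    ⟨y, mem_sup_right (mem_span_singleton_self y), fun e => ?_⟩)
  · obtain ⟨c, hc⟩ := mem_span_singleton.1 e
    have := h7 (c - l) y (by simpa [sub_smul, hc] using hl y) c2
    exact c3 (by simp [N, ← hc, sub_eq_zero.1 this])
  · obtain ⟨c, hc⟩ := mem_sup_span.1 e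
    obtain rfl : l = c := sub_eq_zero.1 (by_contra fun e => d2 ((smul_mem_iff _ e).1 (by
      simpa [sub_smul] using sub_mem (sup_le_sup_right h6 _ hc) (mem_sup_left (hl z)))))
    obtain ⟨c, hc⟩ := mem_sup_span.1 hc
    obtain rfl := h7 c y (by simpa using sub_mem (hl z) (h6 hc)) c2
    exact d1 (by simpa [N] using hc)

theorem main (hK : 4 ≤ Nat.card K) (n : ℕ) : ∀ (V : Type u) [AddCommGroup V] [Module K V] [FiniteDimensional K V],
    finrank K V = n → 3 ≤ n → ∀ A : V ≃ₗ[K] V, NS A → Res A := by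
  induction n using Nat.strong_induction_on with | _ n ih =>
  rintro V _ _ _ rfl h3 A hA
  obtain h | h := h3.eq_or_lt
  · exact res3 hK h.symm hA
  by_cases hR : R1 A
  · exact res_r1 hK h3 hA hR
  by_cases H : ∃ p, Iv A p ∧ NSr A p ∧ NSq A p
  · obtain ⟨p, a, b, c⟩ := H
    exact split2 hK (fun W _ _ _ h1 h2 B hB => (ih _ h1 W rfl h2 B hB).1) a b c
  · exact nosplit hK h hA hR fun p a b c => H ⟨p, a, b, c⟩

end H11.Lv
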