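/-
S5815, pieces G2C and D4C: two commuting `SL₂` in `G₂(q)` and in `³D₄(q)`.
-/
import Cfsg.Agent.H26.O7J
import Cfsg.Agent.H14.Invol
import Cfsg.Agent.H14.TD1

set_option autoImplicit false
set_option maxRecDepth 100000
set_option linter.unusedSectionVars false

open Cfsg Subgroup H26.O7 H14 Cfsg.Lie MatrixGroups
namespace H11.O7
universe u v

section
variable {ι κ : Type*} [Fintype κ] [DecidableEq κ] [Fintype ι] [DecidableEq ι] {R : RootSys ι κ}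
  {C : Chev R} {K : Type} {G : Type*} [Field K] [Group G] {S : St C K G}

/-- lower transvections -/
def lo (t : K) : SL(2, K) := ⟨!![1, 0; t, 1], by simp⟩

theorem dg_mul_wy (s : Kˣ) : dg s * wy K = up (s : K) * lo (-(s : K)⁻¹) * up (s : K) := Subtype.ext (by
  change (dg s).1 * (wy K).1 = (up (s : K)).1 * (lo (-(s : K)⁻¹)).1 * (up (s : K)).1
  simp [dg, wy, up, lo])
theorem dg_one : dg (1 : Kˣ) = 1 := slD_one
theorem dg_neg : dg (-1 : Kˣ) = -1 := slD_neg_one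

theorem sl_top {M : Subgroup SL(2, K)} (h1 : ∀ t, up t ∈ M) (h2 : ∀ t, lo t ∈ M) (g : SL(2, K)) : g ∈ M := by
  have n : ∀ s : Kˣ, dg s * wy K ∈ M := fun s => dg_mul_wy s ▸ mul_mem (mul_mem (h1 _) (h2 _)) (h1 _)
  have w : wy K ∈ M := by simpa [dg_one] using n 1
  have d : ∀ s : Kˣ, dg s ∈ M := fun s => (mul_mem_cancel_right w).1 (n s)
  rcases sl_bruhat g with ⟨b, s, rfl⟩ | ⟨b, s, b', rfl⟩
  exacts [mul_mem (h1 b) (d s), mul_mem (mul_mem (mul_mem (h1 b) (d s)) w) (h1 b')]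

theorem sl2 (hh : S.HMul) (r : ι) : ∃ φ : SL(2, K) →* G, φ.range = S.U {r, R.neg r} ∧ (∀ t, φ (up t) = S.x r t) ∧
    (∀ t, φ (lo t) = S.x (R.neg r) t) ∧ (∀ a : Kˣ, φ (dg a) = S.h r a) ∧ φ (wy K) = S.n r 1 := by
  obtain ⟨φ, h1, h2⟩ := St.exists_SL2 r (hh r)
  have u : ∀ t, φ (up t) = S.x r t := fun t => (h2 _ t).1 rfl
  have l : ∀ t, φ (lo t) = S.x (R.neg r) t := fun t => (h2 _ t).2 rfl
  have n : ∀ s : Kˣ, φ (dg s * wy K) = S.n r s := fun s => by rw [dg_mul_wy, map_mul, map_mul, u, l]; rfl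
  have := n 1
  rw [dg_one, one_mul] at this
  refine ⟨φ, h1, u, l, fun a => ?_, this⟩
  rw [← mul_left_inj (φ (wy K)), ← map_mul, n, this, PreSt.n_eq_h_mul, Units.val_one]

theorem n_h (hh : S.HMul) (r s : ι) (u : Kˣ) : S.n r 1 * S.h s u * (S.n r 1)⁻¹ = S.h (R.refl r s) u := by
  rw [S.n_conj_h _ _ one_ne_zero, one_zpow, mul_one, mul_comm _ (u : K), ← hh _ _ _ u.ne_zero (St.eta_ne _ _ _ _),
    mul_inv_cancel_right]

theorem rf {a s k : ι} (h : R.cf s - R.pair a s • R.cf a = R.cf k) : R.refl a s = k := R.cf_inj ((R.cf_refl a s).trans h)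

theorem n_x {M : Subgroup G} {a s k : ι} (h : R.cf s - R.pair a s • R.cf a = R.cf k) (hn : S.n a 1 ∈ M)
    (hs : ∀ t, S.x s t ∈ M) (t : K) : S.x k t ∈ M := by
  have := mul_mem (mul_mem hn (hs (C.eta a s * t))) (inv_mem hn)
  rwa [S.nconj _ _ _ one_ne_zero, mul_inv_cancel_right, rf h, one_zpow, mul_one, ← mul_assoc, St.eta_sq, one_mul] at this

theorem nq_x {A : Set ι} {a b s k : ι} (hs : s ∈ A) (h : s = k ∨ R.cf s - R.pair a s • R.cf a = R.cf k ∨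
    R.cf s - R.pair b s • R.cf b = R.cf k) (t : K) : S.x k t ∈ Nq (S.U A) (S.n a 1) (S.n b 1) := by
  rw [Nq, St.NW.map_U (PreSt.n_mem_NW a one_ne_zero), St.NW.map_U (PreSt.n_mem_NW b one_ne_zero)]
  rcases h with rfl | h | h
  exacts [mem_sup_left (mem_sup_left (PreSt.x_mem_U hs t)), mem_sup_left (mem_sup_right (PreSt.x_mem_U (rf h ▸ Set.mem_image_of_mem _ hs) t)),
    mem_sup_right (PreSt.x_mem_U (rf h ▸ Set.mem_image_of_mem _ hs) t)]

theorem h_mem {M : Subgroup G} {r s : ι} (e : R.neg r = s) (h1 : ∀ t, S.x r t ∈ M) (h2 : ∀ t, S.x s t ∈ M) (t : K) :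
    S.h r t ∈ M ∧ S.n r t ∈ M :=
  have : S.U {r, R.neg r} ≤ M := PreSt.U_le.2 (by rintro _ (rfl | rfl); exacts [h1, e ▸ h2])
  ⟨this (PreSt.h_mem_U (.inl rfl) (.inr rfl) t), this (PreSt.n_mem_U (.inl rfl) (.inr rfl) t)⟩

theorem h_ne (hS : S.Sep) (h2 : (2 : K) ≠ 0) {r s : ι} (h : R.pair r s = 1) : S.h r ((-1 : Kˣ) : K) ≠ 1 := fun e => by
  have := S.h_mul_x r s (-1 : Kˣ).ne_zero 1
  rw [e, one_mul, mul_one, h] at this
  exact h2 (by have := hS.x_inj this; simp at this; linear_combination this)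
end

theorem two_ne {F : Type*} [Field F] [Fintype F] (h : Odd (Fintype.card F)) : (2 : F) ≠ 0 := fun e => by
  have : CharP F 2 := (CharP.charP_iff_prime_eq_zero Nat.prime_two).2 e
  exact Nat.not_odd_iff.2 (FiniteField.even_card_iff_char_two.1 (ringChar.eq F 2)) h

theorem g2_cm {F : Type} [Field F] (r s k : Fin chevG2.nroots) (c : ℤ)
    (h : s.val ≠ chevG2.neg r ∧ chevG2.commTerms r s = [(k.val, c, 1, 1)]) (t u : F) :
    (goodG2.SG F).x s u * (goodG2.SG F).x r t = (goodG2.SG F).x r t * (goodG2.SG F).x s u * (goodG2.SG F).x k (c * -t * u) := by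
  rw [PreSt.comm' _ (fun e => h.1 (by rw [e, goodG2.neg])), goodG2.terms_eq (L := [(k, c, 1, 1)]) h.2]
  simp [PreChev.tval]

theorem g2_top {F : Type} [Field F] {M : Subgroup (chevG2.group F)}
    (h : ∀ r : Fin chevG2.nroots, r = 7 ∨ r = 4 ∨ r = 6 ∨ r = 5 → ∀ t, (goodG2.SG F).x r t ∈ M) : M = ⊤ :=
  eq_top_iff.2 ((goodG2.SG_top F).ge.trans ((PreSt.U_mono fun _ _ _ h => (h trivial).elim).trans
    (St.U_le_of_simple (J := Set.univ) fun j _ t => ⟨h _ (by revert j; decide +kernel) t, h _ (by revert j; decide +kernel) t⟩)))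

theorem g2c : G2C := by
  intro F _ _ ho _
  have hh := goodG2.SG_hmul F
  obtain ⟨φ₁, r1, u1, -, d1, -⟩ := sl2 hh 11
  obtain ⟨φ₂, r2, -, -, d2, -⟩ := sl2 hh 7
  have m : ∀ {r : Fin chevG2.nroots} (s k : Fin chevG2.nroots), (s = r ∨ s = goodG2.R.neg r) ∧ (s = k ∨
      goodG2.R.cf s - goodG2.R.pair 6 s • goodG2.R.cf 6 = goodG2.R.cf k ∨
      goodG2.R.cf s - goodG2.R.pair 10 s • goodG2.R.cf 10 = goodG2.R.cf k) → ∀ t, (goodG2.SG F).x k t ∈
      Nq ((goodG2.SG F).U {r, goodG2.R.neg r}) ((goodG2.SG F).n 6 1) ((goodG2.SG F).n 10 1) := fun s k h => nq_x h.1 h.2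
  have c4 : goodG2.R.co 4 = vec 0 [-1, 0] := by decide +kernel
  have c6 : goodG2.R.co 6 = vec 0 [0, 1] := by decide +kernel
  have c7 : goodG2.R.co 7 = vec 0 [1, 0] := by decide +kernel
  have c8 : goodG2.R.co 8 = vec 0 [1, 3] := by decide +kernel
  have c9 : goodG2.R.co 9 = vec 0 [2, 3] := by decide +kernel
  have c10 : goodG2.R.co 10 = vec 0 [1, 1] := by decide +kernel
  have c11 : goodG2.R.co 11 = vec 0 [1, 2] := by decide +kernel
  have cm : ∀ r : Fin chevG2.nroots, r ≠ goodG2.R.neg 11 ∧ ¬ goodG2.R.IsSum 11 r → ∀ t u,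
      Commute ((goodG2.SG F).x 11 t) ((goodG2.SG F).x r u) := fun r h => PreSt.commute_of_not _ h.1 h.2
  refine ⟨φ₁, φ₂, (goodG2.SG F).h 11 (-1 : Fˣ), (goodG2.SG F).n 6 1, (goodG2.SG F).n 10 1, (goodG2.SG F).x 6 1,
    (goodG2.SG F).x 10 1, ⟨by rw [← dg_neg, d1], ?_, h_ne (goodG2.SG_sep F) (two_ne ho) (s := 6) (by decide +kernel),
      fun a b => (goodG2.SG F).commute_U (fun r hr s hs => PreSt.commute_of_not _ ?_ ?_) _ (r1.le ⟨a, rfl⟩) _ (r2.le ⟨b, rfl⟩),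
      ?_⟩, fun a => ?_, fun a => ?_, ?_, ?_, ?_, ?_, ?_⟩
  · rw [← dg_neg, d2, hh.h_eq, hh.h_eq, c7, c11]
    exact congrArg _ (funext fun i => by fin_cases i <;> simp [vec, zpow_ofNat])
  · clear * - hr hs; revert r s; decide +kernel
  · clear * - hr hs; unfold RootSys.IsSum; revert r s; decide +kernel
  · rw [n_h hh, n_h hh, rf (k := 10) (by decide +kernel), rf (k := 6) (by decide +kernel), hh.h_eq, hh.h_eq, hh.h_eq,
      ← map_mul, c6, c10, c11]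
    exact congrArg _ (funext fun i => by fin_cases i <;> simp [vec, zpow_ofNat])
  · have : (goodG2.SG F).h 7 a = (goodG2.SG F).h 10 a * (goodG2.SG F).h 6 (a⁻¹ : Fˣ) := by
      rw [hh.h_eq, hh.h_eq, hh.h_eq, ← map_mul, c6, c10, c7]
      exact congrArg _ (funext fun i => by fin_cases i <;> simp [vec])
    rw [d2, r1, this]
    exact mul_mem (h_mem (s := 1) (by decide +kernel) (m 11 10 (by decide +kernel)) (m 0 1 (by decide +kernel)) _).1
      (h_mem (s := 5) (by decide +kernel) (m 11 6 (by decide +kernel)) (m 0 5 (by decide +kernel)) _).1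
  · have x8 := m (r := 7) 7 8 (by decide +kernel)
    have x3 := m (r := 7) 4 3 (by decide +kernel)
    have x9 := m (r := 7) 4 9 (by decide +kernel)
    have x2 := m (r := 7) 7 2 (by decide +kernel)
    rw [d1, r2]
    by_cases h3 : (3 : F) = 0
    · have : CharP F 3 := (CharP.charP_iff_prime_eq_zero Nat.prime_three).2 h3
      have := Fact.mk Nat.prime_three
      obtain ⟨b, hb⟩ := surjective_frobenius F 3 a
      have b0 : b ≠ 0 := by rintro rfl; exact a.ne_zero (by rw [← hb, map_zero])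
      obtain rfl : a = Units.mk0 b b0 ^ 3 := Units.ext hb.symm
      have : (goodG2.SG F).h 11 (Units.mk0 b b0 ^ 3 : Fˣ) = (goodG2.SG F).h 8 (Units.mk0 b b0) * (goodG2.SG F).h 9 (Units.mk0 b b0) := by
        rw [hh.h_eq, hh.h_eq, hh.h_eq, ← map_mul, c8, c9, c11]
        exact congrArg _ (funext fun i => by fin_cases i <;> simp [vec, zpow_ofNat, ← pow_succ', ← pow_mul, ← pow_add])
      rw [this]
      exact mul_mem (h_mem (by decide +kernel) x8 x3 _).1 (h_mem (by decide +kernel) x9 x2 _).1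
    · refine (h_mem (s := 0) (by decide +kernel) (fun t => ?_) (fun t => ?_) _).1
      · have := mul_mem (x8 (t / 3)) (x9 1)
        rwa [g2_cm 9 8 11 (-3) (by decide +kernel), mul_mem_cancel_left (mul_mem (x9 _) (x8 _)),
          show ((-3 : ℤ) : F) * -1 * (t / 3) = t by push_cast; field_simp] at this
      · have := mul_mem (x2 (t / 3)) (x3 1)
        rwa [g2_cm 3 2 0 (-3) (by decide +kernel), mul_mem_cancel_left (mul_mem (x3 _) (x2 _)),
          show ((-3 : ℤ) : F) * -1 * (t / 3) = t by push_cast; field_simp] at this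
  · rw [r1, r2]
    refine g2_top ?_
    rintro _ (rfl | rfl | rfl | rfl) t
    exacts [mem_sup_right (PreSt.x_mem_U (.inl rfl) t), mem_sup_right (PreSt.x_mem_U (.inr (by decide +kernel)) t),
      mem_sup_left (m 11 6 (by decide +kernel) t), mem_sup_left (m 0 5 (by decide +kernel) t)]
  · rw [r1, r2]
    have n8 := mem_sup_left (T := (goodG2.SG F).U {11, goodG2.R.neg 11}) (h_mem (by decide +kernel)
      (m (r := 7) 7 8 (by decide +kernel)) (m (r := 7) 4 3 (by decide +kernel)) 1).2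
    refine g2_top ?_
    rintro _ (rfl | rfl | rfl | rfl) t
    exacts [mem_sup_left (m 7 7 (by decide +kernel) t), mem_sup_left (m 4 4 (by decide +kernel) t),
      n_x (s := 0) (by decide +kernel) n8 (fun t => mem_sup_right (PreSt.x_mem_U (.inr (by decide +kernel)) t)) t,
      n_x (s := 11) (by decide +kernel) n8 (fun t => mem_sup_right (PreSt.x_mem_U (.inl rfl) t)) t]
  · exact u1 1 ▸ cm 6 (by unfold RootSys.IsSum; decide +kernel) _ _
  · exact u1 1 ▸ cm 10 (by unfold RootSys.IsSum; decide +kernel) _ _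
  · rw [u1, g2_cm 10 6 11 (-1) (by decide +kernel), ← mul_assoc, (cm 10 (by unfold RootSys.IsSum; decide +kernel) _ _).eq,
      mul_assoc, mul_assoc, mul_assoc, (cm 6 (by unfold RootSys.IsSum; decide +kernel) _ _).eq]
    simp

section
open H29.TD H29.TD.Dc H14.TD
variable {K : Type} [Field K] (σ : K →+* K) [TV σ]
local notation "𝐒" => goodD4.SG K
local notation "𝐗" => PreSt.x (St.toPreSt (goodD4.SG K))
local notation "𝐧" => PreSt.n (St.toPreSt (goodD4.SG K))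
local notation "𝐡" => PreSt.h (St.toPreSt (goodD4.SG K))
local notation "𝐓" => D4.T σ (s3 (σ := σ))
local notation "𝐜" => MulAut.conj (G := chevD4.group K)

theorem map_sl {A B : Type} [Field A] [Field B] (f : A →+* B) : (∀ t, Matrix.SpecialLinearGroup.map f (up t) = up (f t)) ∧
    (∀ t, Matrix.SpecialLinearGroup.map f (lo t) = lo (f t)) ∧ Matrix.SpecialLinearGroup.map f (-1 : SL(2, A)) = -1 ∧
    Matrix.SpecialLinearGroup.map f (wy A) = wy B := by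
  refine ⟨fun t => ?_, fun t => ?_, ?_, ?_⟩ <;> refine Subtype.ext (Matrix.ext fun i j => ?_) <;>
    change f _ = _ <;> fin_cases i <;> fin_cases j <;> simp [up, lo, wy]

theorem cU (a b : I) (h : ∀ r s : I, r = a ∨ r = goodD4.R.neg a → s = b ∨ s = goodD4.R.neg b → Z0 r s := by decide +kernel) :
    ∀ u ∈ (𝐒).U {a, goodD4.R.neg a}, ∀ v ∈ (𝐒).U {b, goodD4.R.neg b}, Commute u v :=
  (𝐒).commute_U fun r hr s hs => c0 (h r s hr hs)

theorem d4_sl : ∃ (f : SL(2, Fx σ) →* chevD4.group K) (g : SL(2, K) →* chevD4.group K), (∀ a, f a ∈ (𝐓).fix) ∧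
    (∀ a, g a ∈ (𝐓).fix) ∧ f (-1) = 𝐡 23 (-1 : Kˣ) ∧ g (-1) = 𝐡 23 (-1 : Kˣ) ∧ (∀ a b, Commute (f a) (g b)) ∧
    f (up 1) = 𝐗 23 1 ∧ (∀ t, g (up t) = x3 σ t) ∧ (∀ t, g (lo t) = 𝐗 5 t * (𝐗 10 (σ t) * 𝐗 11 (σ (σ t)))) ∧
    g (wy K) = 𝐧 18 1 * (𝐧 13 1 * 𝐧 12 1) := by
  have hh := goodD4.SG_hmul K
  obtain ⟨f0, r0, u0, l0, d0, -⟩ := sl2 hh 23
  obtain ⟨f1, r1, u1, l1, d1, w1⟩ := sl2 hh 18
  obtain ⟨f2, r2, u2, l2, d2, w2⟩ := sl2 hh 13
  obtain ⟨f3, r3, u3, l3, d3, w3⟩ := sl2 hh 12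
  have c12 : ∀ a b, Commute (f1 a) (f2 b) := fun a b => cU 18 13 (by decide +kernel) _ (r1.le ⟨a, rfl⟩) _ (r2.le ⟨b, rfl⟩)
  have c13 : ∀ a b, Commute (f1 a) (f3 b) := fun a b => cU 18 12 (by decide +kernel) _ (r1.le ⟨a, rfl⟩) _ (r3.le ⟨b, rfl⟩)
  have c23 : ∀ a b, Commute (f2 a) (f3 b) := fun a b => cU 13 12 (by decide +kernel) _ (r2.le ⟨a, rfl⟩) _ (r3.le ⟨b, rfl⟩)
  let g : SL(2, K) →* chevD4.group K := MonoidHom.mk' (fun a => f1 a * (f2 (Matrix.SpecialLinearGroup.map σ a) *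
    f3 (Matrix.SpecialLinearGroup.map σ (Matrix.SpecialLinearGroup.map σ a)))) fun a b => by
      simp only [map_mul]
      rw [(c23 _ _).mul_mul_mul_comm, ((c12 _ _).mul_right (c13 _ _)).mul_mul_mul_comm]
  have e : ∀ a, g a = f1 a * (f2 (Matrix.SpecialLinearGroup.map σ a) *
    f3 (Matrix.SpecialLinearGroup.map σ (Matrix.SpecialLinearGroup.map σ a))) := fun _ => rfl
  obtain ⟨a1, a2, a3, a4⟩ := map_sl σ
  obtain ⟨b1, b2, b3, -⟩ := map_sl (Fx σ).subtype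
  have gu : ∀ t, g (up t) = x3 σ t := fun t => by rw [e, a1, a1, u1, u2, u3, x3]
  have gl : ∀ t, g (lo t) = 𝐗 5 t * (𝐗 10 (σ t) * 𝐗 11 (σ (σ t))) := fun t => by
    rw [e, a2, a2, l1, l2, l3, show goodD4.R.neg 18 = 5 by decide +kernel, show goodD4.R.neg 13 = 10 by decide +kernel,
      show goodD4.R.neg 12 = 11 by decide +kernel]
  refine ⟨f0.comp (Matrix.SpecialLinearGroup.map (Fx σ).subtype), g, sl_top (M := (𝐓).fix.comap _) (fun t => ?_) fun t => ?_,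
    sl_top (M := (𝐓).fix.comap _) (fun t => ?_) fun t => ?_, ?_, ?_, fun a b => ?_, ?_, gu, gl, by rw [e, a4, a4, w1, w2, w3]⟩
  · rw [mem_comap, MonoidHom.comp_apply, b1, u0, St.Tw.mem_fix, σ1 σ 23 23 1]
    exact congrArg _ (by simp [H29.TD.fx])
  · rw [mem_comap, MonoidHom.comp_apply, b2, l0, show goodD4.R.neg 23 = 0 by decide +kernel, St.Tw.mem_fix, σ1 σ 0 0 1]
    exact congrArg _ (by simp [H29.TD.fx])
  · rw [mem_comap, gu]
    exact (D4.p0.2 ⟨t, by simp [x3, PreSt.wd]⟩).2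
  · rw [mem_comap, gl]
    exact (D4.m0.2 ⟨t, by simp [PreSt.wd]⟩).2
  · rw [MonoidHom.comp_apply, b3, ← dg_neg, d0]
  · rw [e, a3, a3, ← dg_neg, d1, d2, d3, hh.h_eq, hh.h_eq, hh.h_eq, hh.h_eq, ← map_mul, ← map_mul,
      show goodD4.R.co 23 = vec 0 [1, 2, 1, 1] by decide +kernel, show goodD4.R.co 18 = vec 0 [1, 0, 0, 0] by decide +kernel,
      show goodD4.R.co 13 = vec 0 [0, 0, 1, 0] by decide +kernel, show goodD4.R.co 12 = vec 0 [0, 0, 0, 1] by decide +kernel]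
    exact congrArg _ (funext fun i => by fin_cases i <;> simp [vec, zpow_ofNat])
  · exact (cU 23 18 (by decide +kernel) _ (r0.le ⟨_, rfl⟩) _ (r1.le ⟨_, rfl⟩)).mul_right
      ((cU 23 13 (by decide +kernel) _ (r0.le ⟨_, rfl⟩) _ (r2.le ⟨_, rfl⟩)).mul_right
      (cU 23 12 (by decide +kernel) _ (r0.le ⟨_, rfl⟩) _ (r3.le ⟨_, rfl⟩)))
  · rw [MonoidHom.comp_apply, b1, u0]; rfl

theorem d4_dual [Finite K] : ∃ u v : Fin 3 → K, ∀ i j, tr σ (u i * v j) = if i = j then -1 else 0 := by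
  obtain ⟨θ, hθ⟩ := ex_ne σ
  have h1 : σ θ - σ (σ θ) ≠ 0 := sub_ne_zero.2 (σ.injective.ne hθ).symm
  have h2 : θ - σ (σ θ) ≠ 0 := sub_ne_zero.2 fun e => hθ (by simpa only [s3] using congrArg σ e)
  have h3 : θ - σ θ ≠ 0 := sub_ne_zero.2 hθ.symm
  have h4 : σ (σ θ) - σ θ ≠ 0 := sub_ne_zero.2 (σ.injective.ne hθ)
  have h5 : σ (σ θ) - θ ≠ 0 := fun e => h2 (by linear_combination -e)
  have h6 : σ θ - θ ≠ 0 := sub_ne_zero.2 hθ
  refine ⟨![1, θ, θ ^ 2], ![-(σ θ * σ (σ θ)) / ((θ - σ θ) * (θ - σ (σ θ))), (σ θ + σ (σ θ)) / ((θ - σ θ) * (θ - σ (σ θ))),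
    -1 / ((θ - σ θ) * (θ - σ (σ θ)))], fun i j => ?_⟩
  fin_cases i <;> fin_cases j <;> simp [tr, s3] <;> field_simp <;> ring

theorem d4_top [Finite K] {M : Subgroup (chevD4.group K)} {g : SL(2, K) →* chevD4.group K} (gu : ∀ t, g (up t) = x3 σ t)
    (gl : ∀ t, g (lo t) = 𝐗 5 t * (𝐗 10 (σ t) * 𝐗 11 (σ (σ t)))) (gw : g (wy K) = 𝐧 18 1 * (𝐧 13 1 * 𝐧 12 1))
    (h0 : ∀ a, g a ∈ M) (h1 : ∀ a, 𝐜 (𝐧 14 1) (g a) ∈ M) (h2 : ∀ a, 𝐜 (𝐧 22 1) (g a) ∈ M) : (𝐓).Big M := by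
  obtain ⟨u, v, uv⟩ := d4_dual σ
  have ea : ∀ t, e0 σ (xa t) = g (up t) := fun t => by simp [e0_ap, nD, y3, gu]
  have ha : ∀ t, e0 σ (xa t) ∈ M := fun t => ea t ▸ h0 _
  have hs : ∀ t, e0 σ (xs t) ∈ M := fun t => by
    have := h1 (up t)
    rwa [← ea, w2 σ _ rfl, show m2 (xa t) = xs t by ext <;> simp [tr, cr, sh]] at this
  have hr : ∀ t, e0 σ (xr t) ∈ M := fun t => by
    have := h2 (lo t)
    rw [gl, map_mul, map_mul, nc 22 5 17 1, nc 22 10 20 (-1), nc 22 11 21 (-1)] at this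
    simpa [e0_ap, nD, y3, x3] using this
  have k : ∀ t, σ t = t → tr σ (u 0 * -t * v 0) = t := fun t ht => by
    rw [mul_right_comm, mul_comm, tr_sm (by rw [map_neg, ht]), uv]; simp
  have hv : ∀ t ht, e0 σ (xv t ht) ∈ M := fun t ht => by
    have := mul_mem (hr (v 0)) (ha (u 0 * -t))
    rwa [← map_mul, show xr (v 0) * xa (u 0 * -t) = xa (u 0 * -t) * xr (v 0) * xv t ht by
      ext <;> simp [-neg_mul, -mul_neg, k t ht, tr_zero, cr, sh], map_mul, map_mul, mul_mem_cancel_left (mul_mem (ha _) (hr _))] at this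
  have hz : ∀ t ht, e0 σ (xz t ht) ∈ M := fun t ht => by
    have := mul_mem (hr (v 0)) (hs (u 0 * -t))
    rwa [← map_mul, show xr (v 0) * xs (u 0 * -t) = xs (u 0 * -t) * xr (v 0) * xz t ht by
      ext <;> simp [-neg_mul, -mul_neg, k t ht, tr_zero, cr, sh], map_mul, map_mul, mul_mem_cancel_left (mul_mem (hs _) (hr _))] at this
  have a1 : ∀ t ht, 𝐜 (g (wy K)) (e0 σ (xv t ht)) = 𝐗 14 t := fun t ht => by
    rw [gw, w1 σ _ rfl]; simp [e0_ap, nD, y3, x3, tr_zero]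
  refine (𝐓).forall_orb (P := fun J => (𝐓).Up J ≤ M ∧ (𝐓).Um J ≤ M) _ D4.reps ?_
  simp only [List.forall_mem_cons, List.not_mem_nil, IsEmpty.forall_iff, implies_true, and_true]
  refine ⟨⟨fun x hx => ?_, fun x hx => ?_⟩, fun x hx => ?_, fun x hx => ?_⟩
  · obtain ⟨t, rfl⟩ := D4.p0.1 hx
    simpa [gu, x3, PreSt.wd] using h0 (up t)
  · obtain ⟨t, rfl⟩ := D4.m0.1 hx
    simpa [gl, PreSt.wd] using h0 (lo t)
  · obtain ⟨t, ht, rfl⟩ := D4.p1.1 hx
    simpa [PreSt.wd, ← a1 t ht.symm] using mul_mem (mul_mem (h0 _) (hv t ht.symm)) (inv_mem (h0 _))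
  · obtain ⟨t, ht, rfl⟩ := D4.m1.1 hx
    have ht : σ (-t) = -t := by rw [map_neg, ← ht]
    have := mul_mem (mul_mem (h1 (wy K)) (hz _ ht)) (inv_mem (h1 (wy K)))
    rw [show xz _ ht = m2 (xv _ ht) by ext <;> simp [tr, cr, sh], ← w2 σ _ rfl, ← map_inv, ← map_mul, ← map_mul,
      ← MulAut.conj_apply, a1, MulAut.conj_apply, St.nconj _ _ _ _ one_ne_zero, mul_inv_cancel_right, RootSys.refl_self,
      Chev.eta_self, show goodD4.R.neg 14 = 9 by decide +kernel] at this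
    simpa [PreSt.wd] using this

theorem d4_z (c : Dc σ) (h : c.a = 0) : 𝐜 (𝐡 23 (-1 : Kˣ)) (e0 σ c) = e0 σ ⟨0, -c.u, -c.s, -c.r, -c.v, c.z,
    by rw [map_neg, c.hu], by rw [map_neg, c.hv], c.hz⟩ := by
  have k : ∀ (r : I) (n : ℤ), goodD4.R.pair 23 r = n → ∀ t, 𝐜 (𝐡 23 (-1 : Kˣ)) (𝐗 r t) = 𝐗 r ((-1) ^ n * t) := fun r n e t => by
    rw [MulAut.conj_apply, St.h_mul_x _ _ _ (-1 : Kˣ).ne_zero, mul_inv_cancel_right, e]; rfl
  simp only [e0_ap, h, x3, nD, y3, map_mul (𝐜 _), map_zero, PreSt.x_zero, map_one, k 22 1 (by decide +kernel),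
    k 17 1 (by decide +kernel), k 20 1 (by decide +kernel), k 21 1 (by decide +kernel), k 23 2 (by decide +kernel),
    k 19 1 (by decide +kernel), k 16 1 (by decide +kernel), k 15 1 (by decide +kernel), k 14 1 (by decide +kernel)]
  simp [zpow_ofNat]

theorem dc_pow (p : ℕ) [CharP K p] (c : Dc σ) (h : c.a = 0 ∧ c.z = 0 ∧ c.u * c.v = 0 ∧ c.s * c.r = 0) : c ^ p = 1 := by
  have : ∀ n : ℕ, (c ^ n).a = 0 ∧ (c ^ n).u = n * c.u ∧ (c ^ n).s = n * c.s ∧ (c ^ n).r = n * c.r ∧ (c ^ n).v = n * c.v ∧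
      (c ^ n).z = 0 := fun n => by
    induction n with
    | zero => simp
    | succ n ih => simp [pow_succ, ih, h, tr_zero, cr, sh, H29.TD.nm, add_mul, mul_assoc]
  ext <;> simp [this]
end

open H29.TD H29.TD.Dc H14.TD in
theorem d4c : D4C := by
  intro K _ _ r p _ ho hK
  have hq : IsPrimePow r := (isPrimePow_pow_iff three_ne_zero).1 (hK ▸ FiniteField.isPrimePow_card K)
  have hK' := Nat.card_eq_fintype_card.trans hK
  obtain ⟨σ, h3, hσ⟩ := D4.exists_hom hq hK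
  have cF : Nat.card (Fx σ) = r := (Nat.card_congr (Equiv.subtypeEquivRight fun t => by
    rw [← hσ]; exact eq_comm)).trans (card_pow_eq hq.one_lt (hK' ▸ Nat.sub_one_dvd_pow_sub_one _ 3))
  have tv : TV σ := ⟨h3, cF ▸ hσ, cF ▸ hK'⟩
  obtain ⟨e, h⟩ : ∃ e : twistedD4 K r →* _, (D4.T σ h3).Emb e := ⟨_, (D4.isTw (h3 := h3) hσ).emb⟩
  have lf : ∀ {A : Type} [Group A] (f : A →* chevD4.group K), (∀ a, f a ∈ (D4.T σ h3).fix) →
      ∃ φ : A →* twistedD4 K r, ∀ a, e (φ a) = f a := fun f hf =>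
    ⟨(MonoidHom.ofInjective h.inj).symm.toMonoidHom.comp (f.codRestrict _ fun a => h.range.ge (hf a)),
      fun a => MonoidHom.apply_ofInjective_symm h.inj _⟩
  obtain ⟨f, g, f0, g0, f1, g1, fg, fu, gu, gl, gw⟩ := d4_sl σ
  obtain ⟨φ₁, e1⟩ := lf f f0
  obtain ⟨φ₂, e2⟩ := lf g g0
  obtain ⟨ε, e3⟩ := lf (e0 σ) fun c => (mU σ c).2
  obtain ⟨w, ew⟩ := h.lift (f2 σ)
  obtain ⟨w', ew'⟩ := h.lift (g := (goodD4.SG K).n 22 1) (St.Tw.mem_fix.2 (by
    simp only [nX 22 1, map_mul, σ1 σ 22 22 1, σ1 σ 1 1 1, Int.cast_one, one_mul, map_one, map_neg]))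
  obtain ⟨u, v, uv⟩ := d4_dual σ
  have hh := goodD4.SG_hmul K
  have o := map_one σ
  have eu : φ₁ (up 1) = ε (xz 1 o) := h.inj (by rw [e1, e3, fu]; simp [e0_ap, nD, y3, x3])
  have ez : ∀ c : Dc σ, c.a = 0 ∧ c.z = 0 ∧ c.u * c.v = 0 ∧ c.s * c.r = 0 → ε c ^ p = 1 ∧
      φ₁ (-1) * ε c * (φ₁ (-1))⁻¹ = (ε c)⁻¹ ∧ Commute (φ₁ (up 1)) (ε c) := fun c hc =>
    ⟨by rw [← map_pow, dc_pow σ p c hc, map_one], h.inj (by
      rw [map_mul, map_mul, map_inv, map_inv, e1, e3, f1, ← MulAut.conj_apply, d4_z σ c hc.1, ← map_inv]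
      exact congrArg _ (by ext <;> simp [hc, tr_zero, cr, sh, H29.TD.nm])),
      eu ▸ Commute.map (show xz 1 o * c = c * xz 1 o by ext <;> simp [tr_zero, cr, sh, H29.TD.nm, add_comm]) ε⟩
  refine ⟨Fx σ, inferInstance, .ofFinite _, inferInstance, φ₁, φ₂, φ₁ (-1), w, w',
    fun k => ε (Fin.cases (xu 1 o) (fun i => xs (u i)) k), fun k => ε (Fin.cases (xv 1 o) (fun i => xr (v i)) k),
    (@Nat.card_eq_fintype_card _ (.ofFinite _)).symm.trans cF, ⟨rfl, h.inj (by rw [e1, e2, f1, g1]), fun k => ?_, fun a b => h.inj ?_, h.inj ?_⟩,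
    eq_top_iff.2 fun a _ => ?_, fun k => ?_, fun k l => ?_⟩
  · exact h_ne (goodD4.SG_sep K) (two_ne (hK ▸ ho.pow)) (r := 23) (s := 14) (by decide +kernel) (by rw [← f1, ← e1, k, map_one])
  · simp only [map_mul, e1, e2, (fg a b).eq]
  · simp only [map_mul, map_inv, e1, f1, ew, ew']
    rw [n_h hh, n_h hh, rf (k := 22) (by decide +kernel), rf (k := 14) (by decide +kernel), hh.h_eq, hh.h_eq, hh.h_eq,
      ← map_mul, show goodD4.R.co 23 = vec 0 [1, 2, 1, 1] by decide +kernel,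
      show goodD4.R.co 22 = vec 0 [1, 1, 1, 1] by decide +kernel, show goodD4.R.co 14 = vec 0 [0, 1, 0, 0] by decide +kernel]
    exact congrArg _ (funext fun i => by fin_cases i <;> simp [vec, zpow_ofNat])
  · obtain ⟨b, hb, k⟩ := D4.gen _ (d4_top σ (M := (Nq φ₂.range w w').map e) gu gl gw
      (fun a => ⟨_, mem_sup_left (mem_sup_left ⟨a, rfl⟩), e2 a⟩)
      (fun a => ⟨_, mem_sup_left (mem_sup_right ⟨_, ⟨a, rfl⟩, rfl⟩), by simp [e2, ew]⟩)
      fun a => ⟨_, mem_sup_right ⟨_, ⟨a, rfl⟩, rfl⟩, by simp [e2, ew']⟩) (h.mem a)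
    exact h.inj k ▸ hb
  · have k : ∀ c d : Dc σ, c.a = 0 ∧ c.z = 0 ∧ c.u * c.v = 0 ∧ c.s * c.r = 0 → d.a = 0 ∧ d.z = 0 ∧ d.u * d.v = 0 ∧
        d.s * d.r = 0 → c * d = xz 1 o * (d * c) → ε c ^ p = 1 ∧ ε d ^ p = 1 ∧ φ₁ (-1) * ε c * (φ₁ (-1))⁻¹ = (ε c)⁻¹ ∧
        φ₁ (-1) * ε d * (φ₁ (-1))⁻¹ = (ε d)⁻¹ ∧ Commute (φ₁ (up 1)) (ε c) ∧ Commute (φ₁ (up 1)) (ε d) ∧
        ε c * ε d = φ₁ (up 1) * (ε d * ε c) := fun c d a b k => ⟨(ez c a).1, (ez d b).1, (ez c a).2.1, (ez d b).2.1,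
      (ez c a).2.2, (ez d b).2.2, by rw [eu, ← map_mul, ← map_mul, ← map_mul, k]⟩
    cases ‹Fin 4› using Fin.cases <;> refine k _ _ (by simp) (by simp) ?_ <;> ext <;> simp [tr_zero, cr, sh, H29.TD.nm, uv]
  · intro h
    clear * - h uv
    cases k using Fin.cases <;> cases l using Fin.cases <;>
      refine ⟨Commute.map ?_ ε, Commute.map ?_ ε, Commute.map ?_ ε⟩ <;> refine Dc.ext ?_ ?_ ?_ ?_ ?_ ?_ <;>
      simp_all [tr_zero, cr, sh, H29.TD.nm, add_comm]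

end H11.O7
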