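/-
S5210, chunk NB: the Borel subgroup of `U₄(3)`.
-/
import Cfsg.Agent.H22.PV6

set_option autoImplicit false
set_option linter.unusedSectionVars false

namespace H11.PV
open Subgroup H25 H8.PU H7.PV H7.PV.Cu H22.PV Matrix
universe v

/-- normalizers of Sylow subgroups lift along central extensions -/
theorem lift_nz {G Γ : Type*} [Group G] [Finite G] [Group Γ] {p : ℕ} [Fact p.Prime] {π : G →* Γ} (k : π.ker ≤ center G)
    {U : Subgroup G} (hU : IsPGroup p U) (s : Syl p U ⊤) {g : G} (h : π g ∈ nz (U.map π)) : g ∈ nz U := by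
  obtain ⟨y, hy, e⟩ := (s.mono_right le_sup_left le_top : Syl p U (U ⊔ π.ker)).exists_cj_le (isPGroup_cj g hU)
    (cj_le.2 fun x hx => by
      rw [← comap_map_eq, mem_comap, map_mul, map_mul, map_inv]; exact conj_mem_of_mem_nz h (mem_map_of_mem π hx))
  rw [cj_le_iff, cj_eq_of_mem_nz (sup_le (le_nz_self U) (k.trans (center_le_normalizer _)) (inv_mem hy))] at e
  exact mem_nz_of_le e

variable {K : Type} [Field K] [Finite K] {σ : K →+* K} [IV σ]
variable (σ) in
/-- parameters of the torus -/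
def D0 : Subgroup (Kˣ × Kˣ) where
  carrier := {x | σ (x.1 * x.2) = x.1 * x.2}
  one_mem' := by simp
  mul_mem' := fun {x y} h h' => by
    change σ (x.1 * y.1 * (x.2 * y.2)) = x.1 * y.1 * (x.2 * y.2)
    rw [mul_mul_mul_comm, map_mul, h, h']
  inv_mem' := fun {x} h => by
    change σ (↑x.1⁻¹ * ↑x.2⁻¹) = ↑x.1⁻¹ * ↑x.2⁻¹
    rw [Units.val_inv_eq_inv_val, Units.val_inv_eq_inv_val, ← mul_inv, map_inv₀, h]
/-- the torus -/
def dl : D0 σ →* UJ σ := MonoidHom.mk' (fun x => ⟨H22.PV.dg ![x.1.1, x.1.2, (σ x.1.2)⁻¹, (σ x.1.1)⁻¹] (by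
    have h : σ (x.1.1 * x.1.2) = x.1.1 * x.1.2 := x.2
    have := sn (σ := σ) x.1.1.ne_zero
    have := sn (σ := σ) x.1.2.ne_zero
    rw [map_mul] at h
    simp [Fin.prod_univ_four]; field_simp; linear_combination -h), mUJ.2 fun u v => by
    have := sn (σ := σ) x.1.1.ne_zero
    have := sn (σ := σ) x.1.2.ne_zero
    simp [hJ, vl_dg, mulVec_diagonal, ss]; field_simp⟩) fun x y => Subtype.ext (vl_inj (by
  change diagonal _ = diagonal _ * diagonal _
  rw [diagonal_mul_diagonal]; congr 1; ext i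
  fin_cases i <;> simp [mul_comm]))

theorem nb0 [CharP K 3] (h8 : ∀ x : Kˣ, x ^ 8 = 1) (hσ : ∀ x, σ x = x ^ 3) {Γ : Type*} [Group Γ] [Finite Γ] (π : UJ σ →* Γ)
    (hs : Function.Surjective π) (k : π.ker = center _) (T : Sylow 3 Γ) : (T : Subgroup Γ).relIndex (nz (T : Subgroup Γ)) ∣ 4 := by
  have := Fact.mk Nat.prime_three
  have s := sylJ (σ := σ) (p := 3)
  obtain ⟨R, hR⟩ := (syl_iff_exists_sylow pg_uc s.1).1 s
  obtain ⟨g, -, e⟩ := (syl_sylow (R.mapSurjective hs)).exists_cj_le T.2 le_top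
  rw [← relIndex_cj g, cj_nz, ← Syl.eq_of_le (H := ⊤) (by simpa using (syl_sylow T).cj g) (R.mapSurjective hs).2 e le_top,
    Sylow.coe_mapSurjective]
  let ρ := π.comp dl
  let χ : D0 σ →* Kˣ := (MonoidHom.fst Kˣ Kˣ / MonoidHom.snd Kˣ Kˣ).comp (D0 σ).subtype
  rw [relIndex_eq_of_cover (H := ρ.range ⊓ nz ((R : Subgroup (UJ σ)).map π)) inf_le_right fun a ha => ?_, ← map_comap_eq, ← relIndex_comap]
  · refine (relIndex_dvd_of_le_left (H := χ.ker) _ fun x hx => ?_).trans ((relIndex_dvd_index_of_normal _ _).trans ?_)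
    · have e : x.1.1 = x.1.2 := div_eq_one.1 hx
      have h : σ (x.1.1 * x.1.2) = x.1.1 * x.1.2 := x.2
      have n := x.1.2.ne_zero
      have : dl x ∈ π.ker := k ▸ mem_center_iff.2 fun g => Subtype.ext (vl_inj (by
        have : vl (dl x).1 = (x.1.2 : K) • 1 := by
          have : (σ x.1.2)⁻¹ = x.1.2 := by
            rw [e, hσ] at h
            rw [hσ]; field_simp at h ⊢; linear_combination -h
          change diagonal _ = _
          rw [smul_one_eq_diagonal, e, this]; congr 1; ext i; fin_cases i <;> rfl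
        change vl g.1 * vl (dl x).1 = vl (dl x).1 * vl g.1
        simp [this]))
      exact mem_comap.2 ((show π (dl x) = 1 from this) ▸ one_mem _)
    · rw [index_ker]
      refine (card_dvd_of_le (K := (powMonoidHom 4).ker) ?_).trans (by rw [IsCyclic.card_powMonoidHom_ker]; exact Nat.gcd_dvd_right _ _)
      rintro _ ⟨x, rfl⟩
      have h : σ (x.1.1 * x.1.2) = x.1.1 * x.1.2 := x.2
      have h1 := congrArg Units.val (h8 x.1.1)
      have := x.1.1.ne_zero
      have := x.1.2.ne_zero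
      refine Units.ext (show ((x.1.1 / x.1.2) ^ 4 : Kˣ).1 = 1 from ?_)
      rw [hσ] at h
      push_cast at h1 ⊢
      field_simp at h ⊢
      grind
  · obtain ⟨M, rfl⟩ := hs a
    have n := lift_nz k.le R.2 (syl_sylow R) ha
    obtain ⟨c, t, h, e0, e1, e⟩ := tri M.2 (mem_nz_of_conj_mem fun x hx => by
      have := conj_mem_of_mem_nz n (show ⟨x, s.1 hx⟩ ∈ (R : Subgroup (UJ σ)) by rwa [hR])
      rwa [hR] at this)
    have a0 := left_ne_zero_of_mul_eq_one e0
    have a1 := left_ne_zero_of_mul_eq_one e1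
    have f0 : t 3 = (σ (t 0))⁻¹ := eq_inv_of_mul_eq_one_right (by simpa [ss] using congrArg σ e0)
    have f1 : t 2 = (σ (t 1))⁻¹ := eq_inv_of_mul_eq_one_right (by simpa [ss] using congrArg σ e1)
    let x : D0 σ := ⟨(.mk0 _ a0, .mk0 _ a1), show σ (t 0 * t 1) = t 0 * t 1 by
      have := sn (σ := σ) a0
      have := sn (σ := σ) a1
      rw [Fin.prod_univ_four, f0, f1] at h
      field_simp at h
      rw [map_mul]; linear_combination -h⟩
    have u : (⟨uc c, uc_mem c⟩ : UJ σ) ∈ (R : Subgroup (UJ σ)) := hR ▸ ⟨c, rfl⟩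
    have e' : M = ⟨uc c, uc_mem c⟩ * dl x := Subtype.ext (e.trans (congrArg (uc c * ·) (vl_inj (by
      change diagonal _ = diagonal _
      congr 1; ext i; fin_cases i <;> simp [x, f0, f1]))))
    have m : π (dl x) ∈ nz ((R : Subgroup (UJ σ)).map π) := by
      simpa [e'] using mul_mem (inv_mem (le_nz_self _ (mem_map_of_mem π u))) ha
    exact ⟨_, ⟨⟨x, rfl⟩, m⟩, by simpa [e', mul_assoc, ρ] using conj_mem_of_mem_nz' m (mem_map_of_mem π u)⟩

theorem nb : NB := by
  intro K _ _ hK T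
  have := Fact.mk Nat.prime_three
  have : CharP K 3 := by
    obtain ⟨p, hp, n, hn, e⟩ := FiniteField.card' K
    obtain rfl : p = 3 := (Nat.prime_dvd_prime_iff_eq hn Nat.prime_three).1
      (hn.dvd_of_dvd_pow (n := 2) (hK.symm.trans e ▸ dvd_pow_self p n.ne_zero :))
    exact hp
  let σ : K →+* K := frobenius K 3
  have hσ : ∀ x, σ x = x ^ 3 := fun x => rfl
  have h8 : ∀ x : Kˣ, x ^ 8 = 1 := fun x => by
    have := pow_card_eq_one' (x := x)
    rwa [Nat.card_units, Nat.card_eq_fintype_card, hK] at this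
  have : IV σ := by
    refine ⟨fun x => by rw [hσ, hσ, ← pow_mul]; exact (hK ▸ FiniteField.pow_card x : x ^ 9 = x), ?_, fun φ x => by rw [hσ, hσ, map_pow]⟩
    by_contra! h
    obtain ⟨g, hg⟩ := IsCyclic.exists_ofOrder_eq_natCard (α := Kˣ)
    have : g ^ 2 = 1 := Units.ext (mul_right_cancel₀ g.ne_zero (by
      rw [Units.val_pow_eq_pow_val, ← pow_succ, ← hσ, h, Units.val_one, one_mul]))
    have := Nat.le_of_dvd (by omega) (orderOf_dvd_of_pow_eq_one this)
    rw [hg, Nat.card_units, Nat.card_eq_fintype_card, hK] at this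
    omega
  obtain ⟨P, ε, e0, hP⟩ := exP σ
  have ci : Function.Injective (cg P) := Function.LeftInverse.injective (g := cg P⁻¹) fun M => by simpa using cg_cg P⁻¹ M
  have e : (UJ σ).map (cg P) = Cfsg.SU 4 K 3 := Subgroup.ext fun M => ⟨?_, fun h => ⟨_, mUJ.2 fun u v => ?_, cg_cg P M⟩⟩
  rotate_left
  · rintro ⟨M, h, rfl⟩ u v
    have := congrArg (ε * ·) (mUJ.1 h (P⁻¹.1 *ᵥ u) (P⁻¹.1 *ᵥ v))
    simp only [← hP, mulVec_mulVec, ← Matrix.mul_assoc, Units.mul_inv, one_mulVec] at this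
    exact this
  · refine mul_left_cancel₀ e0 ?_
    simp only [← hP, vl_cg, inv_inv, mulVec_mulVec, ← Matrix.mul_assoc, Units.mul_inv, Matrix.one_mul]
    simp only [← mulVec_mulVec]
    exact h _ _
  let f := ((UJ σ).equivMapOfInjective _ ci).trans (MulEquiv.subgroupCongr e)
  exact nb0 h8 hσ ((QuotientGroup.mk' _).comp f.toMonoidHom) ((QuotientGroup.mk'_surjective _).comp f.surjective)
    (Subgroup.ext fun x => (QuotientGroup.eq_one_iff _).trans (MulEquivClass.apply_mem_center_iff f)) T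

end H11.PV
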