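import Cfsg.Agent.H5.RepEquiv
import Cfsg.Agent.H5.Virtual
import Cfsg.Agent.H12.LinExt
import Mathlib.Analysis.Fourier.FiniteAbelian.PontryaginDuality

/-! # The permutation character of the special linear group on nonzero vectors -/

set_option autoImplicit false
set_option linter.unusedSectionVars false

namespace H11

open Finset Matrix Cfsg MulAction H5
open scoped ComplexConjugate

theorem irr_of_sum {G ι : Type*} [Group G] [Fintype G] [Fintype ι] (θ : ι → G → ℂ) (h : ∀ i, IsCharacter G (θ i))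
    (h0 : ∀ i, θ i ≠ 0) {m : ℕ} (h1 : classInner (∑ i, θ i) (∑ i, θ i) = m) (h2 : m ≤ Fintype.card ι) :
    (∀ i, IsIrrCharacter G (θ i)) ∧ Function.Injective θ := by
  classical
  choose c hc using fun i j => (h i).exists_classInner_nat (h j)
  simp only [classInner_sum_left, classInner_sum_right, hc] at h1
  obtain rfl : ∑ j, ∑ i, c i j = m := by exact_mod_cast h1
  have a : ∀ i, 1 ≤ c i i := fun i => Nat.pos_of_ne_zero fun e => h0 i (classInner_self_eq_zero.1 (by simp [hc, e]))
  have b : ∀ j, ∑ i, c i j = c j j + ∑ i ∈ univ.erase j, c i j := fun j => (add_sum_erase _ _ (mem_univ j)).symm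
  have d := (sum_eq_sum_iff_of_le (s := univ) (f := fun _ => 1) fun j _ => (a j).trans ((le_self_add.trans_eq (b j).symm))).1
    (le_antisymm (sum_le_sum fun j _ => (a j).trans ((le_self_add.trans_eq (b j).symm))) (by simpa using h2))
  refine ⟨fun i => (h i).isIrr_of_classInner_self ?_, fun i j e => by_contra fun h3 => ?_⟩
  · have := d i (mem_univ _); have := b i; have := a i
    rw [hc, show c i i = 1 by omega, Nat.cast_one]
  · have := single_le_sum (f := fun i => c i j) (fun _ _ => Nat.zero_le _) (mem_erase.2 ⟨h3, mem_univ i⟩)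
    have : c i j = c j j := by have := hc i j; rw [e, hc] at this; exact_mod_cast this.symm
    have := d j (mem_univ _); have := b j; have := a j
    omega

variable {G A : Type*} [Group G] [Fintype G] [CommGroup A] [Fintype A]

/-- the components of a character of `G × A` -/
noncomputable def cmp (Θ : G × A → ℂ) (l : AddChar (Additive A) ℂ) (g : G) : ℂ :=
  (Nat.card A : ℂ)⁻¹ * ∑ c, Θ (g, c) * l (.ofMul c)

theorem cmp_char {Θ : G × A → ℂ} (h : IsCharacter _ Θ) (l : AddChar (Additive A) ℂ) : IsCharacter G (cmp Θ l) := by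
  refine H5.Cfsg.IsClassFunction.isCharacter_of_classInner (fun g x => ?_) fun χ hχ => ?_
  · exact congrArg (_ * ·) (sum_congr rfl fun c _ => congrArg (· * _) (by simpa using h.isClassFunction (g, c) (x, 1)))
  obtain ⟨n, hn⟩ := (h.mul (isIrrCharacter_monoidHom ((show A →* ℂ from l.toMonoidHom).comp
    (MonoidHom.snd G A))).isCharacter).exists_classInner_nat (hχ.isCharacter.comp (MonoidHom.fst G A))
  refine ⟨n, hn ▸ ?_⟩
  simp only [classInner, cmp, Fintype.sum_prod_type, Nat.card_prod, mul_sum, sum_mul]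
  exact sum_congr rfl fun g _ => sum_congr rfl fun c _ => by
    push_cast; rw [mul_inv, Pi.mul_apply]; simp only [mul_assoc]; rfl

theorem sum_cmp (Θ : G × A → ℂ) (g : G) : ∑ l, cmp Θ l g = Θ (g, 1) := by
  classical
  simp only [cmp]
  rw [← mul_sum, sum_comm]
  simp only [← mul_sum, AddChar.sum_apply_eq_ite, ofMul_eq_zero, mul_ite, mul_zero, sum_ite_eq', mem_univ, if_true]
  rw [Fintype.card_additive, Nat.card_eq_fintype_card, mul_comm, mul_inv_cancel_right₀ (by simp)]

variable {n : ℕ} {F : Type*} [Field F]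

theorem exists_sl {k : ℕ} (hk : k < n) {x y : Fin k → Fin n → F} (hx : LinearIndependent F x) (hy : LinearIndependent F y) :
    ∃ g : SpecialLinearGroup (Fin n) F, ∀ i, g.1 *ᵥ x i = y i := by
  obtain ⟨A, hA⟩ := H12.exists_equiv_of_li hx hy
  obtain ⟨B, h1, h2⟩ := H12.exists_SLV_agree (W := Submodule.span F (Set.range x)) (fun e => by
    have := finrank_span_eq_card hx
    rw [e] at this; simp at this; omega) A
  exact ⟨⟨LinearMap.toMatrix' B.toLinearMap, by rw [LinearMap.det_toMatrix', H12.mem_SLV.1 h1]⟩, fun i =>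
    (LinearMap.toMatrix'_mulVec _ _).trans ((h2 _ (Submodule.subset_span ⟨i, rfl⟩)).trans (hA i))⟩

variable (n F) in
/-- nonzero vectors -/
def NZ := {v : Fin n → F // v ≠ 0}

instance [Finite F] : Finite (NZ n F) := Subtype.finite

instance : MulAction (SpecialLinearGroup (Fin n) F × Fˣ) (NZ n F) where
  smul p v := ⟨p.2.1 • p.1.1 *ᵥ v.1, smul_ne_zero p.2.ne_zero fun e => v.2 (by
    simpa [adjugate_mul] using congrArg ((p.1⁻¹).1 *ᵥ ·) e)⟩
  one_smul v := Subtype.ext (show (1 : Fˣ).1 • (1 : SpecialLinearGroup (Fin n) F).1 *ᵥ v.1 = _ by simp)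
  mul_smul p p' v := Subtype.ext (show (p.2 * p'.2).1 • (p.1 * p'.1).1 *ᵥ v.1 = p.2.1 • p.1.1 *ᵥ (p'.2.1 • p'.1.1 *ᵥ v.1) by
    simp [mulVec_smul, mul_smul])

instance : MulAction (SpecialLinearGroup (Fin n) F) (NZ n F) := .compHom _ (MonoidHom.inl _ Fˣ)

theorem NZ.smul_eq {g : SpecialLinearGroup (Fin n) F} {v w : NZ n F} : g • v = w ↔ g.1 *ᵥ v.1 = w.1 :=
  Subtype.ext_iff.trans (Eq.congr_left (one_smul F _))

theorem card_orb [Fintype F] (hn : 3 ≤ n) :
    Nat.card (orbitRel.Quotient (SpecialLinearGroup (Fin n) F) (NZ n F × NZ n F)) ≤ Fintype.card F := by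
  classical
  have hb := (Pi.linearIndependent_single_one (Fin n) F).comp (Fin.castLE (by omega : 2 ≤ n)) (Fin.castLE_injective _)
  generalize _ ∘ _ = b at hb
  rw [← Nat.card_eq_fintype_card]
  refine Nat.card_le_card_of_surjective (fun c : F => Quotient.mk'' (⟨b 0, hb.ne_zero 0⟩,
    ⟨if c = 0 then b 1 else c • b 0, by split_ifs <;> simp [hb.ne_zero, *]⟩)) ?_
  rintro ⟨v, w⟩
  by_cases h : LinearIndependent F ![v.1, w.1]
  · obtain ⟨g, hg⟩ := exists_sl (by omega) h hb
    exact ⟨0, Quotient.sound' ⟨g, Prod.ext (NZ.smul_eq.2 (hg 0)) (NZ.smul_eq.2 ((hg 1).trans (if_pos rfl).symm))⟩⟩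
  · rw [LinearIndependent.pair_iff' v.2] at h
    push Not at h
    obtain ⟨c, hc⟩ := h
    have h0 : c ≠ 0 := by rintro rfl; exact w.2 (by simp [← hc])
    obtain ⟨g, hg⟩ := exists_sl (k := 1) (by omega) (x := fun _ => v.1) (y := fun _ => b 0)
      (linearIndependent_unique_iff.2 v.2) (linearIndependent_unique_iff.2 (hb.ne_zero 0))
    exact ⟨c, Quotient.sound' ⟨g, Prod.ext (NZ.smul_eq.2 (hg 0)) (NZ.smul_eq.2 (by
      simp [← hc, h0, mulVec_smul, hg 0]))⟩⟩

theorem perm_SL [Fintype F] [DecidableEq F] (hn : 3 ≤ n) : ∃ χ : AddChar (Additive Fˣ) ℂ → SpecialLinearGroup (Fin n) F → ℂ,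
    (∀ i, IsIrrCharacter _ (χ i)) ∧ Function.Injective χ ∧ (∀ g : SpecialLinearGroup (Fin n) F,
      (Nat.card {v : Fin n → F // v ≠ 0 ∧ g.1 *ᵥ v = v} : ℂ) = 1 + ∑ i, χ i g) ∧
      ∃ i, ((Fintype.card F : ℂ) - 1) * χ i 1 = Fintype.card F ^ n - Fintype.card F := by
  classical
  have hΘ := isCharacter_perm (G := SpecialLinearGroup (Fin n) F × Fˣ) (NZ n F)
  set Θ := fun g : SpecialLinearGroup (Fin n) F × Fˣ => (Nat.card (fixedBy (NZ n F) g) : ℂ)
  have h1 : ∑ l, cmp Θ l = fun g => (Nat.card (fixedBy (NZ n F) g) : ℂ) := funext fun g => by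
    rw [Finset.sum_apply, sum_cmp]; rfl
  have : Nonempty (orbitRel.Quotient (SpecialLinearGroup (Fin n) F) (NZ n F)) :=
    ⟨Quotient.mk'' ⟨1, fun e => by simpa using congrFun e ⟨0, by omega⟩⟩⟩
  obtain ⟨i, -, hi⟩ := exists_ne_zero_of_sum_ne_zero (s := univ) (f := fun l => classInner (cmp Θ l) fun _ => 1) (by
    rw [← classInner_sum_left, h1, classInner_perm_one]; exact_mod_cast Nat.card_pos.ne')
  have hq : (Fintype.card F : ℂ) - 1 = Nat.card Fˣ := by
    rw [Nat.card_units, Nat.card_eq_fintype_card, Nat.cast_pred Fintype.card_pos]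
  have h2 : ∀ l, ((Fintype.card F : ℂ) - 1) * cmp Θ l 1 = Fintype.card F ^ n - 1 := fun l => by
    rw [hq, cmp, mul_inv_cancel_left₀ (card_ne_zero_complex _), sum_eq_single 1 (fun c _ hc => ?_) (by simp)]
    · change (Nat.card (fixedBy _ 1) : ℂ) * l 0 = _
      rw [fixedBy_one_eq_univ, Nat.card_congr (Equiv.Set.univ _)]
      simp [NZ, Nat.cast_pred (pow_pos (Fintype.card_pos (α := F)) n)]
    · have : IsEmpty (fixedBy (NZ n F) ((1 : SpecialLinearGroup (Fin n) F), c)) := ⟨fun v => hc (Units.ext (by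
        have : c.1 • (1 : Matrix _ _ F) *ᵥ v.1.1 = v.1.1 := congrArg Subtype.val v.2
        exact smul_left_injective F v.1.2 (by simpa using this)))⟩
      simp only [Θ, Nat.card_of_isEmpty, Nat.cast_zero, zero_mul]
  have h3 : ∀ l, ((Fintype.card F : ℂ) - 1) * (cmp Θ l - if l = i then 1 else 0) 1 =
      Fintype.card F ^ n - if l = i then Fintype.card F else 1 := fun l => by
    rw [Pi.sub_apply, mul_sub, h2]; split_ifs <;> simp
  have h4 : ∑ o : Option _, o.elim 1 (fun l => cmp Θ l - if l = i then 1 else 0) = ∑ l, cmp Θ l := by simp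
  have key := irr_of_sum _ (fun o => ?_) (fun o => ?_) (by rw [h4, h1, classInner_perm_perm]) ((card_orb hn).trans_eq (by
    simp [Fintype.card_units, Nat.sub_add_cancel Fintype.card_pos]))
  · refine ⟨_, fun l => key.1 (some l), key.2.comp (Option.some_injective _), fun g => ?_, i, by simpa using h3 i⟩
    have := congrFun (h4.trans h1) g
    rw [Fintype.sum_option, Pi.add_apply, Finset.sum_apply] at this
    refine Eq.trans (congrArg _ (Nat.card_congr ?_)) this.symm
    exact ⟨fun v => ⟨⟨v.1, v.2.1⟩, NZ.smul_eq.2 v.2.2⟩, fun v => ⟨v.1.1, v.1.2, NZ.smul_eq.1 v.2⟩, fun _ => rfl, fun _ => rfl⟩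
  · rcases o with _ | l
    · exact isCharacter_one
    · by_cases h : l = i
      · simpa [h, Pi.one_def] using (cmp_char hΘ i).sub_irr isIrrCharacter_one hi
      · simpa [h] using cmp_char hΘ l
  · rcases o with _ | l
    · exact one_ne_zero
    · intro e
      have := h3 l
      rw [Option.elim_some] at e
      rw [e, Pi.zero_apply, mul_zero, eq_comm, sub_eq_zero] at this
      have h5 : Fintype.card F ^ 1 < Fintype.card F ^ n := Nat.pow_lt_pow_right Fintype.one_lt_card (by omega)
      have h6 := Fintype.card_pos (α := F)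
      rw [pow_one] at h5
      norm_cast at this
      split_ifs at this <;> omega

end H11
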