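import Cfsg.Agent.H11.PrU3
import Cfsg.Agent.H11.Gen7
import Cfsg.Agent.H11.O6Minus
import Cfsg.Agent.H16.L.U43
import Cfsg.Agent.H15.M.W6m

/-! # Presentations of `SU₄(2)` and `SU₄(3)` -/

set_option autoImplicit false
set_option maxHeartbeats 400000

namespace H11

open Subgroup H16 Cfsg
open scoped commutatorElement

variable {G : Type*} [Group G]

theorem HasPr.central {k b : ℕ} [IsCyclic (center G)] (h : HasPr (G ⧸ center G) k b) (hp : commutator G = ⊤) :
    HasPr G k (b + k + 1) := by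
  obtain ⟨y, h1, R, h2, h3⟩ := h
  choose x hx using fun i => QuotientGroup.mk'_surjective (center G) (y i)
  have e : (QuotientGroup.mk' _).comp (FreeGroup.lift x) = FreeGroup.lift y := by ext; simp [← hx]
  have a1 : closure (Set.range x) = ⊤ := by
    have : closure (Set.range x) ⊔ center G = ⊤ := by
      rw [← QuotientGroup.ker_mk' (center G), ← comap_map_eq, MonoidHom.map_closure, ← Set.range_comp,
        show _ ∘ x = y from funext hx, h1, comap_top]
    rw [eq_top_iff, ← hp, commutator_def, commutator_le]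
    intro a _ c _
    obtain ⟨a, ha, u, hu, rfl⟩ := mem_sup_of_normal_right.1 (this.ge (mem_top a))
    obtain ⟨c, hc, v, hv, rfl⟩ := mem_sup_of_normal_right.1 (this.ge (mem_top c))
    rw [show ⁅a * u, c * v⁆ = ⁅a, c⁆ by
      simp only [commutatorElement_def, mul_inv_rev, ← mul_assoc]
      rw [mul_assoc _ u c, ← mem_center_iff.1 hu, mul_assoc _ (c * u), mul_assoc _ _ u⁻¹, mul_assoc c, mul_assoc c,
        ← mem_center_iff.1 hu v, mul_inv_cancel_right, ← mul_assoc, mul_assoc _ v a⁻¹,
        ← mem_center_iff.1 hv, ← mul_assoc, mul_inv_cancel_right]]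
    exact commutator_le_self _ (commutator_mem_commutator ha hc)
  obtain ⟨z, hz⟩ := IsCyclic.exists_generator (α := center G)
  obtain ⟨w, hw⟩ := lift_surj a1 z
  have a2 : ∀ r, FreeGroup.lift y r = 1 → ∃ n : ℤ, FreeGroup.lift x r = z ^ n := fun r hr => by
    obtain ⟨n, hn⟩ := hz ⟨FreeGroup.lift x r, (QuotientGroup.eq_one_iff _).1 ((DFunLike.congr_fun e r).trans hr)⟩
    exact ⟨n, (congrArg Subtype.val hn).symm⟩
  choose! n hn using a2
  let L := R.toList.map (fun r => r * (w ^ n r)⁻¹) ++ List.ofFn (fun i : Fin k => ⁅FreeGroup.of i, w⁆) ++ [w ^ orderOf z.1]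
  have a3 : ∀ r ∈ R, FreeGroup.lift y r = 1 := fun r hr => h3.ge (subset_normalClosure hr)
  have a4 : ∀ r ∈ L, FreeGroup.lift x r = 1 := by
    simp only [L, List.forall_mem_append, List.forall_mem_map, List.forall_mem_ofFn_iff, List.forall_mem_singleton, map_mul,
      map_inv, map_zpow, map_pow, hw, pow_orderOf_eq_one, map_commutatorElement, commutatorElement_eq_one_iff_mul_comm,
      mem_center_iff.1 z.2, mul_inv_eq_one, Finset.mem_toList]
    exact ⟨⟨fun r hr => hn r (a3 r hr), fun _ => trivial⟩, trivial⟩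
  refine ⟨x, (Pr.of_list a1 L a4 fun g hg => ?_).mono (by simpa [L, add_assoc])⟩
  let π := PresentedGroup.mk {r | r ∈ L}
  have b1 : π w ∈ center _ := mem_center_iff.2 fun g => by
    obtain ⟨g, rfl⟩ := PresentedGroup.mk_surjective _ g
    exact ((closure_le (K := (centralizer {π w}).comap π)).2 (by
      rintro _ ⟨i, rfl⟩ _ rfl
      exact (commutatorElement_eq_one_iff_mul_comm.1 ((map_commutatorElement π _ _).symm.trans
        (PresentedGroup.one_of_mem (by simp [L])))).symm) (Alt.closure_of.ge (mem_top g)) _ rfl).symm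
  haveI : (zpowers (π w)).Normal := ⟨fun a ha g => by
    rwa [mem_center_iff.1 (zpowers_le.2 b1 ha), mul_inv_cancel_right]⟩
  obtain ⟨t, ht⟩ : π g ∈ zpowers (π w) := (normalClosure_le_normal (N := (zpowers (π w)).comap π) fun r hr => ⟨n r, by
    beta_reduce
    rw [← map_zpow, eq_comm, ← mul_inv_eq_one, ← map_inv, ← map_mul]
    exact PresentedGroup.one_of_mem (by simp only [L, Set.mem_setOf_eq, List.mem_append, List.mem_map, Finset.mem_toList]; exact .inl (.inl ⟨r, hr, rfl⟩))⟩)
    (h3.le (show FreeGroup.lift y g = 1 by rw [← e, MonoidHom.comp_apply, hg, map_one]))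
  have b2 : z.1 ^ t = 1 := by
    have := congrArg (PresentedGroup.toGroup (rels := {r | r ∈ L}) a4) ht
    rw [map_zpow] at this
    exact hw ▸ hg ▸ this
  obtain ⟨s, rfl⟩ := orderOf_dvd_iff_zpow_eq_one.2 b2
  change π g = 1
  rw [← ht]
  beta_reduce
  rw [zpow_mul, zpow_natCast, ← map_pow, show π _ = 1 from PresentedGroup.one_of_mem (by simp [L]), one_zpow]

theorem hasPr_of_bound {Rl : List (List ℕ)} {K c k : ℕ} (hB : Bound Rl K c) {g : ℕ → G} (hR : Rels g Rl)
    (hc : Nat.card (gen g K) = c) (τ : ℕ → FreeGroup (Fin k)) (σ : Fin k → ℕ) (h1 : ∀ i, σ i < K ∧ τ (σ i) = .of i)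
    (h2 : ∀ j < K, FreeGroup.lift (fun i => g (σ i)) (τ j) = g j) (hK : ∀ r ∈ Rl, ∀ j ∈ r, j < K) (d : ℕ)
    (h3 : ∀ r ∈ Rl.take d, evA τ r = 1) : HasPr (gen g K) k (Rl.length - d) := by
  let x : Fin k → gen g K := fun i => ⟨g (σ i), mem_gen g (h1 i).1⟩
  have e : ∀ w, (FreeGroup.lift x w : G) = FreeGroup.lift (fun i => g (σ i)) w := Alt.map_lift (gen g K).subtype x
  refine ⟨x, (Pr.of_hom ?_ ((Rl.drop d).map (evA τ)) ?_ ?_).mono (by simp)⟩
  · rw [← FreeGroup.range_lift_eq_closure, eq_top_iff, ← map_subtype_le_map_subtype, ← MonoidHom.range_eq_map, range_subtype, gen_le]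
    exact fun j hj => ⟨_, ⟨τ j, rfl⟩, (e _).trans (h2 j hj)⟩
  · refine List.forall_mem_map.2 fun r hr => Subtype.ext ?_
    rw [e, map_evA, evA_congr _ fun j hj => h2 j (hK r (List.mem_of_mem_drop hr) j hj)]
    exact hR r (List.mem_of_mem_drop hr)
  · obtain ⟨f, hf, -⟩ := hB.exists_hom hR hc (g := fun j => PresentedGroup.mk {r | r ∈ (Rl.drop d).map (evA τ)} (τ j)) fun r hr => by
      rw [← map_evA]
      rcases List.mem_append.1 (List.take_append_drop d Rl ▸ hr) with h | h
      exacts [h3 r h ▸ map_one _, PresentedGroup.one_of_mem (List.mem_map_of_mem h)]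
    exact ⟨f, fun i => (hf _ (h1 i).1).trans (by rw [(h1 i).2]; rfl)⟩

variable {F : Type*} [Field F] [Fintype F]

theorem su4_three (hF : Fintype.card F = 3 ^ 2) : HasPr (SU 4 F 3) 2 23 := by
  have a : ∀ j < 4, U43.g (2 * j + 1) = (U43.g (2 * j))⁻¹ := fun j hj => by
    have := U43.rels.nth (2 * j)
    rw [show nth [] U43.Rl (2 * j) = [2 * j, 2 * j + 1] by interval_cases j <;> rfl] at this
    exact eq_inv_of_mul_eq_one_left (by simpa using this)
  haveI := U3.su_center_cyclic hF (n := 4) (by norm_num)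
  refine HasPr.central (b := 20) (HasPr.two' (k := 5) (((hasPr_of_bound U43.bound U43.rels U43.card
    (fun j => if j % 2 = 0 then .of (Fin.ofNat 5 (j / 2)) else (.of (Fin.ofNat 5 (j / 2)))⁻¹) (fun i => 2 * i) (by decide +kernel)
    (fun j hj => by
      have a0 := a 0; have a1 := a 1; have a2 := a 2; have a3 := a 3
      generalize U43.g = g at *
      interval_cases j <;> simp_all) (by decide +kernel) 8 (by decide +kernel)).congr
    (LU43.equiv.some.trans (psuCongr 4 3 (nonempty_ringEquiv_of_card (F := F9c) (K := F) (by rw [hF]; rfl)).some))).mono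
    (by decide +kernel)) (G2.two_gen_map _ (QuotientGroup.mk'_surjective _) (TM.SU.su_two_gen hF (by simp) (by simp))))
    (su_perfect hF (by simp) (by simp))

theorem su4_two (hF : Fintype.card F = 2 ^ 2) : HasPr (SU 4 F 2) 4 14 := by
  obtain ⟨_, h, M, e⟩ := H15.XW6m.md
  have R : Rels h H15.XW6m.Rl := rels_of_base M.act M.ltB (M.top ▸ M.base) (by decide +kernel)
  have := eqL_sound M.act M.ltB (M.top ▸ M.base) (W := [0]) (W' := [2, 1, 3, 2, 4, 2, 3, 2, 4, 1, 2]) (by decide +kernel)
  have a := hasPr_of_bound H15.XW6m.bound R (by rw [M.top, card_top, M.card])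
    (fun j => if j = 0 then evA (fun j => .of (Fin.ofNat 4 (j - 1))) [2, 1, 3, 2, 4, 2, 3, 2, 4, 1, 2] else .of (Fin.ofNat 4 (j - 1)))
    (fun i => i + 1) (fun i => by fin_cases i <;> simp <;> rfl)
    (fun j hj => by interval_cases j <;> simp_all <;> rfl) (by decide +kernel) 0 (by simp)
  have b : center (SU 4 F 2) = ⊥ := card_eq_one.1 (card_center_SU hF (by simp))
  exact a.congr ((MulEquiv.subgroupCongr M.top).trans (topEquiv.trans (H15.XW6m.pom.some.symm.trans
    ((nonempty_pomega6m_equiv (F := ZMod 2) hF (by decide)).some.trans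
    ((QuotientGroup.quotientMulEquivOfEq b).trans QuotientGroup.quotientBot)))))

end H11
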