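import Cfsg.Agent.H11.PrSL4

/-! # Stabilisers of small sets in alternating groups -/

set_option autoImplicit false
set_option maxHeartbeats 400000

namespace H11.UG

open Subgroup Equiv Equiv.Perm Finset H11.Alt H11.PSL
open scoped Pointwise

section
variable {α : Type*} [DecidableEq α] [Fintype α]

theorem exists_alt {s s' t : Finset α} (g : Perm α) (h : #s = #s') (h2 : 2 ≤ #s) (h3 : Disjoint s t)
    (h4 : ∀ k ∈ t, g k ∉ s') : ∃ π : alternatingGroup α, π • s = s' ∧ ∀ k ∈ t, π • k = g k := by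
  obtain ⟨σ, hσ⟩ := Perm.exists_extending_pair (Sum.elim ((↑) : s → α) ((↑) : t → α))
    (Sum.elim (fun x => (s.equivOfCardEq h x : α)) fun x => g x)
    (Subtype.val_injective.sumElim Subtype.val_injective fun a b e => disjoint_left.1 h3 a.2 (e ▸ b.2))
    ((Subtype.val_injective.comp (s.equivOfCardEq h).injective).sumElim (g.injective.comp Subtype.val_injective)
      fun a b e => h4 b b.2 (e ▸ (s.equivOfCardEq h a).2))
  have a1 : σ • s = s' := eq_of_subset_of_card_le (fun x hx => by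
    obtain ⟨y, hy, rfl⟩ := mem_smul_finset.1 hx
    exact (congrArg (· ∈ s') (hσ (.inl ⟨y, hy⟩))).mpr (s.equivOfCardEq h ⟨y, hy⟩).2) (by simp [h])
  rcases Int.units_eq_one_or (sign σ) with e | e
  · exact ⟨⟨σ, e⟩, a1, fun k hk => hσ (.inr ⟨k, hk⟩)⟩
  obtain ⟨a, ha, b, hb, ab⟩ := one_lt_card.1 h2
  refine ⟨⟨σ * swap a b, by simp [e, ab]⟩, ?_, fun k hk => ?_⟩
  · rw [← a1, mk_smul, mul_smul]
    refine congrArg _ (eq_of_subset_of_card_le (fun x hx => ?_) (by simp))
    obtain ⟨y, hy, rfl⟩ := mem_smul_finset.1 hx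
    simp only [Perm.smul_def, swap_apply_def]
    split_ifs <;> assumption
  · exact (congrArg σ (swap_apply_of_ne_of_ne (h3.forall_ne_finset ha hk).symm (h3.forall_ne_finset hb hk).symm)).trans
      (hσ (.inr ⟨k, hk⟩))

theorem exists_alt1 {s s' : Finset α} (h : #s = #s') (h2 : 2 ≤ #s) : ∃ π : alternatingGroup α, π • s = s' :=
  (exists_alt (t := ∅) 1 h h2 (by simp) (by simp)).imp fun _ h => h.1

theorem exists_alt2 {s s' t t' : Finset α} (h : #s = #s') (h' : #t = #t') (h2 : 2 ≤ #s) (h2' : 2 ≤ #t) (h3 : Disjoint s t)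
    (h4 : Disjoint s' t') : ∃ π : alternatingGroup α, π • s = s' ∧ π • t = t' := by
  obtain ⟨g, rfl⟩ := exists_alt1 h' h2'
  obtain ⟨π, a, b⟩ := exists_alt g.1 h h2 h3 fun k hk e => disjoint_left.1 h4 e (smul_mem_smul_finset hk)
  exact ⟨π, a, image_congr b⟩

theorem exists_gensA (B : Finset α) : ∃ L : List (alternatingGroup α), L.length = 2 ∧ (∀ a ∈ L, ∀ k ∉ B, a • k = k) ∧
    ∀ H : Subgroup (alternatingGroup α), (∀ a ∈ L, a ∈ H) → ∀ a, (∀ k ∉ B, a • k = k) → a ∈ H := by
  obtain ⟨L, h1, h2⟩ := ((alt_two _).congr (Fintype.equivFin B).altCongrHom.symm).gens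
  refine ⟨L.map (alternatingGroup.ofSubtype B), by simpa, List.forall_mem_map.2 fun a _ k hk => ofSubtype_apply_of_not_mem _ hk,
    fun H hH a ha => ?_⟩
  obtain ⟨a, rfl⟩ := (alternatingGroup.mem_range_ofSubtype_iff B a).2 fun k hk => by_contra fun h => mem_support.1 hk (ha k h)
  exact (Subgroup.closure_le (H.comap _)).2 (fun x hx => hH _ (List.mem_map_of_mem hx)) (h2.ge (mem_top a))

theorem exists_gens1 (c : α) : ∃ L : List (Perm α), L.length = 2 ∧ (∀ a ∈ L, a c = c) ∧
    ∀ H : Subgroup (Perm α), (∀ a ∈ L, a ∈ H) → ∀ a, a c = c → a ∈ H := by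
  obtain ⟨L, h1, h2⟩ := ((perm_two _).congr (Fintype.equivFin {k // k ≠ c}).permCongrHom.symm).gens
  refine ⟨L.map ofSubtype, by simpa, List.forall_mem_map.2 fun a _ => ofSubtype_apply_of_not_mem _ (by simp),
    fun H hH a ha => ?_⟩
  obtain ⟨a, rfl⟩ := (mem_range_ofSubtype_iff (p := (· ≠ c)) (g := a)).2 fun k hk e => mem_support.1 hk (e ▸ ha)
  exact (Subgroup.closure_le (H.comap _)).2 (fun x hx => hH _ (List.mem_map_of_mem hx)) (h2.ge (mem_top a))

end

theorem alt_gen {n : ℕ} {H : Subgroup (alternatingGroup (Fin (n + 2)))}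
    (h : ∀ (i : ℕ) (a : alternatingGroup (Fin (n + 2))), i ≤ n - 1 → (∀ k : Fin (n + 2), ¬ (i ≤ k ∧ (k : ℕ) ≤ i + 2) → a • k = k) → a ∈ H) :
    H = ⊤ := by
  let s := fun i : Fin (n + 1) => swap i.castSucc i.succ
  let K := H.map (Subgroup.subtype _)
  have a1 : ∀ j, s 0 * s j ∈ K := fun j => by
    induction j using Fin.induction with
    | zero => simp [s]
    | succ j ih =>
      have := mul_mem ih (mem_map_of_mem (Subgroup.subtype _) (h j ⟨s j.castSucc * s j.succ, by simp [s, Fin.ext_iff]⟩ (by omega) fun k hk => by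
        simp only [s, mk_smul, Perm.smul_def, Perm.mul_apply]
        rw [swap_apply_of_ne_of_ne (x := k), swap_apply_of_ne_of_ne] <;> simp [Fin.ext_iff] <;> omega))
      simpa [s, mul_assoc] using this
  refine top_unique fun a _ => ?_
  have : a.1 ∈ K ∨ a.1 * s 0 ∈ K := by
    induction a.1 using Submonoid.induction_of_closure_eq_top_right (mclosure_swap_castSucc_succ (n + 1)) with
    | one => exact .inl (one_mem _)
    | mul_right x y hy ih =>
      obtain ⟨j, rfl⟩ := hy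
      exact ih.symm.imp (fun h => by simpa [s, mul_assoc] using mul_mem h (a1 j))
        fun h => by simpa [s, mul_assoc] using mul_mem h (inv_mem (a1 j))
  rcases this with ⟨b, hb, e⟩ | ⟨b, -, e⟩
  · exact Subtype.ext e ▸ hb
  · have := congrArg sign e
    simp [s, mem_alternatingGroup.1 a.2, mem_alternatingGroup.1 b.2, Fin.ext_iff] at this

/-- generators of the stabilisers of a pair and a triple -/
structure Dat {α : Type*} [DecidableEq α] [Fintype α] (ι : Fin 4 → α) (σ : alternatingGroup α) (L : List (alternatingGroup α)) :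
    Prop where
  inj : Function.Injective ι
  len : L.length = 2
  s2 : σ • ({ι 0, ι 1} : Finset α) = {ι 0, ι 1}
  s3 : ∀ a ∈ L, a • ({ι 0, ι 1, ι 2} : Finset α) = {ι 0, ι 1, ι 2}
  g2 : ∀ H : Subgroup (alternatingGroup α), (∀ a, (∀ k ∉ univ.image ι, a • k = k) → a • ({ι 0, ι 1} : Finset α) = {ι 0, ι 1} → a ∈ H) →
    σ ∈ H → ∀ a, a • ({ι 0, ι 1} : Finset α) = {ι 0, ι 1} → a ∈ H
  g3 : ∀ H : Subgroup (alternatingGroup α), (∀ a, (∀ k ∉ univ.image ι, a • k = k) →
    a • ({ι 0, ι 1, ι 2} : Finset α) = {ι 0, ι 1, ι 2} → a ∈ H) → (∀ a ∈ L, a ∈ H) →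
    ∀ a, a • ({ι 0, ι 1, ι 2} : Finset α) = {ι 0, ι 1, ι 2} → a ∈ H

theorem exists_dat (m : ℕ) : ∃ ι σ L, Dat (α := Fin (m + 4)) ι σ L := by
  let ε : Fin (m + 2) ⊕ Bool ≃ Fin (m + 4) := Fintype.equivFinOfCardEq (by simp)
  let T := ε.altCongrHom.toMonoidHom.comp (tw (γ := Fin (m + 2)))
  have t0 : ∀ π k, T π • ε k = ε ((tw π).1 k) := fun π k => congrArg ε (congrArg _ (ε.symm_apply_apply k))
  have t2 : ∀ π, T π • ({ε pu, ε pv} : Finset _) = {ε pu, ε pv} := fun π => by
    rcases Int.units_eq_one_or (sign π) with e | e <;>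
      simp [smul_finset_insert, t0, tw_pu, tw_pv, tw_pu', tw_pv', e, pair_comm]
  have t3 : ∀ a : alternatingGroup _, a • ({ε pu, ε pv} : Finset _) = {ε pu, ε pv} → ∃ π, a = T π := fun a h => by
    obtain ⟨a, rfl⟩ := ε.altCongrHom.surjective a
    refine (exists_tw a fun b => ?_).imp fun π e => congrArg _ e
    have : ε (a.1 (.inr b)) ∈ ({ε pu, ε pv} : Finset _) := h.le (mem_smul_finset.2 ⟨ε (.inr b), by cases b <;> simp,
      congrArg ε (congrArg _ (ε.symm_apply_apply _))⟩)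
    simp only [mem_insert, mem_singleton, ε.apply_eq_iff_eq] at this
    exact this.elim (⟨_, ·⟩) (⟨_, ·⟩)
  obtain ⟨L, l1, l2, l3⟩ := exists_gens1 (0 : Fin (m + 2))
  have hi : Function.Injective ![ε pu, ε pv, ε (.inl 0), ε (.inl 1)] := fun i j => by fin_cases i <;> fin_cases j <;> simp
  refine ⟨_, T (finRotate _), L.map T, hi, by simpa, t2 _,
    List.forall_mem_map.2 fun a h => ?_, fun H h1 h2 a ha => ?_, fun H h1 h2 a ha => ?_⟩
  · change T a • ({ε pu, ε pv, ε (.inl 0)} : Finset _) = {ε pu, ε pv, ε (.inl 0)}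
    rw [insert_comm _ (ε pv), pair_comm, insert_comm, pair_comm, smul_finset_insert, t2, t0, tw_inl, l2 a h]
  · obtain ⟨π, rfl⟩ := t3 a ha
    refine (Subgroup.closure_le (H.comap T)).2 ?_ ((closure_cycle_adjacent_swap isCycle_finRotate support_finRotate 0).ge (mem_top π))
    rintro _ (rfl | rfl)
    · exact h2
    refine h1 _ (fun k hk => ?_) (t2 _)
    obtain ⟨k | _ | _, rfl⟩ := ε.surjective k <;> simp [Fin.exists_fin_succ] at hk
    simp [t0, tw_inl, swap_apply_of_ne_of_ne, Ne.symm hk.1, Ne.symm hk.2]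
  · set t : Finset _ := {ε pu, ε pv, ε (.inl 0)}
    change a • t = t at ha
    have m0 : ε (.inl 0) ∈ t := by simp [t]
    have m1 := ha.le (smul_mem_smul_finset m0)
    obtain ⟨b, b1, b2⟩ := exists_alt (s := t.erase (ε (.inl 0))) (s' := t.erase (a • ε (.inl 0))) (t := (t.erase (ε (.inl 0)))ᶜ)
      (swap (ε (.inl 0)) (a • ε (.inl 0))) (by simp [*]) (by simp [t]) disjoint_compl_right fun k hk => by
        rw [swap_apply_def]; split_ifs <;> simp_all
    have b3 : b • ε (.inl 0) = a • ε (.inl 0) := by simpa using b2 (ε (.inl 0)) (by simp)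
    have b4 : b • t = t := by rw [← insert_erase m0, smul_finset_insert, b1, b3, insert_erase m0, insert_erase m1]
    have b5 : (b⁻¹ * a) • ε (.inl 0) = ε (.inl 0) := by rw [mul_smul, ← b3, inv_smul_smul]
    obtain ⟨π, e⟩ := t3 (b⁻¹ * a) (by
      rw [show ({ε pu, ε pv} : Finset _) = t.erase (ε (.inl 0)) by simp [t, erase_insert_of_ne]]
      have : (b⁻¹ * a) • t = t := by rw [mul_smul, ha, inv_smul_eq_iff, b4]
      exact (image_erase (MulAction.injective _) _ _).trans (congrArg₂ erase this b5))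
    rw [← mul_inv_cancel_left b a, e]
    refine mul_mem (h1 b (fun k hk => ?_) b4) (l3 (H.comap T) (fun x hx => h2 _ (List.mem_map_of_mem hx)) π ?_)
    · have : k ∉ t := fun h => hk (by simp [t, Fin.exists_fin_succ] at h ⊢; tauto)
      rw [b2 k (by simp [this]), swap_apply_of_ne_of_ne (ne_of_mem_of_not_mem m0 this).symm (ne_of_mem_of_not_mem m1 this).symm]
    · simpa [e, t0, tw_inl] using b5

end H11.UG
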