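import Cfsg.Agent.H11.PrU4
import Cfsg.Agent.H11.PrU5
import Cfsg.Agent.H11.PrD
import Cfsg.Agent.H27.PH8

/-! # Bounded presentations of `SU_n(q)` -/

set_option autoImplicit false
set_option linter.unusedSectionVars false
set_option maxHeartbeats 400000

namespace H11.UG

open Subgroup H27.PH Cfsg Matrix Finset Monoid H11.C2
open scoped Pointwise commutatorElement Monoid.Coprod

universe u

theorem comm_gen {A B J : Type*} [Group A] [Group B] [Group J] {f : A →* J} {g : B →* J} {s : Set A} {t : Set B}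
    (hs : closure s = ⊤) (ht : closure t = ⊤) (h : ∀ a ∈ s, ∀ b ∈ t, Commute (f a) (g b)) (a : A) (b : B) : Commute (f a) (g b) :=
  (closure_le (K := (centralizer {g b}).comap f)).2 (fun a ha => mem_centralizer_singleton_iff.2
    ((closure_le (K := (centralizer {f a}).comap g)).2 (fun b hb => mem_centralizer_singleton_iff.2 (h a ha b hb).symm)
    (ht.ge (mem_top b)) _ rfl)) (hs.ge (mem_top a)) _ rfl |>.symm

variable {F : Type u} [Field F] [Fintype F] {q N m l : ℕ} {hF : Fintype.card F = q ^ 2} {J : Type*} [Group J]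

local notation "𝐞" k => (Pi.single k (1 : F) : Fin _ → F)

section
variable {s t : Set (Fin N)} {Δ A : Subgroup (SU N F q × J)}

theorem gr_le (h : Gr s Δ) (hA : A ≤ Δ) (h' : Bk F q s ≤ A.map (.fst _ _)) : Δ ≤ A := fun x hx => by
  obtain ⟨y, hy, e⟩ := h' (h.bk hx)
  rwa [← inv_mul_eq_one.1 (h.1 _ (mul_mem (inv_mem (hA hy)) hx) (by simp [← e]))]

theorem gr_fin (h : Gr s Δ) : Finite Δ := .of_injective ((MonoidHom.fst _ _).comp Δ.subtype)
  ((injective_iff_map_eq_one _).2 fun x e => Subtype.ext (h.1 _ x.2 e))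

include hF in
theorem gr_comm {u : Set (Fin N)} (h : Gr u Δ) (hd : Disjoint s t) {x y : SU N F q × J} (hx : x ∈ Δ) (hy : y ∈ Δ)
    (hs : x.1 ∈ Bk F q s) (ht : y.1 ∈ Bk F q t) : Commute x y := by
  have k : ∀ {s t : Set (Fin N)} {g h : SU N F q}, Disjoint s t → g ∈ Bk F q s → h ∈ Bk F q t → ∀ k ∉ t,
      (g * h) • (𝐞 k) = (h * g) • (𝐞 k) := fun {s t g h} d hg hh k hk => by
    rw [mul_smul, mul_smul, mem_Bk.1 hh k hk, smul_fix hh]
    by_cases e : k ∈ s
    · exact mem_Ws.2 fun l hl => mem_Ws.1 (smul_Ws hF hg (e_mem e)) l fun h => Set.disjoint_left.1 d h (not_not.1 hl)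
    · exact (mem_Bk.1 hg k e).symm ▸ e_mem hk
  refine commutatorElement_eq_one_iff_commute.1 (h.1 _ (commutator_le_self _ (commutator_mem_commutator hx hy))
    (commutatorElement_eq_one_iff_mul_comm.2 (su_ext (ext_of_mulVec_single fun i => ?_))))
  by_cases e : i ∈ t
  exacts [(k hd.symm ht hs i (Set.disjoint_right.1 hd e)).symm, k hd hs ht i e]

end

variable (hF) in
/-- block embeddings -/
abbrev bj {j : Fin m → Fin N} (hj : Function.Injective j) : SU m F q →* SU N F q := bl hF _ (on_Jm hj)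

theorem bj_bj {j : Fin m → Fin N} (hj : Function.Injective j) {i : Fin l → Fin m} (hi : Function.Injective i) (A : SU l F q) :
    bj hF hj (bj hF hi A) = bj hF (hj.comp hi) A := (bl_bl _ _ A).trans (bl_congr _ (Jm_mul _ _) A)

theorem gr_comp {j : Fin m → Fin N} (hj : Function.Injective j) {i : Fin l → Fin m} (hi : Function.Injective i)
    (χ : SU m F q →* J) : Gr (Set.range (j ∘ i)) (((bj hF hj).prod χ).comp (bj hF hi)).range := by
  convert gr_bl hF (hj.comp hi) (χ.comp (bj hF hi)) using 2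
  exact MonoidHom.ext fun A => Prod.ext (bj_bj hj hi A) rfl

theorem glueGr {N₁ : Type u} {N₂ : Type} [Group N₁] [Group N₂] {k₁ k₂ b₁ b₂ : ℕ} (h₁ : HasPr N₁ k₁ b₁) (h₂ : HasPr N₂ k₂ b₂)
    (f₁ : N₁ →* SU N F q) (f₂ : N₂ →* SU N F q) (L : List (N₁ ∗ N₂)) (h1 : ∀ r ∈ L, Coprod.lift f₁ f₂ r = 1)
    (h2 : ∀ (J : Type u) [Group J] (ν₁ : N₁ →* J) (ν₂ : N₂ →* J), (∀ r ∈ L, Coprod.lift (f₁.prod ν₁) (f₂.prod ν₂) r = 1) →
      Gr Set.univ ((f₁.prod ν₁).range ⊔ (f₂.prod ν₂).range)) : HasPr (SU N F q) (k₁ + k₂) (b₁ + b₂ + L.length) := by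
  have e : ∀ {J : Type u} [Group J] (ν₁ : N₁ →* J) (ν₂ : N₂ →* J),
      Coprod.lift (f₁.prod ν₁) (f₂.prod ν₂) = (Coprod.lift f₁ f₂).prod (Coprod.lift ν₁ ν₂) := fun _ _ => Coprod.hom_ext rfl rfl
  refine (h₁.coprod h₂).quot' (Coprod.lift f₁ f₂) (fun g => ?_) L h1 ?_
  · have := h2 _ f₁ f₂ fun r hr => by simp [e, h1 r hr]
    rw [← Coprod.range_lift] at this
    obtain ⟨_, ⟨w, rfl⟩, rfl⟩ := this.ex (g := g) (mem_Bk.2 (by simp))
    exact ⟨w, by simp [e]⟩
  obtain ⟨φ, hφ⟩ := (h2 _ ((QuotientGroup.mk' (normalClosure {r | r ∈ L})).comp Coprod.inl)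
    ((QuotientGroup.mk' _).comp Coprod.inr) (fun r hr => by
      rw [e, lift_self]
      exact Prod.ext (h1 r hr) ((QuotientGroup.eq_one_iff _).2 (subset_normalClosure hr)))).hom (by simp)
  rw [← Coprod.range_lift, e, lift_self] at hφ
  exact ⟨φ, MonoidHom.ext fun w => hφ.le ⟨w, rfl⟩⟩

include hF in
theorem su_gens {n : ℕ} (hn : 2 ≤ n) (h : ¬ (n = 3 ∧ q = 2)) : ∃ a b : SU n F q, closure {a, b} = ⊤ := by
  rcases hn.eq_or_lt with rfl | hn
  swap
  · exact TM.SU.su_two_gen hF hn h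
  obtain ⟨p, k, hp, _, k0, hq⟩ := exists_prime_pow_of_card_sq hF
  have := Fact.mk hp
  have := Fintype.ofFinite (GaloisField p k)
  obtain ⟨e⟩ := nonempty_su_two_equiv hF (K := GaloisField p k)
    (by rw [← Nat.card_eq_fintype_card, GaloisField.card _ _ k0.ne', hq])
  exact G2.two_gen_map e.symm.toMonoidHom e.symm.surjective (G2.sl_two_gen 2 le_rfl)

theorem det_Jm (π : Equiv.Perm (Fin N)) : (Jm F π).det = Equiv.Perm.sign π := by
  rw [← det_permutation, ← det_transpose]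
  congr 1; ext a b; simp [Jm_apply, PEquiv.toMatrix_apply, eq_comm]

theorem exists_cyc : ∃ c : SU (m + 1) F q, ∀ A,
    c * bj hF (Fin.castSucc_injective m) A * c⁻¹ = bj hF (Fin.succ_injective m) A := by
  let d : Fin (m + 1) → F := Function.update 1 (Fin.last _) (Equiv.Perm.sign (finRotate (m + 1)) : ℤ)
  have a : ((Equiv.Perm.sign (finRotate (m + 1)) : ℤ) : F) * (Equiv.Perm.sign (finRotate (m + 1)) : ℤ) = 1 := by
    rw [← Int.cast_mul, Alt.units_sq, Int.cast_one]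
  refine ⟨⟨⟨Jm F (finRotate _) * diagonal d, by simpa [det_Jm, d, Fin.prod_univ_castSucc] using a⟩, (mem_su hF).2
    (on_mul (on_Jm (finRotate _).injective) (on_dg fun i => ?_))⟩, fun A => ?_⟩
  · simp only [d, Function.update_apply]
    split_ifs
    exacts [by rwa [map_intCast], by simp]
  · rw [← bl_conj (hF := hF), bl_bl]
    refine bl_congr _ (Matrix.ext fun a b => ?_) A
    change ∑ x, (Jm F (finRotate (m + 1)) * diagonal d) a x * Jm F Fin.castSucc x b = _
    simp [Jm_apply, d, Fin.castSucc_ne_last]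

theorem range_comp_le {A B C : Type*} [Group A] [Group B] [Group C] (f : B →* C) (g : A →* B) : (f.comp g).range ≤ f.range := by
  rintro _ ⟨x, rfl⟩; exact ⟨_, rfl⟩

local notation "cs" => Fin.castSucc_injective
local notation "sc" => Fin.succ_injective
local notation "cl" => Fin.castLE_injective (Nat.le_add_left 2 (_ + 1))

theorem r01 : Set.range (Fin.castSucc ∘ (Fin.castLE (Nat.le_add_left 2 (m + 1)))) = {0, 1} := by
  rw [show ({0, 1} : Set (Fin (m + 4))) = (Fin.castSucc ∘ (Fin.castLE (Nat.le_add_left 2 (m + 1)))) '' {0, 1} by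
    rw [Set.image_pair]; rfl, ← Set.image_univ]
  congr 1; ext a; fin_cases a <;> simp

theorem step_core (hq : 3 < q) {χ : SU (m + 3) F q →* J} {c : SU (m + 4) F q × J}
    (c1 : ∀ A, c.1 * bj hF (cs _) A * c.1⁻¹ = bj hF (sc _) A)
    (H4 : cjN (bj hF (cs _)) ((bj hF (cs _)).prod χ) c = ((bj hF (cs _)).prod χ).comp (bj hF (sc _)))
    (H5 : ∀ y z, Commute (((bj hF (cs _)).prod χ).comp (bj hF cl) y) (cjN (bj hF (sc _)) ((bj hF (cs _)).prod χ) c z)) :
    Gr Set.univ (((bj hF (cs _)).prod χ).range ⊔ (cjN (.id _) ((bj hF (cs _)).prod χ) c).range) := by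
  set ψ := (bj hF (cs _)).prod χ
  have v2 : ((2 : Fin (m + 4)) : ℕ) = 2 := rfl
  have e1 : cjN (.id _) ψ c = (bj hF (sc _)).prod (cjN (.id _) χ c.2) := MonoidHom.ext fun A => Prod.ext (c1 A) rfl
  have g1 : Gr (Set.univ \ {0}) (cjN (.id _) ψ c).range := by
    rw [e1]; convert gr_bl hF (sc _) _; ext; simp
  have g2 : Gr (Set.univ \ {Fin.last _}) ψ.range := by
    convert gr_bl hF (cs _) χ; ext ⟨a, _⟩; simp [Fin.ext_iff]; omega
  have g3 := gr_comp (hF := hF) (cs _) cl χ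
  rw [r01] at g3
  have g4 := gr_comp (hF := hF) (cs _) (sc _) χ
  have g5 := gr_comp (hF := hF) (sc _) (sc _) (cjN (.id _) χ c.2)
  have l2 : (ψ.comp (bj hF (sc _))).range ≤ (cjN (.id _) ψ c).range := by
    rintro _ ⟨z, rfl⟩; exact ⟨bj hF (cs _) z, DFunLike.congr_fun H4 z⟩
  have r2 : Set.range (Fin.castSucc ∘ Fin.succ : Fin (m + 2) → _) = (Set.univ \ {Fin.last _}) \ {0} := by
    ext ⟨a, _⟩; simp [Fin.ext_iff, Fin.exists_iff]
    exact ⟨fun ⟨_, _, _⟩ => by omega, fun _ => ⟨a - 1, by omega, by omega⟩⟩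
  have r3 : Set.range (Fin.succ ∘ Fin.succ : Fin (m + 2) → _) = (Set.univ \ {0}) \ {1} := by
    ext ⟨a, _⟩; simp [Fin.ext_iff, Fin.exists_iff]
    exact ⟨fun ⟨_, _, _⟩ => by omega, fun _ => ⟨a - 2, by omega, by omega⟩⟩
  have := step hF hq (s := Set.univ) (a := 0) (b := 1) (c := 2) (d := Fin.last _) trivial trivial trivial trivial (by simp)
    (by simp [Fin.ext_iff, v2, -Fin.coe_ofNat_eq_mod]) (by simp [Fin.ext_iff, v2, -Fin.coe_ofNat_eq_mod]) (by simp [Fin.ext_iff])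
    (by simp [Fin.ext_iff]) (by simp [Fin.ext_iff, v2, -Fin.coe_ofNat_eq_mod]) g1 g2 g3 (range_comp_le _ _)
    (fun x hx k => l2 (g2.mem g4 (range_comp_le _ _) hx (by rw [r2]; exact Bk_diff.2 ⟨g2.bk hx, k⟩))) (by
      rintro _ ⟨y, rfl⟩ x hx k
      rw [← e1] at g5
      obtain ⟨z, rfl⟩ := g1.mem g5 (range_comp_le _ _) hx (by rw [r3]; exact Bk_diff.2 ⟨g1.bk hx, k⟩)
      exact H5 y z)
  convert this using 1
  refine le_antisymm (sup_le ((gr_le g2 (sup_le (range_comp_le _ _) (range_comp_le _ _)) ?_).trans (sup_le_sup_right l2 _))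
    le_sup_left) (sup_le le_sup_right ((range_comp_le _ _).trans le_sup_left))
  rw [Subgroup.map_sup, g4.2, g3.2, r2]
  exact gen hF (c := 2) hq (by simp [Fin.ext_iff]) (by simp [Fin.ext_iff]) (by simp [Fin.ext_iff, v2, -Fin.coe_ofNat_eq_mod])
    (by simp) (by simp [Fin.ext_iff, v2, -Fin.coe_ofNat_eq_mod]) (by simp [Fin.ext_iff, v2, -Fin.coe_ofNat_eq_mod])

include hF in
theorem su_step (hq : 3 < q) {k b : ℕ} (h : HasPr (SU (m + 3) F q) k b) : HasPr (SU (m + 4) F q) (k + 1) (b + 7) := by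
  obtain ⟨c0, c1⟩ := exists_cyc (hF := hF) (m := m + 3)
  have v2 : ((2 : Fin (m + 4)) : ℕ) = 2 := rfl
  obtain ⟨W, hW⟩ : c0 ∈ (Coprod.lift (bj hF (cs _)) (bj hF (sc _))).range := by
    rw [Coprod.range_lift, range_bl (cs _), range_bl (sc _), sup_comm]
    exact sup_le_sup (Bk_mono fun _ => by simp) (Bk_mono (r01 (m := m) ▸ Set.range_comp_subset_range _ _))
      (gen hF (s := Set.univ) (c := 2) hq trivial trivial trivial (by simp) (by simp [Fin.ext_iff, v2, -Fin.coe_ofNat_eq_mod])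
      (by simp [Fin.ext_iff, v2, -Fin.coe_ofNat_eq_mod]) (mem_Bk.2 (by simp)))
  obtain ⟨y1, y2, hy⟩ := su_gens (hF := hF) (n := 2) le_rfl (by omega)
  obtain ⟨z1, z2, hz⟩ := su_gens (hF := hF) (n := m + 2) (by omega) (by omega)
  let C : SU (m + 3) F q ∗ FreeGroup PUnit.{1} := Coprod.inr (.of .unit)
  let R := fun {J : Type u} [Group J] (ψ : SU (m + 3) F q →* J) (c : J) =>
    [z1, z2].map (fun z => cjN (bj hF (cs _)) ψ c z * (ψ (bj hF (sc _) z))⁻¹) ++
    [y1, y2].flatMap (fun y => [z1, z2].map fun z => ⁅ψ (bj hF cl y), cjN (bj hF (sc _)) ψ c z⁆) ++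
    [Coprod.lift ψ (cjN (.id _) ψ c) W * c⁻¹]
  have e : ∀ {J : Type u} [Group J] (ψ : SU (m + 3) F q →* J) (ν : FreeGroup PUnit.{1} →* J),
      (∀ r ∈ R Coprod.inl C, Coprod.lift ψ ν r = 1) ↔ ∀ r ∈ R ψ (ν (.of .unit)), r = 1 := fun ψ ν => by
    rw [← List.forall_mem_map (P := (· = 1))]
    simp [R, C, cjN_apply, map_commutatorElement, ← MonoidHom.comp_apply _ (Coprod.lift _ _), Coprod.comp_lift, comp_cjN]
  refine glueGr h hasPr_free (bj hF (cs _)) (FreeGroup.lift fun _ => c0) (R Coprod.inl C) ((e _ _).2 ?_) fun J _ χ ν H => ?_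
  · simp only [R, List.forall_mem_append, List.forall_mem_map, List.forall_mem_flatMap, FreeGroup.lift_apply_of, cjN_apply,
      mul_inv_eq_one, commutatorElement_eq_one_iff_commute, List.forall_mem_singleton]
    refine ⟨⟨fun z _ => ?_, fun y _ z _ => ?_⟩, ?_⟩
    · rw [c1, bj_bj, bj_bj]; rfl
    · rw [c1, bj_bj, bj_bj]
      exact bl_comm hF ((cs _).comp cl) ((sc _).comp (sc _)) (fun a b => by simp [Fin.ext_iff]; omega) y z
    · rwa [show cjN (.id _) (bj hF (cs _)) c0 = bj hF (sc _) from MonoidHom.ext c1]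
  rw [e] at H
  have l4 : ((FreeGroup.lift fun _ => c0).prod ν).range = zpowers (((FreeGroup.lift fun _ => c0).prod ν) (.of .unit)) := by
    rw [MonoidHom.range_eq_map, ← Alt.closure_of, MonoidHom.map_closure, zpowers_eq_closure, Set.range_unique, Set.image_singleton]
  have c2 : (((FreeGroup.lift fun _ => c0).prod ν) (.of .unit)).1 = c0 := by simp
  generalize ((FreeGroup.lift fun _ => c0).prod ν) (.of .unit) = c at *
  subst c2
  simp only [R, List.forall_mem_append, List.forall_mem_map, List.forall_mem_flatMap, mul_inv_eq_one,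
    commutatorElement_eq_one_iff_commute, List.forall_mem_singleton] at H
  obtain ⟨⟨H1, H2⟩, H3⟩ := H
  convert step_core hq c1 (MonoidHom.eq_of_eqOn_dense hz fun z hz => H1 z (by simpa using hz))
    (comm_gen hy hz fun y hy z hz => H2 y (by simpa using hy) z (by simpa using hz)) using 1
  rw [l4]
  refine le_antisymm (sup_le le_sup_left (zpowers_le.2 ((Coprod.range_lift _ _).le ⟨W, H3⟩))) (sup_le le_sup_left ?_)
  rintro _ ⟨x, rfl⟩
  exact mul_mem (mul_mem (mem_sup_right (mem_zpowers c)) (mem_sup_left ⟨x, rfl⟩)) (inv_mem (mem_sup_right (mem_zpowers c)))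

end H11.UG
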