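import Cfsg.Agent.H11.PrU6

/-! # Bounded presentations of `SU_n(q)`: gluing with the alternating group -/

set_option autoImplicit false
set_option linter.unusedSectionVars false
set_option maxHeartbeats 400000

namespace H11.UG

open Subgroup H27.PH Cfsg Matrix Finset Monoid H11.C2
open scoped Pointwise commutatorElement Monoid.Coprod

universe u

variable {F : Type u} [Field F] [Fintype F] {q N : ℕ} {hF : Fintype.card F = q ^ 2} {J : Type*} [Group J]

local notation "𝐞" k => (Pi.single k (1 : F) : Fin _ → F)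

variable (hF) in
/-- permutation matrices -/
def pm : alternatingGroup (Fin N) →* SU N F q := MonoidHom.mk' (fun π => ⟨⟨Jm F π.1, by
  rw [det_Jm, Equiv.Perm.mem_alternatingGroup.1 π.2]; simp⟩, (mem_su hF).2 (on_Jm π.1.injective)⟩)
  fun a b => su_ext (Jm_mul a.1 b.1).symm

theorem pm_smul (π : alternatingGroup (Fin N)) (k : Fin N) : pm hF π • (𝐞 k) = 𝐞 (π • k) := by
  ext a; rw [su_smul]; simp [pm, Jm_apply, Pi.single_apply, Subgroup.smul_def]

theorem Bk_conj {s : Finset (Fin N)} {g : SU N F q} (π : alternatingGroup (Fin N)) (h : g ∈ Bk F q s) :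
    pm hF π * g * (pm hF π)⁻¹ ∈ Bk F q (π • s : Finset _) := mem_Bk.2 fun k hk => by
  rw [← map_inv, mul_smul, mul_smul, pm_smul, mem_Bk.1 h _ (fun h => hk (inv_smul_mem_iff.1 h)), pm_smul, smul_inv_smul]

theorem pm_mem {s : Finset (Fin N)} {π : alternatingGroup (Fin N)} (h : ∀ k ∉ s, π • k = k) : pm hF π ∈ Bk F q s :=
  mem_Bk.2 fun k hk => by rw [pm_smul, h k hk]

/-- intervals -/
def Ic (N i j : ℕ) : Finset (Fin N) := univ.filter fun k => i ≤ k ∧ (k : ℕ) ≤ j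

theorem coe_Ic (i j : ℕ) : (Ic N i j : Set (Fin N)) = Iv N i j := by ext; simp [Ic, Iv]

theorem card_Ic {i r : ℕ} (h : i + r < N) : #(Ic N i (i + r)) = r + 1 := by
  rw [show Ic N i (i + r) = Icc ⟨i, by omega⟩ ⟨i + r, h⟩ by ext; simp [Ic, Fin.le_def], Fin.card_Icc]; simp; omega

section core
variable {ι : Fin 4 → Fin N} {σ π1 : alternatingGroup (Fin N)} {L L6 : List (alternatingGroup (Fin N))} {xs : List (SU 3 F q)}
  (ψ : SU 4 F q →* SU N F q × J) (p : alternatingGroup (Fin N) →* SU N F q × J)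

local notation "B" => Finset.image ι univ
local notation "s0" => ({ι 0, ι 1} : Finset _)
local notation "t0" => ({ι 0, ι 1, ι 2} : Finset _)

/-- the local graphs -/
def E (π : alternatingGroup (Fin N)) (s : Finset (Fin N)) : Subgroup (SU N F q × J) :=
  ψ.range.comap (MulAut.conj (p π)⁻¹).toMonoidHom ⊓ (Bk F q s).comap (.fst _ _)

variable (hF ι σ L π1 L6 xs) in
/-- the combinatorial data -/
structure Dt : Prop extends Dat ι σ L where
  hxs : (i0 hF).range ⊔ (i1 hF).range ⊔ closure {x | x ∈ xs} = ⊤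
  d1 : Disjoint (π1 • s0) t0
  d6 : ∀ a : alternatingGroup (Fin N), Disjoint (a • t0) t0 → ∃ a ∈ L6, Disjoint (a • t0) t0

variable (hF ι σ L π1 L6 xs) in
/-- the relations -/
structure Hy : Prop extends Dt hF ι σ π1 L L6 xs where
  e1 : ∀ z, (ψ z).1 = bj hF inj z
  e2 : ∀ a, (p a).1 = pm hF a
  h1 : ∀ a, (∀ k ∉ B, a • k = k) → p a ∈ ψ.range
  h2 : ∀ z, p σ * ψ (j0 hF (i0 hF z)) * (p σ)⁻¹ ∈ ψ.range
  h3 : ∀ a ∈ L, ∀ x ∈ xs, p a * ψ (j0 hF x) * (p a)⁻¹ ∈ ψ.range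
  h4 : ∀ z, ∀ x ∈ xs, Commute (p π1 * ψ (j0 hF (i0 hF z)) * (p π1)⁻¹) (ψ (j0 hF x))
  h5 : ∀ a ∈ L6, ∀ x ∈ xs, ∀ y ∈ xs, Commute (p a * ψ (j0 hF x) * (p a)⁻¹) (ψ (j0 hF y))

variable {ψ p} {π π' : alternatingGroup (Fin N)} {s t : Finset (Fin N)} {x y : SU N F q × J}

theorem mem_E : x ∈ E ψ p π s ↔ (p π)⁻¹ * x * p π ∈ ψ.range ∧ x.1 ∈ Bk F q s := by simp [E]

theorem mem_E1 : x ∈ E ψ p 1 s ↔ x ∈ ψ.range ∧ x.1 ∈ Bk F q s := by
  rw [mem_E, map_one, inv_one, one_mul, mul_one]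

theorem sub_s0 : s0 ⊆ B := by simp [insert_subset_iff]

theorem sub_t0 : t0 ⊆ B := by simp [insert_subset_iff]

namespace Dat
variable (X : Dat ι σ L)
include X

theorem cB : #B = 4 := by simp [card_image_of_injective _ X.inj]

theorem c2 : #s0 = 2 := by simp [X.inj.eq_iff]

theorem c3 : #t0 = 3 := by rw [card_insert_of_notMem, card_insert_of_notMem] <;> simp [X.inj.eq_iff]

theorem ch (h : #s ≤ 4) : ∃ π : alternatingGroup (Fin N), s ⊆ π • B := by
  obtain ⟨u, h1, -, h2⟩ := exists_subsuperset_card_eq (subset_univ s) h (X.cB ▸ card_le_card (subset_univ _))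
  obtain ⟨π, rfl⟩ := exists_alt1 (X.cB.trans h2.symm) (by simp [X.cB])
  exact ⟨π, h1⟩

end Dat

namespace Hy
variable (X : Hy hF ι σ π1 L L6 xs ψ p)
include X

theorem conj (τ : alternatingGroup (Fin N)) (h : x ∈ E ψ p π s) : p τ * x * (p τ)⁻¹ ∈ E ψ p (τ * π) (τ • s) :=
  mem_E.2 ⟨by simpa only [map_mul, _root_.mul_inv_rev, mul_assoc, inv_mul_cancel_left] using (mem_E.1 h).1,
    by simpa [X.e2] using Bk_conj (hF := hF) τ (mem_E.1 h).2⟩

theorem eq : ψ = (bj hF X.inj).prod ((MonoidHom.snd _ _).comp ψ) := MonoidHom.ext fun z => Prod.ext (X.e1 z) rfl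

theorem gr0 : Gr (B : Finset _) ψ.range := by rw [X.eq]; simpa using gr_bl hF X.inj _

theorem gr (h : s ⊆ π • B) : Gr s (E ψ p π s) := by
  refine ⟨fun x hx e => ?_, le_antisymm (by rintro _ ⟨x, hx, rfl⟩; exact hx.2) fun g hg => ?_⟩
  · have := X.gr0.1 _ (mem_E.1 hx).1 (by simp [e])
    rwa [mul_assoc, inv_mul_eq_one, eq_comm, mul_eq_right] at this
  · obtain ⟨x, hx, e⟩ := X.gr0.ex (Bk_mono (coe_subset.2 (smul_finset_subset_iff.2 (by simpa))) (Bk_conj (hF := hF) π⁻¹ hg))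
    have : (p π * x * (p π)⁻¹).1 = g := by simp [e, mul_assoc, X.e2]
    exact ⟨_, mem_E.2 ⟨by simpa only [mul_assoc, inv_mul_cancel_left, inv_mul_cancel, mul_one], this ▸ hg⟩, this⟩

theorem range {m : ℕ} {j : Fin m → Fin 4} (hj : Function.Injective j) (h : (s : Set (Fin N)) = Set.range (ι ∘ j)) :
    E ψ p 1 s = (ψ.comp (bj hF hj)).range := by
  have a := gr_comp (hF := hF) X.inj hj ((MonoidHom.snd _ _).comp ψ)
  rw [← h, ← X.eq] at a
  exact le_antisymm (fun x hx => X.gr0.mem a (range_comp_le _ _) (mem_E1.1 hx).1 hx.2) fun x hx =>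
    mem_E1.2 ⟨range_comp_le _ _ hx, a.bk hx⟩

theorem p_mem (hs : s ⊆ π • B) {a : alternatingGroup (Fin N)} (h : ∀ k ∉ s, a • k = k) : p a ∈ E ψ p π s :=
  mem_E.2 ⟨by
    rw [← map_inv, ← map_mul, ← map_mul]
    exact X.h1 _ fun k hk => by
      rw [mul_smul, mul_smul, h _ fun e => hk (smul_mem_smul_finset_iff π |>.1 (hs e)), inv_smul_smul], X.e2 a ▸ pm_mem h⟩

theorem wd {u : Finset (Fin N)} (hu : u ⊆ B) (h2 : 2 ≤ #u)
    (hS : ∀ a, a • u = u → p a ∈ normalizer (E ψ p 1 u : Set (SU N F q × J))) (hs : #s = #u)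
    (h : s ⊆ π • B) (h' : s ⊆ π' • B) : E ψ p π s ≤ E ψ p π' s := by
  have key : ∀ π : alternatingGroup (Fin N), s ⊆ π • B → ∃ τ : alternatingGroup (Fin N), τ • u = s ∧
      E ψ p π s = E ψ p τ s := fun π h => by
    obtain ⟨a, a1, a2⟩ := exists_alt (s := u) (s' := π⁻¹ • s) (t := Bᶜ) 1 (by simp [hs]) h2 (disjoint_compl_right.mono_left hu)
      fun k hk e => mem_compl.1 hk (smul_finset_subset_iff.2 (by simpa) e)
    have := X.h1 a fun k hk => a2 k (mem_compl.2 hk)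
    refine ⟨π * a, by rw [mul_smul, a1, smul_inv_smul], Subgroup.ext fun x => ?_⟩
    rw [mem_E, mem_E, map_mul, _root_.mul_inv_rev, ← mul_assoc, mul_mem_cancel_right this, mul_assoc, mul_assoc,
      mul_assoc, mul_mem_cancel_left (inv_mem this)]
  obtain ⟨τ, rfl, e⟩ := key π h
  obtain ⟨τ', e1, e'⟩ := key π' h'
  rw [e, e']
  intro x hx
  have := X.conj τ⁻¹ hx
  rw [inv_smul_smul, inv_mul_cancel] at this
  simpa only [e1, mul_one, map_mul, map_inv, _root_.mul_inv_rev, inv_inv, mul_assoc, mul_inv_cancel_left, mul_inv_cancel,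
    mul_one] using X.conj τ' (nz_conj (hS (τ'⁻¹ * τ) (by rw [mul_smul, ← e1, inv_smul_smul])) this)

theorem nz (hs : s ⊆ B) (h : π • s = s) (h' : ∀ x ∈ E ψ p 1 s, p π * x * (p π)⁻¹ ∈ ψ.range) :
    p π ∈ normalizer (E ψ p 1 s : Set (SU N F q × J)) :=
  have := gr_fin (X.gr (π := 1) (s := s) (by simpa))
  nz_of fun x hx => mem_E1.2 ⟨h' x hx, by simpa [h] using (X.conj π hx).2⟩

theorem nzB (hs : s ⊆ B) (a : alternatingGroup (Fin N)) (ha : ∀ k ∉ B, a • k = k) (h : a • s = s) :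
    p a ∈ normalizer (E ψ p 1 s : Set (SU N F q × J)) :=
  X.nz hs h fun x hx => mul_mem (mul_mem (X.h1 a ha) (mem_E1.1 hx).1) (inv_mem (X.h1 a ha))

theorem E_s0 : E ψ p 1 s0 = (ψ.comp ((j0 hF).comp (i0 hF))).range := by
  rw [X.range ((Fin.castSucc_injective 3).comp (Fin.castSucc_injective 2)) (by ext; simp [Fin.exists_fin_two, eq_comm])]
  congr 2
  exact MonoidHom.ext fun z => (bj_bj (Fin.castSucc_injective 3) (Fin.castSucc_injective 2) z).symm

theorem wd2 (hs : #s = 2) (h : s ⊆ π • B) (h' : s ⊆ π' • B) : E ψ p π s ≤ E ψ p π' s :=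
  X.wd sub_s0 X.c2.ge (X.g2 (comap p (normalizer _)) (X.nzB sub_s0) (X.nz sub_s0 X.s2 (by
    rw [X.E_s0]; rintro _ ⟨z, rfl⟩; exact X.h2 z))) (hs.trans X.c2.symm) h h'

theorem c22 (hs : #s = 2) (ht : #t = 2) (h : s ⊆ π • B) (h' : t ⊆ π' • B) (hd : Disjoint s t) (hx : x ∈ E ψ p π s)
    (hy : y ∈ E ψ p π' t) : Commute x y := by
  obtain ⟨τ, hτ⟩ := X.ch (s := s ∪ t) ((card_union_le _ _).trans (by omega))
  exact gr_comm (hF := hF) (X.gr hτ) (disjoint_coe.2 hd) ⟨(X.wd2 hs h (subset_union_left.trans hτ) hx).1, Bk_mono (by simp) hx.2⟩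
    ⟨(X.wd2 ht h' (subset_union_right.trans hτ) hy).1, Bk_mono (by simp) hy.2⟩ hx.2 hy.2

theorem E_t0 {H : Subgroup (SU N F q × J)} (a : ∀ s ⊆ t0, #s = 2 → E ψ p 1 s ≤ H) (b : ∀ x ∈ xs, ψ (j0 hF x) ∈ H) :
    E ψ p 1 t0 ≤ H := by
  rw [X.range (Fin.castSucc_injective 3) (by ext; simp [Fin.exists_fin_succ, eq_comm]), MonoidHom.range_eq_map, map_le_iff_le_comap,
    ← X.hxs]
  refine sup_le (sup_le ?_ ?_) ((closure_le _).2 b)
  · rintro _ ⟨z, rfl⟩
    exact a s0 (by simp [insert_subset_iff]) X.c2 (X.E_s0.ge ⟨z, rfl⟩)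
  · rintro _ ⟨z, rfl⟩
    refine a {ι 1, ι 2} (by simp [insert_subset_iff]) (by simp [X.inj.eq_iff]) ((X.range ((Fin.castSucc_injective 3).comp
      (Fin.succ_injective 2)) (by ext; simp [Fin.exists_fin_two, eq_comm])).ge
      ⟨z, congrArg _ (bj_bj (Fin.castSucc_injective 3) (Fin.succ_injective 2) z).symm⟩)

theorem x_mem (x : SU 3 F q) : ψ (j0 hF x) ∈ E ψ p 1 t0 :=
  (X.range (Fin.castSucc_injective 3) (by ext; simp [Fin.exists_fin_succ, eq_comm])).ge ⟨x, rfl⟩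

theorem wd3 (hs : #s = 3) (h : s ⊆ π • B) (h' : s ⊆ π' • B) : E ψ p π s ≤ E ψ p π' s :=
  X.wd sub_t0 (by simp [X.c3]) (X.g3 (comap p (normalizer _)) (X.nzB sub_t0) fun a ha => X.nz sub_t0 (X.s3 a ha)
    (X.E_t0 (H := comap (MulAut.conj (p a)).toMonoidHom ψ.range) (fun s hs c x hx =>
      (mem_E1.1 (X.wd2 (π' := 1) (by simpa) (by simpa using hs.trans sub_t0)
        (by simpa using ((smul_finset_subset_smul_finset hs).trans (X.s3 a ha).le).trans sub_t0) (X.conj a hx))).1)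
      (X.h3 a ha))) (hs.trans X.c3.symm) h h'

theorem c23 (hs : #s = 2) (ht : #t = 3) (h : s ⊆ π • B) (h' : t ⊆ π' • B) (hd : Disjoint s t) (hx : x ∈ E ψ p π s)
    (hy : y ∈ E ψ p π' t) : Commute x y := by
  obtain ⟨τ, e1, e2⟩ := exists_alt2 (s' := π1 • s0) (t' := t0) (by simp [hs, X.c2]) (ht.trans X.c3.symm) hs.ge (by omega) hd X.d1
  have a := X.wd2 (π' := π1) (by simpa) (by simpa [mul_smul]) (e1 ▸ smul_finset_subset_smul_finset sub_s0) (X.conj τ hx)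
  have b := X.wd3 (π' := 1) (by simpa) (by simpa [mul_smul]) (by simpa [e2] using sub_t0) (X.conj τ hy)
  rw [e1] at a
  rw [e2] at b
  refine (Commute.conj_iff (p τ)).1 (X.E_t0 (H := centralizer {_}) (fun u hu c y hy => mem_centralizer_singleton_iff.2
    (X.c22 c (by simp [X.c2]) (by simpa using hu.trans sub_t0) (smul_finset_subset_smul_finset sub_s0)
    (X.d1.symm.mono_left hu) hy a)) (fun y hy => mem_centralizer_singleton_iff.2 ?_) b _ rfl)
  have := X.conj π1⁻¹ a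
  rw [inv_smul_smul, inv_mul_cancel, X.E_s0] at this
  obtain ⟨z, e⟩ := this
  have := (X.h4 z y hy).symm
  rw [show ψ (j0 hF (i0 hF z)) = _ from e] at this
  simpa only [map_inv, inv_inv, mul_assoc, mul_inv_cancel_left, mul_inv_cancel, mul_one] using this.eq

theorem c33 (hs : #s = 3) (ht : #t = 3) (h : s ⊆ π • B) (h' : t ⊆ π' • B) (hd : Disjoint s t) (hx : x ∈ E ψ p π s)
    (hy : y ∈ E ψ p π' t) : Commute x y := by
  have c3 := X.c3
  obtain ⟨a, rfl⟩ := exists_alt1 (c3.trans hs.symm) (by omega)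
  obtain ⟨b, rfl⟩ := exists_alt1 (c3.trans ht.symm) (by omega)
  obtain ⟨c, hc, d⟩ := X.d6 (b⁻¹ * a) (disjoint_left.2 fun k h1 h2 => disjoint_left.1 hd
    (by rwa [mul_smul, mem_inv_smul_finset_iff] at h1) (smul_mem_smul_finset h2))
  obtain ⟨τ, e1, e2⟩ := exists_alt2 (s' := c • t0) (t' := t0) (by simp) (by simp) (by omega) (by omega) hd d
  have a1 := X.wd3 (π' := c) (by simpa) (by simpa [mul_smul]) (e1 ▸ smul_finset_subset_smul_finset sub_t0) (X.conj τ hx)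
  have b1 := X.wd3 (π' := 1) (by simpa) (by simpa [mul_smul]) (by simpa [e2] using sub_t0) (X.conj τ hy)
  rw [e1] at a1
  rw [e2] at b1
  refine (Commute.conj_iff (p τ)).1 (X.E_t0 (H := centralizer {_}) (fun u hu k y hy => mem_centralizer_singleton_iff.2
    (X.c23 k (by simpa) (by simpa using hu.trans sub_t0) (smul_finset_subset_smul_finset sub_t0)
    (d.symm.mono_left hu) hy a1)) (fun y hy => mem_centralizer_singleton_iff.2 ?_) b1 _ rfl)
  have := X.conj c⁻¹ a1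
  rw [inv_smul_smul, inv_mul_cancel] at this
  have := X.E_t0 (H := comap (MulAut.conj (p c)).toMonoidHom (centralizer {ψ (j0 hF y)})) (fun u hu k z hz =>
    mem_centralizer_singleton_iff.2 (X.c23 (π' := 1) (by simpa) c3 (by simpa using hu.trans sub_t0)
    (by simpa using sub_t0) (d.mono_left (smul_finset_subset_smul_finset hu)) (X.conj c hz) (X.x_mem y)))
    (fun x hx => mem_centralizer_singleton_iff.2 (X.h5 c hc x hx y hy)) this _ rfl
  simpa only [map_inv, inv_inv, mul_assoc, mul_inv_cancel_left, mul_inv_cancel, mul_one, MulEquiv.coe_toMonoidHom,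
    MulAut.conj_apply] using this

theorem top (hN : 5 ≤ N) : Gr Set.univ (ψ.range ⊔ p.range) := by
  obtain ⟨n, rfl⟩ : ∃ n, N = n + 2 := ⟨N - 2, by omega⟩
  choose! ch hch using fun s => X.ch (s := s)
  let Ψ := fun i => E ψ p (ch (Ic _ i (i + 2))) (Ic _ i (i + 2))
  have a0 : ∀ {i}, i + 2 < n + 2 → Ic _ i (i + 2) ⊆ ch (Ic _ i (i + 2)) • Finset.image ι univ := fun h => hch _ (by rw [card_Ic h]; omega)
  have a1 : ∀ i, i + 2 < n + 2 → Gr (Iv _ i (i + 2)) (Ψ i) := fun i h => by rw [← coe_Ic]; exact X.gr (a0 h)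
  have mo : ∀ {i j i' j'}, i ≤ i' → j' ≤ j → Ic (n + 2) i' j' ⊆ Ic (n + 2) i j := fun h h' k => by simp [Ic]; omega
  have dj : ∀ {i j i' j'}, j < i' → Disjoint (Ic (n + 2) i j) (Ic (n + 2) i' j') := fun h =>
    disjoint_left.2 fun k => by simp [Ic]; omega
  have a2 : ∀ i π, i + 3 < n + 2 → Ic _ i (i + 3) ⊆ π • Finset.image ι univ → Ψ i ⊔ Ψ (i + 1) = E ψ p π (Ic _ i (i + 3)) := fun i π h hs => by
    have l : ∀ j, i ≤ j → j ≤ i + 1 → Ψ j ≤ E ψ p π (Ic _ i (i + 3)) := fun j h1 h2 x hx =>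
      ⟨(X.wd3 (card_Ic (by omega)) (a0 (by omega)) ((mo h1 (by omega)).trans hs) hx).1, Bk_mono (coe_subset.2 (mo h1 (by omega))) hx.2⟩
    have l' := sup_le (l i le_rfl (by omega)) (l (i + 1) (by omega) le_rfl)
    refine l'.antisymm (gr_le (X.gr hs) l' ?_)
    rw [Subgroup.map_sup, (a1 i (by omega)).2, (a1 (i + 1) (by omega)).2, coe_Ic, sup_comm]
    exact (gen4 hF (a := ⟨i, by omega⟩) (b := ⟨i + 1, by omega⟩) (c := ⟨i + 2, by omega⟩) (d := ⟨i + 3, h⟩) (by simp [Iv])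
      (by simp [Iv]) (by simp [Iv]) (by simp [Iv]) (by simp) (by simp) (by simp) (by simp) (by simp) (by simp)).trans
      (sup_le_sup (Bk_mono fun k => by simp [Iv, Fin.ext_iff]; omega) (Bk_mono fun k => by simp [Iv, Fin.ext_iff]; omega))
  have := ind' hF Ψ a1 (fun i h => by
      have := hch (Ic _ i (i + 3)) (card_Ic h).le
      rw [a2 i _ h this, ← coe_Ic]; exact X.gr this)
    (fun i j h h' x hx k y hy => X.c23 (card_Ic (by omega)) (card_Ic h') ((mo le_rfl (by omega)).trans (a0 (by omega))) (a0 h')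
      (dj h) ⟨hx.1, by rwa [coe_Ic]⟩ hy)
    (fun i h x hx y hy k => (X.c23 (card_Ic (r := 1) h) (card_Ic (by omega)) ((mo (by omega) le_rfl).trans (a0 h)) (a0 (by omega))
      (dj (by omega)).symm ⟨hy.1, by rwa [coe_Ic]⟩ hx).symm)
    (fun i j h h' x hx y hy => X.c33 (card_Ic (by omega)) (card_Ic h') (a0 (by omega)) (a0 h') (dj h) hx hy)
    (n - 1) 0 n (by omega) (by omega)
  have l : ∀ i < n, Ψ i ≤ ⨆ k ∈ Set.Ico 0 n, Ψ k := fun i h => le_iSup₂_of_le i ⟨i.zero_le, h⟩ le_rfl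
  have b1 : ∀ a, p a ∈ ⨆ k ∈ Set.Ico 0 n, Ψ k := fun a => (alt_gen (H := comap p (⨆ k ∈ Set.Ico 0 n, Ψ k)) fun i a h k =>
    l i (by omega) (X.p_mem (a0 (by omega)) fun j hj => k j (by simpa [Ic] using hj))).ge (mem_top a)
  convert this using 1
  · ext k; simp [Iv]; omega
  refine le_antisymm (sup_le (fun x hx => ?_) (by rintro _ ⟨a, rfl⟩; exact b1 a)) (iSup₂_le fun i _ x hx => ?_)
  · obtain ⟨π, e⟩ := exists_alt1 (X.cB.trans (card_Ic (i := 0) (r := 3) (by omega)).symm) (by simp [X.cB])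
    have := X.conj π (mem_E1.2 ⟨hx, X.gr0.bk hx⟩)
    rw [e, mul_one, ← a2 0 π (by omega) e.ge] at this
    exact (mul_mem_cancel_left (b1 π)).1 ((mul_mem_cancel_right (inv_mem (b1 π))).1
      (sup_le (l 0 (by omega)) (l 1 (by omega)) this))
  · have b : p (ch (Ic _ i (i + 2))) ∈ ψ.range ⊔ p.range := mem_sup_right ⟨_, rfl⟩
    exact (mul_mem_cancel_left (inv_mem b)).1 ((mul_mem_cancel_right b).1 (mem_sup_left (mem_E.1 hx).1))

end Hy

variable (hF ι σ L xs ψ p) in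
/-- words which have to lie in the block -/
def W (LA : List (alternatingGroup (Fin N))) (ys : List (SU 2 F q)) {K : Type*} [Group K] (ψ : SU 4 F q →* K)
    (p : alternatingGroup (Fin N) →* K) : List K :=
  LA.map p ++ ys.map (fun y => p σ * ψ (j0 hF (i0 hF y)) * (p σ)⁻¹) ++
    L.flatMap fun a => xs.map fun x => p a * ψ (j0 hF x) * (p a)⁻¹

variable (hF π1 L6 xs) in
/-- commutator relators -/
def C (ys : List (SU 2 F q)) {K : Type*} [Group K] (ψ : SU 4 F q →* K) (p : alternatingGroup (Fin N) →* K) : List K :=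
  (ys.flatMap fun y => xs.map fun x => ⁅p π1 * ψ (j0 hF (i0 hF y)) * (p π1)⁻¹, ψ (j0 hF x)⁆) ++
    L6.flatMap fun a => xs.flatMap fun x => xs.map fun y => ⁅p a * ψ (j0 hF x) * (p a)⁻¹, ψ (j0 hF y)⁆

variable {LA : List (alternatingGroup (Fin N))} {ys : List (SU 2 F q)} {K : Type*} [Group K]

theorem eW (ψ : SU 4 F q →* K) (p : alternatingGroup (Fin N) →* K) :
    (W hF σ L xs LA ys Coprod.inl Coprod.inr).map (Coprod.lift ψ p) = W hF σ L xs LA ys ψ p := by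
  simp [W, List.map_flatMap, Function.comp_def]

theorem eC (ψ : SU 4 F q →* K) (p : alternatingGroup (Fin N) →* K) :
    (C hF π1 L6 xs ys Coprod.inl Coprod.inr).map (Coprod.lift ψ p) = C hF π1 L6 xs ys ψ p := by
  simp [C, List.map_flatMap, Function.comp_def, map_commutatorElement]

theorem Dt.hy (T : Dt hF ι σ π1 L L6 xs) (e1 : ∀ z, (ψ z).1 = bj hF T.inj z) (e2 : ∀ a, (p a).1 = pm hF a)
    (l3 : ∀ H : Subgroup (alternatingGroup (Fin N)), (∀ a ∈ LA, a ∈ H) → ∀ a, (∀ k ∉ B, a • k = k) → a ∈ H)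
    (hy : closure {y | y ∈ ys} = ⊤) (H' : ∀ g ∈ W hF σ L xs LA ys ψ p, g ∈ ψ.range) (H : ∀ g ∈ C hF π1 L6 xs ys ψ p, g = 1) :
    Hy hF ι σ π1 L L6 xs ψ p := by
  simp only [W, C, List.forall_mem_append, List.forall_mem_map, List.forall_mem_flatMap, commutatorElement_eq_one_iff_commute] at H H'
  exact ⟨T, e1, e2, l3 (comap p ψ.range) H'.1.1,
    fun z => (closure_le (K := comap (cjN ((j0 hF).comp (i0 hF)) ψ (p σ)) ψ.range)).2 H'.1.2 (hy.ge (mem_top z)), H'.2,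
    fun z x hx => mem_centralizer_singleton_iff.1 ((closure_le (K := comap (cjN ((j0 hF).comp (i0 hF)) ψ (p π1))
      (centralizer {ψ (j0 hF x)}))).2 (fun y h => mem_centralizer_singleton_iff.2 (H.1 y h x hx)) (hy.ge (mem_top z))), H.2⟩

theorem bj_mem {m : ℕ} {j : Fin m → Fin N} (hj : Function.Injective j) (z : SU m F q) : bj hF hj z ∈ Bk F q (Set.range j) :=
  (range_bl hj).le ⟨z, rfl⟩

theorem Dat.r2 (D : Dat ι σ L) (z : SU 2 F q) : bj hF D.inj (j0 hF (i0 hF z)) ∈ Bk F q s0 := by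
  rw [show j0 hF (i0 hF z) = _ from bj_bj (Fin.castSucc_injective 3) (Fin.castSucc_injective 2) z, bj_bj]
  exact Bk_mono (by simp [Set.range_subset_iff]) (bj_mem _ z)

theorem Dat.r3 (D : Dat ι σ L) (z : SU 3 F q) : bj hF D.inj (j0 hF z) ∈ Bk F q t0 := by
  rw [show bj hF D.inj (j0 hF z) = _ from bj_bj D.inj (Fin.castSucc_injective 3) z]
  exact Bk_mono (by simp [Set.range_subset_iff, Fin.forall_fin_succ]) (bj_mem _ z)

include hF in
theorem cm {x y : SU N F q} (h : Disjoint s t) (hx : x ∈ Bk F q s) (hy : y ∈ Bk F q t) : ⁅x, y⁆ = 1 := by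
  have g : Gr Set.univ ((MonoidHom.id (SU N F q)).prod (1 : _ →* PUnit.{1})).range := ⟨fun x _ h => Prod.ext h rfl, by
    ext x; simp [mem_Bk]⟩
  exact commutatorElement_eq_one_iff_commute.2 ((gr_comm (hF := hF) g (disjoint_coe.2 h) ⟨x, rfl⟩ ⟨y, rfl⟩ hx hy).map
    (MonoidHom.fst _ _))

theorem Dat.hW (D : Dat ι σ L) (l2 : ∀ a ∈ LA, ∀ k ∉ B, a • k = k) :
    ∀ g ∈ W hF σ L xs LA ys (bj hF D.inj) (pm hF), g ∈ (bj hF D.inj).range := by
  have : ∀ g ∈ W hF σ L xs LA ys (bj hF D.inj) (pm hF), g ∈ Bk F q (B : Finset _) := by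
    simp only [W, List.forall_mem_append, List.forall_mem_map, List.forall_mem_flatMap]
    exact ⟨⟨fun a ha => pm_mem (l2 a ha), fun y _ => Bk_mono (coe_subset.2 (D.s2.le.trans sub_s0)) (Bk_conj σ (D.r2 y))⟩,
      fun a ha x _ => Bk_mono (coe_subset.2 ((D.s3 a ha).le.trans sub_t0)) (Bk_conj a (D.r3 x))⟩
  exact fun g hg => (range_bl D.inj).ge (by simpa using this g hg)

theorem Dt.hC (T : Dt hF ι σ π1 L L6 xs) (d7 : ∀ a ∈ L6, Disjoint (a • t0) t0) :
    ∀ g ∈ C hF π1 L6 xs ys (bj hF T.inj) (pm hF), g = 1 := by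
  simp only [C, List.forall_mem_append, List.forall_mem_map, List.forall_mem_flatMap]
  exact ⟨fun y _ x _ => cm (hF := hF) T.d1 (Bk_conj _ (T.r2 y)) (T.r3 x),
    fun a ha x _ y _ => cm (hF := hF) (d7 a ha) (Bk_conj _ (T.r3 x)) (T.r3 y)⟩

end core

theorem su_alt {k b k' b' : ℕ} {xs : List (SU 3 F q)} (hxs : (i0 hF).range ⊔ (i1 hF).range ⊔ closure {x | x ∈ xs} = ⊤)
    (hN : 5 ≤ N) (h4 : HasPr (SU 4 F q) k b) (hA : HasPr (alternatingGroup (Fin N)) k' b') :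
    HasPr (SU N F q) (k + k') (b + b' + (4 + 4 * xs.length + xs.length ^ 2)) := by
  obtain ⟨ι, σ, L, D⟩ : ∃ ι σ L, Dat (α := Fin N) ι σ L := by
    obtain ⟨m, rfl⟩ : ∃ m, N = m + 4 := ⟨N - 4, by omega⟩
    exact exists_dat m
  obtain ⟨LA, l1, l2, l3⟩ := exists_gensA (Finset.image ι univ)
  obtain ⟨y1, y2, hy⟩ := su_gens (hF := hF) (n := 2) le_rfl (by omega)
  obtain ⟨u, u1, u2⟩ := exists_subset_card_eq (s := ({ι 0, ι 1, ι 2} : Finset _)ᶜ) (n := 2)
    (by rw [card_compl, D.c3, Fintype.card_fin]; omega)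
  obtain ⟨π1, d1⟩ := exists_alt1 (D.c2.trans u2.symm) D.c2.ge
  obtain ⟨L6, d6, d7, d8⟩ : ∃ L6 : List (alternatingGroup (Fin N)), L6.length ≤ 1 ∧
      (∀ a ∈ L6, Disjoint (a • ({ι 0, ι 1, ι 2} : Finset _)) {ι 0, ι 1, ι 2}) ∧ ∀ a : alternatingGroup (Fin N),
      Disjoint (a • ({ι 0, ι 1, ι 2} : Finset _)) {ι 0, ι 1, ι 2} → ∃ a ∈ L6, Disjoint (a • ({ι 0, ι 1, ι 2} : Finset _)) {ι 0, ι 1, ι 2} := by
    by_cases h : ∃ a : alternatingGroup (Fin N), Disjoint (a • ({ι 0, ι 1, ι 2} : Finset _)) {ι 0, ι 1, ι 2}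
    · exact ⟨[h.choose], le_rfl, by simpa using h.choose_spec, fun _ _ => ⟨_, by simp, h.choose_spec⟩⟩
    · exact ⟨[], by simp, by simp, fun a ha => absurd ⟨a, ha⟩ h⟩
  have T : Dt hF ι σ π1 L L6 xs := ⟨D, hxs, by rw [d1]; exact disjoint_compl_left.mono_left u1, d8⟩
  refine (glueGr h4 hA (bj hF T.inj) (pm hF) ((W hF σ L xs LA [y1, y2] Coprod.inl Coprod.inr).map (fun w =>
    w * (Coprod.inl (Function.invFun (bj hF T.inj) (Coprod.lift (bj hF T.inj) (pm hF) w)))⁻¹) ++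
    C hF π1 L6 xs [y1, y2] Coprod.inl Coprod.inr) ?_ fun J _ χ ν H => ?_).mono ?_
  · rw [List.forall_mem_append, List.forall_mem_map, ← List.forall_mem_map (P := (· = 1)) (l := C _ _ _ _ _ _ _), eC]
    refine ⟨fun w hw => ?_, T.hC d7⟩
    rw [map_mul, map_inv, Coprod.lift_apply_inl, mul_inv_eq_one]
    exact (Function.invFun_eq (T.hW l2 _ (by rw [← eW]; exact List.mem_map_of_mem hw))).symm
  · rw [List.forall_mem_append, List.forall_mem_map, ← List.forall_mem_map (P := (· = 1)) (l := C _ _ _ _ _ _ _), eC] at H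
    refine (T.hy (fun _ => rfl) (fun _ => rfl) l3 (by rw [← hy]; congr 1; ext; simp) ?_ H.2).top hN
    rw [← eW, List.forall_mem_map]
    intro w hw
    have := H.1 w hw
    rw [map_mul, map_inv, Coprod.lift_apply_inl, mul_inv_eq_one] at this
    exact ⟨_, this.symm⟩
  · have := Nat.mul_le_mul_right (xs.length * xs.length) d6
    simp [W, C, l1, List.length_flatMap, D.len, sq]; omega

end H11.UG
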