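import Cfsg.Agent.H11.PrU7

/-! # Bounded presentations of `SU_n(q)`: assembly -/

set_option autoImplicit false
set_option linter.unusedSectionVars false
set_option maxHeartbeats 400000

namespace H11.UG

open Subgroup H27.PH Cfsg Matrix H12

universe u

variable {F : Type u} [Field F] [Fintype F] {q : ℕ} (hF : Fintype.card F = q ^ 2)

local notation "σ" => frob hF
local notation "𝐞" k => (Pi.single k (1 : F) : Fin _ → F)

theorem exists_xs (hq : q = 2) : ∃ xs : List (SU 3 F q), xs.length = 2 ∧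
    (i0 hF).range ⊔ (i1 hF).range ⊔ closure {x | x ∈ xs} = ⊤ := by
  have := char2 hF hq
  obtain ⟨t, ht, t1⟩ := exists_tor hF (two_le_of_card_sq hF)
  have h2 : (2 : F) = 0 := CharP.cast_eq_zero F 2
  have t2 : σ t = t + 1 := by
    rw [frob_apply, hq] at *
    exact mul_left_cancel₀ (sub_ne_zero.2 t1) (by linear_combination t * ht + (t - t ^ 3) * h2)
  have t3 : t * t = t + 1 := by rw [← t2, frob_apply, hq, sq]
  obtain ⟨f, hf⟩ : ∃ f : SU 3 F q, f.1.1 = !![1, 1, 1; 1, t, t + 1; 1, t + 1, t] := ⟨⟨⟨_, by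
    simp [det_fin_three]; grind⟩, (mem_su hF).2 (by
      ext a b; fin_cases a <;> fin_cases b <;> simp [ct, mul_apply, Fin.sum_univ_three, t2, -frob_apply] <;> grind)⟩, rfl⟩
  obtain ⟨x, -, hx⟩ := tran hF (s := Set.univ) (a := (0 : Fin 3)) (b := 1) trivial trivial (by simp) (u := ![1, 1, t])
    (mem_Ws.2 (by simp)) (by simp [hermC_B, Fin.sum_univ_three, ← frob_apply hF, t2, -frob_apply]; grind)
  refine ⟨[f, x], rfl, gen3 hF (le_sup_of_le_left le_sup_left) (le_sup_of_le_left le_sup_right) fun y _ hy => ?_⟩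
  set L := (i0 hF).range ⊔ (i1 hF).range ⊔ closure {z | z ∈ [f, x]}
  have mf : f ∈ L := mem_sup_right (subset_closure (by simp))
  have mx : x ∈ L := mem_sup_right (subset_closure (by simp))
  have d : ∀ a b c : F, σ a * a = 1 → σ b * b = 1 → ∃ d ∈ L, d • ![1, 1, a * b * c] = ![a, b, c] := fun a b c ha hb => by
    have hab : σ (a * b) * (a * b) = 1 := by rw [map_mul]; linear_combination (σ b * b) * ha + hb
    refine ⟨i0 hF (tor hF ha) * i1 hF (tor hF hab), mul_mem (mem_sup_left (mem_sup_left ⟨_, rfl⟩))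
      (mem_sup_left (mem_sup_right ⟨_, rfl⟩)), ?_⟩
    have e0 : (i0 hF (tor hF ha)).1.1 = diagonal ![a, σ a, 1] := by
      ext a b; fin_cases a <;> fin_cases b <;> simp [i0, coe_bl, tor, mul_apply, ct_Jm, Jm_apply, Fin.sum_univ_succ, -frob_apply]
    have e1 : (i1 hF (tor hF hab)).1.1 = diagonal ![1, a * b, σ (a * b)] := by
      ext a b; fin_cases a <;> fin_cases b <;> simp [i1, coe_bl, tor, mul_apply, ct_Jm, Jm_apply, Fin.sum_univ_succ, -frob_apply]
    rw [mul_smul, su_smul, su_smul, e0, e1]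
    ext k; fin_cases k <;> simp [mulVec_diagonal, -frob_apply, -map_mul]
    exacts [by linear_combination b * ha, by linear_combination c * hab]
  have f0 : f • (𝐞 0) = ![1, 1, 1] := by rw [su_smul, hf]; ext k; fin_cases k <;> simp
  have hy' : ∀ k, σ (y k) * y k = 1 := fun k => (mul_comm _ _).trans (hy k)
  obtain ⟨g, hg, e⟩ := d (y 0) (y 1) (y 2) (hy' 0) (hy' 1)
  suffices ∃ w ∈ L, w • (𝐞 0) = ![1, 1, y 0 * y 1 * y 2] by
    obtain ⟨w, hw, e'⟩ := this
    exact ⟨g * w, mul_mem hg hw, by rw [mul_smul, e', e]; ext k; fin_cases k <;> rfl⟩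
  have n : σ (y 0 * y 1 * y 2) * (y 0 * y 1 * y 2) = 1 := by
    rw [map_mul, map_mul]
    linear_combination (σ (y 1) * y 1 * (σ (y 2) * y 2)) * hy' 0 + (σ (y 2) * y 2) * hy' 1 + hy' 2
  generalize y 0 * y 1 * y 2 = u at n
  rw [frob_apply, hq] at n
  have : (u - 1) * ((u - t) * (u - t * t * 1)) = 0 := by grind
  rcases mul_eq_zero.1 this with h | h
  · exact ⟨f, mf, by rw [f0, sub_eq_zero.1 h]⟩
  rcases mul_eq_zero.1 h with h | h
  · exact ⟨x, mx, by rw [hx, sub_eq_zero.1 h]⟩
  obtain ⟨g, hg, e⟩ := d t t 1 ht ht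
  refine ⟨g⁻¹ * f * x, mul_mem (mul_mem (inv_mem hg) mf) mx, ?_⟩
  rw [mul_smul, mul_smul, hx, inv_smul_eq_iff, sub_eq_zero.1 h, e, su_smul, hf]
  ext k; fin_cases k <;> simp [mulVec, dotProduct, Fin.sum_univ_three] <;> grind

include hF

theorem su4_pr : HasPr (SU 4 F q) 4 27 := by
  have := two_le_of_card_sq hF
  rcases lt_trichotomy q 3 with h | rfl | h
  · obtain rfl : q = 2 := by omega
    exact (su4_two hF).mono (by omega)
  · exact (su4_three hF).pad' (by omega) (by omega)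
  · exact su_step (hF := hF) (m := 0) h (U3.su3_pr hF h.le)

theorem su_alt' {n b : ℕ} (hn : 5 ≤ n) (hA : HasPr (alternatingGroup (Fin n)) 2 b) :
    HasPr (SU n F q) 6 (b + if 3 < q then 31 else 30) := by
  have := two_le_of_card_sq hF
  rcases lt_trichotomy q 3 with h | rfl | h
  · obtain ⟨xs, l, h⟩ := exists_xs hF (by omega)
    obtain rfl : q = 2 := by omega
    exact (su_alt h hn (su4_two hF) hA).mono (by simp [l]; omega)
  · have h2 : (2 : F) ≠ 0 := fun h => by
      obtain ⟨p, k, hp, _, k0, e⟩ := exists_prime_pow_of_card_sq hF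
      have := (CharP.cast_eq_zero_iff F p 2).1 h
      obtain rfl := (Nat.prime_dvd_prime_iff_eq hp Nat.prime_two).1 this
      exact absurd (e ▸ dvd_pow_self 2 k0.ne') (by decide)
    exact (su_alt (hF := hF) (xs := []) (by simp [top3' hF h2]) hn ((su4_three hF).pad' (k' := 4) (b' := 25) (by omega) (by omega)) hA).mono
      (by simp; omega)
  · exact (su_alt (hF := hF) (xs := []) (by simp [top3 hF h]) hn (su4_pr hF) hA).mono (by simp [h]; omega)

theorem su5_pr : HasPr (SU 5 F q) 6 35 := by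
  by_cases h : 3 < q
  · exact (su_step (hF := hF) (m := 1) h (su4_pr hF)).pad
  · simpa [h] using su_alt' hF le_rfl (Alt.alt_small 5 (by omega) (by omega))

theorem su_pr {n : ℕ} (hn : 4 ≤ n) : HasPr (SU n F q) 6 39 := by
  rcases hn.eq_or_lt with rfl | h
  · exact (su4_pr hF).pad' (by omega) (by omega)
  · exact (su_alt' hF h (Alt.alt_two n)).mono (by split_ifs <;> omega)

end H11.UG
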