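import Cfsg.Agent.H13.R3_3

/-! Rank 3 actions of `PSp_{2k}(q)`, `q` odd (S2195): definitions and chunk statements
(paper proofs: notes/RS.md; basic API: `H11.RS1`). -/

set_option autoImplicit false
set_option linter.unusedSectionVars false

open Module MulAction H13.R3

namespace H11.RS

universe u

section defs
variable {F : Type u} [Field F] {V : Type u} [AddCommGroup V] [Module F V]
  {G : Type u} [Group G] [DistribMulAction G V] [SMulCommClass G F V]

/-- a nondegenerate alternating form in odd characteristic -/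
structure Al (B : LinearMap.BilinForm F V) : Prop where
  alt : ∀ v, B v v = 0
  nd : ∀ v, (∀ w, B v w = 0) → v = 0
  two : (2 : F) ≠ 0

/-- `G` is the full symplectic group of `B`, `dim V ≥ 6` -/
structure Sy (B : LinearMap.BilinForm F V) (G : Type u) [Group G] [DistribMulAction G V] : Prop
    extends Al B where
  n6 : 6 ≤ finrank F V
  fa : ∀ g : G, (∀ v : V, g • v = v) → g = 1
  iso : ∀ (g : G) (u v : V), B (g • u) (g • v) = B u v
  full : ∀ σ : V ≃ₗ[F] V, (∀ u v, B (σ u) (σ v) = B u v) → ∃ g : G, ∀ v, g • v = σ v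
  anti : ∃ σ : V ≃ₗ[F] V, ∀ u v, B (σ u) (σ v) = -B u v

variable (B : LinearMap.BilinForm F V)

/-- the orthogonal complement -/
abbrev pp (W : Submodule F V) : Submodule F V := B.orthogonal W
/-- `g` is the symplectic transvection `u ↦ u + c B(u,v) v` (trivial if `c = 0` or `v = 0`) -/
def Tr (g : G) (v : V) (c : F) : Prop := ∀ u, g • u = u + (c * B u v) • v
/-- `g` is the element `u ↦ u + B(u,e) x + B(u,x) e` of the unipotent radical of the stabilizer of `e` -/
def Uu (g : G) (e x : V) : Prop := ∀ u, g • u = u + B u e • x + B u x • e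
/-- `g` is `-1` on the hyperbolic line `⟨a,b⟩` and `1` on its orthogonal complement -/
def Iv (g : G) (a b : V) : Prop :=
  B a b ≠ 0 ∧ g • a = -a ∧ g • b = -b ∧ ∀ w, B a w = 0 → B b w = 0 → g • w = w
/-- `g` fixes `D^⊥` pointwise (`dim D = 2`) and is anisotropic -/
def An (g : G) (D : Submodule F V) : Prop :=
  finrank F D = 2 ∧ (∀ w ∈ pp B D, g • w = w) ∧ ∀ w, B (g • w) w = 0 → w ∈ pp B D
/-- no transvections in `H` -/
def NoT (H : Subgroup G) : Prop := ∀ g ∈ H, ∀ v c, Tr B g v c → g = 1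
def HasI (H : Subgroup G) : Prop := ∃ g ∈ H, ∃ a b, Iv B g a b
def HasA (H : Subgroup G) : Prop := ∃ g ∈ H, ∃ D, An B g D
/-- the vectors `x` with `u_{e,x} ∈ H` -/
def Mp (H : Subgroup G) (e : V) : Set V := {x | B e x = 0 ∧ ∃ g ∈ H, Uu B g e x}
/-- `H` meets every `O_p(G_e)` trivially -/
def E1 (H : Subgroup G) : Prop := ∀ e x, e ≠ 0 → x ∈ Mp B H e → x = 0

variable (F) in
/-- same `H`-orbit of points -/
def PO (H : Subgroup G) (v w : V) : Prop := ∃ h ∈ H, h • v ∈ F ∙ w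
variable (F V) in
/-- transitive on points -/
def PP (H : Subgroup G) : Prop := ∀ v w : V, v ≠ 0 → w ≠ 0 → PO F H v w
variable (F) in
/-- same `H`-orbit of ordered pairs of points -/
def PE2 (H : Subgroup G) (e x e' x' : V) : Prop := ∃ h ∈ H, h • e ∈ F ∙ e' ∧ h • x ∈ F ∙ x'
/-- `x, y` are points of a totally isotropic line through `e` in different orbits of the flag stabilizer -/
def Spl (H : Subgroup G) (e x y : V) : Prop :=
  B e x = 0 ∧ Ind F e x ∧ y ∈ ln F e x ∧ y ∉ F ∙ e ∧ ¬ PE2 F H e x e y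
/-- at most two independent splittings -/
def NLp (H : Subgroup G) : Prop := ∀ e₁ x₁ y₁ e₂ x₂ y₂ e₃ x₃ y₃ : V,
  Spl B H e₁ x₁ y₁ → Spl B H e₂ x₂ y₂ → Spl B H e₃ x₃ y₃ →
  ¬ PE2 F H e₂ x₂ e₁ x₁ → ¬ PE2 F H e₂ x₂ e₁ y₁ →
  PE2 F H e₃ x₃ e₁ x₁ ∨ PE2 F H e₃ x₃ e₁ y₁ ∨ PE2 F H e₃ x₃ e₂ x₂ ∨ PE2 F H e₃ x₃ e₂ y₂
/-- at most three orbits on totally isotropic lines -/
def L3p (H : Subgroup G) : Prop :=
  Le3 (fun a : V × V => Ind F a.1 a.2 ∧ B a.1 a.2 = 0) (LE F H)

/-- functions on (point, hyperbolic line) flags with zero sum at every point -/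
def M3 [Finite V] : Submodule ℂ (V × V → ℂ) where
  carrier := {Φ | (∀ e f, B e f ≠ 1 → Φ (e, f) = 0) ∧
    (∀ (e f : V) (a s : F), a ≠ 0 → Φ (a • e, a⁻¹ • f + s • e) = Φ (e, f)) ∧
    ∀ e, ∑ᶠ f, Φ (e, f) = 0}
  zero_mem' := ⟨fun _ _ _ => rfl, fun _ _ _ _ _ => rfl, fun _ => by simp⟩
  add_mem' {Φ Ψ} h k := ⟨fun e f n => by simp [h.1 e f n, k.1 e f n],
    fun e f a s n => by simp only [Pi.add_apply, h.2.1 e f a s n, k.2.1 e f a s n], fun e => by
      simp only [Pi.add_apply]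
      rw [finsum_add_distrib (Set.toFinite _) (Set.toFinite _), h.2.2, k.2.2, add_zero]⟩
  smul_mem' c {Φ} h := ⟨fun e f n => by simp [h.1 e f n],
    fun e f a s n => by simp only [Pi.smul_apply, h.2.1 e f a s n], fun e => by
      simp only [Pi.smul_apply]
      rw [← smul_finsum' _ (Set.toFinite _), h.2.2, smul_zero]⟩

/-- the hypotheses on the point stabilizer -/
structure Hs (H : Subgroup G) : Prop where
  neg : ∃ z ∈ H, ∀ v : V, z • v = -v
  mx : IsCoatom H
  r3 : dc H H = 3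
  nt : ∃ (t : G) (v : V) (c : F), Tr B t v c ∧ t ∉ H

end defs

/-- every invariant kernel with rows and columns in `M` is `σ`-symmetric -/
def Sym (G : Type u) {X : Type u} [Group G] [MulAction G X] (M : Submodule ℂ (X → ℂ))
    (σ : X → X) : Prop :=
  ∀ K : X → X → ℂ, (∀ (g : G) b b', K (g • b) (g • b') = K b b') → (∀ b, K b ∈ M) →
    (∀ b', (fun b => K b b') ∈ M) → ∀ b b', K b b' = K (σ b') (σ b)

/-! ### Chunks -/

/-- Gelfand's trick against a rank 3 action -/
def GEL : Prop := ∀ (G X : Type u) [Group G] [Finite G] [Finite X] [MulAction G X] (H : Subgroup G)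
  (M : Submodule ℂ (X → ℂ)) (σ : X → X), dc H H = 3 → Function.Bijective σ →
  (∀ Φ ∈ M, ∀ g : G, (fun b => Φ (g • b)) ∈ M) → (∀ Φ ∈ M, star Φ ∈ M) →
  (∀ Φ ∈ M, (∀ (g : G) b, Φ (g • b) = Φ b) → Φ = 0) → Sym G M σ →
  ∀ Φ : Fin 3 → X → ℂ, (∀ i, Φ i ∈ M) → (∀ i, ∀ h ∈ H, ∀ b, Φ i (h • b) = Φ i b) →
  ¬ LinearIndependent ℂ Φ

/-- kernels on (point, hyperbolic line) flags -/
def SY3 : Prop := ∀ (F V G : Type u) [Field F] [Fintype F] [AddCommGroup V] [Module F V] [Finite V]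
  [Group G] [DistribMulAction G V] [SMulCommClass G F V] (B : LinearMap.BilinForm F V),
  Sy B G → ∃ σ : V × V → V × V, Function.Bijective σ ∧ Sym G (M3 B) σ

/-- at most two splittings (assume `GEL`, `SY3`) -/
def NL : Prop := ∀ (F V G : Type u) [Field F] [Fintype F] [AddCommGroup V] [Module F V] [Finite V]
  [Group G] [Finite G] [DistribMulAction G V] [SMulCommClass G F V] (B : LinearMap.BilinForm F V)
  (H : Subgroup G), Sy B G → dc H H = 3 → NLp B H

/-- at most three orbits on totally isotropic lines (assume `GEL`) -/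
def L3 : Prop := ∀ (F V G : Type u) [Field F] [Fintype F] [AddCommGroup V] [Module F V] [Finite V]
  [Group G] [Finite G] [DistribMulAction G V] [SMulCommClass G F V] (B : LinearMap.BilinForm F V)
  (H : Subgroup G), Sy B G → dc H H = 3 → L3p B H

/-- homogeneous point sets closed under totally isotropic lines -/
def CL : Prop := ∀ (F V : Type u) [Field F] [Fintype F] [AddCommGroup V] [Module F V] [Finite V]
  (B : LinearMap.BilinForm F V) (R : Set V), Al B → 4 ≤ finrank F V → 0 ∉ R →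
  (∀ v ∈ R, ∀ c : F, c ≠ 0 → c • v ∈ R) → R.Nonempty → (∃ z, z ≠ 0 ∧ z ∉ R) →
  (∀ x ∈ R, ∀ y ∈ R, B x y = 0 → Ind F x y → ∀ w ∈ ln F x y, w ≠ 0 → w ∈ R) →
  (∀ u v, u ≠ 0 → v ≠ 0 → (u ∈ R ↔ v ∈ R) → ∃ φ : V ≃ₗ[F] V, (∀ a b, B (φ a) (φ b) = B a b) ∧
    (∀ a, φ a ∈ R ↔ a ∈ R) ∧ φ u ∈ F ∙ v) →
  ∃ M : Submodule F V, (∀ v, v ∈ R ↔ v ∈ M ∧ v ≠ 0) ∧ pp B M = M

/-- two orbits on points (assume `CL`) -/
def TWO : Prop := ∀ (F V G : Type u) [Field F] [Fintype F] [AddCommGroup V] [Module F V] [Finite V]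
  [Group G] [Finite G] [DistribMulAction G V] [SMulCommClass G F V] (B : LinearMap.BilinForm F V)
  (H : Subgroup G), Sy B G → Hs B H → NLp B H → L3p B H → ¬ PP F V H →
  Le2 (fun v : V => v ≠ 0) (PO F H) → False

/-- two non-commuting transvections generate `-1` on their hyperbolic line -/
def D1 : Prop := ∀ (F V G : Type u) [Field F] [Fintype F] [AddCommGroup V] [Module F V] [Finite V]
  [Group G] [Finite G] [DistribMulAction G V] [SMulCommClass G F V] (B : LinearMap.BilinForm F V)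
  (H : Subgroup G) (t t' : G) (a b : V) (c d : F), Sy B G → t ∈ H → t' ∈ H → Tr B t a c →
  Tr B t' b d → c ≠ 0 → d ≠ 0 → B a b ≠ 0 → ∃ g ∈ H, Iv B g a b

/-- two anisotropic elements whose lines meet -/
def UU : Prop := ∀ (F V G : Type u) [Field F] [Fintype F] [AddCommGroup V] [Module F V] [Finite V]
  [Group G] [Finite G] [DistribMulAction G V] [SMulCommClass G F V] (B : LinearMap.BilinForm F V)
  (H : Subgroup G) (g g' : G) (D D' : Submodule F V) (y : V), Sy B G → E1 B H → ¬ HasI B H →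
  g ∈ H → g' ∈ H → An B g D → An B g' D' → D ≠ D' → y ≠ 0 → y ∈ D → y ∈ D' →
  ∀ a ∈ D, ∀ b ∈ D', B a b = 0

/-- if every point is the centre of a transvection of `H`, all transvections lie in `H` (assume `D1`) -/
def TV : Prop := ∀ (F V G : Type u) [Field F] [Fintype F] [AddCommGroup V] [Module F V] [Finite V]
  [Group G] [Finite G] [DistribMulAction G V] [SMulCommClass G F V] (B : LinearMap.BilinForm F V)
  (H : Subgroup G), Sy B G → (∀ v : V, v ≠ 0 → ∃ t ∈ H, ∃ c : F, c ≠ 0 ∧ Tr B t v c) →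
  ∀ (t : G) (v : V) (c : F), Tr B t v c → t ∈ H

/-- no closed family of hyperbolic lines -/
def SPH : Prop := ∀ (F V : Type u) [Field F] [Fintype F] [AddCommGroup V] [Module F V] [Finite V]
  (B : LinearMap.BilinForm F V) (W : V → Submodule F V), Al B → 6 ≤ finrank F V →
  (∀ v, v ≠ 0 → v ∈ W v ∧ finrank F (W v) = 2 ∧ v ∉ pp B (W v)) →
  (∀ v y, v ≠ 0 → y ≠ 0 → y ∈ pp B (W v) → W y ≤ pp B (W v)) → False

/-- no invariant closed family of totally isotropic lines -/
def SPT : Prop := ∀ (F V G : Type u) [Field F] [Fintype F] [AddCommGroup V] [Module F V] [Finite V]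
  [Group G] [Finite G] [DistribMulAction G V] [SMulCommClass G F V] (B : LinearMap.BilinForm F V)
  (H : Subgroup G) (S : Set (Submodule F V)), Sy B G → Hs B H →
  (∀ D ∈ S, finrank F D = 2 ∧ D ≤ pp B D) → (∀ v, v ≠ 0 → ∃ D ∈ S, v ∈ D) →
  (∀ D ∈ S, ∀ h ∈ H, D.map (lin F V h).toLinearMap ∈ S) →
  (∀ D ∈ S, ∀ D' ∈ S, ∀ y, y ≠ 0 → y ∈ D' → y ∈ pp B D → D' ≤ pp B D) → False

/-- counting when `H` meets `O_p(G_e)` nontrivially -/
def EA : Prop := ∀ (F V G : Type u) [Field F] [Fintype F] [AddCommGroup V] [Module F V] [Finite V]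
  [Group G] [Finite G] [DistribMulAction G V] [SMulCommClass G F V] (B : LinearMap.BilinForm F V)
  (H : Subgroup G), Sy B G → PP F V H → NoT B H → ¬ E1 B H →
  ∃ d m : ℕ, 1 ≤ d ∧ 2 * (d + 1) ≤ finrank F V ∧ 2 ≤ m ∧ m ≤ Fintype.card F ^ d ∧
    (∀ x, x ≠ 0 → (Mp B H x).ncard = m) ∧
    ∀ z, z ≠ 0 → {x | x ≠ 0 ∧ B x z = 0 ∧ ∀ w ∈ Mp B H x, B w z = 0}.ncard =
      Fintype.card F ^ (finrank F V - 1 - d) - 1

/-- no involution `-1_W` in a point-transitive group without transvections (assume `EA`, `SPH`) -/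
def II : Prop := ∀ (F V G : Type u) [Field F] [Fintype F] [AddCommGroup V] [Module F V] [Finite V]
  [Group G] [Finite G] [DistribMulAction G V] [SMulCommClass G F V] (B : LinearMap.BilinForm F V)
  (H : Subgroup G), Sy B G → PP F V H → NoT B H → ¬ HasI B H

/-- no anisotropic elements (assume `EA`, `UU`, `SPH`, `SPT`) -/
def DD : Prop := ∀ (F V G : Type u) [Field F] [Fintype F] [AddCommGroup V] [Module F V] [Finite V]
  [Group G] [Finite G] [DistribMulAction G V] [SMulCommClass G F V] (B : LinearMap.BilinForm F V)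
  (H : Subgroup G), Sy B G → Hs B H → PP F V H → NoT B H → ¬ HasI B H → ¬ HasA B H

/-- the basic dichotomy -/
def AB : Prop := ∀ (F V G : Type u) [Field F] [Fintype F] [AddCommGroup V] [Module F V] [Finite V]
  [Group G] [Finite G] [DistribMulAction G V] [SMulCommClass G F V] (B : LinearMap.BilinForm F V)
  (H : Subgroup G), Sy B G → dc H H = 3 → NoT B H → HasI B H ∨ HasA B H

end H11.RS
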