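import Cfsg.Agent.H11.RS0
import Cfsg.Agent.S0749

/-! API for S2195: orthogonal complements, Witt's lemma, transvections, the groups `Mp`. -/

set_option autoImplicit false
set_option linter.unusedSectionVars false

open Module MulAction H13.R3

namespace H11.RS

universe u

variable {F : Type u} [Field F] {V : Type u} [AddCommGroup V] [Module F V]
  {G : Type u} [Group G] [DistribMulAction G V] [SMulCommClass G F V]
  {B : LinearMap.BilinForm F V} {H : Subgroup G} {g h : G} {a b e x y z v w : V} {c d : F}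

theorem mem_pp {W : Submodule F V} : v ∈ pp B W ↔ ∀ w ∈ W, B w v = 0 := Iff.rfl
theorem mem_pp_sp : v ∈ pp B (F ∙ x) ↔ B x v = 0 :=
  ⟨fun h => h x (Submodule.mem_span_singleton_self x), fun h w hw => by
    obtain ⟨c, rfl⟩ := Submodule.mem_span_singleton.1 hw; simp [h]⟩
theorem mem_pp_ln : v ∈ pp B (ln F x y) ↔ B x v = 0 ∧ B y v = 0 :=
  ⟨fun h => ⟨h x l_ln, h y r_ln⟩, fun h w hw => by
    obtain ⟨c, d, rfl⟩ := mem_ln.1 hw; simp [h.1, h.2]⟩
theorem mem_pp_pl : v ∈ pp B (pl F x y z) ↔ B x v = 0 ∧ B y v = 0 ∧ B z v = 0 :=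
  ⟨fun h => ⟨h x p1_pl, h y p2_pl, h z p3_pl⟩, fun h w hw => by
    obtain ⟨c, d, k, rfl⟩ := mem_pl.1 hw; simp [h.1, h.2.1, h.2.2]⟩
theorem pp_anti {U W : Submodule F V} (h : U ≤ W) : pp B W ≤ pp B U := fun _ hv w hw => hv w (h hw)
theorem pp_sup (U W : Submodule F V) : pp B (U ⊔ W) = pp B U ⊓ pp B W := by
  refine le_antisymm (le_inf (pp_anti le_sup_left) (pp_anti le_sup_right)) fun v hv w hw => ?_
  obtain ⟨a, ha, b, hb, rfl⟩ := Submodule.mem_sup.1 hw
  change B (a + b) v = 0
  rw [map_add, LinearMap.add_apply, hv.1 a ha, hv.2 b hb, add_zero]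

namespace Al
variable (al : Al B)
include al

theorem skew (u v : V) : B u v = -B v u := by
  have := al.alt (u + v)
  simp only [map_add, LinearMap.add_apply, al.alt] at this
  linear_combination this
theorem swap (h : B v w = 0) : B w v = 0 := by rw [al.skew, h, neg_zero]
theorem swap_iff : B v w = 0 ↔ B w v = 0 := ⟨al.swap, al.swap⟩
theorem refl : B.IsRefl := fun _ _ => al.swap
theorem isAlt : B.IsAlt := al.alt
theorem nondeg : B.Nondegenerate := ⟨al.nd, fun v h => al.nd v fun w => al.swap (h w)⟩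
theorem ex_one (hv : v ≠ 0) (c : F) : ∃ w, B v w = c := by
  by_contra hn
  push Not at hn
  refine hv (al.nd v fun w => ?_)
  by_contra h0
  exact hn ((c / B v w) • w) (by rw [map_smul, smul_eq_mul, div_mul_cancel₀ _ h0])
theorem ind_of_ne (h : B x y ≠ 0) : Ind F x y :=
  ⟨fun e => h (by simp [e]), fun e => h (by
    obtain ⟨c, rfl⟩ := Submodule.mem_span_singleton.1 e; simp [al.alt])⟩
theorem le_pp_comm {U W : Submodule F V} (h : U ≤ pp B W) : W ≤ pp B U :=
  fun w hw u hu => al.swap (h hu w hw)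
theorem le_pp_pp (W : Submodule F V) : W ≤ pp B (pp B W) := al.le_pp_comm le_rfl
theorem char_ne (p : ℕ) [CharP F p] : p ≠ 2 := by
  rintro rfl; exact al.two (by exact_mod_cast CharP.cast_eq_zero F 2)
theorem half (h : v + v = 0) : v = 0 := by
  rw [← two_smul F v] at h; exact (smul_eq_zero.1 h).resolve_left al.two

variable [Fintype F] [Finite V]
theorem finrank_pp (W : Submodule F V) : finrank F W + finrank F (pp B W) = finrank F V := by
  rw [LinearMap.BilinForm.finrank_orthogonal al.nondeg W]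
  have := Submodule.finrank_le W; omega
theorem pp_pp (W : Submodule F V) : pp B (pp B W) = W :=
  (Submodule.eq_of_le_of_finrank_eq (al.le_pp_pp W) (by
    have := al.finrank_pp W; have := al.finrank_pp (pp B W); omega)).symm
theorem pp_inj {U W : Submodule F V} (h : pp B U = pp B W) : U = W := by
  rw [← al.pp_pp U, h, al.pp_pp]
theorem odd_card : Odd (Fintype.card F) := by
  obtain ⟨p, hc⟩ := CharP.exists F
  have hp := CharP.char_is_prime F p
  obtain ⟨k, -, hk⟩ := FiniteField.card F p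
  rw [hk]; exact (hp.odd_of_ne_two (al.char_ne p)).pow
theorem three_le : 3 ≤ Fintype.card F := by
  have := q2 F; have := al.odd_card; obtain ⟨k, hk⟩ := this; omega
/-- a totally isotropic subspace has at most half the dimension -/
theorem ti_le {W : Submodule F V} (h : W ≤ pp B W) : 2 * finrank F W ≤ finrank F V := by
  have := al.finrank_pp W; have := Submodule.finrank_mono h; omega
/-- every functional is represented -/
theorem rep (φ : Dual F V) : ∃ w, ∀ u, φ u = B u w := by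
  obtain ⟨w, hw⟩ := (B.flip.toDual al.nondeg.flip).surjective φ
  exact ⟨w, fun u => by rw [← hw]; rfl⟩
/-- prescribed inner products with an independent family -/
theorem ex_fam {k : ℕ} {u : Fin k → V} (hu : LinearIndependent F u) (c : Fin k → F) :
    ∃ w, ∀ i, B (u i) w = c i := by
  obtain ⟨f, hf⟩ := LinearMap.exists_extend ((Basis.span hu).constr F c)
  obtain ⟨w, hw⟩ := al.rep f
  refine ⟨w, fun i => ?_⟩
  have := LinearMap.congr_fun hf (Basis.span hu i)
  rwa [Basis.constr_basis, LinearMap.comp_apply, Submodule.subtype_apply, Basis.span_apply,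
    hw] at this
theorem ex_two (h : Ind F x y) (c d : F) : ∃ w, B x w = c ∧ B y w = d :=
  (al.ex_fam h.li ![c, d]).imp fun _ h => ⟨h 0, h 1⟩
theorem ex_three (h : Ind3 F x y z) (c d k : F) : ∃ w, B x w = c ∧ B y w = d ∧ B z w = k :=
  (al.ex_fam h.li ![c, d, k]).imp fun _ h => ⟨h 0, h 1, h 2⟩
theorem ncard_fam {k : ℕ} {u : Fin k → V} (hu : LinearIndependent F u) (c : Fin k → F) :
    {w | ∀ i, B (u i) w = c i}.ncard * Fintype.card F ^ k = Fintype.card F ^ finrank F V := by
  have := ncard_fib (LinearMap.pi fun i => B (u i)) (fun c => (al.ex_fam hu c).imp fun _ h =>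
    funext h) c
  rw [finrank_fintype_fun_eq_card, Fintype.card_fin] at this
  rw [← this]; congr 2; ext w; simp [funext_iff]
theorem ncard1 (h : x ≠ 0) (c : F) :
    {w | B x w = c}.ncard * Fintype.card F = Fintype.card F ^ finrank F V := by
  have := al.ncard_fam (u := ![x]) (by simpa using h) ![c]
  rw [pow_one] at this; rw [← this]; congr 2; ext f; simp [Fin.forall_fin_succ]
theorem ncard2 (h : Ind F x y) (c d : F) :
    {w | B x w = c ∧ B y w = d}.ncard * Fintype.card F ^ 2 = Fintype.card F ^ finrank F V := by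
  rw [← al.ncard_fam h.li ![c, d]]; congr 2; ext f; simp [Fin.forall_fin_succ]
theorem ncard3 (h : Ind3 F x y z) (c d k : F) :
    {w | B x w = c ∧ B y w = d ∧ B z w = k}.ncard * Fintype.card F ^ 3 =
      Fintype.card F ^ finrank F V := by
  rw [← al.ncard_fam h.li ![c, d, k]]; congr 2; ext f; simp [Fin.forall_fin_succ]

/-- Witt's lemma for families (possibly dependent) -/
theorem witt {ι : Type} [Fintype ι] (u v : ι → V) (hB : ∀ i j, B (v i) (v j) = B (u i) (u j))
    (h1 : ∀ c : ι → F, ∑ i, c i • u i = 0 ↔ ∑ i, c i • v i = 0) :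
    ∃ σ : V ≃ₗ[F] V, (∀ a b, B (σ a) (σ b) = B a b) ∧ ∀ i, σ (u i) = v i := by
  classical
  let p := Fintype.linearCombination F u
  let r := Fintype.linearCombination F v
  have hk : LinearMap.ker p = LinearMap.ker r := by
    ext c; simp only [LinearMap.mem_ker, p, r, Fintype.linearCombination_apply, h1]
  let φ : LinearMap.range p ≃ₗ[F] LinearMap.range r :=
    p.quotKerEquivRange.symm.trans ((Submodule.quotEquivOfEq _ _ hk).trans r.quotKerEquivRange)
  have hφ : ∀ c, (φ ⟨p c, c, rfl⟩ : V) = r c := fun c => by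
    simp only [φ, LinearEquiv.trans_apply]
    rw [show (⟨p c, c, rfl⟩ : LinearMap.range p) = ⟨p c, LinearMap.mem_range_self p c⟩ from rfl,
      LinearMap.quotKerEquivRange_symm_apply_image]; rfl
  obtain ⟨σ, h2, h3⟩ := Cfsg.Agent.S0749.result B al.nondeg al.isAlt _ _ φ (by
    rintro ⟨_, c, rfl⟩ ⟨_, c', rfl⟩
    rw [hφ, hφ]
    simp only [p, r, Fintype.linearCombination_apply, map_sum, LinearMap.sum_apply, map_smul,
      LinearMap.smul_apply, hB])
  refine ⟨σ, h2, fun i => ?_⟩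
  have := h3 ⟨p (Pi.single i 1), _, rfl⟩
  rw [hφ] at this
  simpa [p, r] using this

end Al

/-! ### orbits on points -/
theorem PO.refl (v : V) : PO F H v v := ⟨1, H.one_mem, by simp⟩
theorem PO.symm (h : PO F H v w) (hv : v ≠ 0) : PO F H w v := by
  obtain ⟨k, hk, e⟩ := h
  refine ⟨k⁻¹, H.inv_mem hk, ?_⟩
  rw [← smul_mem_sp_iff (g := k), smul_inv_smul, sp_eq (fun e => hv (gsz.1 e)) e]
  exact Submodule.mem_span_singleton_self w
theorem PO.trans (h : PO F H v w) (h' : PO F H w z) : PO F H v z := by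
  obtain ⟨k, hk, e⟩ := h; obtain ⟨k', hk', e'⟩ := h'
  exact ⟨k' * k, H.mul_mem hk' hk, by
    rw [mul_smul]; exact (Submodule.span_singleton_le_iff_mem _ _).2 e' (smul_mem_sp k' e)⟩
theorem PO.of_mem (h : v ∈ F ∙ w) : PO F H v w := ⟨1, H.one_mem, by simpa using h⟩
theorem PO.smul (hh : h ∈ H) (v : V) : PO F H v (h • v) :=
  ⟨h, hh, Submodule.mem_span_singleton_self _⟩
/-- unpacking: `h • v = c • w` with `c ≠ 0` -/
theorem PO.ex (h : PO F H v w) (hv : v ≠ 0) : ∃ k ∈ H, ∃ c : F, c ≠ 0 ∧ k • v = c • w := by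
  obtain ⟨k, hk, e⟩ := h
  obtain ⟨c, e⟩ := Submodule.mem_span_singleton.1 e
  exact ⟨k, hk, c, fun h0 => hv (gsz.1 (by rw [← e, h0, zero_smul])), e.symm⟩
theorem PE2.refl (e x : V) : PE2 F H e x e x := ⟨1, H.one_mem, by simp, by simp⟩
theorem PE2.symm {e' x' : V} (h : PE2 F H e x e' x') (he : e ≠ 0) (hx : x ≠ 0) :
    PE2 F H e' x' e x := by
  obtain ⟨k, hk, e1, e2⟩ := h
  refine ⟨k⁻¹, H.inv_mem hk, ?_, ?_⟩
  · rw [← smul_mem_sp_iff (g := k), smul_inv_smul, sp_eq (fun e => he (gsz.1 e)) e1]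
    exact Submodule.mem_span_singleton_self _
  · rw [← smul_mem_sp_iff (g := k), smul_inv_smul, sp_eq (fun e => hx (gsz.1 e)) e2]
    exact Submodule.mem_span_singleton_self _
theorem PE2.trans {e' x' e'' x'' : V} (h : PE2 F H e x e' x') (h' : PE2 F H e' x' e'' x'') :
    PE2 F H e x e'' x'' := by
  obtain ⟨k, hk, e1, e2⟩ := h; obtain ⟨k', hk', e1', e2'⟩ := h'
  exact ⟨k' * k, H.mul_mem hk' hk,
    by rw [mul_smul]; exact (Submodule.span_singleton_le_iff_mem _ _).2 e1' (smul_mem_sp k' e1),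
    by rw [mul_smul]; exact (Submodule.span_singleton_le_iff_mem _ _).2 e2' (smul_mem_sp k' e2)⟩
theorem PE2.fst {e' x' : V} (h : PE2 F H e x e' x') : PO F H e e' :=
  h.imp fun _ h => ⟨h.1, h.2.1⟩
theorem PE2.snd {e' x' : V} (h : PE2 F H e x e' x') : PO F H x x' :=
  h.imp fun _ h => ⟨h.1, h.2.2⟩

theorem mem_map_lin {D : Submodule F V} : v ∈ D.map (lin F V g).toLinearMap ↔ g⁻¹ • v ∈ D :=
  ⟨by rintro ⟨w, hw, rfl⟩; simpa using hw, fun h => ⟨_, h, by simp⟩⟩
theorem finrank_map_lin (D : Submodule F V) (g : G) :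
    finrank F (D.map (lin F V g).toLinearMap) = finrank F D := LinearEquiv.finrank_map_eq _ _

theorem Uu.symm (h : Uu B g e x) : Uu B g x e := fun u => by rw [h u]; abel
theorem Uu.sml : Uu B g (c • e) x ↔ Uu B g e (c • x) := by
  refine forall_congr' fun u => ?_
  simp only [map_smul, smul_eq_mul, smul_smul, mul_comm]
theorem Uu.tr : Uu B g e (c • e) ↔ Tr B g e (2 * c) := by
  refine forall_congr' fun u => ?_
  rw [map_smul, smul_eq_mul, smul_smul, add_assoc, ← add_smul,
    show B u e * c + c * B u e = 2 * c * B u e by ring]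
theorem Tr.sml : Tr B g (d • v) c ↔ Tr B g v (c * d ^ 2) := by
  refine forall_congr' fun u => ?_
  rw [map_smul, smul_eq_mul, smul_smul, show c * (d * B u v) * d = c * d ^ 2 * B u v by ring]
theorem Tr.fix (h : Tr B g v c) (hw : B w v = 0) : g • w = w := by rw [h, hw]; simp
theorem Uu.fix (h : Uu B g e x) (h1 : B w e = 0) (h2 : B w x = 0) : g • w = w := by
  rw [h, h1, h2]; simp

namespace Sy
variable (sy : Sy B G)
include sy

theorem ext (h1 : ∀ v : V, g • v = h • v) : g = h := by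
  have := sy.fa (h⁻¹ * g) fun v => by rw [mul_smul, h1, inv_smul_smul]
  rw [← mul_right_inj h⁻¹, this, inv_mul_cancel]
theorem iso_l (g : G) (u v : V) : B (g • u) v = B u (g⁻¹ • v) := by
  rw [← sy.iso g u, smul_inv_smul]
theorem iso_r (g : G) (u v : V) : B u (g • v) = B (g⁻¹ • u) v := by
  rw [← sy.iso g _ v, smul_inv_smul]
theorem smul_pp {W : Submodule F V} :
    g • v ∈ pp B (W.map (lin F V g).toLinearMap) ↔ v ∈ pp B W :=
  ⟨fun h w hw => by rw [← sy.iso g]; exact h _ ⟨w, hw, rfl⟩,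
    by rintro h _ ⟨w, hw, rfl⟩; exact (sy.iso g w v).trans (h w hw)⟩

theorem tr_conj (ht : Tr B g v c) (k : G) : Tr B (k * g * k⁻¹) (k • v) c := fun u => by
  rw [mul_smul, mul_smul, ht, smul_add, smul_inv_smul, gsc, sy.iso_r]
theorem uu_conj (ht : Uu B g e x) (k : G) : Uu B (k * g * k⁻¹) (k • e) (k • x) := fun u => by
  rw [mul_smul, mul_smul, ht, smul_add, smul_add, smul_inv_smul, gsc, gsc, sy.iso_r, sy.iso_r]
theorem iv_conj (ht : Iv B g a b) (k : G) : Iv B (k * g * k⁻¹) (k • a) (k • b) :=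
  ⟨by rw [sy.iso]; exact ht.1, by simp [mul_smul, ht.2.1], by simp [mul_smul, ht.2.2.1],
    fun w h1 h2 => by
      rw [mul_smul, mul_smul, ht.2.2.2 _ (by rw [← sy.iso_l, h1]) (by rw [← sy.iso_l, h2]),
        smul_inv_smul]⟩
theorem an_conj {D : Submodule F V} (ht : An B g D) (k : G) :
    An B (k * g * k⁻¹) (D.map (lin F V k).toLinearMap) :=
  ⟨(finrank_map_lin D k).trans ht.1, fun w hw => by
    rw [mul_smul, mul_smul, ht.2.1 _ (sy.smul_pp.1 (by rwa [smul_inv_smul])), smul_inv_smul],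
    fun w hw => by
      rw [mul_smul, mul_smul, sy.iso_l] at hw
      simpa using (sy.smul_pp (g := k)).2 (ht.2.2 _ hw)⟩
theorem tr_mul {g' : G} (ht : Tr B g v c) (ht' : Tr B g' v d) : Tr B (g * g') v (c + d) := fun u => by
  rw [mul_smul, ht', ht, map_add, map_smul]
  simp only [LinearMap.add_apply, LinearMap.smul_apply, sy.alt, smul_zero, add_zero]
  rw [add_assoc, ← add_smul]; congr 2; ring
theorem tr_zero : Tr B (1 : G) v 0 := fun u => by simp
theorem tr_unique {g' : G} (ht : Tr B g v c) (ht' : Tr B g' v c) : g = g' :=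
  sy.ext fun u => by rw [ht, ht']
theorem tr_inv (ht : Tr B g v c) : Tr B g⁻¹ v (-c) := fun u => by
  rw [inv_smul_eq_iff, ht, map_add, map_smul]
  simp only [LinearMap.add_apply, LinearMap.smul_apply, sy.alt, smul_zero, add_zero]
  rw [add_assoc, ← add_smul]; simp
theorem tr_eq_one (ht : Tr B g v c) : g = 1 ↔ c = 0 ∨ v = 0 := by
  constructor
  · rintro rfl
    by_contra hn
    push Not at hn
    obtain ⟨w, hw⟩ := sy.ex_one hn.2 (-1)
    have := ht w
    rw [one_smul, sy.skew, hw, left_eq_add, smul_eq_zero] at this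
    rcases this with h | h
    · exact hn.1 (by simpa using h)
    · exact hn.2 h
  · rintro (rfl | rfl) <;> exact sy.fa _ fun u => by rw [ht]; simp
theorem uu_unique {g' : G} (ht : Uu B g e x) (ht' : Uu B g' e x) : g = g' :=
  sy.ext fun u => by rw [ht, ht']
theorem uu_mul {g' : G} (ht : Uu B g e x) (ht' : Uu B g' e y) (hx : B e x = 0) :
    Uu B (g * g') e (x + y + (B y x / 2) • e) := by
  intro u
  by_cases hy : B e y = 0
  · have h2 := sy.two
    rw [mul_smul, ht', ht]
    simp only [map_add, map_smul, LinearMap.add_apply, LinearMap.smul_apply, smul_eq_mul, sy.alt,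
      sy.swap hy, hx, mul_zero, add_zero]
    match_scalars <;> field_simp <;> ring
  · exfalso
    have h3 := sy.iso g' e y
    rw [ht', ht'] at h3
    simp only [map_add, map_smul, LinearMap.add_apply, LinearMap.smul_apply, smul_eq_mul, sy.alt,
      sy.skew y e] at h3
    exact hy (pow_eq_zero_iff (n := 3) (by norm_num) |>.1 (by linear_combination -h3))
/-- an element of `G` from a linear map preserving the form -/
theorem of_lin [FiniteDimensional F V] (φ : V →ₗ[F] V) (hφ : ∀ u v, B (φ u) (φ v) = B u v) :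
    ∃ g : G, ∀ v, g • v = φ v := by
  have hi : Function.Injective φ := (injective_iff_map_eq_zero φ).2 fun v hv =>
    sy.nd v fun w => by rw [← hφ, hv]; simp
  exact sy.full (LinearEquiv.ofInjectiveEndo φ hi) hφ

variable [Fintype F] [Finite V]
theorem ex_tr (v : V) (c : F) : ∃ g : G, Tr B g v c := by
  obtain ⟨g, hg⟩ := sy.of_lin (LinearMap.id + (c • B.flip v).smulRight v) fun a b => by
    simp only [LinearMap.add_apply, LinearMap.id_apply, LinearMap.smulRight_apply,
      LinearMap.smul_apply, LinearMap.BilinForm.flip_apply, smul_eq_mul, map_add, map_smul, sy.alt,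
      sy.skew v b]
    ring
  exact ⟨g, fun u => hg u⟩
theorem ex_uu (h : B e x = 0) : ∃ g : G, Uu B g e x := by
  obtain ⟨g, hg⟩ := sy.of_lin (LinearMap.id + (B.flip e).smulRight x + (B.flip x).smulRight e)
    fun a b => by
    simp only [LinearMap.add_apply, LinearMap.id_apply, LinearMap.smulRight_apply,
      LinearMap.smul_apply, LinearMap.BilinForm.flip_apply, smul_eq_mul, map_add, map_smul, sy.alt,
      sy.skew e b, sy.skew x b, h, sy.swap h]
    ring
  exact ⟨g, fun u => hg u⟩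
/-- decomposition along a hyperbolic line -/
theorem dec (h : B a b ≠ 0) (u : V) :
    B a (u - (B u b / B a b) • a - (B a u / B a b) • b) = 0 ∧
    B b (u - (B u b / B a b) • a - (B a u / B a b) • b) = 0 := by
  simp only [map_sub, map_smul, smul_eq_mul, sy.alt, sy.skew b a, sy.skew b u]
  constructor <;> field_simp <;> ring
theorem iv_apply (hg : Iv B g a b) (u : V) :
    g • u = u - (2 * B u b / B a b) • a - (2 * B a u / B a b) • b := by
  have h := hg.2.2.2 _ (sy.dec hg.1 u).1 (sy.dec hg.1 u).2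
  rw [smul_sub, smul_sub, gsc, gsc, hg.2.1, hg.2.2.1, sub_sub, sub_eq_iff_eq_add] at h
  rw [h]; match_scalars <;> ring
theorem iv_unique {g' : G} (hg : Iv B g a b) (hg' : Iv B g' a b) : g = g' :=
  sy.ext fun u => by rw [sy.iv_apply hg, sy.iv_apply hg']
theorem iv_neg (hg : Iv B g a b) (hu : w ∈ ln F a b) : g • w = -w := by
  obtain ⟨s, t, rfl⟩ := mem_ln.1 hu
  rw [smul_add, gsc, gsc, hg.2.1, hg.2.2.1]; simp [add_comm]
/-- change of basis of the hyperbolic line -/
theorem iv_of (hg : Iv B g a b) {a' b' : V} (ha : a' ∈ ln F a b) (hb : b' ∈ ln F a b)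
    (h : B a' b' ≠ 0) : Iv B g a' b' := by
  refine ⟨h, sy.iv_neg hg ha, sy.iv_neg hg hb, fun w h1 h2 => ?_⟩
  have : w ∈ pp B (ln F a b) := by
    rw [← ln_eq (sy.ind_of_ne h) ha hb]; exact mem_pp_ln.2 ⟨h1, h2⟩
  exact hg.2.2.2 w (mem_pp_ln.1 this).1 (mem_pp_ln.1 this).2
theorem iv_sq (hg : Iv B g a b) : g * g = 1 := sy.fa _ fun u => by
  rw [mul_smul, sy.iv_apply hg u, smul_sub, smul_sub, gsc, gsc, hg.2.1, hg.2.2.1, sy.iv_apply hg u]
  module
theorem ex_iv (h : B a b ≠ 0) : ∃ g : G, Iv B g a b := by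
  obtain ⟨g, hg⟩ := sy.of_lin (LinearMap.id - ((2 / B a b) • B.flip b).smulRight a -
      ((2 / B a b) • B a).smulRight b) fun u v => by
    simp only [LinearMap.sub_apply, LinearMap.id_apply, LinearMap.smulRight_apply,
      LinearMap.smul_apply, LinearMap.BilinForm.flip_apply, smul_eq_mul, map_sub, map_smul, sy.alt,
      sy.skew b a, sy.skew b v, sy.skew u a]
    field_simp; ring
  have hg' : ∀ u, g • u = u - (2 / B a b * B u b) • a - (2 / B a b * B a u) • b := hg
  refine ⟨g, h, ?_, ?_, fun w h1 h2 => by rw [hg', h1, sy.swap h2]; simp⟩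
  · rw [hg', sy.alt, div_mul_cancel₀ _ h]; module
  · rw [hg', sy.alt, div_mul_cancel₀ _ h]; module
/-- elements of `O_p(G_e)` -/
theorem uu_of (he : e ≠ 0) (h1 : g • e = e) (h2 : ∀ w, B e w = 0 → g • w - w ∈ F ∙ e) :
    ∃ x, B e x = 0 ∧ Uu B g e x := by
  obtain ⟨f, hf⟩ := sy.ex_one he 1
  have two := sy.two
  have k1 : B e (g • f) = 1 := by rw [← hf, ← sy.iso g e f, h1]
  refine ⟨f - g • f + (B (g • f) f / 2) • e, by simp [hf, k1, sy.alt], fun u => ?_⟩
  have hw : B e (u - B e u • f) = 0 := by simp [hf]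
  obtain ⟨s, hs⟩ := Submodule.mem_span_singleton.1 (h2 _ hw)
  rw [smul_sub, gsc] at hs
  have k2 : g • u = u - B e u • f + s • e + B e u • g • f := by rw [hs]; abel
  have k3 := sy.iso g u f
  rw [k2] at k3
  simp only [map_add, map_sub, map_smul, LinearMap.add_apply, LinearMap.sub_apply,
    LinearMap.smul_apply, smul_eq_mul, sy.alt, k1, sy.skew f (g • f)] at k3
  rw [k2]
  simp only [map_add, map_sub, map_smul, smul_eq_mul, sy.skew u e]
  generalize g • f = f' at *
  match_scalars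
  · ring
  · ring
  · field_simp; linear_combination 2 * k3
  · ring

/-- Witt's lemma for families (possibly dependent) -/
theorem witt {ι : Type} [Fintype ι] (u v : ι → V) (hB : ∀ i j, B (v i) (v j) = B (u i) (u j))
    (h1 : ∀ c : ι → F, ∑ i, c i • u i = 0 ↔ ∑ i, c i • v i = 0) : ∃ g : G, ∀ i, g • u i = v i := by
  obtain ⟨σ, h2, h3⟩ := sy.toAl.witt u v hB h1
  obtain ⟨g, hg⟩ := sy.full σ h2
  exact ⟨g, fun i => by rw [hg, h3]⟩
theorem witt_li {ι : Type} [Fintype ι] {u v : ι → V} (hu : LinearIndependent F u)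
    (hv : LinearIndependent F v) (hB : ∀ i j, B (v i) (v j) = B (u i) (u j)) :
    ∃ g : G, ∀ i, g • u i = v i :=
  sy.witt u v hB fun c =>
    ⟨fun h => by simp [show c = 0 from funext (Fintype.linearIndependent_iff.1 hu c h)],
      fun h => by simp [show c = 0 from funext (Fintype.linearIndependent_iff.1 hv c h)]⟩
theorem witt1 (hv : v ≠ 0) (hw : w ≠ 0) : ∃ g : G, g • v = w :=
  (sy.witt_li (u := ![v]) (v := ![w]) (by simpa using hv) (by simpa using hw)
    (by simp [sy.alt])).imp fun _ h => h 0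
theorem witt2 {x' y' : V} (h : Ind F x y) (h' : Ind F x' y') (e : B x' y' = B x y) :
    ∃ g : G, g • x = x' ∧ g • y = y' :=
  (sy.witt_li h.li h'.li (by
    simp [Fin.forall_fin_succ, sy.alt, e, sy.skew y' x', sy.skew y x])).imp fun _ h => ⟨h 0, h 1⟩
theorem witt3 {x' y' z' : V} (h : Ind3 F x y z) (h' : Ind3 F x' y' z') (e1 : B x' y' = B x y)
    (e2 : B x' z' = B x z) (e3 : B y' z' = B y z) : ∃ g : G, g • x = x' ∧ g • y = y' ∧ g • z = z' :=
  (sy.witt_li h.li h'.li (by
    simp [Fin.forall_fin_succ, sy.alt, e1, e2, e3, sy.skew y' x', sy.skew y x, sy.skew z' x',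
      sy.skew z x, sy.skew z' y', sy.skew z y])).imp fun _ h => ⟨h 0, h 1, h 2⟩

end Sy

/-! ### the groups `Mp` -/
theorem Mp.sml : x ∈ Mp B H (c • e) ↔ c • x ∈ Mp B H e := by
  simp only [Mp, Set.mem_ofPred_eq, map_smul, LinearMap.smul_apply, Uu.sml]
namespace Sy
variable (sy : Sy B G)
include sy
theorem mp_zero (e : V) : (0 : V) ∈ Mp B H e := ⟨by simp, 1, H.one_mem, fun u => by simp⟩
theorem mp_symm (h : x ∈ Mp B H e) : e ∈ Mp B H x := ⟨sy.swap h.1, h.2.imp fun _ h => ⟨h.1, h.2.symm⟩⟩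
theorem mp_conj (hh : h ∈ H) (hx : x ∈ Mp B H e) : h • x ∈ Mp B H (h • e) := by
  obtain ⟨h1, g, hg, h2⟩ := hx
  exact ⟨by rw [sy.iso, h1], _, H.mul_mem (H.mul_mem hh hg) (H.inv_mem hh), sy.uu_conj h2 h⟩
theorem mp_conj_iff (hh : h ∈ H) : h • x ∈ Mp B H (h • e) ↔ x ∈ Mp B H e :=
  ⟨fun k => by simpa using sy.mp_conj (H.inv_mem hh) k, sy.mp_conj hh⟩
theorem mp_add' (hx : x ∈ Mp B H e) (hy : y ∈ Mp B H e) : x + y + (B y x / 2) • e ∈ Mp B H e := by
  obtain ⟨h1, g, hg, h2⟩ := hx; obtain ⟨h3, g', hg', h4⟩ := hy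
  exact ⟨by simp [h1, h3, sy.alt], _, H.mul_mem hg hg', sy.uu_mul h2 h4 h1⟩
theorem mp_neg (hx : x ∈ Mp B H e) : -x ∈ Mp B H e := by
  obtain ⟨h1, g, hg, h2⟩ := hx
  refine ⟨by simp [h1], _, H.inv_mem hg, fun u => ?_⟩
  rw [inv_smul_eq_iff, h2]
  simp only [map_add, map_smul, map_neg, LinearMap.add_apply, LinearMap.smul_apply,
    LinearMap.neg_apply, smul_eq_mul, sy.alt, sy.swap h1, h1]
  module
variable (nt : NoT B H)
include nt
theorem mp_sp (he : e ≠ 0) (hx : x ∈ Mp B H e) (h : x ∈ F ∙ e) : x = 0 := by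
  obtain ⟨c, rfl⟩ := Submodule.mem_span_singleton.1 h
  obtain ⟨-, g, hg, h2⟩ := hx
  have h3 := Uu.tr.1 h2
  rcases (sy.tr_eq_one h3).1 (nt g hg _ _ h3) with h | h
  · rw [(mul_eq_zero.1 h).resolve_left sy.two, zero_smul]
  · exact absurd h he
theorem mp_iso (he : e ≠ 0) (hx : x ∈ Mp B H e) (hy : y ∈ Mp B H e) : B x y = 0 := by
  have h1 := sy.mp_add' (sy.mp_add' hx hy) (sy.mp_neg (sy.mp_add' hy hx))
  have h2 := sy.mp_sp nt he h1 (Submodule.mem_span_singleton.2 ⟨B y x, by
    have := sy.two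
    simp only [map_add, map_neg, map_smul, LinearMap.add_apply, LinearMap.neg_apply,
      LinearMap.smul_apply, smul_eq_mul, sy.alt, hx.1, hy.1, sy.swap hx.1, sy.swap hy.1,
      sy.skew x y]
    match_scalars <;> field_simp <;> ring⟩)
  have := sy.two
  simp only [map_add, map_neg, map_smul, LinearMap.add_apply, LinearMap.neg_apply,
    LinearMap.smul_apply, smul_eq_mul, sy.alt, hx.1, hy.1, sy.swap hx.1, sy.swap hy.1,
    sy.skew x y] at h2
  have h3 : B y x • e = 0 := by rw [← h2]; match_scalars <;> field_simp <;> ring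
  exact sy.swap ((smul_eq_zero.1 h3).resolve_right he)
theorem mp_add (he : e ≠ 0) (hx : x ∈ Mp B H e) (hy : y ∈ Mp B H e) : x + y ∈ Mp B H e := by
  simpa [sy.mp_iso nt he hy hx] using sy.mp_add' hx hy
theorem mp_sub (he : e ≠ 0) (hx : x ∈ Mp B H e) (hy : y ∈ Mp B H e) : x - y ∈ Mp B H e := by
  rw [sub_eq_add_neg]; exact sy.mp_add nt he hx (sy.mp_neg hy)
end Sy

end H11.RS
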