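import Cfsg.Agent.H11.RS1

/-! S2195: the chunk `AB`. -/

set_option autoImplicit false
set_option linter.unusedSectionVars false

open Module MulAction H13.R3

namespace H11.RS

universe u

variable {F : Type u} [Field F] [Fintype F] {V : Type u} [AddCommGroup V] [Module F V] [Finite V]
  {G : Type u} [Group G] [Finite G] [DistribMulAction G V] [SMulCommClass G F V]
  {B : LinearMap.BilinForm F V} {H : Subgroup G} {g h t t' : G} {a b e v : V} {c d : F}

namespace Sy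
variable (sy : Sy B G)
include sy

/-- an element negating `a` and fixing `⟨a,b⟩^⊥` -/
theorem iv_of_neg (nt : NoT B H) (hh : h ∈ H) (hab : B a b ≠ 0) (ha : h • a = -a)
    (hw : ∀ w, B a w = 0 → B b w = 0 → h • w = w) : Iv B h a b := by
  refine ⟨hab, ha, ?_, hw⟩
  have h1 : h • b + b ∈ ln F a b := by
    rw [← sy.pp_pp (ln F a b)]
    intro w hw'
    obtain ⟨h1, h2⟩ := mem_pp_ln.1 hw'
    change B w _ = 0
    rw [map_add, sy.swap h2, add_zero, ← hw w h1 h2, sy.iso, sy.swap h2]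
  obtain ⟨μ, ρ, h1⟩ := mem_ln.1 h1
  have h2 := congrArg (B a) h1
  have h3 := sy.iso h a b
  rw [ha, map_neg, LinearMap.neg_apply] at h3
  simp only [map_add, map_smul, smul_eq_mul, sy.alt] at h2
  have h4 : ρ = 0 := (mul_eq_zero.1 (by linear_combination h2 - h3)).resolve_right hab
  rw [h4, zero_smul, add_zero, ← sub_eq_iff_eq_add] at h1
  have h5 : Tr B (h * h) a (2 * μ / B a b) := fun u => by
    have k := hw _ (sy.dec hab u).1 (sy.dec hab u).2
    rw [smul_sub, smul_sub, gsc, gsc, ha, ← h1, sub_sub, sub_eq_iff_eq_add] at k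
    have k2 := congrArg (h • ·) k
    simp only [smul_add, smul_sub, smul_neg, gsc, ha, ← h1] at k2
    rw [mul_smul, k2, k, sy.skew u a]
    match_scalars <;> field_simp <;> ring
  rcases (sy.tr_eq_one h5).1 (nt _ (H.mul_mem hh hh) _ _ h5) with h6 | h6
  · have : μ = 0 := by simpa [hab, sy.two] using h6
    rw [← h1, this]; simp
  · exact absurd (by simp [h6]) hab

theorem tt_apply (ht : Tr B t e c) (ht' : Tr B t' v d) (w : V) : (t⁻¹ * t') • w =
    w + (d * B w v) • v - (c * (B w e + d * B v e * B w v)) • e := by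
  rw [mul_smul, ht', sy.tr_inv ht]
  simp only [map_add, map_smul, LinearMap.add_apply, LinearMap.smul_apply, smul_eq_mul]
  match_scalars <;> ring

/-- an eigenvalue with a power equal to `-1` -/
theorem hasI_of (nt : NoT B H) (ht : Tr B t e c) (ht' : Tr B t' v d) (hH : t⁻¹ * t' ∈ H)
    (hd : d ≠ 0) (hκ : B v e ≠ 0) {s : F} (hs : s ^ 2 = c * d * B v e ^ 2 * (1 + s)) {N : ℕ}
    (hN : (1 + s) ^ N = -1) : HasI B H := by
  have h1 : (t⁻¹ * t') • (s • e - (d * B v e) • v) = (1 + s) • (s • e - (d * B v e) • v) := by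
    rw [sy.tt_apply ht ht']
    simp only [map_sub, map_smul, LinearMap.sub_apply, LinearMap.smul_apply, smul_eq_mul, sy.alt,
      sy.skew e v]
    match_scalars
    · linear_combination -hs
    · ring
  have h2 : ∀ n : ℕ, (t⁻¹ * t') ^ n • (s • e - (d * B v e) • v) =
      (1 + s) ^ n • (s • e - (d * B v e) • v) := fun n => by
    induction n with
    | zero => simp
    | succ n ih => rw [pow_succ', mul_smul, ih, gsc, h1, smul_smul, pow_succ]
  refine ⟨_, H.pow_mem hH N, _, e, sy.iv_of_neg nt (H.pow_mem hH N) ?_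
    (by rw [h2, hN, neg_one_smul]) fun w k1 k2 => ?_⟩
  · simp [sy.alt, hd, hκ]
  · have k3 : B v w = 0 := by simpa [k2, hd, hκ] using k1
    exact mem_stabilizer_iff.1 ((stabilizer G w).pow_mem (mem_stabilizer_iff.2 (by
      rw [sy.tt_apply ht ht', sy.swap k2, sy.swap k3]; simp)) N)

theorem ab_A (nt : NoT B H) {ν : F} (hν : ¬ IsSquare ν) (ht : Tr B t e 1) (ht' : Tr B t' v ν)
    (hH : t⁻¹ * t' ∈ H) (he : e ≠ 0) : HasI B H ∨ HasA B H := by
  have ν0 : ν ≠ 0 := by rintro rfl; exact hν IsSquare.zero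
  have nsq : ∀ x y : F, y ≠ 0 → x ^ 2 ≠ ν * y ^ 2 := fun x y hy h =>
    hν ⟨x / y, by field_simp; linear_combination -h⟩
  have hi : Ind F e v := ⟨he, fun h => by
    obtain ⟨s, rfl⟩ := Submodule.mem_span_singleton.1 h
    have h1 := sy.tr_mul (sy.tr_inv ht) (Tr.sml.1 ht')
    have h2 := ((sy.tr_eq_one h1).1 (nt _ hH _ _ h1)).resolve_right he
    exact nsq 1 s (by rintro rfl; simp at h2) (by linear_combination -h2)⟩
  by_cases h : ∀ w, B ((t⁻¹ * t') • w) w = 0 → w ∈ pp B (ln F e v)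
  · refine Or.inr ⟨_, hH, _, hi.finrank, fun w hw => ?_, h⟩
    rw [sy.tt_apply ht ht', sy.swap (mem_pp_ln.1 hw).1, sy.swap (mem_pp_ln.1 hw).2]; simp
  push Not at h
  obtain ⟨w, h1, h2⟩ := h
  rw [sy.tt_apply ht ht'] at h1
  simp only [map_add, map_sub, map_smul, LinearMap.add_apply, LinearMap.sub_apply,
    LinearMap.smul_apply, smul_eq_mul, sy.alt, sy.skew e w, sy.skew v w] at h1
  have hY : B w v ≠ 0 := fun hY => h2 (mem_pp_ln.2 ⟨sy.swap (by
    rw [hY] at h1; exact pow_eq_zero_iff (n := 2) (by norm_num) |>.1 (by linear_combination h1)),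
    sy.swap hY⟩)
  have hκ : B v e ≠ 0 := fun hκ => nsq (B w e) _ hY (by rw [hκ] at h1; linear_combination h1)
  have hs : (-B v e * B w e / B w v) ^ 2 = 1 * ν * B v e ^ 2 * (1 + -B v e * B w e / B w v) := by
    field_simp; linear_combination h1
  generalize -B v e * B w e / B w v = s at hs
  have h3 : 1 + s ≠ 0 := fun h => by
    rw [h, mul_zero, pow_eq_zero_iff (by norm_num)] at hs
    rw [hs] at h; simp at h
  have hc : ringChar F ≠ 2 := sy.char_ne _
  refine Or.inl (sy.hasI_of nt ht ht' hH ν0 hκ hs (N := Fintype.card F / 2)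
    ((FiniteField.pow_dichotomy hc h3).resolve_left fun h => ?_))
  obtain ⟨r, hr⟩ := (FiniteField.isSquare_iff hc h3).2 h
  exact nsq s (B v e * r) (mul_ne_zero hκ (by rintro rfl; exact h3 (by simpa using hr)))
    (by rw [hs, hr]; ring)

theorem ab_le (nt : NoT B H) (nI : ¬ HasI B H) {T : V → F → G} (hT : ∀ v c, Tr B (T v c) v c)
    (hc : c ≠ 0) (hd : d ≠ 0) :
    {a : V × V | a.1 ≠ 0 ∧ a.2 ≠ 0 ∧ (T a.1 c)⁻¹ * T a.2 c ∈ H}.ncard ≤
      {a : V × V | a.1 ≠ 0 ∧ a.2 ≠ 0 ∧ (T a.1 d)⁻¹ * T a.2 d ∈ H}.ncard := by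
  have two := sy.two
  have hq : ∀ κ : F, ∃ p : F × F, 1 + (c * κ / 2) ^ 2 ≠ 0 →
      p.1 ^ 2 - p.2 ^ 2 * (1 + (c * κ / 2) ^ 2) = c / d := fun κ => by
    by_cases h : 1 + (c * κ / 2) ^ 2 = 0
    · exact ⟨0, fun k => absurd h k⟩
    obtain ⟨x, y, hxy⟩ := FiniteField.exists_root_sum_quadratic
      (f := Polynomial.X ^ 2 - Polynomial.C (c / d))
      (g := Polynomial.C (-(1 + (c * κ / 2) ^ 2)) * Polynomial.X ^ 2)
      (Polynomial.degree_X_pow_sub_C (by norm_num) _)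
      (Polynomial.degree_C_mul_X_pow 2 (neg_ne_zero.2 h)) (Nat.odd_iff.1 sy.odd_card)
    refine ⟨(x, y), fun _ => ?_⟩
    simp only [Polynomial.eval_sub, Polynomial.eval_pow, Polynomial.eval_X, Polynomial.eval_C,
      Polynomial.eval_mul] at hxy
    linear_combination hxy
  choose p hp using hq
  have hD : ∀ e v : V, (T e c)⁻¹ * T v c ∈ H → 1 + (c * B v e / 2) ^ 2 ≠ 0 := fun e v h k =>
    nI (sy.hasI_of nt (hT e c) (hT v c) h hc (by rintro k'; simp [k'] at k) (s := -2)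
      (by field_simp at k; linear_combination k) (N := 1) (by ring))
  let φ : V × V → V × V := fun a =>
    (((p (B a.2 a.1)).1 - (p (B a.2 a.1)).2 * (c * B a.2 a.1 / 2)) • a.1 + (p (B a.2 a.1)).2 • a.2,
     (p (B a.2 a.1)).2 • a.1 + ((p (B a.2 a.1)).1 + (p (B a.2 a.1)).2 * (c * B a.2 a.1 / 2)) • a.2)
  have hκ : ∀ a : V × V, (T a.1 c)⁻¹ * T a.2 c ∈ H → B (φ a).2 (φ a).1 = c / d * B a.2 a.1 :=
    fun a h => by
      rw [← hp _ (hD _ _ h)]
      simp only [φ, map_add, map_smul, LinearMap.add_apply, LinearMap.smul_apply, smul_eq_mul,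
        sy.alt, sy.skew a.1 a.2]
      ring
  have hg : ∀ a : V × V, (T a.1 c)⁻¹ * T a.2 c ∈ H →
      (T (φ a).1 d)⁻¹ * T (φ a).2 d = (T a.1 c)⁻¹ * T a.2 c := fun a h => sy.ext fun w => by
    rw [sy.tt_apply (hT _ _) (hT _ _), sy.tt_apply (hT _ _) (hT _ _), hκ a h]
    have k := (eq_div_iff hd).1 (hp _ (hD _ _ h))
    obtain ⟨m, hm⟩ : ∃ m, c * B a.2 a.1 = 2 * m := ⟨c * B a.2 a.1 / 2, by field_simp⟩
    simp only [φ, map_add, map_smul, smul_eq_mul, hm, mul_div_cancel_left₀ m two,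
      show d * (c / d * B a.2 a.1) = 2 * m by rw [← hm]; field_simp] at k ⊢
    match_scalars
    · ring
    · linear_combination (-B w a.1 - 2 * m * B w a.2) * k
    · linear_combination (B w a.2) * k
  have hinv : ∀ a : V × V, (T a.1 c)⁻¹ * T a.2 c ∈ H →
      (c / d) • a.1 = ((p (B a.2 a.1)).1 + (p (B a.2 a.1)).2 * (c * B a.2 a.1 / 2)) • (φ a).1 -
        (p (B a.2 a.1)).2 • (φ a).2 ∧
      (c / d) • a.2 = ((p (B a.2 a.1)).1 - (p (B a.2 a.1)).2 * (c * B a.2 a.1 / 2)) • (φ a).2 -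
        (p (B a.2 a.1)).2 • (φ a).1 := fun a h => by
    rw [← hp _ (hD _ _ h)]
    constructor <;> simp only [φ] <;> match_scalars <;> ring
  have cd := div_ne_zero hc hd
  refine Set.ncard_le_ncard_of_injOn φ (fun a ha => ?_) (fun a ha b hb h => ?_)
  · have h1 := hg a ha.2.2 ▸ ha.2.2
    have h2 : (φ a).1 = 0 ↔ (φ a).2 = 0 := by
      constructor <;> intro k
      · rw [(sy.tr_eq_one (hT _ d)).2 (Or.inr k), inv_one, one_mul] at h1
        exact ((sy.tr_eq_one (hT _ d)).1 (nt _ h1 _ _ (hT _ d))).resolve_left hd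
      · rw [(sy.tr_eq_one (hT _ d)).2 (Or.inr k), mul_one, H.inv_mem_iff] at h1
        exact ((sy.tr_eq_one (hT _ d)).1 (nt _ h1 _ _ (hT _ d))).resolve_left hd
    have h3 : (φ a).1 ≠ 0 := fun k => ha.1 (by
      simpa [k, h2.1 k, cd] using (hinv a ha.2.2).1)
    exact ⟨h3, fun k => h3 (h2.2 k), h1⟩
  · have k : B a.2 a.1 = B b.2 b.1 := mul_left_cancel₀ cd (by rw [← hκ a ha.2.2, ← hκ b hb.2.2, h])
    have k1 := hinv a ha.2.2
    rw [h, k, ← (hinv b hb.2.2).1, ← (hinv b hb.2.2).2] at k1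
    exact Prod.ext (smul_right_injective V cd k1.1) (smul_right_injective V cd k1.2)

end Sy

theorem ab : AB.{u} := by
  intro F V G _ _ _ _ _ _ _ _ _ B H sy r3 nt
  classical
  obtain ⟨ν, hν⟩ := FiniteField.exists_nonsquare (F := F) (sy.char_ne _)
  have ν0 : ν ≠ 0 := by rintro rfl; exact hν IsSquare.zero
  choose T hT using sy.ex_tr
  by_contra hn
  have hB : ∀ e v, e ≠ 0 → (T e 1)⁻¹ * T v ν ∉ H := fun e v he h =>
    hn (sy.ab_A nt hν (hT e 1) (hT v ν) h he)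
  rw [not_or] at hn
  have cj : ∀ (h : G) v c, T (h • v) c = h * T v c * h⁻¹ := fun h v c =>
    sy.tr_unique (hT _ _) (sy.tr_conj (hT v c) h)
  have nH : ∀ v c, v ≠ 0 → c ≠ 0 → T v c ∉ H := fun v c hv hc h =>
    ((sy.tr_eq_one (hT v c)).1 (nt _ h _ _ (hT v c))).elim hc hv
  have dcT : ∀ v c g, DC H H (T v c) g → ∃ h ∈ H, (T (h • v) c)⁻¹ * g ∈ H := by
    rintro v c _ ⟨h, hh, k, hk, rfl⟩
    exact ⟨h, hh, by rw [cj]; simpa [mul_assoc] using H.mul_mem hh hk⟩
  obtain ⟨x, -, hx⟩ := ex_ne0 (A := (⊤ : Submodule F V)) (by rw [finrank_top]; have := sy.n6; omega)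
  have nd : ∀ e v, e ≠ 0 → ¬ DC H H (T e 1) (T v ν) := fun e v he h => by
    obtain ⟨h, -, k⟩ := dcT _ _ _ h
    exact hB _ _ (fun e => he (gsz.1 e)) k
  have tw := dc_two r3.le (nH x 1 hx one_ne_zero) (nH x ν hx ν0) (nd x x hx)
  let Δ : F → Set (G ⧸ H) := fun c => (fun v => (T v c : G ⧸ H)) '' {v | v ≠ 0}
  let m : F → ℕ := fun c => {v | v ≠ 0 ∧ (T x c)⁻¹ * T v c ∈ H}.ncard
  have key : ∀ c, (∀ v, v ≠ 0 → DC H H (T x c) (T v c)) →
      (Δ c).ncard * m c = {v : V | v ≠ 0}.ncard ∧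
      {a : V × V | a.1 ≠ 0 ∧ a.2 ≠ 0 ∧ (T a.1 c)⁻¹ * T a.2 c ∈ H}.ncard =
        {v : V | v ≠ 0}.ncard * m c := fun c hc => by
    have hm : ∀ e, e ≠ 0 → {v | v ≠ 0 ∧ (T e c)⁻¹ * T v c ∈ H}.ncard = m c := fun e he => by
      obtain ⟨h, hh, k⟩ := dcT _ _ _ (hc e he)
      rw [← Set.ncard_image_of_injective _ (MulAction.injective h⁻¹)]
      congr 1; ext v
      rw [Set.image_smul, Set.mem_inv_smul_set_iff, Set.mem_ofPred_eq, Set.mem_ofPred_eq,
        ← H.mul_mem_cancel_left k, cj, cj, Ne, gsz,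
        show (h * T x c * h⁻¹)⁻¹ * T e c * ((T e c)⁻¹ * (h * T v c * h⁻¹)) =
          h * ((T x c)⁻¹ * T v c) * h⁻¹ by group, H.mul_mem_cancel_right (H.inv_mem hh),
        H.mul_mem_cancel_left hh]
    constructor
    · rw [dcount (Δ c) {v | v ≠ 0} (fun y v => y = (T v c : G ⧸ H)) (n := 1) ?_ ?_, mul_one]
      · rintro _ ⟨e, he, rfl⟩
        simpa only [QuotientGroup.eq, Set.mem_ofPred_eq] using hm e he
      · intro v hv
        exact Set.ncard_eq_one.2 ⟨_, Set.ext fun y => ⟨fun h => h.2, fun h => ⟨⟨v, hv, h.symm⟩, h⟩⟩⟩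
    · exact ncard_pairs _ _ (fun a ha => ha.1) fun e he => by
        rw [← hm e he]; congr 1; ext v; exact and_iff_right he
  obtain ⟨k1, k2⟩ := key 1 fun v hv => ((tw _).resolve_left (nH v 1 hv one_ne_zero)).resolve_right
    fun h => nd v x hv h.symm
  obtain ⟨k3, k4⟩ := key ν fun v hv => ((tw _).resolve_left (nH v ν hv ν0)).resolve_left (nd x v hx)
  have hN : 0 < {v : V | v ≠ 0}.ncard := (Set.ncard_pos (Set.toFinite _)).2 ⟨x, hx⟩
  have k5 := le_antisymm (sy.ab_le nt hn.1 hT one_ne_zero ν0) (sy.ab_le nt hn.1 hT ν0 one_ne_zero)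
  rw [k2, k4, Nat.mul_right_inj hN.ne'] at k5
  have k6 : (Δ 1).ncard = (Δ ν).ncard := Nat.eq_of_mul_eq_mul_right
    (Nat.pos_of_ne_zero fun h : m 1 = 0 => by rw [h] at k1; omega) (by rw [k1, k5, k3])
  have k7 : (Set.univ : Set (G ⧸ H)) = insert ((1 : G) : G ⧸ H) (Δ 1 ∪ Δ ν) := by
    refine (Set.eq_univ_of_forall fun y => ?_).symm
    induction y using QuotientGroup.induction_on with
    | H g =>
      rcases tw g with h | h | h
      · exact Or.inl (QuotientGroup.eq.2 (by simpa using h))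
      all_goals obtain ⟨h, -, k⟩ := dcT _ _ _ h
      · exact Or.inr (Or.inl ⟨_, fun e => hx (gsz.1 e), QuotientGroup.eq.2 k⟩)
      · exact Or.inr (Or.inr ⟨_, fun e => hx (gsz.1 e), QuotientGroup.eq.2 k⟩)
  have k8 := congrArg Set.ncard k7
  rw [Set.ncard_insert_of_notMem, Set.ncard_union_eq, Set.ncard_univ] at k8
  · obtain ⟨y, hy⟩ := sy.ex_one hx 1
    obtain ⟨i, hi⟩ := sy.ex_iv (a := x) (b := y) (by simp [hy])
    have := Fintype.ofFinite (G ⧸ H)
    have := Fintype.ofFinite G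
    obtain ⟨z, hz⟩ := Equiv.Perm.exists_fixed_point_of_prime (p := 2) (n := 1)
      (σ := toPermHom G (G ⧸ H) i) (by rw [← Nat.card_eq_fintype_card]; omega)
      (by rw [← map_pow, pow_one, sq, sy.iv_sq hi, map_one])
    induction z using QuotientGroup.induction_on with
    | H g => exact hn.1 ⟨_, fix_iff.1 hz, _, _, by simpa using sy.iv_conj hi g⁻¹⟩
  · rw [Set.disjoint_left]
    rintro _ ⟨e, he, rfl⟩ ⟨v, -, h⟩
    exact hB e v he (QuotientGroup.eq.1 h.symm)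
  · rintro (⟨v, hv, h⟩ | ⟨v, hv, h⟩) <;> have h := QuotientGroup.eq.1 h.symm
    · exact nH v 1 hv one_ne_zero (by simpa using h)
    · exact nH v ν hv ν0 (by simpa using h)

end H11.RS
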