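import Cfsg.Agent.H11.RS1

/-! S2195: the chunk `CL`. -/

set_option autoImplicit false
set_option linter.unusedSectionVars false

open Module MulAction H13.R3

namespace H11.RS

universe u

variable {F : Type u} [Field F] [Fintype F] {V : Type u} [AddCommGroup V] [Module F V] [Finite V]
  {B : LinearMap.BilinForm F V} {R : Set V} {x y z w : V}

theorem ncard_fibre {α β : Type*} [Finite α] [Finite β] (X : Set α) (τ : α → β) (S : Set β)
    {m n : ℕ} (hm : ∀ t ∈ S, {y | y ∈ X ∧ τ y = t}.ncard = m)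
    (hn : ∀ t ∉ S, {y | y ∈ X ∧ τ y = t}.ncard = n) : X.ncard = S.ncard * m + Sᶜ.ncard * n := by
  have key : ∀ (S : Set β) (m : ℕ), (∀ t ∈ S, {y | y ∈ X ∧ τ y = t}.ncard = m) →
      S.ncard * m = {y | y ∈ X ∧ τ y ∈ S}.ncard := fun S m hm => by
    rw [dcount S {y | y ∈ X ∧ τ y ∈ S} (fun t y => τ y = t) (n := 1) (fun t ht => ?_)
      fun y hy => ?_, mul_one]
    · rw [← hm t ht]; congr 1; ext y
      exact ⟨fun h => ⟨h.1.1, h.2⟩, fun h => ⟨⟨h.1, h.2.symm ▸ ht⟩, h.2⟩⟩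
    · exact Set.ncard_eq_one.2 ⟨τ y, Set.ext fun t => ⟨fun h => h.2.symm, fun h => ⟨h ▸ hy.2, h.symm⟩⟩⟩
  rw [key S m hm, key Sᶜ n hn, ← Set.ncard_union_eq (Set.disjoint_left.2 fun y h k => k.2 h.2)]
  congr 1; ext y; simp only [Set.mem_union, Set.mem_ofPred_eq, Set.mem_compl_iff]; tauto

theorem ncard_sp (hx : x ≠ 0) : {u | u ∈ F ∙ x ∧ u ≠ 0}.ncard = Fintype.card F - 1 := by
  rw [ncard_ne0, finrank_span_singleton hx, pow_one]

/-- a homogeneous set of points -/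
structure Hm (B : LinearMap.BilinForm F V) (R : Set V) : Prop extends Al B where
  h0 : 0 ∉ R
  sc : ∀ v ∈ R, ∀ c : F, c ≠ 0 → c • v ∈ R
  hom : ∀ u v, u ≠ 0 → v ≠ 0 → (u ∈ R ↔ v ∈ R) → ∃ φ : V ≃ₗ[F] V, (∀ a b, B (φ a) (φ b) = B a b) ∧
    (∀ a, φ a ∈ R ↔ a ∈ R) ∧ φ u ∈ F ∙ v

namespace Hm
variable (hm : Hm B R)
include hm

theorem ne0 (h : x ∈ R) : x ≠ 0 := fun e => hm.h0 (e ▸ h)
theorem of_sp (h : x ∈ R) (hy : y ∈ F ∙ x) (h0 : y ≠ 0) : y ∈ R := by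
  obtain ⟨c, rfl⟩ := Submodule.mem_span_singleton.1 hy
  exact hm.sc x h c fun e => h0 (by simp [e])
theorem hom' (hx : x ≠ 0) (hy : y ≠ 0) (h : x ∈ R ↔ y ∈ R) : ∃ φ : V ≃ₗ[F] V,
    (∀ a b, B (φ a) (φ b) = B a b) ∧ (∀ a, φ a ∈ R ↔ a ∈ R) ∧ (∀ a, B y (φ a) = 0 ↔ B x a = 0) ∧
    ∀ a, φ a ∈ F ∙ y ↔ a ∈ F ∙ x := by
  obtain ⟨φ, h1, h2, h3⟩ := hm.hom x y hx hy h
  have h4 : φ x ≠ 0 := by simpa using hx
  refine ⟨φ, h1, h2, fun a => ?_, fun a => ?_⟩
  · rw [← h1 x, ← mem_pp_sp, ← mem_pp_sp, sp_eq h4 h3]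
  · rw [← sp_eq h4 h3]
    simp only [Submodule.mem_span_singleton, ← map_smul, EmbeddingLike.apply_eq_iff_eq]
theorem tr (hx : x ≠ 0) (hy : y ≠ 0) (h : x ∈ R ↔ y ∈ R) (k : ∀ a ∈ R, B x a = 0) :
    ∀ a ∈ R, B y a = 0 := fun a ha => by
  obtain ⟨φ, -, h2, h3, -⟩ := hm.hom' hx hy h
  obtain ⟨a, rfl⟩ := φ.surjective a
  exact (h3 a).2 (k a ((h2 a).1 ha))

/-- the case without perpendicular pairs -/
theorem ovoid (n4 : 4 ≤ finrank F V) (hp : ∀ x ∈ R, ∀ y ∈ R, B x y = 0 → y ∈ F ∙ x)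
    (hx : x ∈ R) (hy : y ∈ R) (hxy : B x y ≠ 0) : False := by
  have q3 := hm.three_le
  obtain ⟨z, h1, h2⟩ := ex_notMem (A := F ∙ x) (B := pp B (F ∙ x)) (by
    have := hm.finrank_pp (F ∙ x); rw [finrank_span_singleton (hm.ne0 hx)] at this ⊢; omega)
  rw [mem_pp_sp] at h1
  have nR : ∀ t : F, z + t • x ∉ R ∧ z + t • x ≠ 0 := fun t => by
    have : z + t • x ∉ F ∙ x := fun h =>
      h2 ((Submodule.add_mem_iff_left _ (Submodule.mem_span_singleton.2 ⟨t, rfl⟩)).1 h)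
    exact ⟨fun h => this (hp x hx _ h (by simp [h1, hm.alt])), fun h => this (h ▸ zero_mem _)⟩
  have hz := nR 0
  rw [zero_smul, add_zero] at hz
  obtain ⟨b, hb⟩ : ∃ b, b = {a | a ∈ R ∧ B z a = 0}.ncard := ⟨_, rfl⟩
  have N1 : ∀ v ∉ R, v ≠ 0 → {a | a ∈ R ∧ B v a = 0}.ncard = b := fun v hv h0 => by
    obtain ⟨φ, -, k1, k2, -⟩ := hm.hom' hz.2 h0 (iff_of_false hz.1 hv)
    rw [hb, ← Set.ncard_preimage_of_injective_subset_range φ.injective (by
      rw [φ.surjective.range_eq]; exact Set.subset_univ _)]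
    simp only [Set.preimage_ofPred_eq, k1, k2]
  have N2 : ∀ v ∈ R, {a | a ∈ R ∧ B v a = 0} = {a | a ∈ F ∙ v ∧ a ≠ 0} := fun v hv =>
    Set.ext fun a => ⟨fun h => ⟨hp v hv a h.1 h.2, hm.ne0 h.1⟩, fun h => ⟨hm.of_sp hv h.1 h.2, by
      obtain ⟨c, rfl⟩ := Submodule.mem_span_singleton.1 h.1; simp [hm.alt]⟩⟩
  have sp : ∀ (X : Set V) (w : V),
      X.ncard = {a | a ∈ X ∧ B w a ≠ 0}.ncard + {a | a ∈ X ∧ B w a = 0}.ncard := fun X w => by
    rw [← Set.ncard_union_eq (Set.disjoint_left.2 fun a h k => h.2 k.2)]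
    congr 1; ext a; simp only [Set.mem_union, Set.mem_ofPred_eq]; tauto
  have fib : ∀ (u w a : V) (t : F), (a ∈ {a | a ∈ R ∧ B w a ≠ 0} ∧ -B u a / B w a = t) ↔
      (a ∈ {a | a ∈ R ∧ B (u + t • w) a = 0} ∧ B w a ≠ 0) := fun u w a t => by
    simp only [Set.mem_ofPred_eq, map_add, map_smul, LinearMap.add_apply, LinearMap.smul_apply,
      smul_eq_mul]
    exact ⟨fun ⟨⟨h1, h2⟩, h3⟩ => ⟨⟨h1, by rw [← h3]; field_simp; ring⟩, h2⟩,
      fun ⟨⟨h1, h2⟩, h3⟩ => ⟨⟨h1, h3⟩, by field_simp; linear_combination -h2⟩⟩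
  obtain ⟨Q, hQ⟩ : ∃ Q, Fintype.card F = Q + 1 := ⟨Fintype.card F - 1, by omega⟩
  have N3 : ∀ v ∈ R, {a | a ∈ R ∧ B v a = 0}.ncard = Q := fun v hv => by
    rw [N2 v hv, ncard_sp (hm.ne0 hv), hQ, Nat.add_sub_cancel]
  let T := {a | a ∈ R ∧ B z a = 0 ∧ B x a = 1}
  have tg : ∀ t : F, {a | a ∈ {a | a ∈ R ∧ B (z + t • x) a = 0} ∧ B x a ≠ 0}.ncard + Q = b :=
    fun t => by
      rw [← N1 _ (nR t).1 (nR t).2, sp {a | a ∈ R ∧ B (z + t • x) a = 0} x, ← N3 x hx]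
      congr 2; ext a
      refine ⟨fun h => ⟨⟨h.1, ?_⟩, h.2⟩, fun h => ⟨h.1.1, h.2⟩⟩
      obtain ⟨c, rfl⟩ := Submodule.mem_span_singleton.1 (hp x hx a h.1 h.2)
      simp [hm.swap h1, hm.alt]
  have hT : T.ncard * Q + Q = b := by
    rw [← tg 0, dcount T {a | a ∈ {a | a ∈ R ∧ B (z + (0 : F) • x) a = 0} ∧ B x a ≠ 0}
      (fun u a => a ∈ F ∙ u) (n := 1) (fun u hu => ?_) fun a ha => ?_, mul_one]
    · rw [← Nat.add_sub_cancel Q 1, ← hQ, ← ncard_sp (hm.ne0 hu.1)]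
      congr 1; ext a
      refine ⟨fun h => ⟨h.2, hm.ne0 h.1.1.1⟩, fun h => ⟨⟨⟨hm.of_sp hu.1 h.1 h.2, ?_⟩, ?_⟩, h.1⟩⟩ <;>
        obtain ⟨c, rfl⟩ := Submodule.mem_span_singleton.1 h.1
      · simp [hu.2.1]
      · simpa [hu.2.2] using fun e : c = 0 => h.2 (by simp [e])
    · refine Set.ncard_eq_one.2 ⟨(B x a)⁻¹ • a, Set.ext fun u => ⟨fun h => ?_, ?_⟩⟩
      · obtain ⟨c, rfl⟩ := Submodule.mem_span_singleton.1 h.2
        have : c ≠ 0 := by simpa [h.1.2.2] using ha.2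
        simp [h.1.2.2, this]
      · rintro rfl
        exact ⟨⟨hm.sc a ha.1.1 _ (inv_ne_zero ha.2), by simpa [ha.2] using ha.1.2, by simp [ha.2]⟩,
          Submodule.mem_span_singleton.2 ⟨B x a, by simp [ha.2]⟩⟩
  have e1 := sp R x
  have pos : 0 < {a | a ∈ R ∧ B x a ≠ 0}.ncard := (Set.ncard_pos (Set.toFinite _)).2 ⟨y, hy, hxy⟩
  rw [N3 x hx] at e1
  rw [ncard_fibre {a | a ∈ R ∧ B x a ≠ 0} (fun a => -B z a / B x a) Set.univ (m := T.ncard * Q) (n := 0)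
    (fun t _ => by simp only [fib]; have := tg t; omega) (fun t ht => absurd trivial ht),
    Set.ncard_univ, Nat.card_eq_fintype_card, hQ, mul_zero, add_zero] at e1 pos
  have hw := nR 1
  rw [one_smul] at hw
  have hs : ∀ u ∈ T, {t : F | u + t • (z + x) ∈ R}.ncard * T.ncard = T.ncard + (Q + 1) := by
    intro u hu
    have k0 : B (z + x) u = 1 := by simp [hu.2.1, hu.2.2]
    have k1 : ∀ t : F, {a | a ∈ {a | a ∈ R ∧ B (u + t • (z + x)) a = 0} ∧ B (z + x) a ≠ 0} =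
        {a | a ∈ R ∧ B (u + t • (z + x)) a = 0} := fun t => Set.ext fun a =>
      and_iff_left_of_imp fun h k => by
        obtain ⟨c, rfl⟩ := Submodule.mem_span_singleton.1 (hp u hu.1 a h.1 (by
          have := h.2; rwa [map_add, map_smul, LinearMap.add_apply, LinearMap.smul_apply, k,
            smul_zero, add_zero] at this))
        rw [map_smul, k0, smul_eq_mul, mul_one] at k
        exact hm.h0 (by simpa [k] using h.1)
    have e2 := sp R (z + x)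
    rw [N1 _ hw.1 hw.2, ncard_fibre {a | a ∈ R ∧ B (z + x) a ≠ 0} (fun a => -B u a / B (z + x) a)
      {t : F | u + t • (z + x) ∈ R} (m := Q) (n := b)
      (fun t ht => by simp only [fib, k1]; exact N3 _ ht)
      (fun t ht => by
        simp only [fib, k1]
        refine N1 _ ht fun e => ?_
        have := congrArg (B (z + x)) e
        rw [map_add, map_smul, k0, hm.alt] at this; simp at this)] at e2
    have e3 := Set.ncard_add_ncard_compl {t : F | u + t • (z + x) ∈ R}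
    rw [Nat.card_eq_fintype_card, hQ] at e3
    generalize {t : F | u + t • (z + x) ∈ R}.ncard = s at *
    generalize {t : F | u + t • (z + x) ∈ R}ᶜ.ncard = s' at *
    refine Nat.eq_of_mul_eq_mul_right (show 0 < Q by omega) ?_
    zify at e1 e2 e3 hT ⊢
    linear_combination e2 - e1 - (s' + 1) * hT + (T.ncard * Q + Q) * e3
  obtain ⟨u₀, hu₀⟩ : T.Nonempty := Set.nonempty_of_ncard_ne_zero fun h => by simp [h] at pos
  have hT0 : 0 < T.ncard := (Set.ncard_pos (Set.toFinite _)).2 ⟨u₀, hu₀⟩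
  obtain ⟨s, hs0⟩ : ∃ s, {t : F | u₀ + t • (z + x) ∈ R}.ncard = s := ⟨_, rfl⟩
  have : Finite (V ⧸ (F ∙ (z + x))) := Finite.of_surjective _ (Submodule.mkQ_surjective _)
  have e4 := dcount ((F ∙ (z + x)).mkQ '' T) T (fun ξ u => (F ∙ (z + x)).mkQ u = ξ) (m := s) (n := 1)
    (by
      rintro _ ⟨u, hu, rfl⟩
      rw [← hs0, ← Nat.eq_of_mul_eq_mul_right hT0 ((hs u hu).trans (hs u₀ hu₀).symm),
        ← Set.ncard_image_of_injective _ (f := fun t : F => u + t • (z + x)) fun t t' h =>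
          smul_left_injective F hw.2 (add_left_cancel h)]
      congr 1; ext a
      simp only [Set.mem_ofPred_eq, Submodule.mkQ_apply, Submodule.Quotient.eq,
        Submodule.mem_span_singleton, Set.mem_image]
      constructor
      · rintro ⟨h, t, e⟩; exact ⟨t, by rw [e]; simpa using h.1, by rw [e]; simp⟩
      · rintro ⟨t, h, rfl⟩
        exact ⟨⟨h, by simp [hu.2.1, hm.alt, hm.swap h1], by simp [hu.2.2, hm.alt, h1]⟩, t, by simp⟩)
    fun u hu => Set.ncard_eq_one.2 ⟨_, Set.ext fun ξ =>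
      ⟨fun h => h.2.symm, fun h => ⟨⟨u, hu, h.symm⟩, h.symm⟩⟩⟩
  have e5 := hs u₀ hu₀
  have odd := hm.odd_card
  rw [hs0, ← hQ] at e5
  rcases Nat.even_or_odd s with h | h
  · have h' : Even T.ncard := by rw [← mul_one T.ncard, ← e4]; exact h.mul_left _
    exact Nat.not_even_iff_odd.2 (h'.add_odd odd) (e5 ▸ h'.mul_left _)
  · rcases Nat.even_or_odd T.ncard with h' | h'
    · exact Nat.not_even_iff_odd.2 (h'.add_odd odd) (e5 ▸ h'.mul_left _)
    · exact Nat.not_even_iff_odd.2 (h.mul h') (e5 ▸ h'.add_odd odd)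

end Hm

theorem cl : CL.{u} := by
  intro F V _ _ _ _ _ B R al n4 h0 sc ⟨x, hx⟩ ⟨z, hz, hz'⟩ hl hom
  have hm : Hm B R := ⟨al, h0, sc, hom⟩
  have sm : ∀ (c : F) a, a ∈ R ∨ a = 0 → c • a ∈ R ∨ c • a = 0 := fun c a ha => by
    by_cases hc : c = 0
    · simp [hc]
    · exact ha.imp (fun h => sc a h c hc) fun h => by simp [h]
  have ad : ∀ a b, a ∈ R ∨ a = 0 → b ∈ R ∨ b = 0 → B a b = 0 → a + b ∈ R ∨ a + b = 0 := by
    rintro a b (ha | rfl) (hb | rfl) h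
    · by_cases k : b ∈ F ∙ a
      · obtain ⟨c, rfl⟩ := Submodule.mem_span_singleton.1 k
        simpa [add_smul] using sm (1 + c) a (Or.inl ha)
      · exact or_iff_not_imp_right.2 (hl a ha b hb h ⟨hm.ne0 ha, k⟩ _ (add_mem l_ln r_ln))
    all_goals simp [*]
  have mk : (∀ a ∈ R, ∀ b ∈ R, a + b ∈ R ∨ a + b = 0) →
      ∃ M : Submodule F V, ∀ v, v ∈ M ↔ v ∈ R ∨ v = 0 := fun h =>
    ⟨{ carrier := {v | v ∈ R ∨ v = 0}
       zero_mem' := Or.inr rfl
       smul_mem' := sm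
       add_mem' := by
        rintro a b (ha | rfl) (hb | rfl)
        · exact h a ha b hb
        all_goals simp [*] }, fun _ => Iff.rfl⟩
  by_cases hA : ∀ a ∈ R, ∀ b ∈ R, B a b = 0
  · obtain ⟨M, hM⟩ := mk fun a ha b hb => ad a b (Or.inl ha) (Or.inl hb) (hA a ha b hb)
    refine ⟨M, fun v => by have := hm.ne0 (x := v); rw [hM]; tauto, le_antisymm (fun v hv => ?_)
      fun a ha b hb => ?_⟩
    · by_contra hn
      rw [hM, not_or] at hn
      obtain ⟨y, hy⟩ := al.ex_one (hm.ne0 hx) 1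
      have := al.swap (hm.tr hn.2 (y := y) (by rintro rfl; simp at hy) (iff_of_false hn.1 fun h => by
        simp [hA x hx y h] at hy) (fun a ha => al.swap (hv a ((hM a).2 (Or.inl ha)))) x hx)
      simp [this] at hy
    · rcases (hM a).1 ha with ha | rfl
      · rcases (hM b).1 hb with hb | rfl
        · exact hA b hb a ha
        · simp
      · simp
  exfalso
  push Not at hA
  obtain ⟨x₀, hx₀, y₀, hy₀, hxy⟩ := hA
  by_cases hp : ∀ x ∈ R, ∀ y ∈ R, B x y = 0 → y ∈ F ∙ x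
  · exact hm.ovoid n4 hp hx₀ hy₀ hxy
  push Not at hp
  obtain ⟨x₁, hx₁, x₂, hx₂, h12, hi⟩ := hp
  have pr : ∀ x ∈ R, ∀ a ∈ R, ∀ y, B x a = 0 → B y x ≠ 0 → a ∉ F ∙ x →
      a - (B y a / B y x) • x ∈ R := fun x hx a ha y h1 h2 h3 =>
    hl x hx a ha h1 ⟨hm.ne0 hx, h3⟩ _ (sub_mem r_ln (Submodule.smul_mem _ _ l_ln)) fun e =>
      h3 (Submodule.mem_span_singleton.2 ⟨_, (sub_eq_zero.1 e).symm⟩)
  have nc : ∀ x ∈ R, ∃ a ∈ R, ∃ b ∈ R, B x a = 0 ∧ B x b = 0 ∧ B a b ≠ 0 := fun x hx => by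
    obtain ⟨φ, -, k1, k2, k3⟩ := hm.hom' (hm.ne0 hx₁) (hm.ne0 hy₀) (iff_of_true hx₁ hy₀)
    have k4 := pr y₀ hy₀ _ ((k1 _).2 hx₂) x₀ ((k2 _).2 h12) hxy (mt (k3 _).1 hi)
    obtain ⟨ψ, l0, l1, l2, -⟩ := hm.hom' (hm.ne0 k4) (hm.ne0 hx) (iff_of_true k4 hx)
    refine ⟨_, (l1 _).2 hx₀, _, (l1 _).2 hy₀, (l2 _).2 (al.swap (by simp [hxy])),
      (l2 _).2 (al.swap (by simp [(k2 _).2 h12, al.alt])), by rwa [l0]⟩
  obtain ⟨M, hM⟩ := mk fun x hx y hy => by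
    by_cases h : B x y = 0
    · exact ad x y (Or.inl hx) (Or.inl hy) h
    have h' : B y x ≠ 0 := fun e => h (al.swap e)
    obtain ⟨a, ha, b, hb, h1, h2, h3⟩ := nc x hx
    have n1 : ∀ a b, B x b = 0 → B a b ≠ 0 → a ∉ F ∙ x := fun a b k1 k2 k => by
      obtain ⟨c, rfl⟩ := Submodule.mem_span_singleton.1 k; simp [k1] at k2
    have r1 := pr x hx a ha y h1 h' (n1 a b h2 h3)
    have r2 := pr x hx b hb y h2 h' (n1 b a h1 fun e => h3 (al.swap e))
    have s1 : B x (a - (B y a / B y x) • x) = 0 := by simp [h1, al.alt]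
    have s2 : B x (b - (B y b / B y x) • x) = 0 := by simp [h2, al.alt]
    have s3 : B y (a - (B y a / B y x) • x) = 0 := by simp [h']
    have s4 : B y (b - (B y b / B y x) • x) = 0 := by simp [h']
    have s5 : B (a - (B y a / B y x) • x) (b - (B y b / B y x) • x) ≠ 0 := by
      simpa [h2, al.alt, al.swap h1] using h3
    generalize a - (B y a / B y x) • x = r at *
    generalize b - (B y b / B y x) • x = r' at *
    have t : ∀ c : F, c * c = 1 → x + c • r + (y + (-c * B x y / B r r') • r') ∈ R ∨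
        x + c • r + (y + (-c * B x y / B r r') • r') = 0 := fun c hc =>
      ad _ _ (ad _ _ (Or.inl hx) (sm _ _ (Or.inl r1)) (by simp [s1]))
        (ad _ _ (Or.inl hy) (sm _ _ (Or.inl r2)) (by simp [s4])) (by
          simp only [map_add, map_smul, LinearMap.add_apply, LinearMap.smul_apply, smul_eq_mul, s2,
            al.swap s3]
          field_simp; linear_combination -B x y * B r r' * hc)
    have t2 := sm 2⁻¹ _ (ad _ _ (t 1 (by simp)) (t (-1) (by simp)) (by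
      simp only [map_add, map_smul, LinearMap.add_apply, LinearMap.smul_apply, smul_eq_mul, s1, s2,
        s3, s4, al.swap s1, al.swap s2, al.swap s3, al.swap s4, al.alt, al.skew y x, al.skew r' r]
      ring))
    have two := al.two
    convert t2 using 2 <;> match_scalars <;> field_simp <;> ring
  obtain ⟨w, hw, w0⟩ := ex_ne0 (A := pp B M) (by
    have := al.finrank_pp M
    have := Submodule.finrank_lt (s := M) fun e => by
      have := (hM z).1 (e ▸ trivial); tauto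
    omega)
  have hw' : ∀ a ∈ R, B w a = 0 := fun a ha => al.swap (hw a ((hM a).2 (Or.inl ha)))
  have h1 : w ∉ R := fun h => hxy (hm.tr w0 (hm.ne0 hx₀) (iff_of_true h hx₀) hw' y₀ hy₀)
  have h2 : w + x₀ ∉ M := fun h =>
    ((hM w).1 ((Submodule.add_mem_iff_left _ ((hM x₀).2 (Or.inl hx₀))).1 h)).elim h1 w0
  rw [hM, not_or] at h2
  exact hxy (by simpa [hw' y₀ hy₀] using hm.tr w0 h2.2 (iff_of_false h1 h2.1) hw' y₀ hy₀)

end H11.RS
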