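import Cfsg.Agent.H11.RS4

/-! S2195: the chunk `TWO`, part 1. -/

set_option autoImplicit false
set_option linter.unusedSectionVars false

open Module MulAction H13.R3

namespace H11.RS

universe u

variable {F : Type u} [Field F] [Fintype F] {V : Type u} [AddCommGroup V] [Module F V] [Finite V]
  {G : Type u} [Group G] [Finite G] [DistribMulAction G V] [SMulCommClass G F V]
  {B : LinearMap.BilinForm F V} {H : Subgroup G} {R : Set V} {h : G} {a b c e x y z w : V}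

/-- averaging with products of two transvections -/
theorem Hs.avg (sy : Sy B G) (hs : Hs B H) {X : Type*} [MulAction G X] [Finite X] {S T : Set X}
    (hT : T ⊆ S) (h1 : ∀ g : G, ∀ a ∈ S, g • a ∈ S) (h2 : ∀ a ∈ S, ∀ b ∈ S, ∃ g : G, g • a = b)
    (h3 : ∀ h ∈ H, ∀ a ∈ T, h • a ∈ T) {β : ℕ}
    (h : ∀ v v' : V, ∃ C ⊆ T, β ≤ C.ncard ∧ ∀ a ∈ C, ∀ t : G,
      (∀ w, B w v = 0 → B w v' = 0 → t • w = w) → t • a = a) : β * S.ncard ≤ T.ncard ^ 2 := by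
  obtain ⟨t, v, c, ht, htH⟩ := hs.nt
  refine H13.R3.avg hT h1 h2 fun g => ?_
  rcases diam hs.mx hs.r3.le htH g with hg | hg | ⟨k, hk, hg⟩
  · obtain ⟨C, hC, hβ, -⟩ := h v v
    exact hβ.trans (Set.ncard_le_ncard fun a ha => ⟨hC ha, h3 g hg a (hC ha)⟩)
  · obtain ⟨C, hC, hβ, h4⟩ := h v v
    rw [← hg.ncard h3]
    exact hβ.trans (Set.ncard_le_ncard fun a ha => ⟨hC ha, by
      rw [h4 a ha t fun w k _ => ht.fix k]; exact hC ha⟩)
  · obtain ⟨C, hC, hβ, h4⟩ := h v (k • v)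
    rw [← hg.ncard h3]
    exact hβ.trans (Set.ncard_le_ncard fun a ha => ⟨hC ha, by
      rw [h4 a ha _ fun w k1 k2 => by rw [mul_smul, (sy.tr_conj ht k).fix k2, ht.fix k1]]
      exact hC ha⟩)

theorem Hs.nk (sy : Sy B G) (hs : Hs B H) {M : Submodule F V} (hM : pp B M = M)
    (hH : ∀ h ∈ H, ∀ a ∈ M, h • a ∈ M) : False := by
  have d := sy.finrank_pp M
  have n6 := sy.n6
  rw [hM] at d
  have := hs.avg sy (S := {v : V | v ≠ 0}) (T := {v | v ∈ M ∧ v ≠ 0}) (β := 1) (fun _ h => h.2)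
    (fun g a ha e => ha (gsz.1 e)) (fun a ha b hb => sy.witt1 ha hb)
    (fun h hh a ha => ⟨hH h hh a ha.1, fun e => ha.2 (gsz.1 e)⟩) fun v v' => by
      obtain ⟨m, ⟨h1, h2⟩, h3⟩ := ex_ne0 (A := M ⊓ pp B (ln F v v')) (by
        have := finrank_inf_ge M (pp B (ln F v v'))
        have := sy.finrank_pp (ln F v v')
        have := finrank_ln_le (F := F) v v'
        omega)
      refine ⟨{m}, by rintro _ rfl; exact ⟨h1, h3⟩, by simp, ?_⟩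
      rintro _ rfl t ht
      exact ht _ (sy.swap (mem_pp_ln.1 h2).1) (sy.swap (mem_pp_ln.1 h2).2)
  rw [ncard_ne0, ncard_ne0' (F := F), ← d, pow_add] at this
  have h1 : 2 ≤ Fintype.card F ^ finrank F M :=
    (q2 F).trans (Nat.le_self_pow (by omega) _)
  generalize Fintype.card F ^ finrank F M = N at *
  obtain ⟨N, rfl⟩ : ∃ K, N = K + 1 := ⟨N - 1, by omega⟩
  rw [Nat.add_sub_cancel, show (N + 1) * (N + 1) - 1 = N ^ 2 + 2 * N by
    rw [show (N + 1) * (N + 1) = N ^ 2 + 2 * N + 1 by ring, Nat.add_sub_cancel]] at this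
  omega

/-- affine maps with two orbits -/
theorem aff (A : Set F) (p : ℕ) [hp : Fact p.Prime] [CharP F p]
    (tr : ∀ s t : F, (s ∈ A ↔ t ∈ A) → ∃ a b : F, a ≠ 0 ∧ (∀ u, a * u + b ∈ A ↔ u ∈ A) ∧ a * s + b = t)
    (h1 : 2 ≤ A.ncard) (h2 : ∃ s t : F, s ≠ t ∧ s ∉ A ∧ t ∉ A) : p ∣ A.ncard := by
  classical
  by_contra hn
  have nt : ∀ b : F, (∀ u, u + b ∈ A ↔ u ∈ A) → b = 0 := fun b hb => by
    have hb' : ∀ u, Equiv.addRight b u ∈ A ↔ u ∈ A := hb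
    obtain ⟨u, hu⟩ := Equiv.Perm.exists_fixed_point_of_prime (p := p) (n := 1)
      (σ := Equiv.Perm.subtypePerm (p := (· ∈ A)) (Equiv.addRight b) hb')
      (by rwa [← Nat.card_eq_fintype_card]) (by
        rw [Equiv.Perm.subtypePerm_pow, pow_one]; ext u
        simp)
    exact add_eq_left.1 (congrArg Subtype.val hu)
  obtain ⟨s, t, hs, ht, hst⟩ := (Set.one_lt_ncard_iff (Set.toFinite A)).1 h1
  obtain ⟨a, b, a0, k1, k2⟩ := tr s t (iff_of_true hs ht)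
  have a1 : 1 - a ≠ 0 := fun e => by
    have e' : a = 1 := by linear_combination -e
    rw [e'] at k1 k2
    rw [nt b (by simpa using k1)] at k2; exact hst (by simpa using k2)
  obtain ⟨t', k3, k4⟩ : ∃ t', t' ≠ b / (1 - a) ∧ (b / (1 - a) ∈ A ↔ t' ∈ A) := by
    by_cases h : b / (1 - a) ∈ A
    · by_cases e : s = b / (1 - a)
      exacts [⟨t, e ▸ Ne.symm hst, iff_of_true h ht⟩, ⟨s, e, iff_of_true h hs⟩]
    · obtain ⟨s, t, hst, hs, ht⟩ := h2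
      by_cases e : s = b / (1 - a)
      exacts [⟨t, e ▸ Ne.symm hst, iff_of_false h ht⟩, ⟨s, e, iff_of_false h hs⟩]
  obtain ⟨a', b', a0', k5, k6⟩ := tr _ _ k4
  have k7 := nt ((a' * b + b' - a * b' - b) / (a * a')) fun u => by
    rw [← k5, ← k1, ← k1 u, ← k5 (a * u + b)]
    exact iff_of_eq (by congr 1; field_simp; ring)
  apply k3
  rw [← k6]
  field_simp at k7 ⊢
  linear_combination k7

/-- one of two orbits on points -/
structure Ob (B : LinearMap.BilinForm F V) (H : Subgroup G) (R : Set V) : Prop where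
  sy : Sy B G
  h0 : 0 ∉ R
  sc : ∀ v ∈ R, ∀ c : F, c ≠ 0 → c • v ∈ R
  inv : ∀ h ∈ H, ∀ v, h • v ∈ R ↔ v ∈ R
  po : ∀ u v, u ≠ 0 → v ≠ 0 → (u ∈ R ↔ v ∈ R) → PO F H u v
  ne : R.Nonempty
  pr : ∃ z, z ≠ 0 ∧ z ∉ R

namespace Ob
variable (ob : Ob B H R)
include ob

theorem ne0 (h : x ∈ R) : x ≠ 0 := fun e => ob.h0 (e ▸ h)
theorem sc_iff {c : F} (hc : c ≠ 0) : c • x ∈ R ↔ x ∈ R :=
  ⟨fun h => by simpa [hc] using ob.sc _ h c⁻¹ (inv_ne_zero hc), fun h => ob.sc x h c hc⟩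
theorem sp_iff (hy : y ∈ F ∙ x) (h0 : y ≠ 0) : y ∈ R ↔ x ∈ R := by
  obtain ⟨c, rfl⟩ := Submodule.mem_span_singleton.1 hy
  exact ob.sc_iff fun e => h0 (by simp [e])
theorem po_iff (h : PO F H x y) (hx : x ≠ 0) : x ∈ R ↔ y ∈ R := by
  obtain ⟨k, hk, e⟩ := h
  rw [← ob.inv k hk, ob.sp_iff e fun e => hx (gsz.1 e)]
theorem ind (hx : x ≠ 0) (hy : y ≠ 0) (h : ¬ (x ∈ R ↔ y ∈ R)) : Ind F x y :=
  ⟨hx, fun e => h (ob.sp_iff e hy).symm⟩
theorem compl : Ob B H {v | v ≠ 0 ∧ v ∉ R} where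
  sy := ob.sy
  h0 h := h.1 rfl
  sc v h c hc := ⟨smul_ne_zero hc h.1, mt (ob.sc_iff hc).1 h.2⟩
  inv h hh v := by simp only [Set.mem_ofPred_eq, Ne, gsz, ob.inv h hh]
  po u v hu hv h := ob.po u v hu hv (by simpa [hu, hv, not_iff_not] using h)
  ne := ob.pr
  pr := ob.ne.imp fun x hx => ⟨ob.ne0 hx, fun h => h.2 hx⟩
theorem spl (h1 : B e a = 0) (h2 : Ind F e a) (h3 : b ∈ ln F e a) (h4 : b ∉ F ∙ e)
    (h5 : ¬ (a ∈ R ↔ b ∈ R)) : Spl B H e a b :=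
  ⟨h1, h2, h3, h4, fun k => h5 (ob.po_iff k.snd h2.ne0)⟩

/-- split pairs of the same type are conjugate -/
theorem star (nl : NLp B H) {e₁ x₁ y₁ e₂ x₂ y₂ : V} (s1 : Spl B H e₁ x₁ y₁) (s2 : Spl B H e₂ x₂ y₂)
    (h1 : e₁ ∉ R) (h2 : x₁ ∈ R) (h3 : y₁ ∉ R) (h4 : e₂ ∈ R) (h5 : x₂ ∈ R) (h6 : y₂ ∉ R)
    {e' a' b' : V} (s : Spl B H e a b) (s' : Spl B H e' a' b') (he : e ∈ R ↔ e' ∈ R)
    (ha : a ∈ R ↔ a' ∈ R) : PE2 F H e a e' a' := by
  have n : ∀ y, ¬ PE2 F H e₂ x₂ e₁ y := fun y k => h1 ((ob.po_iff k.fst (ob.ne0 h4)).1 h4)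
  have t : ∀ {e a b e' a' : V}, Spl B H e a b → PE2 F H e a e' a' →
      (e ∈ R ↔ e' ∈ R) ∧ (a ∈ R ↔ a' ∈ R) := fun s k =>
    ⟨ob.po_iff k.fst s.2.1.1, ob.po_iff k.snd s.2.1.ne0⟩
  rcases nl _ _ _ _ _ _ _ _ _ s1 s2 s (n _) (n _) with k | k | k | k <;>
    rcases nl _ _ _ _ _ _ _ _ _ s1 s2 s' (n _) (n _) with k' | k' | k' | k' <;>
    first
    | exact k.trans (k'.symm s'.2.1.1 s'.2.1.ne0)
    | (refine absurd (((t s k).1.symm.trans he).trans (t s' k').1) ?_; simp [h1, h4]; done)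
    | (refine absurd (((t s k).2.symm.trans ha).trans (t s' k').2) ?_; simp [h2, h3, h5, h6])

/-- some line has two points of `R` and a point outside -/
theorem step2 (cl : CL.{u}) (hs : Hs B H) :
    ∃ x ∈ R, ∃ y ∈ R, B x y = 0 ∧ Ind F x y ∧ ∃ w ∈ ln F x y, w ≠ 0 ∧ w ∉ R := by
  by_contra hn
  push Not at hn
  obtain ⟨M, h1, h2⟩ := cl F V B R ob.sy.toAl (by have := ob.sy.n6; omega) ob.h0 ob.sc ob.ne ob.pr hn
    fun u v hu hv h => by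
      obtain ⟨k, hk, e⟩ := ob.po u v hu hv h
      exact ⟨lin F V k, ob.sy.iso k, ob.inv k hk, e⟩
  refine hs.nk ob.sy h2 fun h hh a ha => ?_
  by_cases a0 : a = 0
  · simp [a0]
  · exact ((h1 _).1 ((ob.inv h hh a).2 ((h1 a).2 ⟨ha, a0⟩))).1

end Ob

end H11.RS
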