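import Cfsg.Agent.H11.RS5

/-! S2195: the chunk `TWO`, part 2. -/

set_option autoImplicit false
set_option linter.unusedSectionVars false

open Module MulAction H13.R3

namespace H11.RS

universe u

variable {F : Type u} [Field F] [Fintype F] {V : Type u} [AddCommGroup V] [Module F V] [Finite V]
  {G : Type u} [Group G] [Finite G] [DistribMulAction G V] [SMulCommClass G F V]
  {B : LinearMap.BilinForm F V} {H : Subgroup G} {R : Set V} {h : G} {a b c e x y z w : V}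

theorem add_notMem (hy : y ∉ F ∙ x) (t : F) : y + t • x ∉ F ∙ x := fun h =>
  hy ((Submodule.add_mem_iff_left _ (Submodule.mem_span_singleton.2 ⟨t, rfl⟩)).1 h)
theorem add_mem_ln (t : F) : y + t • x ∈ ln F x y := add_mem r_ln (Submodule.smul_mem _ _ l_ln)
theorem ne0_of (hy : y ∉ F ∙ x) : y ≠ 0 := fun e => hy (e ▸ zero_mem _)
theorem ex_aff (hw : w ∈ ln F x y) (h : w ∉ F ∙ x) : ∃ c t : F, c ≠ 0 ∧ w = c • (y + t • x) := by
  obtain ⟨a, c, rfl⟩ := mem_ln.1 hw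
  have hc : c ≠ 0 := by
    rintro rfl; exact h (Submodule.mem_span_singleton.2 ⟨a, by simp⟩)
  exact ⟨c, a / c, hc, by match_scalars <;> field_simp⟩
theorem Al.ti (al : Al B) (h : B x y = 0) (ha : a ∈ ln F x y) (hb : b ∈ ln F x y) : B a b = 0 := by
  obtain ⟨s, t, rfl⟩ := mem_ln.1 ha
  obtain ⟨s', t', rfl⟩ := mem_ln.1 hb
  simp [h, al.alt, al.swap h]

namespace Ob
variable (ob : Ob B H R)
include ob

theorem cnt_off {U : Submodule F V} (hx : x ∈ R) (hU : x ∈ U) :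
    {w | w ∈ U ∧ w ∈ R}.ncard = {w | (w ∈ U ∧ w ∈ R) ∧ w ∉ F ∙ x}.ncard + (Fintype.card F - 1) := by
  rw [← ncard_sp (ob.ne0 hx), ← Set.ncard_union_eq (Set.disjoint_left.2 fun a h k => h.2 k.1)]
  congr 1; ext w
  refine ⟨fun h => ?_, fun h => h.elim (·.1) fun h =>
    ⟨(Submodule.span_singleton_le_iff_mem _ _).2 hU h.1, (ob.sp_iff h.1 h.2).2 hx⟩⟩
  by_cases k : w ∈ F ∙ x
  exacts [Or.inr ⟨k, ob.ne0 h.2⟩, Or.inl ⟨h, k⟩]

theorem cnt_aff (hi : Ind F x y) : {t : F | y + t • x ∈ R}.ncard * (Fintype.card F - 1) =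
    {w | (w ∈ ln F x y ∧ w ∈ R) ∧ w ∉ F ∙ x}.ncard := by
  rw [dcount _ {w | (w ∈ ln F x y ∧ w ∈ R) ∧ w ∉ F ∙ x} (fun t w => w ∈ F ∙ (y + t • x)) (n := 1)
    (fun t ht => ?_) fun w hw => ?_, mul_one]
  · rw [← ncard_sp (ob.ne0 ht)]
    congr 1; ext w
    refine ⟨fun h => ⟨h.2, ob.ne0 h.1.1.2⟩, fun h => ⟨⟨⟨(Submodule.span_singleton_le_iff_mem _ _).2
      (add_mem_ln t) h.1, (ob.sp_iff h.1 h.2).2 ht⟩, fun k => add_notMem hi.2 t ?_⟩, h.1⟩⟩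
    rwa [← Submodule.span_singleton_le_iff_mem, ← sp_eq h.2 h.1, Submodule.span_singleton_le_iff_mem]
  · obtain ⟨c, t, hc, rfl⟩ := ex_aff hw.1.1 hw.2
    refine Set.ncard_eq_one.2 ⟨t, Set.ext fun s => ⟨fun h => ?_, ?_⟩⟩
    · obtain ⟨d, hd⟩ := Submodule.mem_span_singleton.1 h.2
      have := ind_iff.1 hi (d * s - c * t) (d - c) (by rw [← sub_eq_zero.2 hd]; module)
      exact mul_left_cancel₀ hc (by linear_combination this.1 - s * this.2)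
    · rintro rfl
      exact ⟨(ob.sc_iff hc).1 hw.1.2, Submodule.mem_span_singleton.2 ⟨c, rfl⟩⟩

theorem cnt_pe {e' a' : V} (h : PE2 F H e a e' a') (hi : Ind F e a) :
    {w | w ∈ ln F e a ∧ w ∈ R}.ncard = {w | w ∈ ln F e' a' ∧ w ∈ R}.ncard := by
  obtain ⟨h, hh, h1, h2⟩ := h
  rw [← ln_eq (hi.smul h) (sp_le_ln h1) (by rw [ln_comm]; exact sp_le_ln h2),
    ← Set.ncard_preimage_of_injective_subset_range (s := {w | w ∈ ln F (h • e) (h • a) ∧ w ∈ R})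
      (MulAction.injective h) (by rw [(MulAction.surjective h).range_eq]; exact Set.subset_univ _)]
  simp only [Set.preimage_ofPred_eq, smul_mem_ln_iff, ob.inv h hh]

theorem step1a (nl : NLp B H) {x' z' : V} (hx : x ∈ R) (hx' : x' ∈ R) (hi : Ind F x x')
    (hz : z ∈ ln F x x') (hz' : z' ∈ ln F x x') (hj : Ind F z z') (nz : z ∉ R) (nz' : z' ∉ R)
    {π : Submodule F V} (d3 : finrank F π = 3) (ti : π ≤ pp B π) (hL : ln F x x' ≤ π)
    (no : ∀ a ∈ π, ∀ b ∈ π, Ind F a b → ∃ c ∈ ln F a b, c ≠ 0 ∧ c ∉ R) : False := by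
  have sy := ob.sy
  have h0 : B x x' = 0 := ti (hL r_ln) _ (hL l_ln)
  have i1 : Ind F z x := ob.ind hj.1 hi.1 (by simp [hx, nz])
  have e1 : ln F z x = ln F x x' := ln_eq i1 hz l_ln
  have e2 : ln F x z = ln F x x' := ln_eq i1.symm l_ln hz
  have s1 : Spl B H z x z' := ob.spl (sy.ti h0 hz l_ln) i1 (e1 ▸ hz') hj.2 (by simp [hx, nz'])
  have s2 : Spl B H x x' z := ob.spl h0 hi hz i1.symm.2 (by simp [hx', nz])
  have s3 : Spl B H x z x' := ob.spl (sy.ti h0 l_ln hz) i1.symm (e2 ▸ r_ln) hi.2 (by simp [hx', nz])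
  have st := @ob.star _ _ _ _ _ _ _ _ _ _ _ _ _ _ _ 
  replace st := fun {e a b e' a' b'} => @st a b e nl _ _ _ _ _ _ s1 s2 nz hx nz' hx hx' nz e' a' b'
  obtain ⟨J, hJ⟩ : ∃ J, {w | w ∈ ln F x x' ∧ w ∈ R}.ncard = J := ⟨_, rfl⟩
  have mix : ∀ a c, a ∈ R → c ∉ R → c ≠ 0 → B a c = 0 → {w | w ∈ ln F a c ∧ w ∈ R}.ncard = J := by
    intro a c ha hc c0 hac
    have i : Ind F a c := ob.ind (ob.ne0 ha) c0 (by simp [ha, hc])
    have ia : Ind F a (c + (1 : F) • a) := ⟨i.1, add_notMem i.2 1⟩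
    have ic : Ind F c (c + (1 : F) • a) := by
      rw [one_smul, add_comm, ← one_smul F c]; exact ⟨by simpa, by simpa using add_notMem i.symm.2 1⟩
    have ea := ln_eq ia.symm (add_mem_ln 1) (l_ln (y := c))
    have ec := ln_eq ic.symm (add_mem_ln 1) (r_ln (x := a))
    by_cases hd : c + (1 : F) • a ∈ R
    · rw [← ec, ob.cnt_pe (st (ob.spl (sy.ti hac (add_mem_ln 1) r_ln) ic.symm (ec ▸ l_ln) ia.symm.2
        (by simp [ha, hc])) s3 (iff_of_true hd hx) (iff_of_false hc nz)) ic.symm, e2, hJ]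
    · rw [← ea, ob.cnt_pe (st (ob.spl (sy.ti hac (add_mem_ln 1) l_ln) ia.symm (ea ▸ r_ln) ic.symm.2
        (by simp [ha, hc])) s1 (iff_of_false hd nz) (iff_of_true ha hx)) ia.symm, e1, hJ]
  obtain ⟨Q, hQ⟩ : ∃ Q, Fintype.card F = Q + 1 := ⟨Fintype.card F - 1, by have := q2 F; omega⟩
  have q3 := sy.three_le
  have c1 := ob.cnt_off hx (l_ln (y := x'))
  rw [← ob.cnt_aff hi, hJ, hQ, Nat.add_sub_cancel] at c1
  have c2 := ob.cnt_off hx (hL l_ln)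
  have c3 := dcount {a | a ∈ π ∧ a ∉ F ∙ x} {w | (w ∈ π ∧ w ∈ R) ∧ w ∉ F ∙ x}
    (fun a b => b ∈ ln F x a) (m := {t : F | x' + t • x ∈ R}.ncard * Q) (n := (Q + 1) ^ 2 - (Q + 1))
    (fun a ha => by
      obtain ⟨c, k1, k2, k3⟩ := no x (hL l_ln) a ha.1 ⟨hi.1, ha.2⟩
      have k4 := mix x c hx k3 k2 (ti (ln_le.2 ⟨hL l_ln, ha.1⟩ k1) _ (hL l_ln))
      rw [ln_eq (ob.ind hi.1 k2 (by simp [hx, k3])) l_ln k1, ob.cnt_off hx l_ln, c1, hQ,
        Nat.add_sub_cancel, Nat.add_right_cancel_iff] at k4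
      rw [← k4]; congr 1; ext w
      exact ⟨fun h => ⟨⟨h.2, h.1.1.2⟩, h.1.2⟩, fun h =>
        ⟨⟨⟨ln_le.2 ⟨hL l_ln, ha.1⟩ h.1.1, h.1.2⟩, h.2⟩, h.1.1⟩⟩)
    (fun b hb => by
      have i : Ind F x b := ⟨hi.1, hb.2⟩
      rw [← hQ, ← i.finrank, ← ncard_off hi.1 l_ln]; congr 1; ext a
      exact ⟨fun h => ⟨ln_eq i l_ln h.2 ▸ r_ln, h.1.2⟩, fun h =>
        ⟨⟨ln_le.2 ⟨hL l_ln, hb.1.1⟩ h.1, h.2⟩, ln_eq ⟨hi.1, h.2⟩ l_ln h.1 ▸ r_ln⟩⟩)
  have : Finite (Submodule F V) := Finite.of_injective _ SetLike.coe_injective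
  have c4 := dcount (ln F z '' {w | w ∈ π ∧ w ∈ R}) {w | w ∈ π ∧ w ∈ R} (fun ξ b => ln F z b = ξ)
    (m := J) (n := 1) (by
      rintro _ ⟨a, ha, rfl⟩
      rw [← mix a z ha.2 nz hj.1 (ti (hL hz) _ ha.1), ln_comm a]; congr 1; ext b
      exact ⟨fun h => ⟨h.2 ▸ r_ln, h.1.2⟩, fun h => ⟨⟨ln_le.2 ⟨hL hz, ha.1⟩ h.1, h.2⟩,
        ln_eq (ob.ind hj.1 (ob.ne0 h.2) (by simp [h.2, nz])) l_ln h.1⟩⟩)
    fun b hb => Set.ncard_eq_one.2 ⟨_, Set.ext fun ξ =>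
      ⟨fun h => h.2.symm, fun h => ⟨⟨b, hb, h.symm⟩, h.symm⟩⟩⟩
  rw [ncard_off hi.1 (hL l_ln), d3, hQ,
    show (Q + 1) ^ 3 - (Q + 1) = (Q + 1) * Q * (Q + 2) from Nat.sub_eq_of_eq_add (by ring),
    show (Q + 1) ^ 2 - (Q + 1) = (Q + 1) * Q from Nat.sub_eq_of_eq_add (by ring)] at c3
  rw [hQ, Nat.add_sub_cancel] at c2
  have A0 : 0 < {t : F | x' + t • x ∈ R}.ncard :=
    (Set.ncard_pos (Set.toFinite _)).2 ⟨0, by simpa using hx'⟩
  obtain ⟨p, hc⟩ := CharP.exists F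
  have hp := Fact.mk (CharP.char_is_prime F p)
  have p2 := sy.char_ne p
  have dv : p ∣ {t : F | x' + t • x ∈ R}.ncard + 1 := by
    generalize {t : F | x' + t • x ∈ R}.ncard = A at *
    generalize (ln F z '' {w | w ∈ π ∧ w ∈ R}).ncard = N at *
    have c5 : {w | (w ∈ π ∧ w ∈ R) ∧ w ∉ F ∙ x}.ncard = (Q + 2) * (A * Q) :=
      Nat.eq_of_mul_eq_mul_right (show 0 < (Q + 1) * Q from Nat.mul_pos (by omega) (by omega)) (by rw [← c3]; ring)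
    have c6 : N * (A + 1) + (Q + 1) = (Q + 2) * (A + 1) :=
      Nat.eq_of_mul_eq_mul_right (show 0 < Q by omega) (by
        rw [c2, c5, c1] at c4; linear_combination c4)
    have c7 : A + 1 ∣ Q + 1 := (Nat.dvd_add_right (Dvd.intro_left _ rfl)).1 (c6 ▸ Dvd.intro_left _ rfl)
    obtain ⟨n, -, hn⟩ := FiniteField.card F p
    rw [← hQ, hn] at c7
    obtain ⟨i, -, hi⟩ := (Nat.dvd_prime_pow hp.out).1 c7
    rw [hi]; exact dvd_pow_self p (by rintro rfl; simp at hi; omega)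
  have p3 := hp.out.two_le
  have dv2 := aff {t : F | x' + t • x ∈ R} p (fun s t hst => by
    have sp : ∀ s : F, ∃ b, Spl B H x (x' + s • x) b := fun s => by
      have i : Ind F x (x' + s • x) := ⟨hi.1, add_notMem hi.2 s⟩
      have e := ln_eq i l_ln (add_mem_ln s)
      by_cases k : x' + s • x ∈ R
      · exact ⟨z, ob.spl (by simp [h0, sy.alt]) i (e ▸ hz) i1.symm.2 (by simp [k, nz])⟩
      · exact ⟨x', ob.spl (by simp [h0, sy.alt]) i (e ▸ r_ln) hi.2 (by simp [k, hx'])⟩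
    obtain ⟨b, hb⟩ := sp s
    obtain ⟨b', hb'⟩ := sp t
    obtain ⟨h, hh, k1, k2⟩ := st hb hb' Iff.rfl hst
    obtain ⟨α, k1⟩ := Submodule.mem_span_singleton.1 k1
    obtain ⟨β, k2⟩ := Submodule.mem_span_singleton.1 k2
    have α0 : α ≠ 0 := by rintro rfl; exact hi.1 (gsz.1 (by rw [← k1, zero_smul]))
    have β0 : β ≠ 0 := by rintro rfl; exact hb.2.1.ne0 (gsz.1 (by rw [← k2, zero_smul]))
    refine ⟨α / β, t - α / β * s, div_ne_zero α0 β0, fun u => ?_, by ring⟩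
    rw [Set.mem_ofPred_eq, Set.mem_ofPred_eq, ← ob.inv h hh (x' + u • x), ← ob.sc_iff β0,
      show x' + u • x = x' + s • x + (u - s) • x by module, smul_add h, gsc, ← k1, ← k2]
    exact iff_of_eq (by congr 1; match_scalars <;> field_simp <;> ring))
    (by have := Nat.le_of_dvd (by omega) dv; omega) (by
      obtain ⟨c, s, hc, rfl⟩ := ex_aff hz i1.symm.2
      obtain ⟨d, t, hd, rfl⟩ := ex_aff hz' (ob.ind hi.1 hj.ne0 (by simp [hx, nz'])).2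
      refine ⟨s, t, ?_, mt (ob.sc_iff hc).2 nz, mt (ob.sc_iff hd).2 nz'⟩
      rintro rfl
      exact hj.2 (Submodule.mem_span_singleton.2 ⟨d / c, by rw [smul_smul, div_mul_cancel₀ _ hc]⟩))
  have := Nat.le_of_dvd one_pos ((Nat.dvd_add_right dv2).1 dv)
  omega

/-- no line has two points of each type -/
theorem step1 (nl : NLp B H) {x' z' : V} (hx : x ∈ R) (hx' : x' ∈ R) (hi : Ind F x x')
    (h0 : B x x' = 0) (hz : z ∈ ln F x x') (hz' : z' ∈ ln F x x') (z0 : z ≠ 0) (z0' : z' ≠ 0)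
    (nz : z ∉ R) (nz' : z' ∉ R) : z' ∈ F ∙ z := by
  by_contra hj
  have hj : Ind F z z' := ⟨z0, hj⟩
  have sy := ob.sy
  obtain ⟨w, h1, h2⟩ := ex_notMem (A := ln F x x') (B := pp B (ln F x x')) (by
    have := sy.finrank_pp (ln F x x'); have := hi.finrank; have := sy.n6; omega)
  rw [mem_pp_ln] at h1
  have d3 := Ind3.finrank ⟨hi, h2⟩
  have ti : pl F x x' w ≤ pp B (pl F x x' w) := pl_le.2 ⟨mem_pp_pl.2 ⟨sy.alt _, sy.swap h0,
    sy.swap h1.1⟩, mem_pp_pl.2 ⟨h0, sy.alt _, sy.swap h1.2⟩, mem_pp_pl.2 ⟨h1.1, h1.2, sy.alt _⟩⟩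
  by_cases no : ∀ a ∈ pl F x x' w, ∀ b ∈ pl F x x' w, Ind F a b → ∃ c ∈ ln F a b, c ≠ 0 ∧ c ∉ R
  · exact ob.step1a nl hx hx' hi hz hz' hj nz nz' d3 ti ln_le_pl no
  push Not at no
  obtain ⟨a, ha, b, hb, hab, no⟩ := no
  have e := ln_eq hj hz hz'
  refine ob.compl.step1a nl ⟨z0, nz⟩ ⟨z0', nz'⟩ hj (e ▸ l_ln) (e ▸ r_ln) hi (fun h => h.2 hx)
    (fun h => h.2 hx') d3 ti (e ▸ ln_le_pl) fun a' ha' b' hb' hab' => ?_
  obtain ⟨c, hc, c0⟩ := ex_ne0 (A := ln F a b ⊓ ln F a' b') (by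
    have := Submodule.finrank_sup_add_finrank_inf_eq (ln F a b) (ln F a' b')
    have := Submodule.finrank_mono (sup_le (ln_le.2 ⟨ha, hb⟩) (ln_le.2 ⟨ha', hb'⟩))
    have := hab.finrank; have := hab'.finrank; omega)
  exact ⟨c, hc.2, c0, fun h => h.2 (no c hc.1 c0)⟩

end Ob

end H11.RS
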