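import Cfsg.Agent.H11.RS6

/-! S2195: the chunk `TWO`, part 3. -/

set_option autoImplicit false
set_option linter.unusedSectionVars false

open Module MulAction H13.R3

namespace H11.RS

universe u

variable {F : Type u} [Field F] [Fintype F] {V : Type u} [AddCommGroup V] [Module F V] [Finite V]
  {G : Type u} [Group G] [Finite G] [DistribMulAction G V] [SMulCommClass G F V]
  {B : LinearMap.BilinForm F V} {H : Subgroup G} {R : Set V} {h : G} {a b c e x y z w : V}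

/-- the union of the lines through `x` with a second point of `R` -/
def Mq (B : LinearMap.BilinForm F V) (R : Set V) (x : V) : Set V :=
  {w | B x w = 0 ∧ (w ∈ F ∙ x ∨ ∃ y ∈ R, y ∈ ln F x w ∧ y ∉ F ∙ x)}

theorem Mq.of_ln (al : Al B) (hx : x ≠ 0) (h : w ∈ Mq B R x) (ha : a ∈ ln F x w) : a ∈ Mq B R x := by
  refine ⟨al.ti h.1 l_ln ha, or_iff_not_imp_left.2 fun k => ?_⟩
  rcases h.2 with h | h
  · exact absurd (ln_le.2 ⟨Submodule.mem_span_singleton_self x, h⟩ ha) k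
  · rwa [ln_eq ⟨hx, k⟩ l_ln ha]
theorem Mq.of_mem (hy : y ∈ R) (h : B x y = 0) : y ∈ Mq B R x :=
  ⟨h, or_iff_not_imp_left.2 fun k => ⟨y, hy, r_ln, k⟩⟩
theorem Mq.sp (hy : y ≠ 0) (h : y ∈ F ∙ x) : Mq B R y = Mq B R x := by
  simp only [Mq, ← mem_pp_sp, ln_eq_sup, sp_eq hy h]
theorem Ob.mq_smul (ob : Ob B H R) (hh : h ∈ H) : h • w ∈ Mq B R (h • x) ↔ w ∈ Mq B R x := by
  simp only [Mq, Set.mem_ofPred_eq, ob.sy.iso, smul_mem_sp_iff]
  refine and_congr_right' (or_congr_right ⟨fun ⟨y, h1, h2⟩ => ?_, fun ⟨y, h1, h2⟩ =>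
    ⟨h • y, (ob.inv h hh y).2 h1, by simpa only [smul_mem_ln_iff, smul_mem_sp_iff] using h2⟩⟩)
  obtain ⟨y, rfl⟩ := MulAction.surjective h y
  exact ⟨y, (ob.inv h hh y).1 h1, by simpa only [smul_mem_ln_iff, smul_mem_sp_iff] using h2⟩

/-- the situation of step 3 -/
structure S3 (B : LinearMap.BilinForm F V) (H : Subgroup G) (R : Set V) : Prop extends Ob B H R where
  nl : NLp B H
  no : ∀ a b, B a b = 0 → Ind F a b → ∃ c ∈ ln F a b, c ≠ 0 ∧ c ∉ R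
  hq : ∃ x ∈ R, ∃ y ∈ R, B x y = 0 ∧ Ind F x y
  h1 : ∃ z, z ∉ R ∧ ∃ z', z' ∉ R ∧ B z z' = 0 ∧ Ind F z z' ∧ ∃ x ∈ ln F z z', x ∈ R

namespace S3
variable (s : S3 B H R)
include s

theorem lq (hx : x ∈ R) (hw : w ∈ Mq B R x) (h1 : w ∉ F ∙ x) (h2 : w ∉ R) {r : F} (hr : r ≠ 0) :
    w + r • x ∈ R := by
  obtain ⟨y, k1, k2, k3⟩ := hw.2.resolve_left h1
  have i : Ind F x y := ⟨s.ne0 hx, k3⟩
  have e := ln_eq i l_ln k2
  by_contra hn
  obtain ⟨c, hc⟩ := Submodule.mem_span_singleton.1 (s.step1 s.nl hx k1 i (s.sy.ti hw.1 l_ln k2)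
    (e ▸ r_ln) (e ▸ add_mem_ln r) (ne0_of h1) (ne0_of (add_notMem h1 r)) h2 hn)
  exact hr (ind_iff.1 (⟨i.1, h1⟩ : Ind F x w) r (1 - c) (by
    rw [← sub_eq_zero.2 hc.symm]; module)).1
theorem lz (hx : x ∈ R) (h0 : B x w = 0) (h1 : w ∉ F ∙ x) : ∃ r : F, w + r • x ∉ R := by
  obtain ⟨c, k1, k2, k3⟩ := s.no x w h0 ⟨s.ne0 hx, h1⟩
  obtain ⟨d, t, hd, rfl⟩ := ex_aff k1 (s.ind (s.ne0 hx) k2 (by simp [hx, k3])).2
  exact ⟨t, mt (s.sc_iff hd).2 k3⟩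
theorem pm (ha : a ∈ R) (hb : b ∈ R) (hi : Ind F a b) (h0 : B a b = 0) : a + b ∈ R ∨ a - b ∈ R := by
  by_contra hn
  rw [not_or] at hn
  have k := ind_iff.1 hi
  obtain ⟨c, hc⟩ := Submodule.mem_span_singleton.1 (s.step1 s.nl ha hb hi h0 (add_mem l_ln r_ln)
    (sub_mem l_ln r_ln) (fun e => one_ne_zero (k 1 1 (by simpa using e)).1)
    (fun e => one_ne_zero (k 1 (-1) (by simpa [sub_eq_add_neg] using e)).1) hn.1 hn.2)
  have := k (c - 1) (c + 1) (by rw [← sub_eq_zero.2 hc]; module)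
  exact s.sy.two (by linear_combination this.2 - this.1)

theorem closed (hx : x ∈ R) (ha : a ∈ Mq B R x) (hb : b ∈ Mq B R x) (h0 : B a b = 0) :
    a + b ∈ Mq B R x := by
  have al := s.sy.toAl
  have x0 := s.ne0 hx
  by_cases k1 : a ∈ F ∙ x
  · exact Mq.of_ln al x0 hb (add_mem (sp_le_ln k1) r_ln)
  by_cases k2 : b ∈ ln F x a
  · exact Mq.of_ln al x0 ha (add_mem r_ln k2)
  obtain ⟨r, hr⟩ := s.lz hx ha.1 k1
  obtain ⟨r', hr'⟩ := s.lz hx hb.1 fun e => k2 (sp_le_ln e)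
  have k := Fintype.linearIndependent_iff.1 (Ind3.li ⟨⟨x0, k1⟩, k2⟩)
  replace k : ∀ c d t : F, c • a + d • b = t • x → c = 0 ∧ d = 0 := fun c d t h => by
    have := k ![-t, c, d] (by simp [Fin.sum_univ_three, add_assoc, h])
    exact ⟨this 1, this 2⟩
  obtain ⟨t, ht⟩ := s.lz hx (w := a - b) (by simp [ha.1, hb.1]) fun e => by
    obtain ⟨c, hc⟩ := Submodule.mem_span_singleton.1 e
    exact one_ne_zero (k 1 (-1) c (by rw [hc]; module)).1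
  obtain ⟨u, u1, u2⟩ : ∃ u : F, u ≠ 0 ∧ u + (t - r + r') ≠ 0 := by
    by_cases h : t - r + r' = 0
    · exact ⟨1, one_ne_zero, by simp [h]⟩
    · exact ⟨_, h, by rw [← two_mul]; exact mul_ne_zero al.two h⟩
  have m1 := s.lq hx (Mq.of_ln al x0 ha (add_mem_ln r)) (add_notMem k1 r) hr u2
  have m2 := s.lq hx (Mq.of_ln al x0 hb (add_mem_ln r')) (add_notMem (fun e => k2 (sp_le_ln e)) r') hr' u1
  rcases s.pm m1 m2 (ind_iff.2 fun c d h => k c d (-(c * (r + (u + (t - r + r'))) + d * (r' + u)))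
    (by rw [← sub_eq_zero, ← h]; module))
    (by simp [h0, al.alt, hb.1, al.swap ha.1]) with m | m
  · refine ⟨by simp [ha.1, hb.1], Or.inr ⟨_, m, mem_ln.2 ⟨r + (u + (t - r + r')) + (r' + u), 1,
      by module⟩, fun e => ?_⟩⟩
    obtain ⟨c, hc⟩ := Submodule.mem_span_singleton.1 e
    exact one_ne_zero (k 1 1 (c - (r + (u + (t - r + r')) + (r' + u))) (by
      rw [sub_smul, hc]; module)).1
  · exact absurd (by convert m using 1; module) ht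

theorem ex1 (hx : x ∈ R) : ∃ z, B x z = 0 ∧ z ∉ Mq B R x := by
  obtain ⟨z, hz, z', hz', h0, hi, y, h1, hy⟩ := s.h1
  obtain ⟨h, hh, e⟩ := s.po y x (s.ne0 hy) (s.ne0 hx) (iff_of_true hy hx)
  have h2 : h • y ≠ 0 := fun e => s.ne0 hy (gsz.1 e)
  refine ⟨h • z, ?_, ?_⟩
  · rw [← mem_pp_sp, ← sp_eq h2 e, mem_pp_sp, s.sy.iso]; exact s.sy.ti h0 h1 l_ln
  rw [← Mq.sp h2 e, s.mq_smul hh]
  have i := s.ind (s.ne0 hy) hi.1 (by simp [hy, hz])
  rintro ⟨k, k' | ⟨y', k1, k2, k3⟩⟩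
  · exact i.2 k'
  have i' : Ind F y y' := ⟨i.1, k3⟩
  have e1 := (ln_eq i' l_ln k2).trans (ln_eq i h1 l_ln)
  exact hi.2 (s.step1 s.nl hy k1 i' (s.sy.ti k l_ln k2) (e1 ▸ l_ln) (e1 ▸ r_ln) hi.1 hi.ne0 hz hz')

theorem exq (hx : x ∈ R) : ∃ y ∈ R, B x y = 0 ∧ y ∉ F ∙ x := by
  obtain ⟨y, hy, y', hy', h0, hi⟩ := s.hq
  obtain ⟨h, hh, e⟩ := s.po y x (s.ne0 hy) (s.ne0 hx) (iff_of_true hy hx)
  have h2 : h • y ≠ 0 := fun e => s.ne0 hy (gsz.1 e)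
  refine ⟨h • y', (s.inv h hh _).2 hy', ?_, ?_⟩
  · rw [← mem_pp_sp, ← sp_eq h2 e, mem_pp_sp, s.sy.iso, h0]
  · rw [← sp_eq h2 e]; exact (hi.smul h).2

theorem trl (hx : x ∈ R) (ha : B x a = 0) (hb : B x b = 0) (ia : a ∉ F ∙ x) (ib : b ∉ F ∙ x)
    (h : a ∈ Mq B R x ↔ b ∈ Mq B R x) : ∃ k ∈ H, k • x ∈ F ∙ x ∧ k • a ∈ ln F x b := by
  have al := s.sy.toAl
  have x0 := s.ne0 hx
  have n1 : ∀ a, B x a = 0 → a ∉ F ∙ x → a ∉ Mq B R x →
      a ∉ R ∧ x + (1 : F) • a ∉ R ∧ Spl B H a x (x + (1 : F) • a) := fun a h1 h2 h3 => by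
    have h4 : x + (1 : F) • a ∉ R := fun k => h3 ⟨h1, Or.inr ⟨_, k, by rw [ln_comm]; exact add_mem_ln 1,
      by rwa [one_smul, Submodule.add_mem_iff_right _ (Submodule.mem_span_singleton_self x)]⟩⟩
    have i : Ind F a x := Ind.symm ⟨x0, h2⟩
    exact ⟨fun k => h3 (Mq.of_mem k h1), h4,
      s.spl (al.swap h1) i (add_mem_ln 1) (add_notMem i.2 1) (by simp only [hx, h4]; simp)⟩
  have nq : ∀ a, a ∉ F ∙ x → a ∈ Mq B R x → ∃ r : F, a + r • x ∉ R ∧ a + r • x + (1 : F) • x ∈ R ∧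
      Spl B H x (a + r • x) (a + r • x + (1 : F) • x) ∧
      Spl B H x (a + r • x + (1 : F) • x) (a + r • x) := fun a h1 h2 => by
    obtain ⟨r, hr⟩ := s.lz hx h2.1 h1
    have h3 := add_notMem h1 r
    have h4 := s.lq hx (Mq.of_ln al x0 h2 (add_mem_ln r)) h3 hr one_ne_zero
    refine ⟨r, hr, h4, s.spl (by simp [h2.1, al.alt]) ⟨x0, h3⟩ (add_mem_ln 1) (add_notMem h3 1)
      (by simp only [hr, h4]; simp), s.spl (by simp [h2.1, al.alt]) ⟨x0, add_notMem h3 1⟩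
      (mem_ln.2 ⟨-1, 1, by module⟩) h3 (by simp only [hr, h4]; simp)⟩
  obtain ⟨z, z1, z2⟩ := s.ex1 hx
  obtain ⟨z3, z4, z5⟩ := n1 z z1 (fun e => z2 ⟨z1, Or.inl e⟩) z2
  obtain ⟨y, y1, y2, y3⟩ := s.exq hx
  obtain ⟨r, y4, y5, -, y6⟩ := nq y y3 (Mq.of_mem y1 y2)
  by_cases k : a ∈ Mq B R x
  · obtain ⟨t, a1, -, a2, -⟩ := nq a ia k
    obtain ⟨t', b1, -, b2, -⟩ := nq b ib (h.1 k)
    obtain ⟨g, hg, g1, g2⟩ := s.star s.nl z5 y6 z3 hx z4 hx y5 y4 a2 b2 Iff.rfl (iff_of_false a1 b1)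
    refine ⟨g, hg, g1, ?_⟩
    rw [show a = a + t • x - t • x by abel, smul_sub, gsc]
    exact sub_mem ((Submodule.span_singleton_le_iff_mem _ _).2 (add_mem_ln t') g2)
      (Submodule.smul_mem _ _ (sp_le_ln g1))
  · obtain ⟨a1, -, a2⟩ := n1 a ha ia k
    obtain ⟨b1, -, b2⟩ := n1 b hb ib (mt h.2 k)
    obtain ⟨g, hg, g1, g2⟩ := s.star s.nl z5 y6 z3 hx z4 hx y5 y4 a2 b2 (iff_of_false a1 b1) Iff.rfl
    exact ⟨g, hg, g2, by rw [ln_comm]; exact sp_le_ln g1⟩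

theorem lag (cl : CL.{u}) (hx : x ∈ R) (v : V) : v ∈ Mq B R x ↔ ∀ w ∈ Mq B R x, B w v = 0 := by
  have al := s.sy.toAl
  have x0 := s.ne0 hx
  obtain ⟨f, hf⟩ := al.ex_one x0 1
  have hi : Ind F x f := al.ind_of_ne (by simp [hf])
  let W := pp B (ln F x f)
  have hW : ∀ w : W, B x w = 0 ∧ B f w = 0 := fun w => mem_pp_ln.1 w.2
  let pr : ∀ u, B x u = 0 → W := fun u hu => ⟨u + B f u • x, mem_pp_ln.2
    ⟨by simp [hu, al.alt], by simp [al.skew f x, hf]⟩⟩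
  have p1 : ∀ u hu, (pr u hu : V) ∈ Mq B R x ↔ u ∈ Mq B R x := fun u hu =>
    ⟨fun h => Mq.of_ln al x0 h (mem_ln.2 ⟨-B f u, 1, by simp [pr]⟩), fun h => Mq.of_ln al x0 h (add_mem_ln _)⟩
  have p2 : ∀ u hu u', B x u' = 0 → B (pr u hu : V) u' = B u u' := fun u hu u' h => by simp [pr, h]
  have p3 : ∀ u hu u' hu', B (pr u hu : V) (pr u' hu' : V) = B u u' := fun u hu u' hu' => by
    rw [p2 _ hu _ (hW _).1, al.skew, p2 _ hu' _ hu, ← al.skew]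
  have p4 : ∀ u hu, u ∉ F ∙ x → pr u hu ≠ 0 := fun u hu h e =>
    ne0_of (add_notMem h _) (congrArg Subtype.val e)
  have p5 : ∀ w : W, w ≠ 0 → (w : V) ∉ F ∙ x := fun w h e => by
    obtain ⟨c, hc⟩ := Submodule.mem_span_singleton.1 e
    have := (hW w).2
    rw [← hc, map_smul, al.skew, hf] at this
    exact h (Subtype.ext (by rw [← hc, show c = 0 by simpa using this]; simp))
  have aW : Al (B.restrict W) := ⟨fun v => al.alt v, fun v h => Subtype.ext (al.nd v fun u => by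
    have := h ⟨_, mem_pp_ln.2 (s.sy.dec (a := x) (b := f) (by simp [hf]) u)⟩
    simpa [al.swap (hW v).1, al.swap (hW v).2] using this), al.two⟩
  obtain ⟨M, h1, h2⟩ := cl F W (B.restrict W) {w | w ≠ 0 ∧ (w : V) ∈ Mq B R x} aW
    (by have : _ + finrank F W = _ := al.finrank_pp (ln F x f); have := hi.finrank; have := s.sy.n6; omega)
    (fun h => h.1 rfl) (fun v h c hc => ⟨smul_ne_zero hc h.1, Mq.of_ln al x0 h.2 (Submodule.smul_mem _ _ r_ln)⟩)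
    (by
      obtain ⟨y, y1, y2, y3⟩ := s.exq hx
      exact ⟨pr y y2, p4 _ y2 y3, (p1 _ y2).2 (Mq.of_mem y1 y2)⟩)
    (by
      obtain ⟨z, z1, z2⟩ := s.ex1 hx
      exact ⟨pr z z1, p4 _ z1 fun e => z2 ⟨z1, Or.inl e⟩, fun h => z2 ((p1 _ z1).1 h.2)⟩)
    (fun a ha b hb hab _ w hw w0 => ⟨w0, by
      obtain ⟨c, d, rfl⟩ := mem_ln.1 hw
      exact s.closed hx (Mq.of_ln al x0 ha.2 (Submodule.smul_mem _ c r_ln))
        (Mq.of_ln al x0 hb.2 (Submodule.smul_mem _ d r_ln)) (by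
          have : B a b = 0 := hab
          simp [this])⟩)
    fun u v hu hv h => by
      obtain ⟨k, hk, k1, k2⟩ := s.trl hx (hW u).1 (hW v).1 (p5 u hu) (p5 v hv) (by simpa [hu, hv] using h)
      have k0 : k • x ≠ 0 := fun e => x0 (gsz.1 e)
      have k3 : ∀ w : W, B x (k • (w : V)) = 0 := fun w => by
        rw [← mem_pp_sp, ← sp_eq k0 k1, mem_pp_sp, s.sy.iso, (hW w).1]
      let φ : W →ₗ[F] W :=
        { toFun := fun w => pr _ (k3 w)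
          map_add' := fun a b => Subtype.ext (by simp [pr, add_smul]; abel)
          map_smul' := fun c a => Subtype.ext (by simp [pr, gsc, smul_smul]) }
      have hφ : ∀ a b, B.restrict W (φ a) (φ b) = B.restrict W a b := fun a b =>
        (p3 _ (k3 a) _ (k3 b)).trans (s.sy.iso k _ _)
      have inj : Function.Injective φ := (injective_iff_map_eq_zero φ).2 fun a h =>
        aW.nd a fun b => by rw [← hφ, h]; simp
      refine ⟨LinearEquiv.ofInjectiveEndo φ inj, hφ, fun a => and_congr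
        ((injective_iff_map_eq_zero' φ).1 inj a).not ((p1 _ (k3 a)).trans ?_), ?_⟩
      · rw [← s.mq_smul (x := x) (w := a) hk, Mq.sp k0 k1]
      · obtain ⟨c, d, e⟩ := mem_ln.1 k2
        refine Submodule.mem_span_singleton.2 ⟨d, Subtype.ext ?_⟩
        change d • (v : V) = k • (u : V) + B f (k • (u : V)) • x
        rw [← e]; simp [(hW v).2, al.skew f x, hf]
  have m : ∀ u hu, pr u hu ∈ M ↔ u ∈ Mq B R x := fun u hu => by
    rw [← p1 u hu]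
    by_cases h : pr u hu = 0
    · rw [h]; exact iff_of_true (zero_mem _) ⟨by simp, Or.inl (zero_mem _)⟩
    · have := h1 (pr u hu); simpa [h] using this.symm
  refine ⟨fun hv w hw => ?_, fun h => ?_⟩
  · rw [← p3 _ hw.1 _ hv.1]
    exact (h2.ge ((m _ hv.1).2 hv)) _ ((m _ hw.1).2 hw)
  · have hv := h x ⟨al.alt x, Or.inl (Submodule.mem_span_singleton_self x)⟩
    refine (m v hv).1 (h2.le fun w hw => ?_)
    change B w (pr v hv : V) = 0
    rw [al.skew, p2 _ hv _ (hW w).1, ← al.skew]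
    by_cases w0 : w = 0
    · simp [w0]
    · exact h _ ((h1 w).2 ⟨hw, w0⟩).2

theorem sub (cl : CL.{u}) (hx : x ∈ R) (hy : y ∈ R) (h0 : B x y = 0) (hw : w ∈ Mq B R x) :
    w ∈ Mq B R y := by
  have al := s.sy.toAl
  have x0 := s.ne0 hx
  have y1 := Mq.of_mem hy h0
  have y2 := (s.lag cl hx w).1 hw y y1
  by_cases k1 : y ∈ F ∙ x
  · rwa [Mq.sp (s.ne0 hy) k1]
  have i : Ind F y x := Ind.symm ⟨x0, k1⟩
  by_cases k2 : w ∈ ln F y x
  · exact Mq.of_ln al i.1 (Mq.of_mem hx (al.swap h0)) k2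
  refine ⟨y2, Or.inr ?_⟩
  by_contra hn
  push Not at hn
  have k := Fintype.linearIndependent_iff.1 (Ind3.li ⟨i, k2⟩)
  replace k : ∀ c d t : F, c • w + d • y = t • x → c = 0 ∧ d = 0 := fun c d t h => by
    have := k ![d, -t, c] (by
      simp only [Fin.sum_univ_three, Matrix.cons_val, neg_smul, ← h]; abel)
    exact ⟨this 2, this 0⟩
  have n : ∀ t : F, w + t • y ∉ R := fun t h => add_notMem (fun e => k2 (sp_le_ln e)) t
    (hn _ h (add_mem_ln t))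
  obtain ⟨c, hc⟩ := s.lz hx h0 k1
  have c0 : c ≠ 0 := by rintro rfl; exact hc (by simpa using hy)
  have m : ∀ t : F, t ≠ 0 → w + t • y + (t * c) • x ∈ R := fun t ht =>
    s.lq hx (s.closed hx hw (Mq.of_ln al x0 y1 (Submodule.smul_mem _ t r_ln)) (by simp [al.swap y2]))
      (fun e => by
        obtain ⟨d, hd⟩ := Submodule.mem_span_singleton.1 e
        exact one_ne_zero (k 1 t d (by rw [hd, one_smul])).1) (n t) (mul_ne_zero ht c0)
  rcases s.pm (m 1 one_ne_zero) (m (-1) (by simp)) (ind_iff.2 fun a b h => by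
    have := k (a + b) (a - b) ((b - a) * c) (by rw [← sub_eq_zero, ← h]; module)
    exact ⟨(mul_eq_zero.1 (by linear_combination this.1 + this.2 : 2 * a = 0)).resolve_left al.two,
      (mul_eq_zero.1 (by linear_combination this.1 - this.2 : 2 * b = 0)).resolve_left al.two⟩)
    (by simp [h0, al.alt, hw.1, y2, al.swap h0, al.swap hw.1, al.swap y2]) with h | h
  · exact n 0 ((s.sc_iff al.two).1 (by convert h using 1; module))
  · exact hc ((s.sc_iff al.two).1 (by convert h using 1; module))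

theorem perp (cl : CL.{u}) (hx : x ∈ R) (hy : y ∈ R) (h0 : B y x ≠ 0) (hz : z ∈ Mq B R x)
    (h1 : z ∉ R) : B y z = 0 := by
  have al := s.sy.toAl
  by_contra hn
  have h2 : z ∉ F ∙ x := fun e => h1 ((s.sp_iff e (by rintro rfl; simp at hn)).2 hx)
  have h3 := s.lq hx hz h2 h1 (r := -B y z / B y x) (div_ne_zero (neg_ne_zero.2 hn) h0)
  exact h0 (al.swap (s.sub cl h3 hx (by simp [al.swap hz.1, al.alt])
    (Mq.of_mem hy (al.swap (by simp [h0])))).1)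

theorem false (cl : CL.{u}) : False := by
  obtain ⟨x, hx⟩ := s.ne
  have al := s.sy.toAl
  obtain ⟨z, z1, z2⟩ := s.ex1 hx
  have z3 : z ∉ R := fun h => z2 (Mq.of_mem h z1)
  have z0 : z ≠ 0 := by rintro rfl; exact z2 ⟨z1, Or.inl (zero_mem _)⟩
  obtain ⟨y, y1, y2, y3⟩ := s.exq hx
  obtain ⟨r, hr⟩ := s.lz hx y2 y3
  obtain ⟨h, hh, c, hc, e⟩ := (s.po _ z (ne0_of (add_notMem y3 r)) z0 (iff_of_false hr z3)).ex
    (ne0_of (add_notMem y3 r))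
  have k1 := (s.inv h hh x).2 hx
  have k2 := (s.mq_smul hh).2 (Mq.of_ln al (s.ne0 hx) (Mq.of_mem y1 y2) (add_mem_ln r))
  replace k2 : z ∈ Mq B R (h • x) := Mq.of_ln al (s.ne0 k1) k2 (mem_ln.2 ⟨0, c⁻¹, by simp [e, hc]⟩)
  generalize h • x = x' at k1 k2
  by_cases k : B x' x = 0
  · exact z2 (s.sub cl k1 hx k k2)
  have k3 : ∀ a ∈ R, B x a = 0 → B a z = 0 := fun a ha h => s.perp cl k1 ha (fun e =>
    k (al.swap (s.sub cl ha hx (al.swap h) (Mq.of_mem k1 e)).1)) k2 z3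
  refine z2 ((s.lag cl hx z).2 fun w hw => ?_)
  rcases hw.2 with h | ⟨a, a1, a2, a3⟩
  · obtain ⟨c, rfl⟩ := Submodule.mem_span_singleton.1 h; simp [z1]
  · by_cases k4 : w ∈ F ∙ x
    · obtain ⟨c, rfl⟩ := Submodule.mem_span_singleton.1 k4; simp [z1]
    obtain ⟨c, d, rfl⟩ := mem_ln.1 (ln_eq ⟨s.ne0 hx, a3⟩ l_ln a2 ▸ r_ln : w ∈ ln F x a)
    simp [z1, k3 a a1 (al.ti hw.1 l_ln a2)]

end S3

theorem two (cl : CL.{u}) : TWO.{u} := by
  intro F V G _ _ _ _ _ _ _ _ _ B H sy hs nl l3 hP l2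
  simp only [PP, not_forall] at hP
  obtain ⟨x, z, hx, hz, hP⟩ := hP
  have ob : Ob B H {v | v ≠ 0 ∧ PO F H x v} :=
    { sy := sy
      h0 := fun h => h.1 rfl
      sc := fun v h c hc => ⟨smul_ne_zero hc h.1, h.2.trans (PO.of_mem
        (Submodule.mem_span_singleton.2 ⟨c⁻¹, by simp [hc]⟩))⟩
      inv := fun h hh v => ⟨fun k => ⟨fun e => k.1 (by simp [e]), by
        simpa using k.2.trans (PO.smul (H.inv_mem hh) _)⟩,
        fun k => ⟨fun e => k.1 (gsz.1 e), k.2.trans (PO.smul hh v)⟩⟩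
      po := fun u v hu hv h => by
        by_cases k : PO F H x u
        · exact (k.symm hx).trans (h.1 ⟨hu, k⟩).2
        · exact ((l2 x u v hx hu hv).resolve_left k).resolve_left fun k' => k (h.2 ⟨hv, k'⟩).2
      ne := ⟨x, hx, PO.refl x⟩
      pr := ⟨z, hz, fun h => hP h.2⟩ }
  generalize {v | v ≠ 0 ∧ PO F H x v} = R at ob
  obtain ⟨a, ha, a', ha', a0, ia, a'', a1, a2, a3⟩ := ob.step2 cl hs
  obtain ⟨b, hb, b', hb', b0, ib, b'', b1, b2, b3⟩ := ob.compl.step2 cl hs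
  have b4 : b'' ∈ R := by simpa [b2] using b3
  by_cases n1 : ∀ a b, B a b = 0 → Ind F a b → ∃ c ∈ ln F a b, c ≠ 0 ∧ c ∉ R
  · exact S3.false ⟨ob, nl, n1, ⟨a, ha, a', ha', a0, ia⟩, b, hb.2, b', hb'.2, b0, ib, b'', b1, b4⟩ cl
  by_cases n2 : ∀ a b, B a b = 0 → Ind F a b → ∃ c ∈ ln F a b, c ≠ 0 ∧ c ∉ {v | v ≠ 0 ∧ v ∉ R}
  · exact S3.false ⟨ob.compl, nl, n2, ⟨b, hb, b', hb', b0, ib⟩, a, fun h => h.2 ha, a',
      fun h => h.2 ha', a0, ia, a'', a1, a2, a3⟩ cl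
  push Not at n1 n2
  obtain ⟨c, c', c0, ic, n1⟩ := n1
  obtain ⟨d, d', d0, id, n2⟩ := n2
  have t : ∀ {p q : V × V} {w : V}, LE F H p q → w ∈ ln F p.1 p.2 → w ≠ 0 →
      ∃ w' ∈ ln F q.1 q.2, w' ≠ 0 ∧ (w' ∈ R ↔ w ∈ R) := fun ⟨h, hh, k⟩ hw w0 =>
    ⟨_, ln_le.2 k (smul_mem_ln h hw), fun e => w0 (gsz.1 e), ob.inv h hh _⟩
  rcases l3 (a, a') (b, b') (c, c') (d, d') ⟨ia, a0⟩ ⟨ib, b0⟩ ⟨ic, c0⟩ ⟨id, d0⟩ with
    h | h | h | h | h | h
  · obtain ⟨h, hh, k1, k2⟩ := h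
    have e := ln_eq (ia.smul h) k1 k2
    exact ib.2 (ob.step1 nl ((ob.inv h hh a).2 ha) ((ob.inv h hh a').2 ha') (ia.smul h)
      (by rw [sy.iso, a0]) (e ▸ l_ln) (e ▸ r_ln) ib.1 ib.ne0 hb.2 hb'.2)
  · obtain ⟨w, h1, h2, h3⟩ := t h a1 a2; exact a3 (h3.1 (n1 w h1 h2))
  · obtain ⟨w, h1, h2, h3⟩ := t h l_ln ia.1; exact (n2 w h1 h2).2 (h3.2 ha)
  · obtain ⟨w, h1, h2, h3⟩ := t h l_ln ib.1; exact hb.2 (h3.1 (n1 w h1 h2))
  · obtain ⟨w, h1, h2, h3⟩ := t h b1 b2; exact (n2 w h1 h2).2 (h3.2 b4)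
  · obtain ⟨w, h1, h2, h3⟩ := t h l_ln ic.1; exact (n2 w h1 h2).2 (h3.2 (n1 c l_ln ic.1))

end H11.RS
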