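import Cfsg.Agent.H11.RS1
import Cfsg.Agent.S0274

/-! S2195: the chunks `D1`, `UU`, `TV`. -/

set_option autoImplicit false
set_option linter.unusedSectionVars false

open Module MulAction H13.R3 Matrix

namespace H11.RS

universe u

variable {F : Type u} [Field F] [Fintype F] {V : Type u} [AddCommGroup V] [Module F V] [Finite V]
  {G : Type u} [Group G] [Finite G] [DistribMulAction G V] [SMulCommClass G F V]
  {B : LinearMap.BilinForm F V} {H Y : Subgroup G} {g h j : G} {a b e v w ρ : V} {c d : F}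

theorem sl2_odd (p : ℕ) [hp : Fact p.Prime] [CharP F p] (p2 : p ≠ 2)
    (K : Subgroup (SpecialLinearGroup (Fin 2) F)) (ho : Odd (Nat.card K)) (hd : p ∣ Nat.card K) :
    ∃ z : Fin 2 → F, z ≠ 0 ∧ ∀ k ∈ K, k • z ∈ F ∙ z := by
  classical
  have h1 : Subsingleton (Sylow p K) := Finite.card_le_one_iff_subsingleton.1 (by
    by_contra hn
    obtain ⟨L, hL, ⟨e⟩⟩ := Cfsg.Agent.S0274.result p p2 K (by omega)
    have : Fact (2 < p) := ⟨by have := hp.out.two_le; omega⟩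
    have h2 : orderOf (-1 : SpecialLinearGroup (Fin 2) (ZMod p)) = 2 := orderOf_eq_prime (by simp)
      fun h => ZMod.neg_one_ne_one (n := p) (by simpa using congrArg (fun A => A.1 0 0) h)
    have h3 := (orderOf_dvd_natCard _).trans ((Nat.card_congr e.toEquiv).symm ▸ Subgroup.card_dvd_of_le hL :
      Nat.card (SpecialLinearGroup (Fin 2) (ZMod p)) ∣ Nat.card K) (a := orderOf (-1))
    rw [h2] at h3
    exact Nat.not_even_iff_odd.2 ho (even_iff_two_dvd.2 h3))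
  obtain ⟨P⟩ : Nonempty (Sylow p K) := inferInstance
  have hn := P.normal_of_subsingleton
  obtain ⟨z, z0, hz⟩ := pfix (F := F) (V := Fin 2 → F) (P.2.map K.subtype) (by simp)
  obtain ⟨u, u1⟩ := Subgroup.ne_bot_iff_exists_ne_one.1 (P.ne_bot_of_dvd_card hd)
  refine ⟨z, z0, fun k hk => by_contra fun h => u1 ?_⟩
  have e : ln F z (k • z) = ⊤ := Submodule.eq_top_of_finrank_eq (by
    rw [Ind.finrank ⟨z0, h⟩]; simp)
  have h2 := hz _ ⟨_, hn.conj_mem' u.1 u.2 ⟨k, hk⟩, rfl⟩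
  simp only [Subgroup.subtype_apply, Subgroup.coe_mul, Subgroup.coe_inv, mul_smul,
    inv_smul_eq_iff] at h2
  refine Subtype.ext (Subtype.ext (SpecialLinearGroup.toLin'_injective (LinearEquiv.ext fun v => ?_)))
  obtain ⟨s, t, rfl⟩ := mem_ln.1 (e ▸ trivial : v ∈ ln F z (k • z))
  change (u.1.1 : SpecialLinearGroup (Fin 2) F) • (s • z + t • k • z) =
    (1 : SpecialLinearGroup (Fin 2) F) • (s • z + t • k • z)
  rw [smul_add, gsc, gsc, h2, hz u.1.1 ⟨_, u.2, rfl⟩, one_smul]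

variable (G) in
/-- the elements with `(g - 1) V ≤ π` -/
def Fx (π : Submodule F V) : Subgroup G where
  carrier := {g | ∀ v, g • v - v ∈ π}
  one_mem' v := by simp
  mul_mem' {a b} ha hb v := by simpa [mul_smul] using π.add_mem (ha (b • v)) (hb v)
  inv_mem' {a} ha v := by simpa using π.neg_mem (ha (a⁻¹ • v))

namespace Sy
variable (sy : Sy B G)
include sy

theorem fx_fix {π : Submodule F V} (hg : g ∈ Fx G π) (hw : w ∈ pp B π) : g • w = w :=
  sub_eq_zero.1 (sy.nd _ fun v => by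
    rw [map_sub, LinearMap.sub_apply, sy.iso_l, ← map_sub]
    exact sy.swap (hw _ ((Fx G π).inv_mem hg v)))
theorem fx_of {π : Submodule F V} (hg : ∀ w ∈ pp B π, g • w = w) : g ∈ Fx G π := fun v => by
  rw [← sy.pp_pp π]
  intro w hw
  change B w _ = 0
  rw [map_sub, ← sy.iso g w v, hg w hw, sub_self]

theorem inv_iv {π : Submodule F V} (d3 : finrank F π ≤ 3) (hj : j ∈ Fx G π) (h1 : j ≠ 1)
    (h2 : j * j = 1) : ∃ a ∈ π, ∃ b ∈ π, Iv B j a b := by
  have ng : ∀ v : V, j • (j • v - v) = -(j • v - v) := fun v => by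
    rw [smul_sub, ← mul_smul, h2, one_smul, neg_sub]
  have k : ∀ a w : V, j • a = -a → B a (j • w - w) = -2 * B a w := fun a w h => by
    have := sy.iso j a w
    rw [h, map_neg, LinearMap.neg_apply] at this
    rw [map_sub]; linear_combination -this
  have k2 : ∀ a : V, a ≠ 0 → j • a = -a → ∃ w, B a (j • w - w) ≠ 0 := fun a h0 h =>
    (sy.ex_one h0 1).imp fun w hw => by rw [k a w h, hw]; simpa using sy.two
  obtain ⟨v, hv⟩ : ∃ v : V, j • v - v ≠ 0 := by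
    by_contra hn; push Not at hn; exact h1 (sy.fa j fun v => sub_eq_zero.1 (hn v))
  obtain ⟨w, hw⟩ := k2 _ hv (ng v)
  refine ⟨_, hj v, _, hj w, hw, ng v, ng w, fun u u1 u2 => sub_eq_zero.1 (by_contra fun hc => ?_)⟩
  have c1 := k _ u (ng v)
  have c2 := k _ u (ng w)
  rw [u1, mul_zero] at c1
  rw [u2, mul_zero] at c2
  obtain ⟨w', hw'⟩ := k2 _ hc (ng u)
  have i : Ind3 F (j • v - v) (j • w - w) (j • u - u) := ⟨sy.ind_of_ne hw, fun h => by
    obtain ⟨s, t, h⟩ := mem_ln.1 h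
    rw [← h] at c1 c2 hc
    have hw2 : B (j • w - w) (j • v - v) ≠ 0 := fun e => hw (sy.swap e)
    generalize j • v - v = a at *
    generalize j • w - w = b at *
    simp only [map_add, map_smul, sy.alt, smul_eq_mul, mul_zero, zero_add, add_zero, mul_eq_zero, hw,
      hw2, or_false] at c1 c2
    simp [c1, c2] at hc⟩
  have e : pl F _ _ _ = π := Submodule.eq_of_le_of_finrank_le (pl_le.2 ⟨hj v, hj w, hj u⟩)
    (i.finrank ▸ d3)
  obtain ⟨r, s, t, h⟩ := mem_pl.1 (e ▸ hj w' : j • w' - w' ∈ pl F _ _ _)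
  refine hw' ?_
  rw [← h, map_add, map_add, map_smul, map_smul, map_smul, sy.swap c1, sy.swap c2, sy.alt]; simp

theorem odd_or {π : Submodule F V} (d3 : finrank F π ≤ 3) (hY : Y ≤ Fx G π) :
    Odd (Nat.card Y) ∨ ∃ j ∈ Y, ∃ a ∈ π, ∃ b ∈ π, Iv B j a b := by
  refine (Nat.even_or_odd _).symm.imp_right fun h => ?_
  obtain ⟨j, hj⟩ := exists_prime_orderOf_dvd_card' 2 (even_iff_two_dvd.1 h)
  rw [← Subgroup.orderOf_coe] at hj
  exact ⟨j, j.2, sy.inv_iv d3 (hY j.2) (fun e => by simp [e] at hj)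
    (by rw [← sq, ← hj, pow_orderOf_eq_one])⟩

theorem dk (hab : B a b = 1) (ha : B ρ a = 0) (hb : B ρ b = 0) (hY : Y ≤ Fx G (pl F a b ρ))
    (hk : ∀ y ∈ Y, y • a - a ∈ F ∙ ρ → y • b - b ∈ F ∙ ρ → y = 1) (ho : Odd (Nat.card Y))
    (p : ℕ) [Fact p.Prime] [CharP F p] (hd : p ∣ Nat.card Y) :
    ∃ z, (B z a ≠ 0 ∨ B z b ≠ 0) ∧ ∀ y ∈ Y, B (y • z) z = 0 := by
  classical
  let co : V → Fin 2 → F := fun v => ![B v b, B a v]
  let M : G → Matrix (Fin 2) (Fin 2) F := fun y => !![B (y • a) b, B (y • b) b; B a (y • a), B a (y • b)]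
  have hba : B b a = -1 := by rw [sy.skew, hab]
  have hρ : ∀ y ∈ Y, y • ρ = ρ := fun y hy => sy.fx_fix (hY hy)
    (mem_pp_pl.2 ⟨sy.swap ha, sy.swap hb, sy.alt _⟩)
  have hπ : ∀ y ∈ Y, ∀ v ∈ pl F a b ρ, y • v ∈ pl F a b ρ := fun y hy v hv => by
    simpa using add_mem (hY hy v) hv
  have k1 : ∀ y ∈ Y, ∀ v ∈ pl F a b ρ, co (y • v) = M y *ᵥ co v := fun y hy v hv => by
    obtain ⟨r, s, t, rfl⟩ := mem_pl.1 hv
    ext i; fin_cases i <;>
      simp [co, M, gsc, hρ y hy, hab, hb, sy.swap ha, sy.alt, vecHead, vecTail]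
  have k2 : ∀ u ∈ pl F a b ρ, ∀ v ∈ pl F a b ρ, B u v = co u 0 * co v 1 - co u 1 * co v 0 := by
    intro u hu v hv
    obtain ⟨r, s, t, rfl⟩ := mem_pl.1 hu
    obtain ⟨r', s', t', rfl⟩ := mem_pl.1 hv
    simp [co, hab, hba, ha, hb, sy.swap ha, sy.swap hb, sy.alt]; ring
  let φ : Y →* SpecialLinearGroup (Fin 2) F := MonoidHom.mk' (fun y => ⟨M y, by
      rw [det_fin_two, ← hab, ← sy.iso y.1, k2 _ (hπ y y.2 a p1_pl) _ (hπ y y.2 b p2_pl)]
      simp [co, M, mul_comm]⟩) fun y y' => Subtype.ext (by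
    have h1 := k1 y y.2 _ (hπ y' y'.2 a p1_pl)
    have h2 := k1 y y.2 _ (hπ y' y'.2 b p2_pl)
    change M (y.1 * y'.1) = M y * M y'
    ext i k; fin_cases i <;> fin_cases k
    · simpa [co, M, mul_smul, vecHead, vecTail, mul_comm] using congrFun h1 0
    · simpa [co, M, mul_smul, vecHead, vecTail, mul_comm] using congrFun h2 0
    · simpa [co, M, mul_smul, vecHead, vecTail, mul_comm] using congrFun h1 1
    · simpa [co, M, mul_smul, vecHead, vecTail, mul_comm] using congrFun h2 1)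
  have inj : Function.Injective φ := (injective_iff_map_eq_one φ).2 fun y hy => by
    have hM : M y = 1 := congrArg Subtype.val hy
    have k : ∀ v ∈ pl F a b ρ, y.1 • v - v ∈ F ∙ ρ := fun v hv => by
      have h1 := k1 y y.2 v hv
      obtain ⟨r, s, t, h⟩ := mem_pl.1 (hY y.2 v)
      rw [hM, one_mulVec, ← sub_add_cancel (y.1 • v) v, ← h] at h1
      have h2 := congrFun h1 0
      have h3 := congrFun h1 1
      simp [co, hab, hb, sy.swap ha, sy.alt] at h2 h3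
      exact Submodule.mem_span_singleton.2 ⟨t, by rw [← h, h2, h3]; simp⟩
    exact Subtype.ext (hk y y.2 (k a p1_pl) (k b p2_pl))
  have hc := Nat.card_congr (MonoidHom.ofInjective inj).toEquiv
  obtain ⟨z, z0, hz⟩ := sl2_odd p (sy.char_ne p) φ.range (hc ▸ ho) (hc ▸ hd)
  have m : z 0 • a + z 1 • b ∈ pl F a b ρ := ln_le_pl (mem_ln.2 ⟨_, _, rfl⟩)
  have e : co (z 0 • a + z 1 • b) = z := by ext i; fin_cases i <;> simp [co, hab, sy.alt]
  refine ⟨z 0 • a + z 1 • b, ?_, fun y hy => ?_⟩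
  · by_contra hn
    simp [hab, hba, sy.alt] at hn
    exact z0 (by ext i; fin_cases i <;> simp [hn])
  · obtain ⟨c, hc⟩ := Submodule.mem_span_singleton.1 (hz _ ⟨⟨y, hy⟩, rfl⟩)
    rw [k2 _ (hπ y hy _ m) _ m, k1 y hy _ m, e, show M y *ᵥ z = c • z from hc.symm]
    simp; ring

end Sy

theorem d1 : D1.{u} := by
  intro F V G _ _ _ _ _ _ _ _ _ B H t t' a b c d sy ht ht' h1 h2 hc hd hab
  have hi := sy.ind_of_ne hab
  have m1 : t ∈ H ⊓ Fx G (ln F a b) := ⟨ht, fun v => by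
    rw [h1, add_sub_cancel_left]; exact Submodule.smul_mem _ _ l_ln⟩
  have m2 : t' ∈ H ⊓ Fx G (ln F a b) := ⟨ht', fun v => by
    rw [h2, add_sub_cancel_left]; exact Submodule.smul_mem _ _ r_ln⟩
  rcases sy.odd_or (Y := H ⊓ Fx G (ln F a b)) (by rw [hi.finrank]; omega) inf_le_right with
    ho | ⟨j, hj, a', ha', b', hb', h⟩
  swap
  · have e := ln_eq (sy.ind_of_ne h.1) ha' hb'
    exact ⟨j, hj.1, sy.iv_of h (e ▸ l_ln) (e ▸ r_ln) hab⟩
  obtain ⟨p, hp⟩ := CharP.exists F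
  have := Fact.mk (CharP.char_is_prime F p)
  have tp : ∀ n : ℕ, Tr B (t ^ n) a (n * c) := fun n => by
    induction n with
    | zero => simpa using sy.tr_zero
    | succ n ih => rw [pow_succ, Nat.cast_succ, add_one_mul]; exact sy.tr_mul ih h1
  obtain ⟨z, z0, hz⟩ := sy.dk (Y := H ⊓ Fx G (ln F a b)) (a := a) (b := (B a b)⁻¹ • b) (ρ := 0) (by simp [hab]) (by simp)
    (by simp) (fun y hy v => ln_le.2 ⟨p1_pl, by
      simpa [hab] using Submodule.smul_mem _ (B a b) (p2_pl (x := a) (y := (B a b)⁻¹ • b))⟩ (hy.2 v))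
    (fun y hy k1 k2 => sy.fa y fun u => by
      have k := sy.fx_fix hy.2 (mem_pp_ln.2 (sy.dec hab u))
      rw [gsc, ← smul_sub] at k2
      simp only [Submodule.span_zero_singleton, Submodule.mem_bot, smul_eq_zero, inv_eq_zero, hab,
        false_or, sub_eq_zero] at k1 k2
      simpa [smul_sub, gsc, k1, k2] using k) ho p (by
      rw [← orderOf_eq_prime (x := t) ((sy.tr_eq_one (tp p)).2 (by simp))
        (mt (sy.tr_eq_one h1).1 (by simp [hc, hi.1]))]
      exact Subgroup.orderOf_dvd_natCard _ m1)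
  have k1 := hz t m1
  have k2 := hz t' m2
  rw [h1] at k1
  rw [h2] at k2
  simp [sy.alt, sy.skew a z, sy.skew b z, hc, hd] at k1 k2
  simp [k1, k2] at z0

theorem uu : UU.{u} := by
  intro F V G _ _ _ _ _ _ _ _ _ B H g g' D D' y sy e1 nI hg hg' an an' hne y0 hy hy' a ha b hb
  by_contra hab
  have hi := sy.ind_of_ne hab
  have d3 : finrank F (D ⊔ D' : Submodule F V) = 3 := by
    have h1 := Submodule.finrank_sup_add_finrank_inf_eq D D'
    have h2 := Submodule.finrank_mono ((Submodule.span_singleton_le_iff_mem y (D ⊓ D')).2 ⟨hy, hy'⟩)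
    have h3 := Submodule.finrank_lt_finrank_of_lt (lt_of_le_of_ne (inf_le_left (a := D) (b := D'))
      fun e => hne (Submodule.eq_of_le_of_finrank_eq (inf_eq_left.1 e) (an.1.trans an'.1.symm)))
    rw [finrank_span_singleton y0] at h2
    have := an.1; have := an'.1; omega
  obtain ⟨ρ, ⟨r1, r2⟩, r0⟩ := ex_ne0 (A := (D ⊔ D') ⊓ pp B (ln F a b)) (by
    have := finrank_inf_ge (D ⊔ D') (pp B (ln F a b))
    have := sy.finrank_pp (ln F a b); have := hi.finrank; omega)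
  obtain ⟨r2, r3⟩ := mem_pp_ln.1 r2
  have hab' : B a ((B a b)⁻¹ • b) = 1 := by simp [hab]
  have r4 : B ((B a b)⁻¹ • b) ρ = 0 := by simp [r3]
  have hb' : (B a b)⁻¹ • b ∈ D' := D'.smul_mem _ hb
  generalize (B a b)⁻¹ • b = b' at hab' r4 hb'
  have e : pl F a b' ρ = D ⊔ D' := Submodule.eq_of_le_of_finrank_eq
    (pl_le.2 ⟨Submodule.mem_sup_left ha, Submodule.mem_sup_right hb', r1⟩) (by
      rw [d3]; refine Ind3.finrank ⟨sy.ind_of_ne (by simp [hab']), fun h => ?_⟩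
      obtain ⟨s, t, rfl⟩ := mem_ln.1 h
      simp [sy.alt, sy.skew b' a, hab'] at r2 r4
      simp [r2, r4] at r0)
  have m1 : g ∈ H ⊓ Fx G (D ⊔ D') := ⟨hg, fun v => Submodule.mem_sup_left (sy.fx_of an.2.1 v)⟩
  have m2 : g' ∈ H ⊓ Fx G (D ⊔ D') := ⟨hg', fun v => Submodule.mem_sup_right (sy.fx_of an'.2.1 v)⟩
  rcases sy.odd_or (Y := H ⊓ Fx G (D ⊔ D')) d3.le inf_le_right with ho | ⟨j, hj, a', -, b', -, h⟩
  swap
  · exact nI ⟨j, hj.1, _, _, h⟩
  obtain ⟨p, hp⟩ := CharP.exists F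
  have := Fact.mk (CharP.char_is_prime F p)
  have rp : ρ ∈ pp B (D ⊔ D') := e ▸ mem_pp_pl.2 ⟨r2, r4, sy.alt _⟩
  by_cases hd : p ∣ Nat.card (H ⊓ Fx G (D ⊔ D') : Subgroup G)
  · obtain ⟨z, z0, hz⟩ := sy.dk hab' (sy.swap r2) (sy.swap r4) (e ▸ inf_le_right) (fun y hy k1 k2 => by
      obtain ⟨x, x1, x2⟩ := sy.uu_of r0 (sy.fx_fix hy.2 rp) fun w hw => by
        have h1 := sy.dec (a := a) (b := b') (by simp [hab']) w
        have k := sy.fx_fix hy.2 (e ▸ mem_pp_pl.2 ⟨h1.1, h1.2, by simp [hw, sy.swap r2, sy.swap r4]⟩)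
        rw [smul_sub, smul_sub, gsc, gsc, sub_sub, sub_eq_iff_eq_add] at k
        convert add_mem (Submodule.smul_mem _ (B w b' / B a b') k1)
          (Submodule.smul_mem _ (B a w / B a b') k2) using 1
        rw [k, smul_sub, smul_sub]; abel
      obtain rfl := e1 ρ x r0 ⟨x1, y, hy.1, x2⟩
      exact sy.fa y fun u => by simpa using x2 u) ho p hd
    exact z0.elim (fun h => h (sy.swap (an.2.2 z (hz g m1) a ha)))
      fun h => h (sy.swap (an'.2.2 z (hz g' m2) b' hb'))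
  refine r0 (sy.nd ρ fun v => ?_)
  generalize hY : H ⊓ Fx G (D ⊔ D') = Y at *
  have := Fintype.ofFinite Y
  have k : ∀ g ∈ Y, g • ∑ y : Y, y.1 • v = ∑ y : Y, y.1 • v := fun g hg => by
    rw [Finset.smul_sum]
    exact Fintype.sum_equiv (Equiv.mulLeft (⟨g, hg⟩ : Y)) _ _ fun y => by simp [mul_smul]
  have k2 : ∑ y : Y, y.1 • v ∈ pp B (D ⊔ D') := by
    rw [pp_sup]; exact ⟨an.2.2 _ (by rw [k g m1, sy.alt]), an'.2.2 _ (by rw [k g' m2, sy.alt])⟩
  have k3 : B ρ (∑ y : Y, y.1 • v) = 0 := k2 ρ r1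
  rw [map_sum, Finset.sum_congr rfl (g := fun _ => B ρ v) fun y _ => by
    rw [← sy.iso y.1 ρ v, sy.fx_fix (hY.ge y.2).2 rp]] at k3
  simp only [Finset.sum_const, Finset.card_univ, nsmul_eq_mul, mul_eq_zero] at k3
  exact k3.resolve_left fun h => hd (by
    rw [Nat.card_eq_fintype_card]; exact (CharP.cast_eq_zero_iff F p _).1 h)

theorem tv (d1 : D1.{u}) : TV.{u} := by
  intro F V G _ _ _ _ _ _ _ _ _ B H sy hT t v c ht
  have two := sy.two
  have iv : ∀ a b, B a b ≠ 0 → ∃ g ∈ H, Iv B g a b := fun a b h => by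
    obtain ⟨t, h1, c, h2, h3⟩ := hT a (sy.ind_of_ne h).1
    obtain ⟨t', h4, d, h5, h6⟩ := hT b (sy.ind_of_ne h).ne0
    exact d1 F V G B H t t' a b c d sy h1 h4 h3 h6 h2 h5 h
  have st : ∀ x r, Ind F x r → B x r = 0 → ∃ h ∈ H, h • x = x + r := fun x r hi h0 => by
    obtain ⟨a, a1, a2⟩ := sy.ex_two hi (-1) 0
    have a3 : B a x = 1 := by rw [sy.skew, a1, neg_neg]
    obtain ⟨g, hg, k⟩ := iv a x (by simp [a3])
    obtain ⟨g', hg', k'⟩ := iv a (x - (2 : F)⁻¹ • r) (by simp [a3, sy.swap a2])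
    refine ⟨g * g', H.mul_mem hg hg', ?_⟩
    rw [mul_smul, sy.iv_apply k', sy.iv_apply k]
    simp only [map_sub, map_smul, LinearMap.sub_apply, LinearMap.smul_apply, smul_eq_mul, sy.alt, a3,
      sy.swap a2, h0, sy.swap h0]
    match_scalars <;> field_simp <;> ring
  by_cases hv : v = 0
  · rw [(sy.tr_eq_one ht).2 (Or.inr hv)]; exact H.one_mem
  obtain ⟨r, h1, h2⟩ := ex_notMem (A := F ∙ v) (B := pp B (F ∙ v)) (by
    have := sy.finrank_pp (F ∙ v); have := sy.n6; rw [finrank_span_singleton hv] at *; omega)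
  rw [mem_pp_sp] at h1
  obtain ⟨t₀, k0, c₀, k1, k2⟩ := hT v hv
  have sq : ∀ d : F, ∃ t ∈ H, Tr B t v (c₀ * d ^ 2) := fun d => by
    by_cases hd : d = 0
    · exact ⟨1, H.one_mem, by simpa [hd] using sy.tr_zero⟩
    obtain ⟨g, hg, e⟩ := st v r ⟨hv, h2⟩ h1
    obtain ⟨g', hg', e'⟩ := st (v + r) ((d - 1) • v - r) (ind_iff.2 fun s t h => by
      have := ind_iff.1 (⟨hv, h2⟩ : Ind F v r) (s + t * (d - 1)) (s - t) (by rw [← h]; module)
      have h3 : t = 0 := (mul_eq_zero.1 (by linear_combination this.1 - this.2)).resolve_right hd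
      exact ⟨by rw [← h3]; linear_combination this.2, h3⟩) (by simp [h1, sy.swap h1, sy.alt])
    exact ⟨_, H.mul_mem (H.mul_mem (H.mul_mem hg' hg) k0) (H.inv_mem (H.mul_mem hg' hg)), Tr.sml.1
      (by convert sy.tr_conj k2 (g' * g) using 1; rw [mul_smul, e, e']; module)⟩
  obtain ⟨t₁, m1, n1⟩ := sq ((c / c₀ + 1) / 2)
  obtain ⟨t₂, m2, n2⟩ := sq ((c / c₀ - 1) / 2)
  rw [sy.tr_unique ht (g' := t₁ * t₂⁻¹) (by
    convert sy.tr_mul n1 (sy.tr_inv n2) using 1; field_simp; ring)]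
  exact H.mul_mem m1 (H.inv_mem m2)

end H11.RS
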