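import Cfsg.Agent.H11.RS6
import Cfsg.Agent.H11.RS8

/-! S2195: the chunks `SPH`, `SPT`, `DD`. -/

set_option autoImplicit false
set_option linter.unusedSectionVars false

open Module MulAction H13.R3

namespace H11.RS

universe u

variable {F : Type u} [Field F] [Fintype F] {V : Type u} [AddCommGroup V] [Module F V] [Finite V]
  {B : LinearMap.BilinForm F V} {D : Submodule F V} {a y : V}

theorem eq_ln (hD : finrank F D = 2) (hi : Ind F y a) (hy : y ∈ D) (ha : a ∈ D) : ln F y a = D :=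
  Submodule.eq_of_le_of_finrank_eq (ln_le.2 ⟨hy, ha⟩) (hi.finrank.trans hD.symm)

theorem Al.ti_of (al : Al B) (hD : finrank F D = 2) (hy : y ∈ D) (y0 : y ≠ 0) (h : y ∈ pp B D) :
    D ≤ pp B D := by
  obtain ⟨a, ha, h1⟩ := ex_notMem (A := F ∙ y) (B := D) (by rw [finrank_span_singleton y0]; omega)
  rw [← eq_ln hD ⟨y0, h1⟩ hy ha]
  exact fun u hu v hv => al.ti (al.swap (h a ha)) hv hu

theorem sph : SPH.{u} := by
  intro F V _ _ _ _ _ B W al n6 h1 h2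
  classical
  have := Fintype.ofFinite V
  have sy : ∀ v w, v ≠ 0 → w ≠ 0 → w ∈ pp B (W v) → v ∈ pp B (W w) := fun v w hv hw h =>
    al.le_pp_comm (h2 v w hv hw h) (h1 v hv).1
  have c0 : ∀ U : Submodule F V, 0 < finrank F U → (((U : Set V).ncard : ℕ) : F) = 0 := fun U h => by
    rw [ncard_sub, Nat.cast_pow, FiniteField.cast_card_eq_zero, zero_pow h.ne']
  let N : Matrix V V F := Matrix.of fun v w => if v ≠ 0 ∧ w ∉ pp B (W v) then 1 else 0
  have hN : N * N = 0 := by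
    ext v w
    simp only [N, Matrix.mul_apply, Matrix.of_apply, ite_zero_mul_ite_zero, mul_one, Finset.sum_boole,
      Matrix.zero_apply, ← Set.ncard_coe_finset, Finset.coe_filter, Finset.mem_univ, true_and]
    by_cases hv : v = 0
    · simp [hv]
    by_cases hw : w = 0
    · simp [hw]
    have e : {u | (v ≠ 0 ∧ u ∉ pp B (W v)) ∧ u ≠ 0 ∧ w ∉ pp B (W u)} =
        ((pp B (W v) : Set V) ∪ pp B (W w))ᶜ := Set.ext fun u =>
      ⟨fun h k => k.elim h.1.2 fun k => h.2.2 (sy w u hw h.2.1 k), fun h =>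
        have u0 : u ≠ 0 := fun e => h (Or.inl (e ▸ zero_mem _))
        ⟨⟨hv, fun k => h (Or.inl k)⟩, u0, fun k => h (Or.inr (sy u w u0 hw k))⟩⟩
    have e1 := congrArg (Nat.cast (R := F))
      (Set.ncard_add_ncard_compl ((pp B (W v) : Set V) ∪ pp B (W w)))
    have e2 := congrArg (Nat.cast (R := F))
      (Set.ncard_union_add_ncard_inter (pp B (W v) : Set V) (pp B (W w)))
    have d1 := al.finrank_pp (W v)
    have d2 := al.finrank_pp (W w)
    have d3 := finrank_inf_ge (pp B (W v)) (pp B (W w))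
    rw [(h1 v hv).2.1] at d1
    rw [(h1 w hw).2.1] at d2
    rw [← Submodule.coe_inf, Nat.cast_add, Nat.cast_add, c0 _ (by omega), c0 _ (by omega),
      c0 _ (by omega), add_zero, add_zero] at e2
    rw [Nat.cast_add, e2, zero_add, card_V F V, Nat.cast_pow, FiniteField.cast_card_eq_zero,
      zero_pow (by omega)] at e1
    rw [e, e1]
  have h3 := (Matrix.isNilpotent_trace_of_isNilpotent (M := N) ⟨2, by rw [sq, hN]⟩).eq_zero
  simp only [N, Matrix.trace, Matrix.diag, Matrix.of_apply, Finset.sum_boole,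
    ← Set.ncard_coe_finset, Finset.coe_filter, Finset.mem_univ, true_and] at h3
  rw [show {v | v ≠ 0 ∧ v ∉ pp B (W v)} = {v | v ≠ 0} from Set.ext fun v =>
    and_iff_left_of_imp fun h => (h1 v h).2.2, ncard_ne0' (F := F), Nat.cast_sub (Nat.one_le_pow _ _
    Fintype.card_pos), Nat.cast_pow, FiniteField.cast_card_eq_zero, zero_pow (by omega)] at h3
  simp at h3

theorem spt : SPT.{u} := by
  intro F V G _ _ _ _ _ _ _ _ _ B H S sy hs h1 h2 h3 h4
  have n6 := sy.n6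
  have un : ∀ D ∈ S, ∀ D' ∈ S, ∀ p, p ≠ 0 → p ∈ D → p ∈ D' → D = D' := by
    intro D hD D' hD' p p0 hp hp'
    have d1 := sy.finrank_pp D
    have d2 := sy.finrank_pp D'
    rw [(h1 D hD).1] at d1
    rw [(h1 D' hD').1] at d2
    refine sy.pp_inj (Submodule.eq_of_le_of_finrank_eq (fun z hz => ?_) (by omega))
    by_cases z0 : z = 0
    · simp [z0]
    obtain ⟨D₁, k1, k2⟩ := h2 z z0
    obtain ⟨y, ⟨y1, y2⟩, y0⟩ := ex_ne0 (A := D₁ ⊓ pp B D') (by
      have := Submodule.finrank_sup_add_finrank_inf_eq D₁ (pp B D')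
      have := Submodule.finrank_mono (sup_le ((h4 D hD D₁ k1 z z0 k2 hz).trans
        (pp_anti ((Submodule.span_singleton_le_iff_mem p D).2 hp)))
        (pp_anti ((Submodule.span_singleton_le_iff_mem p D').2 hp')))
      have := sy.finrank_pp (F ∙ p)
      rw [finrank_span_singleton p0] at this
      have := (h1 D₁ k1).1
      omega)
    exact h4 D' hD' D₁ k1 y y0 y1 y2 k2
  obtain ⟨x, -, hx⟩ := ex_ne0 (A := (⊤ : Submodule F V)) (by rw [finrank_top]; omega)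
  obtain ⟨D, hD, -⟩ := h2 x hx
  have n8 : 8 ≤ finrank F V := by
    obtain ⟨y, y1, y2⟩ := ex_notMem (A := D) (B := pp B D) (by
      have := sy.finrank_pp D; have := (h1 D hD).1; omega)
    have y0 : y ≠ 0 := fun e => y2 (e ▸ zero_mem _)
    obtain ⟨D', k1, k2⟩ := h2 y y0
    have k3 := h4 D hD D' k1 y y0 k2 y1
    have := sy.ti_le (W := D ⊔ D') (by
      rw [pp_sup]
      exact sup_le (le_inf (h1 D hD).2 (sy.le_pp_comm k3)) (le_inf k3 (h1 D' k1).2))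
    have e := Submodule.finrank_sup_add_finrank_inf_eq D D'
    rw [(h1 D hD).1, (h1 D' k1).1, show D ⊓ D' = ⊥ from (Submodule.eq_bot_iff _).2 fun p hp =>
      by_contra fun p0 => y2 (un D hD D' k1 p p0 hp.1 hp.2 ▸ k2), finrank_bot] at e
    omega
  have h2' : ∀ v, ∃ D ∈ S, v ∈ D := fun v => by
    by_cases hv : v = 0
    exacts [⟨D, hD, hv ▸ zero_mem _⟩, h2 v hv]
  have fb : ∀ a, a ≠ 0 → {b | Ind F a b ∧ ln F a b ∈ S}.ncard = Fintype.card F ^ 2 - Fintype.card F :=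
    fun a a0 => by
      obtain ⟨D, k1, k2⟩ := h2 a a0
      rw [← (h1 D k1).1, ← ncard_off a0 k2]; congr 1; ext b
      exact ⟨fun h => ⟨un _ h.2 D k1 a a0 l_ln k2 ▸ r_ln, h.1.2⟩, fun h =>
        ⟨⟨a0, h.2⟩, (eq_ln (h1 D k1).1 ⟨a0, h.2⟩ k2 h.1).symm ▸ k1⟩⟩
  have := hs.avg sy (S := {a : V × V | Ind F a.1 a.2 ∧ B a.1 a.2 = 0})
    (T := {a | Ind F a.1 a.2 ∧ ln F a.1 a.2 ∈ S})
    (β := (Fintype.card F ^ 4 - 1) * (Fintype.card F ^ 2 - Fintype.card F))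
    (fun a ha => ⟨ha.1, (h1 _ ha.2).2 r_ln _ l_ln⟩)
    (fun g a ha => ⟨ha.1.smul g, (sy.iso g _ _).trans ha.2⟩)
    (fun a ha b hb => (sy.witt2 ha.1 hb.1 (hb.2.trans ha.2.symm)).imp fun g hg => Prod.ext hg.1 hg.2)
    (fun h hh a ha => ⟨ha.1.smul h, by
      convert h3 _ ha.2 h hh using 1
      ext v; rw [mem_map_lin, ← smul_mem_ln_iff (g := h) (u := h⁻¹ • v), smul_inv_smul]; rfl⟩)
    fun v v' => by
      obtain ⟨D, k1, k2⟩ := h2' v
      obtain ⟨D', k3, k4⟩ := h2' v'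
      refine ⟨{a | (Ind F a.1 a.2 ∧ ln F a.1 a.2 ∈ S) ∧ a.1 ∈ pp B (D ⊔ D')}, fun a ha => ha.1, ?_,
        fun a ha t ht => ?_⟩
      · refine le_trans ?_ (le_ncard_pairs _ {u | u ∈ pp B (D ⊔ D') ∧ u ≠ 0} fun u hu =>
          (fb u hu.2).ge.trans (Set.ncard_le_ncard fun b hb => ⟨hb, hu.1⟩))
        rw [ncard_ne0]
        refine Nat.mul_le_mul_right _ (Nat.sub_le_sub_right (Nat.pow_le_pow_right Fintype.card_pos ?_) 1)
        have := sy.finrank_pp (D ⊔ D')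
        have := Submodule.finrank_sup_add_finrank_inf_eq D D'
        have := (h1 D k1).1; have := (h1 D' k3).1; omega
      · have k5 := ha.2
        rw [pp_sup] at k5
        have k6 := h4 D k1 _ ha.1.2 _ ha.1.1.1 l_ln k5.1
        have k7 := h4 D' k3 _ ha.1.2 _ ha.1.1.1 l_ln k5.2
        exact Prod.ext (ht _ (sy.swap (k6 l_ln v k2)) (sy.swap (k7 l_ln v' k4)))
          (ht _ (sy.swap (k6 r_ln v k2)) (sy.swap (k7 r_ln v' k4)))
  rw [ncard_pairs {a : V × V | Ind F a.1 a.2 ∧ ln F a.1 a.2 ∈ S} {u | u ≠ 0} (fun a ha => ha.1.1) fb, ncard_pairs _ {u | u ≠ 0}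
    (m := Fintype.card F ^ (finrank F V - 1) - Fintype.card F) (fun a ha => ha.1.1) (fun u hu => by
      have d := sy.finrank_pp (F ∙ u)
      rw [finrank_span_singleton hu] at d
      rw [show finrank F V - 1 = finrank F (pp B (F ∙ u)) by omega,
        ← ncard_off hu (mem_pp_sp.2 (sy.alt u))]
      congr 1; ext b
      exact ⟨fun h => ⟨mem_pp_sp.2 h.2, h.1.2⟩, fun h => ⟨⟨hu, h.2⟩, mem_pp_sp.1 h.1⟩⟩),
    ncard_ne0' (F := F)] at this
  have hq := q2 F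
  obtain ⟨k, hk⟩ : ∃ k, finrank F V = k + 3 := ⟨finrank F V - 3, by omega⟩
  rw [hk, show k + 3 - 1 = k + 2 from rfl, pow_add, pow_add] at this
  have hA : 1 ≤ Fintype.card F ^ k := Nat.one_le_pow _ _ Fintype.card_pos
  generalize Fintype.card F ^ k = A at *
  generalize Fintype.card F = q at *
  obtain ⟨q, rfl⟩ : ∃ r, q = r + 2 := ⟨q - 2, by omega⟩
  obtain ⟨A, rfl⟩ : ∃ r, A = r + 1 := ⟨A - 1, by omega⟩
  zify [show 1 ≤ (q + 2) ^ 4 from Nat.one_le_pow _ _ (by omega), show q + 2 ≤ (q + 2) ^ 2 by nlinarith,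
    show 1 ≤ (A + 1) * (q + 2) ^ 3 from Nat.succ_le_of_lt (by positivity),
    show q + 2 ≤ (A + 1) * (q + 2) ^ 2 by nlinarith] at this
  have p1 : (0 : ℤ) < ((q + 2) ^ 2 - (q + 2)) * ((A + 1) * (q + 2) ^ 3 - 1) := by
    ring_nf; positivity
  have p2 : (0 : ℤ) < ((q + 2) ^ 4 - 1) * ((A + 1) * (q + 2) ^ 2 - (q + 2)) -
      ((q + 2) ^ 2 - (q + 2)) * ((A + 1) * (q + 2) ^ 3 - 1) := by ring_nf; positivity
  nlinarith [mul_pos p1 p2]

theorem dd (ea : EA.{u}) (uu : UU.{u}) (sph : SPH.{u}) (spt : SPT.{u}) : DD.{u} := by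
  rintro F V G _ _ _ _ _ _ _ _ _ B H sy hs hP nt nI ⟨g₀, hg₀, D₀, an₀⟩
  let S : Set (Submodule F V) := {D | (∃ g ∈ H, An B g D) ∧ (D ≤ pp B D ↔ D₀ ≤ pp B D₀)}
  have h3 : ∀ D ∈ S, ∀ h ∈ H, D.map (lin F V h).toLinearMap ∈ S := by
    rintro D ⟨⟨g, hg, an⟩, k⟩ h hh
    refine ⟨⟨_, H.mul_mem (H.mul_mem hh hg) (H.inv_mem hh), sy.an_conj an h⟩, Iff.trans ?_ k⟩
    exact ⟨fun k v hv => sy.smul_pp.1 (k ⟨v, hv, rfl⟩), by
      rintro k _ ⟨v, hv, rfl⟩; exact sy.smul_pp.2 (k hv)⟩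
  have h2 : ∀ v, v ≠ 0 → ∃ D ∈ S, v ∈ D := fun v hv => by
    obtain ⟨y, y1, y0⟩ := ex_ne0 (A := D₀) (by rw [an₀.1]; omega)
    obtain ⟨h, hh, c, hc, e⟩ := (hP y v y0 hv).ex y0
    exact ⟨_, h3 D₀ ⟨⟨g₀, hg₀, an₀⟩, Iff.rfl⟩ h hh,
      (Submodule.smul_mem_iff _ hc).1 (e ▸ ⟨y, y1, rfl⟩)⟩
  have h1 : ∀ D ∈ S, finrank F D = 2 := fun D ⟨⟨_, _, an⟩, _⟩ => an.1
  have h4 : ∀ D ∈ S, ∀ D' ∈ S, ∀ y, y ≠ 0 → y ∈ D' → y ∈ pp B D → D' ≤ pp B D := by
    rintro D ⟨⟨g, hg, an⟩, k⟩ D' hD' y y0 y1 y2 w hw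
    have y3 := an.2.1 y y2
    have y4 : y ∈ D'.map (lin F V g).toLinearMap := ⟨y, y1, y3⟩
    by_cases e : D' = D'.map (lin F V g).toLinearMap
    · by_contra hn
      have i : Ind F y w := ⟨y0, fun h => hn ((Submodule.span_singleton_le_iff_mem _ _).2 y2 h)⟩
      obtain ⟨α, β, h⟩ := mem_ln.1 ((eq_ln (h1 D' hD') i y1 hw).ge (e.ge ⟨w, hw, rfl⟩))
      rw [LinearEquiv.coe_coe, lin_apply] at h
      have k1 : α * B y w ≠ 0 := by simpa [← h, sy.alt] using mt (an.2.2 w) hn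
      have k2 := sy.iso g y w
      rw [y3, ← h, map_add, map_smul, map_smul, sy.alt, smul_zero, zero_add, smul_eq_mul,
        mul_eq_right₀ (right_ne_zero_of_mul k1)] at k2
      have k3 := sy.fx_of an.2.1 w
      rw [← h, k2, one_smul, add_sub_cancel_right, D.smul_mem_iff (left_ne_zero_of_mul k1)] at k3
      exact right_ne_zero_of_mul k1 (hD'.2.2 (k.1 (sy.ti_of an.1 k3 y0 y2)) hw y y1)
    by_cases e1 : E1 B H
    · obtain ⟨g', hg', an'⟩ := hD'.1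
      exact an.2.2 w (sy.swap (uu F V G B H g' _ D' _ y sy e1 nI hg'
        (H.mul_mem (H.mul_mem hg hg') (H.inv_mem hg)) an' (sy.an_conj an' g) e y0 y1 y4 w hw _
        ⟨w, hw, rfl⟩))
    obtain ⟨d, m, d1, d2, -, -, -, hz⟩ := ea F V G B H sy hP nt e1
    have key : ∀ D ∈ S, y ∈ D → {x | x ∈ pp B D ∧ x ≠ 0} =
        {x | x ≠ 0 ∧ B x y = 0 ∧ ∀ w ∈ Mp B H x, B w y = 0} := by
      rintro D ⟨⟨g, hg, an⟩, -⟩ hy
      refine Set.eq_of_subset_of_ncard_le (fun x hx => ⟨hx.2, sy.swap (hx.1 y hy), fun w hw =>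
        sy.swap (an.2.2 w (sy.mp_iso nt hx.2 (an.2.1 x hx.1 ▸ sy.mp_conj hg hw) hw) y hy)⟩) ?_
      rw [hz y y0, ncard_ne0]
      have := sy.finrank_pp D
      have := an.1
      exact Nat.sub_le_sub_right (Nat.pow_le_pow_right Fintype.card_pos (by omega)) 1
    have k2 := (key D' hD' y1).trans (key _ (h3 D' hD' g hg) y4).symm
    refine absurd (sy.pp_inj (Submodule.ext fun x => ?_)) e
    by_cases x0 : x = 0
    · simp [x0]
    · simpa [x0] using Set.ext_iff.1 k2 x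
  by_cases t : D₀ ≤ pp B D₀
  · exact spt F V G B H S sy hs (fun D hD => ⟨h1 D hD, hD.2.2 t⟩) h2 h3 h4
  choose! W hW using h2
  exact sph F V B W sy.toAl sy.n6 (fun v hv => ⟨(hW v hv).2, h1 _ (hW v hv).1, fun h =>
    t ((hW v hv).1.2.1 (sy.ti_of (h1 _ (hW v hv).1) (hW v hv).2 hv h))⟩)
    fun v y hv hy h => h4 _ (hW v hv).1 _ (hW y hy).1 y hy (hW y hy).2 h

end H11.RS
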