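import Cfsg.Agent.H20.SA4
import Cfsg.Agent.H8.G2Two
import Cfsg.Agent.S2360
import Cfsg.Agent.S2603

/-! S2885, chunk `LU33`. -/

set_option autoImplicit false
set_option linter.unusedVariables false
set_option linter.unusedSectionVars false

namespace H11.SA
open Cfsg Subgroup H20.SA Matrix
open H19 hiding eq_bot_mono
open MulAut (conj)
open scoped commutatorElement

section
variable {X : Type*} [Group X] [Finite X] {τ v w : X} {Y : Subgroup (MulAut X)}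

theorem Cf_fix (c : Cf τ Y) {x g : X} (hx : ∀ σ ∈ Y, σ x = x) (hg : g ∈ C[τ]) : ∀ σ ∈ Y, σ (g * x * g⁻¹) = g * x * g⁻¹ :=
  fun σ hσ => by
    have := hx _ ((mem_normalizer_iff.1 (c.cn _ (inv_mem hg)) σ).1 hσ)
    simp only [MulAut.mul_apply, MulAut.conj_apply, ← map_inv, inv_inv] at this
    calc _ = g * (g⁻¹ * σ (g * x * g⁻¹) * g) * g⁻¹ := by group
      _ = _ := by rw [this]

theorem Cf_cm (c : Cf τ Y) {g : X} (hg : g ∈ C[τ]) {σ : MulAut X} (hσ : σ ∈ Y) : conj (g⁻¹ * σ g) ∈ Y := by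
  convert mul_mem ((mem_normalizer_iff.1 (c.cn _ (inv_mem hg)) σ).1 hσ) (inv_mem hσ) using 1
  ext x; simp [mul_assoc]

/-- an element of odd order whose commutator with `σ` is central -/
theorem Cf_odd (z : center X = ⊥) (c : Cf τ Y) {g : X} (hg : g ∈ C[τ]) (o : Odd (orderOf g)) {σ : MulAut X} (hσ : σ ∈ Y)
    (h : Commute (g⁻¹ * σ g) g) : σ g = g := by
  have e : (g⁻¹ * σ g) ^ orderOf g = 1 := by
    have := (h.symm.mul_pow (orderOf g)).symm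
    rwa [mul_inv_cancel_left, ← map_pow, pow_orderOf_eq_one, map_one, one_mul] at this
  have k : conj (g⁻¹ * σ g) = 1 := by
    by_contra n
    obtain ⟨p, hp, d⟩ := Nat.exists_prime_and_dvd (mt orderOf_eq_one_iff.1 n)
    obtain rfl : p = 2 := c.pg.elt (Cf_cm c hg hσ) p hp d
    exact o.not_two_dvd_nat (d.trans (orderOf_dvd_of_pow_eq_one (by rw [← map_pow, e, map_one])))
  exact (inv_mul_eq_one.1 (z.le (mem_center_iff.2 fun y =>
    (mul_inv_eq_iff_eq_mul.1 (DFunLike.congr_fun k y)).symm))).symm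

theorem gbc (z : center X = ⊥) (o : ¬ 3 ∣ Nat.card (Out X)) (c : Cf τ Y) (ha : τ ∈ closure {g | g ∈ C[τ] ∧ g ^ 3 = 1})
    (hb : ∃ U, Syl 2 U ⊤ ∧ U ≤ C[τ] ∧ (∃ v ∈ U, v * v = 1 ∧ v ∉ C(U)) ∧ ∀ σ : MulAut X, (∀ x ∈ U, σ x = x) → σ ∈ Inn X)
    (hd : ∀ x ∈ C[τ], x * x = 1 → x = 1 ∨ x = τ ∨ ∀ c ∈ C[τ], (∀ g ∈ C[τ], Commute c (g * x * g⁻¹)) →
      ∀ g ∈ C[τ], Commute c g) : GB τ Y ∨ GC τ Y := by
  obtain ⟨U, h1, h2, h3, h4⟩ := hb
  refine or_iff_not_imp_right.2 fun n => ?_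
  obtain ⟨x, x2, hx, x1, xt⟩ : ∃ x, x * x = 1 ∧ (∀ σ ∈ Y, σ x = x) ∧ x ≠ 1 ∧ x ≠ τ := by
    by_contra! k
    exact n ⟨U, h1, h2, h3, fun σ _ e _ => h4 σ e, fun x a b => or_iff_not_imp_left.2 (k x a b)⟩
  have k := ((hd x (mem_cent1.2 (mul_inv_eq_iff_eq_mul.1 (hx _ c.mem)).symm) x2).resolve_left x1).resolve_left xt
  refine Subgroup.closure_mono ?_ ha
  rintro g ⟨hg, g3⟩
  refine ⟨fun σ hσ => ?_, ?_⟩
  · have m := Cf_cm c hg hσ
    exact Cf_odd z c hg (Odd.of_dvd_nat (by decide) (orderOf_dvd_of_pow_eq_one g3)) hσ (k _ (mem_cent1.2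
      (mul_inv_eq_iff_eq_mul.1 (c.fx _ m))) (fun a ha => mul_inv_eq_iff_eq_mul.1 (Cf_fix c hx ha _ m)) g hg)
  · exact Nat.Coprime.coprime_dvd_left (orderOf_dvd_of_pow_eq_one g3) (Nat.Coprime.mul_right (by decide)
      ((Nat.Prime.coprime_iff_not_dvd Nat.prime_three).2 o))

theorem ex_dih {M : Subgroup X} (hv : v ∈ M) (hw : w ∈ M) (v2 : v * v = 1) (w2 : w * w = 1) (e : (v * w) ^ 2 ^ 2 = 1) :
    ∃ U, Syl 2 U M ∧ v ∈ U ∧ w ∈ U := by
  obtain ⟨U, hU, l⟩ := (PiN.sup (H := zpowers (v * w)) (K := zpowers v) (piG_zpowers.2 ((PiN.prime_pow Nat.prime_two 2).dvd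
    (orderOf_dvd_of_pow_eq_one e))) (H17.GS.pg_zpowers v2) (zpowers_le.2 (mem_norm_of_cj_le (by
      rw [cj_zpowers, zpowers_le, ← mul_assoc, v2, one_mul, show w * v⁻¹ = (v * w)⁻¹ by
        rw [_root_.mul_inv_rev, inv_eq_of_mul_eq_one_right w2]]
      exact inv_mem (mem_zpowers _))))).exists_syl (sup_le (zpowers_le.2 (mul_mem hv hw)) (zpowers_le.2 hv))
  have a := l (mem_sup_right (mem_zpowers v))
  exact ⟨U, hU, a, (mul_mem_cancel_left a).1 (l (mem_sup_left (mem_zpowers _)))⟩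

theorem kx_one {t : X} (h : ∀ x, x ≠ 1 → x * x = 1 → ∃ g, g * t * g⁻¹ = x) (k : ∀ Y, Cf t Y → GB t Y ∨ GC t Y) : KX X :=
  fun τ Y c => by
    obtain ⟨g, rfl⟩ := h τ (fun e => c.t1 (by rw [e, map_one])) c.tt
    have := (k _ (by simpa [mul_assoc] using c.mp (conj g).symm)).imp (·.mp (conj g)) (·.mp (conj g))
    rwa [← cg_symm, mp_symm] at this
end

open H8

/-- a unitary matrix -/
def su (m : Matrix (Fin 3) (Fin 3) K9) (h : m 0 0 * m 1 1 * m 2 2 - m 0 0 * m 1 2 * m 2 1 - m 0 1 * m 1 0 * m 2 2 +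
    m 0 1 * m 1 2 * m 2 0 + m 0 2 * m 1 0 * m 2 1 - m 0 2 * m 1 1 * m 2 0 = 1 ∧ mᵀ * m.map (H11.frob card_K9) = 1) : SU 3 K9 3 :=
  ⟨⟨m, (det_fin_three m).trans h.1⟩, (H11.mem_SU_iff_matrix card_K9 _).2 h.2⟩

instance decSU : DecidableEq (SU 3 K9 3) := fun a b =>
  decidable_of_iff (a.1.1 = b.1.1) ⟨fun h => Subtype.ext (Subtype.ext h), fun h => h ▸ rfl⟩

def t0 := su !![-1, 0, 0; 0, -1, 0; 0, 0, 1] (by decide +kernel)
def v0 := su !![1, 0, 0; 0, -1, 0; 0, 0, -1] (by decide +kernel)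
def w0 := su !![0, 1, 0; 1, 0, 0; 0, 0, -1] (by decide +kernel)
def d0 := su !![⟨0, 1⟩, 0, 0; 0, ⟨0, 1⟩, 0; 0, 0, -1] (by decide +kernel)
def g1 := su !![⟨1, 1⟩, ⟨1, 1⟩, 0; ⟨2, 1⟩, ⟨1, 2⟩, 0; 0, 0, 1] (by decide +kernel)
def g2 := su !![⟨1, 1⟩, ⟨1, 2⟩, 0; ⟨2, 2⟩, ⟨1, 2⟩, 0; 0, 0, 1] (by decide +kernel)
def mx : Fin 6 → Matrix (Fin 3) (Fin 3) K9 := ![!![0, ⟨0, 1⟩, 0; ⟨0, 2⟩, 0, 0; 0, 0, -1], !![0, ⟨0, 2⟩, 0; ⟨0, 1⟩, 0, 0; 0, 0, -1],
  !![0, 1, 0; 1, 0, 0; 0, 0, -1], !![0, -1, 0; -1, 0, 0; 0, 0, -1], !![1, 0, 0; 0, -1, 0; 0, 0, -1], !![-1, 0, 0; 0, 1, 0; 0, 0, -1]]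
def gx : Fin 6 → SU 3 K9 3 := ![su !![⟨1, 1⟩, ⟨1, 1⟩, 0; ⟨1, 2⟩, ⟨2, 1⟩, 0; 0, 0, -1] (by decide +kernel), g1,
  su !![⟨1, 1⟩, ⟨1, 1⟩, 0; ⟨1, 1⟩, ⟨2, 2⟩, 0; 0, 0, ⟨0, 1⟩] (by decide +kernel),
  su !![⟨1, 1⟩, ⟨1, 1⟩, 0; ⟨2, 2⟩, ⟨1, 1⟩, 0; 0, 0, ⟨0, 2⟩] (by decide +kernel), d0,
  su !![0, ⟨0, 1⟩, 0; ⟨0, 1⟩, 0, 0; 0, 0, 1] (by decide +kernel)]

theorem ent {g h : SU 3 K9 3} (e : g * h = h * g) (i j : Fin 3) : (g.1.1 * h.1.1) i j = (h.1.1 * g.1.1) i j :=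
  congrFun (congrFun (congrArg (·.1.1) e) i) j

theorem blk {g : SU 3 K9 3} (h : g ∈ C[t0]) : g.1.1 = !![g.1.1 0 0, g.1.1 0 1, 0; g.1.1 1 0, g.1.1 1 1, 0; 0, 0, g.1.1 2 2] := by
  have k := ent (mem_cent1.1 h)
  have z : ∀ a : K9, a = -a → a = 0 := by decide +kernel
  have a := k 0 2; have b := k 1 2; have c := k 2 0; have d := k 2 1
  simp [mul_apply, Fin.sum_univ_three, t0, su] at a b c d
  conv_lhs => rw [eta_fin_three g.1.1, z _ a, z _ b, z _ c.symm, z _ d.symm]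

theorem inv6 {x : SU 3 K9 3} (h : x ∈ C[t0]) (e : x * x = 1) : x = 1 ∨ x = t0 ∨ ∃ k, x = gx k * v0 * (gx k)⁻¹ := by
  have u := (H11.mem_SU_iff_matrix card_K9 _).1 x.2
  have d := x.1.2
  have e' : x.1.1 * x.1.1 = 1 := congrArg (·.1.1) e
  rw [blk h] at u d e'
  have := (by decide +kernel : ∀ e : K9, e * e = 1 → ∀ a b c : K9, a * a + b * c = 1 → a * a ^ 3 + c * c ^ 3 = 1 →
    ∀ d : K9, a * b + b * d = 0 → c * b + d * d = 1 → (a * d - b * c) * e = 1 → b * b ^ 3 + d * d ^ 3 = 1 →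
      !![a, b, 0; c, d, 0; 0, 0, e] = 1 ∨ !![a, b, 0; c, d, 0; 0, 0, e] = t0.1.1 ∨ ∃ k, !![a, b, 0; c, d, 0; 0, 0, e] = mx k)
    (x.1.1 2 2) (by simpa [mul_apply, Fin.sum_univ_three] using congrFun (congrFun e' 2) 2) (x.1.1 0 0) (x.1.1 0 1) (x.1.1 1 0)
    (by simpa [mul_apply, Fin.sum_univ_three] using congrFun (congrFun e' 0) 0)
    (by simpa [mul_apply, Fin.sum_univ_three, frob] using congrFun (congrFun u 0) 0) (x.1.1 1 1)
    (by simpa [mul_apply, Fin.sum_univ_three] using congrFun (congrFun e' 0) 1)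
    (by simpa [mul_apply, Fin.sum_univ_three] using congrFun (congrFun e' 1) 1)
    (by rw [det_fin_three] at d; simp at d; linear_combination d)
    (by simpa [mul_apply, Fin.sum_univ_three, frob] using congrFun (congrFun u 1) 1)
  rw [← blk h] at this
  refine this.imp (fun e => Subtype.ext (Subtype.ext e)) (Or.imp (fun e => Subtype.ext (Subtype.ext e))
    (Exists.imp fun k e => eq_mul_inv_of_mul_eq (Subtype.ext (Subtype.ext ?_))))
  change x.1.1 * (gx k).1.1 = (gx k).1.1 * v0.1.1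
  rw [e]; clear e; revert k; decide +kernel

theorem scal {c g : SU 3 K9 3} (hc : c ∈ C[t0]) (h1 : c.1.1 0 1 = 0) (h2 : c.1.1 1 0 = 0) (h3 : c.1.1 0 0 = c.1.1 1 1)
    (hg : g ∈ C[t0]) : Commute c g := Subtype.ext (Subtype.ext (by
  change c.1.1 * g.1.1 = g.1.1 * c.1.1
  rw [blk hc, blk hg, h1, h2, h3]
  refine Matrix.ext fun i j => ?_
  fin_cases i <;> fin_cases j <;> simp [mul_apply, Fin.sum_univ_three, mul_comm]))

theorem kx9 : KX (SU 3 K9 3) := by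
  have : Finite (SU 3 K9 3) := Nat.finite_of_card_ne_zero (by rw [card_SU9]; omega)
  obtain ⟨k1, -, k2, -⟩ := Agent.S2360.result (by decide) card_K9 t0 (by decide +kernel) (by decide +kernel)
  obtain ⟨φ, s, -, o⟩ := Agent.S2603.result (p := 3) (f := 1) (q := 3) (n := 3) le_rfl rfl card_K9 le_rfl (by omega)
  have o2 : Nat.card (Out (SU 3 K9 3)) = 2 := by
    rw [← H16.card_out_congr (H11.quotCenterEquivOfBot center_SU9), ← φ.ker.card_mul_index, o, index_ker,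
      MonoidHom.range_eq_top.2 s]; simp
  have m : ∀ g, g * t0 = t0 * g → g ∈ C[t0] := fun g => mem_cent1.2
  have gm : ∀ k, gx k ∈ C[t0] := fun k => m _ (by revert k; decide +kernel)
  refine kx_one k1 fun Y c => gbc center_SU9 (by rw [o2]; decide) c ?_ ?_ fun x hx e => ?_
  · have a : g1 ∈ closure {g | g ∈ C[t0] ∧ g ^ 3 = 1} := subset_closure ⟨m _ (by decide +kernel), by decide +kernel⟩
    have b : g2 ∈ closure {g | g ∈ C[t0] ∧ g ^ 3 = 1} := subset_closure ⟨m _ (by decide +kernel), by decide +kernel⟩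
    have := mul_mem (mul_mem a b) (mul_mem a b)
    rwa [show g1 * g2 * (g1 * g2) = t0 by decide +kernel] at this
  · obtain ⟨U, hU, a, b⟩ := ex_dih (v := v0) (w := w0) (m _ (by decide +kernel)) (m _ (by decide +kernel))
      (by decide +kernel) (by decide +kernel) (by decide +kernel)
    refine ⟨U, hU.of_idx le_top (PiN.of_not_dvd ?_), hU.le, ⟨v0, a, by decide +kernel, fun e => absurd (e _ b)
      (by decide +kernel)⟩, fun σ hσ => by_contra fun n => ?_⟩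
    · have := C[t0].card_mul_index
      rw [k2, card_SU9] at this
      rw [relIndex_top_right]; omega
    have dU : d0 ∈ U := hU.mem_of_norm (m _ (by decide +kernel)) ((PiN.prime_pow Nat.prime_two 2).dvd
      (orderOf_dvd_of_pow_eq_one (by decide +kernel))) (cent_le_norm _ (mem_cent.2 fun g hg =>
        (scal (m _ (by decide +kernel)) rfl rfl rfl (hU.le hg)).symm))
    have tr : ∀ g : SU 3 K9 3, g * d0 * g⁻¹ ≠ cj9 d0 := fun g e => by
      have := congrArg (·.1.1.trace) e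
      simp only [Subgroup.coe_mul, Subgroup.coe_inv, Matrix.SpecialLinearGroup.coe_mul] at this
      rw [trace_mul_cycle, ← Matrix.SpecialLinearGroup.coe_mul, inv_mul_cancel, Matrix.SpecialLinearGroup.coe_one,
        one_mul] at this
      exact absurd this (by decide +kernel)
    have i2 : (Inn (SU 3 K9 3)).index = 2 := o2
    obtain ⟨g, hg⟩ := (mul_mem_iff_of_index_two i2 (a := cj9) (b := σ)).2 (iff_of_false (fun ⟨g, hg⟩ =>
      tr g (DFunLike.congr_fun hg d0)) n)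
    exact tr g ((DFunLike.congr_fun hg d0).trans (congrArg cj9 (hσ _ dU)))
  · refine (inv6 hx e).imp_right (Or.imp_right fun ⟨k, e⟩ c hc h g hg => ?_)
    have a := h _ (inv_mem (gm k))
    have b := h _ (mul_mem (gm 2) (inv_mem (gm k)))
    rw [e, show (gx k)⁻¹ * (gx k * v0 * (gx k)⁻¹) * (gx k)⁻¹⁻¹ = v0 by group] at a
    rw [e, show gx 2 * (gx k)⁻¹ * (gx k * v0 * (gx k)⁻¹) * (gx 2 * (gx k)⁻¹)⁻¹ = gx 2 * v0 * (gx 2)⁻¹ by group,
      (eq_mul_inv_of_mul_eq (by decide +kernel : w0 * gx 2 = gx 2 * v0)).symm] at b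
    have z : ∀ a : K9, a = -a → a = 0 := by decide +kernel
    have a1 := ent a 0 1; have a2 := ent a 1 0; have b1 := ent b 0 1
    simp [mul_apply, Fin.sum_univ_three, v0, w0, su] at a1 a2 b1
    exact scal hc (z _ a1.symm) (z _ a2) b1 hg

universe u

theorem lu33 : LU33.{u} := fun K _ _ hK _ _ _ =>
  let ⟨σ⟩ := H11.nonempty_ringEquiv_of_card (card_K9.trans hK.symm)
  .inl ((kt _ _ ((H11.quotCenterEquivOfBot center_SU9).symm.trans (H11.psuCongr 3 3 σ))).1 kx9)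

end H11.SA
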