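import Cfsg.Agent.H1.SN0
import Cfsg.Agent.H1.PSolv
import Cfsg.Agent.H24.SylowNum

/-! From simple groups to all groups: Sylow numbers below `p ^ 2`. -/

set_option autoImplicit false
set_option linter.unusedVariables false

open Cfsg
namespace H11.SN
open Subgroup H1 H1.SN

universe u

theorem sq_le {p a b : ℕ} (hp : 1 < p) (ha : a % p = 1) (hb : b % p = 1) (h : a * b < p ^ 2) : a = 1 ∨ b = 1 := by
  by_contra c
  have f : ∀ a, a % p = 1 → a ≠ 1 → p ≤ a := fun a h n => le_of_not_gt fun l => n (by rwa [Nat.mod_eq_of_lt l] at h)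
  have := Nat.mul_le_mul (f a ha fun e => c (.inl e)) (f b hb fun e => c (.inr e))
  rw [sq] at h
  omega

theorem lst {p : ℕ} (hp : 1 < p) : ∀ l : List ℕ, (∀ m ∈ l, IsPrimePow m ∧ m % p = 1 ∨ m = 1) → l.prod < p ^ 2 →
    IsPrimePow l.prod ∧ l.prod % p = 1 ∨ l.prod = 1
  | [], _, _ => .inr rfl
  | a :: l, h, c => by
    rw [List.prod_cons] at c ⊢
    have ha := h a List.mem_cons_self
    have a0 : 0 < a := ha.elim (fun e => e.1.pos) fun e => e ▸ one_pos
    rcases lst hp l (fun m hm => h m (List.mem_cons_of_mem _ hm)) ((Nat.le_mul_of_pos_left _ a0).trans_lt c) with e | e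
    · rcases ha with ha | rfl
      · exact ((sq_le hp ha.2 e.2 c).elim ha.1.ne_one e.1.ne_one).elim
      · rw [one_mul]; exact .inl e
    · rwa [e, mul_one]

theorem simple_one {S : Type u} [Group S] [Finite S] [IsSimpleGroup S] {p : ℕ} [Fact p.Prime] :
    Nat.card (Sylow p S) = 1 ↔ IsPSolvable p S := by
  obtain ⟨P⟩ : Nonempty (Sylow p S) := inferInstance
  constructor
  · intro h
    rw [H24.card_sylow_eq_index P, index_eq_one, normalizer_eq_top_iff] at h
    rcases h.eq_bot_or_eq_top with e | e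
    · exact isPSolvable_of_coprime (coprime_iff_not_dvd.2 (by simpa [e] using P.not_dvd_index))
    · exact isPSolvable_of_isPGroup ((e ▸ P.isPGroup').of_equiv topEquiv)
  · intro h
    obtain ⟨M, h1, h2, h3⟩ := (H2.isPSolvable_iff_nSeries.1 h).exists_normal
    rw [h1.eq_bot_or_eq_top.resolve_left h2, card_top] at h3
    rcases h3 with h3 | h3
    · exact H24.card_sylow_eq_one_of_normal P (by
        rw [(P.is_maximal' ((IsPGroup.iff_card.2 h3).to_subgroup ⊤) le_top).symm]; infer_instance)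
    · exact H24.card_sylow_eq_one_of_not_dvd (coprime_iff_not_dvd.1 h3)

theorem ps1 : PS1.{u} := fun G _ _ p hp h c => by
  have := Fact.mk hp
  obtain ⟨l, e, hl⟩ := H24.card_sylow_prod p (fun X _ => IsPSolvable p X) (fun X _ H h => isPSolvable_subgroup h H)
    (fun X _ N _ h => isPSolvable_quotient h N) G h
  rcases lst hp.one_lt l (fun m hm => (hl m hm).imp_right fun ⟨S, _, _, _, s, t⟩ => t.trans (simple_one.2 s)) (e ▸ c) with t | t
  · obtain ⟨q, k, h1, -, h2⟩ := (isPrimePow_nat_iff _).1 t.1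
    exact ⟨q, k, h1, e ▸ h2.symm⟩
  · exact ⟨2, 0, Nat.prime_two, e ▸ t⟩

theorem ps2 : PS2.{u} := fun G _ _ p hp => by
  have := Fact.mk hp
  refine induction_subgroup_quotient (P := fun G _ _ => ¬ IsPSolvable p G → Nat.card (Sylow p G) < p ^ 2 →
    ∃ (S : Type u) (_ : Group S) (_ : Finite S), IsSimpleGroup S ∧ ¬ IsMulCommutative S ∧ p ∣ Nat.card S ∧
      Nat.card (Sylow p S) = Nat.card (Sylow p G)) (fun G _ _ ihs ihq h c => ?_) G
  by_cases s : IsSimpleGroup G
  · exact ⟨G, _, inferInstance, s, fun a => h (simple_one.1 (H24.card_sylow_eq_one_of_comm a)),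
      not_not.1 fun a => h (isPSolvable_of_coprime (coprime_iff_not_dvd.2 a)), rfl⟩
  have : Nontrivial G := not_subsingleton_iff_nontrivial.1 fun _ => h (isPSolvable_of_isSolvable inferInstance)
  obtain ⟨K, hK, kb, kt⟩ : ∃ K : Subgroup G, K.Normal ∧ K ≠ ⊥ ∧ K ≠ ⊤ := by
    by_contra h
    push Not at h
    exact s ⟨fun K hK => or_iff_not_imp_left.2 (h K hK)⟩
  obtain ⟨P⟩ : Nonempty (Sylow p G) := inferInstance
  have e := H24.card_sylow_hall K P
  have m : ∀ (X : Type u) [Group X] [Finite X], Nat.card (Sylow p X) % p = 1 := fun X _ _ =>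
    Eq.trans (card_sylow_modEq_one p X) (Nat.mod_eq_of_lt hp.one_lt)
  have w : ∀ (a b d : ℕ), Nat.card (Sylow p G) = a * (b * d) → a % p = 1 → b % p = 1 → d % p = 1 →
      (a < p ^ 2 → ∃ (S : Type u) (_ : Group S) (_ : Finite S), IsSimpleGroup S ∧ ¬ IsMulCommutative S ∧ p ∣ Nat.card S ∧
        Nat.card (Sylow p S) = a) → ∃ (S : Type u) (_ : Group S) (_ : Finite S), IsSimpleGroup S ∧ ¬ IsMulCommutative S ∧
          p ∣ Nat.card S ∧ Nat.card (Sylow p S) = Nat.card (Sylow p G) := fun a b d e ha hb hd ih => by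
    have f : b * d % p = 1 := by rw [Nat.mul_mod, hb, hd]; exact Nat.mod_eq_of_lt hp.one_lt
    obtain ⟨S, _, _, s1, s2, s3, s4⟩ := ih ((Nat.le_mul_of_pos_right a (Nat.pos_of_ne_zero fun z => by simp [z] at f)).trans_lt (e ▸ c))
    refine ⟨S, _, ‹_›, s1, s2, s3, ?_⟩
    rw [e, (sq_le hp.one_lt ha f (e ▸ c)).resolve_left fun t => ?_, mul_one, s4]
    obtain ⟨Q⟩ : Nonempty (Sylow p S) := inferInstance
    rw [← s4, H24.card_sylow_eq_index Q, index_eq_one, normalizer_eq_top_iff] at t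
    rcases t.eq_bot_or_eq_top with e | e
    · exact Q.not_dvd_index (by simpa [e] using s3)
    · have : Group.IsNilpotent S := ((e ▸ Q.isPGroup' : IsPGroup p (⊤ : Subgroup S)).of_equiv topEquiv).isNilpotent
      exact s2 ⟨⟨IsSimpleGroup.comm_iff_isSolvable.2 inferInstance⟩⟩
  by_cases k : IsPSolvable p K
  · exact w _ _ _ (e.trans (mul_assoc ..)) (m _) (m _) (m _) (ihq K kb fun a => h (isPSolvable_of_normal K k a))
  · exact w _ _ _ (e.trans ((congrArg (· * _) (mul_comm ..)).trans (mul_assoc ..))) (m _) (m _) (m _) (ihs K kt k)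

end H11.SN
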