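/-
S3140, chunk `CT`: the Curtis-Tits amalgam of `SL₃(3)` and `Sp₄(3)` generates `PSp₆(3)`.
-/
import Cfsg.Agent.H12.T31
import Cfsg.Agent.H11.PrD
import Cfsg.Agent.H11.PrSp
import Cfsg.Agent.H11.SpSimple

set_option autoImplicit false
set_option maxHeartbeats 800000

namespace H11.T3
open H14 H14.RootSys H14.PreSt Subgroup H13.SL2 H11.Md H11.PSL H11.C2 H12.T3 H8.LS Cfsg
open Matrix hiding transvection
open Matrix.SpecialLinearGroup
open scoped MatrixGroups

universe u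

abbrev K₃ := ZMod 3
abbrev P6 := symplecticGroup (Fin 3) K₃

theorem sp_long {n : ℕ} {F : Type} [Field F] (a b : Fin n ⊕ Fin n) (h' : IsRt (wbC n).μ (wbC n).N (μ2 a - μ2 b))
    (g : symplecticGroup (Fin n) F) (t : F) (e1 : b = a.swap) (e2 : g.1 = 1 + single a b t) :
    g = (spSt n F).x ((wbC n).rt h') t := by
  apply spToGL_injective
  rw [spSt_isHom]
  apply Units.ext
  refine Matrix.ext_of_mulVec_single fun c => ?_
  refine Eq.trans ?_ ((wbC n).X_mulVec h' (μ2_ne _) t _).symm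
  change g.1 *ᵥ _ = _
  subst e1
  rw [e2]
  ext i
  rcases a with a | a <;> simp [wbC, barC, μ2_ne, Pi.single_apply, Matrix.one_apply, Matrix.single_apply] <;>
    split_ifs <;> simp_all

theorem sp_short {m : ℕ} {F : Type} [Field F] (i : Fin (m + 1)) (t : F) :
    (spSt (m + 2) F).x ((wbC (m + 2)).R.simple i.castSucc) t = spE (transvection (Fin.castSucc_lt_succ (i := i)).ne t) ∧
    (spSt (m + 2) F).x ((wbC (m + 2)).R.neg ((wbC (m + 2)).R.simple i.castSucc)) t =
      spE (transvection (Fin.castSucc_lt_succ (i := i)).ne' t) := by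
  have e : (wbC (m + 2)).q i.castSucc = .inl i.succ := dif_pos (by simpa using i.2)
  have hr : IsRt (wbC (m + 2)).μ (wbC (m + 2)).N (μ2 (.inl i.castSucc) - μ2 (.inl i.succ)) :=
    e ▸ (wbC (m + 2)).rt_pq i.castSucc
  have es : (wbC (m + 2)).R.simple i.castSucc = (wbC (m + 2)).rt hr :=
    Subtype.ext (congrArg (fun a => μ2 (.inl i.castSucc) - μ2 a) e)
  refine ⟨by rw [es, spE_tv], ?_⟩
  rw [es, spE_tv _ hr.neg']
  exact congrArg (fun r => (spSt _ F).x r t) (Subtype.ext (by rw [Wd.neg_val]; exact neg_sub _ _))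

theorem sp_last {m : ℕ} {F : Type} [Field F] (t : F) (g g' : symplecticGroup (Fin (m + 1)) F)
    (e : g.1 = 1 + single (.inl (Fin.last m)) (.inr (Fin.last m)) t)
    (e' : g'.1 = 1 + single (.inr (Fin.last m)) (.inl (Fin.last m)) t) :
    (spSt (m + 1) F).x ((wbC (m + 1)).R.simple (Fin.last m)) t = g ∧
    (spSt (m + 1) F).x ((wbC (m + 1)).R.neg ((wbC (m + 1)).R.simple (Fin.last m))) t = g' := by
  have e0 : (wbC (m + 1)).q (Fin.last _) = .inr (Fin.last _) := dif_neg (by simp)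
  have hr : IsRt (wbC (m + 1)).μ (wbC (m + 1)).N (μ2 (.inl (Fin.last m)) - μ2 (.inr (Fin.last m))) :=
    e0 ▸ (wbC (m + 1)).rt_pq (Fin.last m)
  have es : (wbC (m + 1)).R.simple (Fin.last m) = (wbC (m + 1)).rt hr :=
    Subtype.ext (congrArg (fun a => μ2 (.inl (Fin.last m)) - μ2 a) e0)
  rw [es]
  exact ⟨(sp_long _ _ hr g t rfl e).symm, (congrArg (fun r => (spSt _ F).x r t)
    (Subtype.ext (by rw [Wd.neg_val]; exact neg_sub _ _))).trans (sp_long _ _ hr.neg' g' t rfl e').symm⟩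

def ix6 : Fin 3 ⊕ Fin 3 ≃ Fin 2 ⊕ (Fin 2 ⊕ Fin 2) where
  toFun := Sum.elim ![.inl 0, .inr (.inl 0), .inr (.inl 1)] ![.inl 1, .inr (.inr 0), .inr (.inr 1)]
  invFun := Sum.elim ![.inl 0, .inr 0] (Sum.elim ![.inl 1, .inl 2] ![.inr 1, .inr 2])
  left_inv := by decide
  right_inv := by decide

theorem J6 : J (Fin 3) K₃ = (fromBlocks !![0, -1; 1, 0] 0 0 (J (Fin 2) K₃)).submatrix ix6 ix6 := by decide +kernel

/-- `Sp₄` on the last two coordinates -/
def j6 : P4 →* P6 where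
  toFun g := ⟨(fromBlocks 1 0 0 g.1).submatrix ix6 ix6, by
    rw [SymplecticGroup.mem_iff, J6, transpose_submatrix, submatrix_mul_equiv, submatrix_mul_equiv, fromBlocks_transpose,
      fromBlocks_multiply, fromBlocks_multiply, transpose_zero, transpose_zero, transpose_one]
    simp [SymplecticGroup.mem_iff.1 g.2]⟩
  map_one' := Subtype.ext (by simp [fromBlocks_one])
  map_mul' a b := Subtype.ext (by
    change submatrix _ _ _ = submatrix _ _ _ * submatrix _ _ _
    rw [submatrix_mul_equiv, fromBlocks_multiply]; simp)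

theorem j6_inj : Function.Injective j6 := fun a b h => by
  have := congrArg (fun g : P6 => g.1.submatrix ix6.symm ix6.symm) h
  simp only [j6, MonoidHom.coe_mk, OneHom.coe_mk, submatrix_submatrix, Equiv.self_comp_symm, submatrix_id_id] at this
  exact Subtype.ext (fromBlocks_inj.1 this).2.2.2

def tv3 (a b : Fin 3) (h : a ≠ b := by decide) (t : K₃) : S3 := transvection h t
def tv2 (a b : Fin 2) (h : a ≠ b := by decide) (t : K₃) : SL(2, K₃) := transvection h t

set_option synthInstance.maxSize 4000 in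
set_option synthInstance.maxHeartbeats 200000 in
theorem ct_dec : (∀ t, spE (tv3 1 2 (t := t)) = j6 (spE (tv2 0 1 (t := t))) ∧ spE (tv3 2 1 (t := t)) = j6 (spE (tv2 1 0 (t := t))) ∧
    tv3 1 2 (t := t) = a0 * tv3 0 1 (t := t) * a0⁻¹ ∧ tv3 2 1 (t := t) = a0 * tv3 1 0 (t := t) * a0⁻¹ ∧
    spE (tv2 0 1 (t := t)) = (C0 * W0 * (U0 * V0)) ^ t.val ∧ spE (tv2 1 0 (t := t)) = (U0 * V0 * C0 * C0) ^ t.val ∧
    tv3 0 1 (t := t) = (c0 * w0 * (u0 * v0)) ^ t.val ∧ tv3 1 0 (t := t) = (u0 * v0 * c0 * c0) ^ t.val ∧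
    (XL ^ t.val).1 = 1 + single (.inl 1) (.inr 1) t ∧ (YL ^ t.val).1 = 1 + single (.inr 1) (.inl 1) t ∧
    (j6 (XL ^ t.val)).1 = 1 + single (.inl 2) (.inr 2) t ∧ (j6 (YL ^ t.val)).1 = 1 + single (.inr 2) (.inl 2) t) ∧
    (spE z0 * j6 (W0 * W0 * U0)).1 = -1 ∧ z0 * (a0 * (w0 * w0 * u0) * a0⁻¹) = 1 ∧ U0 ≠ 1 := by decide +kernel

theorem ct : CT.{u} := fun G _ φ ψ nz cm => by
  obtain ⟨d, dz, dz', dU⟩ := ct_dec
  set ρ := φ a0
  let ψ' : P4 →* G := (MulAut.conj ρ).toMonoidHom.comp ψ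
  have eψ' : ∀ g, ψ' g = ρ * ψ g * ρ⁻¹ := fun g => rfl
  choose e he using exists_nd (S := slSt 2 K₃) (slSt_sep _ _) (slSt_tor _ _)
  have ex : ∀ i t, e i (x t) = _ := fun i t => ((he i).hx t).trans (sl_simple i t).1
  have ey : ∀ i t, e i (y t) = _ := fun i t => ((he i).hy t).trans (sl_simple i t).2
  have na : ∀ i : Fin 2, Nd (spSt 3 K₃) (MonoidHom.id _) ((wbC 3).R.simple i.castSucc) (spE.comp (e i)) := fun i =>
    ⟨fun t => (congrArg spE (ex i t)).trans (sp_short i t).1.symm, fun t => (congrArg spE (ey i t)).trans (sp_short i t).2.symm,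
      fun z z' h => (he i).inj _ _ (spE_inj h)⟩
  obtain ⟨l, hl⟩ := exists_nd (S := spSt 2 K₃) (spSt_sep _ _) (spSt_tor _ _) (Fin.last 1)
  have l2 : ∀ t : K₃, _ := fun t => sp_last (m := 1) t _ _ (d t).2.2.2.2.2.2.2.2.1 (d t).2.2.2.2.2.2.2.2.2.1
  have l3 : ∀ t : K₃, _ := fun t => sp_last (m := 2) t _ _ (d t).2.2.2.2.2.2.2.2.2.2.1 (d t).2.2.2.2.2.2.2.2.2.2.2
  have lx : ∀ t, l (x t) = XL ^ t.val := fun t => (hl.hx t).trans (l2 t).1
  have ly : ∀ t, l (y t) = YL ^ t.val := fun t => (hl.hy t).trans (l2 t).2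
  have nb : Nd (spSt 3 K₃) (MonoidHom.id _) ((wbC 3).R.simple (Fin.last 2)) (j6.comp l) :=
    ⟨fun t => (congrArg j6 (lx t)).trans (l3 t).1.symm, fun t => (congrArg j6 (ly t)).trans (l3 t).2.symm,
      fun z z' h => hl.inj _ _ (j6_inj h)⟩
  have k1 : ∀ t, ψ (spE (tv2 0 1 (t := t))) = φ (tv3 0 1 (t := t)) := fun t => by
    rw [(d t).2.2.2.2.1, (d t).2.2.2.2.2.2.1]; simp only [map_pow, map_mul, nz.u, nz.v, nz.w, nz.c]
  have k2 : ∀ t, ψ (spE (tv2 1 0 (t := t))) = φ (tv3 1 0 (t := t)) := fun t => by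
    rw [(d t).2.2.2.2.2.1, (d t).2.2.2.2.2.2.2.1]; simp only [map_pow, map_mul, nz.u, nz.v, nz.c]
  have k3 : ∀ t, ψ' (spE (tv2 0 1 (t := t))) = φ (tv3 1 2 (t := t)) := fun t => by
    rw [eψ', k1, (d t).2.2.1, map_mul, map_mul, map_inv]
  have k4 : ∀ t, ψ' (spE (tv2 1 0 (t := t))) = φ (tv3 2 1 (t := t)) := fun t => by
    rw [eψ', k2, (d t).2.2.2.1, map_mul, map_mul, map_inv]
  have cm' : ∀ z g, Commute (ψ' (l z)) (ψ g) := fun z g => sl2_commute (φ := ψ'.comp l) (fun t => by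
      rw [MonoidHom.comp_apply, lx, map_pow]; exact (cm g).1.pow_left _) (fun t => by
      rw [MonoidHom.comp_apply, ly, map_pow]; exact (cm g).2.pow_left _) z
  have g1 : ∀ i : Fin 2, ∃ M : Subgroup (P6 × G), Gph M ∧
      ∀ z, (spE (e i z), φ (e i z)) ∈ M ∧ (j6 (l z), ψ' (l z)) ∈ M := fun i => by
    fin_cases i
    · refine orth_graph (spSt_tor _ _) (Fin.castSucc_lt_last _).ne (na _) nb
        (Nd.commute (Fin.castSucc_lt_last _).ne (by decide +kernel) (na _) nb) (α := φ.comp (e _)) (β := ψ'.comp l)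
        fun z z' => sl2_commute (φ := φ.comp (e _)) (fun t => ?_) (fun t => ?_) z
      · rw [MonoidHom.comp_apply, ex]; exact k1 t ▸ (cm' z' _).symm
      · rw [MonoidHom.comp_apply, ey]; exact k2 t ▸ (cm' z' _).symm
    · refine ⟨_, gph_range j6_inj ψ', fun z => ⟨sl2_mem (φ := (spE.prod φ).comp (e _)) (fun t => ?_) (fun t => ?_) z, _, rfl⟩⟩
      · rw [MonoidHom.comp_apply, ex]; exact ⟨_, Prod.ext (d t).1.symm (k3 t)⟩
      · rw [MonoidHom.comp_apply, ey]; exact ⟨_, Prod.ext (d t).2.1.symm (k4 t)⟩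
  obtain ⟨Φ, hΦ⟩ := amalgam (wbC 3).mb.cok connC (spSt_sep _ K₃) (spSt_top _ K₃) (spSt_tor _ K₃)
    (f := Fin.lastCases (j6.comp l) fun i => spE.comp (e i)) (fun i => by
      induction i using Fin.lastCases <;> simp only [Fin.lastCases_last, Fin.lastCases_castSucc, na, nb])
    (Fin.lastCases (ψ'.comp l) fun i => φ.comp (e i)) (fun i i' => by
      induction i using Fin.lastCases with
      | last =>
        induction i' using Fin.lastCases with
        | last => simpa using (g1 0).imp fun M h => ⟨h.1, fun z => (h.2 z).2⟩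
        | cast i' => simpa using (g1 i').imp fun M h => ⟨h.1, fun z => (h.2 z).symm⟩
      | cast i =>
        induction i' using Fin.lastCases with
        | last => simp only [Fin.lastCases_castSucc, Fin.lastCases_last]; exact g1 i
        | cast i' =>
          simp only [Fin.lastCases_castSucc]
          exact ⟨_, gph_range spE_inj φ, fun z => ⟨⟨_, rfl⟩, ⟨_, rfl⟩⟩⟩)
  have h1 : ∀ i z, Φ (spE (e i z)) = φ (e i z) := fun i z => by
    have := hΦ i.castSucc
    simp only [Fin.lastCases_castSucc] at this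
    exact DFunLike.congr_fun this z
  have h2 : ∀ z, Φ (j6 (l z)) = ψ' (l z) := fun z => by
    have := hΦ (Fin.last _)
    simp only [Fin.lastCases_last] at this
    exact DFunLike.congr_fun this z
  have e1 : ∀ s, Φ (spE s) = φ s := fun s => (sl_top (M := (Φ.comp spE).eqLocus φ) fun i t =>
    ⟨ex i t ▸ h1 i (x t), ey i t ▸ h1 i (y t)⟩).ge (mem_top s)
  have e2 : ∀ g, Φ (j6 g) = ψ' g := fun g => (top_of_simple (M := (Φ.comp j6).eqLocus ψ') (spSt_top 2 K₃) fun i t => by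
    induction i using Fin.lastCases with
    | last => rw [(l2 t).1, (l2 t).2, ← lx, ← ly]; exact ⟨h2 _, h2 _⟩
    | cast i =>
      rw [(sp_short i t).1, (sp_short i t).2]
      obtain rfl : i = 0 := Subsingleton.elim _ _
      exact ⟨(congrArg Φ (d t).1.symm).trans ((e1 _).trans (k3 t).symm),
        (congrArg Φ (d t).2.1.symm).trans ((e1 _).trans (k4 t).symm)⟩).ge (mem_top g)
  have r : Φ.range = φ.range ⊔ ψ.range := by
    have m : ∀ g, ψ' g ∈ φ.range ⊔ ψ.range := fun g =>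
      mul_mem (mul_mem (mem_sup_left ⟨_, rfl⟩) (mem_sup_right ⟨_, rfl⟩)) (inv_mem (mem_sup_left ⟨_, rfl⟩))
    refine le_antisymm ?_ (sup_le ?_ ?_)
    · rintro _ ⟨g, rfl⟩
      refine (top_of_simple (M := (φ.range ⊔ ψ.range).comap Φ) (spSt_top 3 K₃) fun i t => ?_).ge (mem_top g)
      induction i using Fin.lastCases with
      | last => rw [(l3 t).1, (l3 t).2, mem_comap, mem_comap, e2, e2]; exact ⟨m _, m _⟩
      | cast i =>
        rw [(sp_short i t).1, (sp_short i t).2, mem_comap, mem_comap, e1, e1]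
        exact ⟨mem_sup_left ⟨_, rfl⟩, mem_sup_left ⟨_, rfl⟩⟩
    · rintro _ ⟨s, rfl⟩; exact ⟨_, e1 s⟩
    · rintro _ ⟨g, rfl⟩
      exact ⟨(spE a0)⁻¹ * j6 g * spE a0, by rw [map_mul, map_mul, map_inv, e1, e2, eψ']; simp only [ρ]; group⟩
  have kz : center P6 ≤ Φ.ker := fun g hg => by
    rcases (sp_mem_center_iff g).1 hg with h | h
    · rw [show g = 1 from Subtype.ext h]; exact one_mem _
    · rw [show g = _ from Subtype.ext (h.trans dz.symm), MonoidHom.mem_ker, map_mul, e1, e2, eψ', map_mul, map_mul, nz.w, nz.u,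
        ← map_one φ, ← dz']
      simp only [map_mul, map_inv, ρ]
  have : IsSimpleGroup (PSp 3 K₃) := psp_simple (by omega) (by omega)
  let Φ' : PSp 3 K₃ →* G := QuotientGroup.lift _ Φ kz
  have i' : Function.Injective Φ' := (MonoidHom.ker_eq_bot_iff _).1 ((Φ'.normal_ker.eq_bot_or_eq_top).resolve_right fun h => by
    have : Φ' (j6 U0 : P6) = 1 := h.ge (mem_top _)
    rw [QuotientGroup.lift_mk, e2, eψ', conj_eq_one_iff] at this
    exact dU (nz.inj (this.trans (map_one ψ).symm)))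
  have r' : Φ'.range = Φ.range := le_antisymm (by
    rintro _ ⟨g, rfl⟩; obtain ⟨g, rfl⟩ := QuotientGroup.mk_surjective g; exact ⟨g, rfl⟩) (by
    rintro _ ⟨g, rfl⟩; exact ⟨g, rfl⟩)
  exact ⟨(MulEquiv.subgroupCongr (r'.trans r).symm).trans (MonoidHom.ofInjective i').symm⟩

end H11.T3
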