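/-
Groups generated by transvections, part 4: closed sets of isotropic points of a unitary space.
-/
import Mathlib

set_option autoImplicit false
set_option linter.unusedSectionVars false

namespace H11.T5

variable {k : Type*} [Field k] {σ : k →+* k} {V : Type*} [AddCommGroup V] [Module k V]

theorem sl2 (h : ∀ a, σ (σ a) = a) {R : k → k → Prop} (m1 : ∀ {a b c}, R a b → σ c = c → R (a + c * b) b)
    (m2 : ∀ {a b c}, R a b → σ c = c → R a (b + c * a)) {a b a' b' : k} (e : a' * σ b' - σ a' * b' = a * σ b - σ a * b)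
    (n : a * σ b - σ a * b ≠ 0) (r : R a b) : R a' b' := by
  have s0 : ∀ {a : k}, a ≠ 0 → σ a ≠ 0 := fun z => (map_ne_zero σ).2 z
  have A : ∀ {a b a'}, R a b → b ≠ 0 → a' * σ b - σ a' * b = a * σ b - σ a * b → R a' b := fun {a b a'} r n e => by
    have := s0 n
    simpa [n] using m1 (c := (a' - a) / b) r (by rw [map_div₀, map_sub]; field_simp; linear_combination -e)
  have B : ∀ {a b b'}, R a b → a ≠ 0 → a * σ b' - σ a * b' = a * σ b - σ a * b → R a b' := fun {a b b'} r n e => by
    have := s0 n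
    simpa [n] using m2 (c := (b' - b) / a) r (by rw [map_div₀, map_sub]; field_simp; linear_combination e)
  have b0 : b' ≠ 0 := fun z => n (by simpa [z] using e.symm)
  have key : ∀ {b}, a' * σ b' - σ a' * b' = a * σ b - σ a * b → a * σ b - σ a * b ≠ 0 → R a b →
      b' * σ b - σ b' * b ≠ 0 → R a' b' := fun {b} e n r m => by
    obtain ⟨c, hc, e1⟩ : ∃ c, σ c = c ∧ c * (b' * σ b - σ b' * b) = a * σ b - σ a * b :=
      ⟨_, by simp only [map_div₀, map_sub, map_mul, h]
             rw [← neg_div_neg_eq]; congr 1 <;> ring, div_mul_cancel₀ _ m⟩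
    refine A (B (A (a' := c * (b' - b)) r (fun z => n (by simp [z])) ?_) (fun z => n ?_) ?_) b0 ?_
    · simp only [map_mul, map_sub, hc]; linear_combination e1
    · rcases mul_eq_zero.1 z with z | z
      · rw [← e1, z, zero_mul]
      · exact absurd (by rw [sub_eq_zero.1 z]; ring) m
    · simp only [map_mul, map_sub, hc]; ring
    · simp only [map_mul, map_sub, hc]; linear_combination e - e1
  by_cases m : b' * σ b - σ b' * b = 0
  · refine key (b := b + 1 * a) (by rw [e, map_add, one_mul]; ring) (by convert n using 1; rw [map_add, one_mul]; ring)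
      (m2 r (map_one σ)) fun z => mul_ne_zero b0 n ?_
    rw [map_add, one_mul] at z
    linear_combination (a + b) * m - b * z
  · exact key e n r m

/-- a set of isotropic vectors closed under its transvections -/
structure UG (F : V →ₛₗ[σ] V →ₗ[k] k) (C : V → Prop) : Prop where
  inv : ∀ a, σ (σ a) = a
  skew : ∀ x y, σ (F x y) = -F y x
  iso : ∀ {v}, C v → F v v = 0
  smul : ∀ {v} (c : k), C v → C (c • v)
  mv : ∀ {v w c}, C v → C w → σ c = c → C (w + (c * F v w) • v)
  opp : ∀ {x z}, x ≠ 0 → z ≠ 0 → ∃ y, C y ∧ F z y ≠ 0 ∧ F x y ≠ 0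
  irr : ∀ W : Submodule k V, (∀ v, C v → v ∈ W) → W = ⊤
  nrm : ∀ a, σ a = a → ∃ b, b * σ b = a
  ne : ∃ e, σ e ≠ e
  three : ∃ c, σ c = c ∧ c ≠ 0 ∧ c ≠ 1
  two : ∀ a b c d a' b' c' d' l l' : k, a + b * l + c * σ l + d * (l * σ l) ≠ 0 →
    a' + b' * l' + c' * σ l' + d' * (l' * σ l') ≠ 0 →
    ∃ l, a + b * l + c * σ l + d * (l * σ l) ≠ 0 ∧ a' + b' * l + c' * σ l + d' * (l * σ l) ≠ 0

variable {F : V →ₛₗ[σ] V →ₗ[k] k} {C : V → Prop}

theorem UG.main (h : UG F C) {x y : V} (hx : C x) (hy : C y) (e1 : F y x = 1) {z₀ : V} (h0 : C z₀)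
    (n0 : F y z₀ * F z₀ x - F z₀ y * F x z₀ ≠ 0) : ∀ z, F z z = 0 → C z := by
  have e2 : F x y = -1 := by rw [← neg_eq_iff_eq_neg, ← h.skew, e1, map_one]
  have ex := h.iso hx
  have ey := h.iso hy
  have x0 : x ≠ 0 := fun z => by simp [z] at e1
  have sk : ∀ {a b}, F a b = 0 → F b a = 0 := fun {a b} e => by rw [← neg_eq_zero, ← h.skew, e, map_zero]
  let pr : V →ₗ[k] V := .id - (F y).smulRight x + (F x).smulRight y
  have hp : ∀ z, z = F y z • x + (-F x z) • y + pr z := fun z => by simp [pr]; abel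
  have p1 : ∀ z, F x (pr z) = 0 := fun z => by simp [pr, ex, e2]
  have p2 : ∀ z, F y (pr z) = 0 := fun z => by simp [pr, ey, e1]
  have p3 : ∀ {u}, F x u = 0 → F y u = 0 → ∀ a b : k, pr (a • x + b • y + u) = u := fun u1 u2 a b => by
    simp [pr, ex, ey, e1, e2, u1, u2]; abel
  have ff : ∀ {u u'}, F x u = 0 → F y u = 0 → F x u' = 0 → F y u' = 0 → ∀ a b a' b' : k,
      F (a' • x + b' • y + u') (a • x + b • y + u) = a * σ b' - σ a' * b + F u' u := fun u1 u2 u3 u4 a b a' b' => by
    simp [ex, ey, e1, e2, u1, u2, sk u3, sk u4]; ring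
  let Gd : V → Prop := fun u => F x u = 0 ∧ F y u = 0 ∧ F u u ≠ 0 ∧
    ∀ a b : k, a * σ b - σ a * b + F u u = 0 → C (a • x + b • y + u)
  have g1 : ∀ {z}, C z → F (pr z) (pr z) ≠ 0 → Gd (pr z) := fun {z} c n => by
    refine ⟨p1 z, p2 z, n, fun a b e => ?_⟩
    have e' := h.iso c
    rw [hp z, ff (p1 z) (p2 z) (p1 z) (p2 z)] at e'
    refine sl2 (R := fun a b => C (a • x + b • y + pr z)) h.inv (fun {a b c} r hc => ?_) (fun {a b c} r hc => ?_)
      (by linear_combination e - e') (fun z => n (by linear_combination e' - z)) (hp z ▸ c)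
    · convert h.mv (c := -c) hx r (by simp [hc]) using 1
      simp only [map_add, map_smul, ex, e2, p1, smul_eq_mul]; module
    · convert h.mv hy r hc using 1
      simp only [map_add, map_smul, ey, e1, p2, smul_eq_mul]; module
  have ex1 : ∀ u, ∃ a, a - σ a + F u u = 0 := fun u => by
    obtain ⟨e, he⟩ := h.ne
    have n : e - σ e ≠ 0 := sub_ne_zero.2 he.symm
    have n' : σ e - e ≠ 0 := sub_ne_zero.2 he
    refine ⟨-(e * F u u / (e - σ e)), ?_⟩
    simp only [map_neg, map_div₀, map_mul, map_sub, h.inv, h.skew]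
    field_simp; ring
  have g3 : ∀ {u u'} (l : k), Gd u → Gd u' → F (u + l • u') (u + l • u') ≠ 0 → Gd (u + l • u') := by
    rintro u u' l ⟨u1, u2, u3, u4⟩ ⟨v1, v2, v3, v4⟩ n
    obtain ⟨a, ha⟩ := ex1 u'
    have s3 : σ (F u' u') = -F u' u' := h.skew _ _
    obtain ⟨b, hb⟩ := h.nrm ((l - F u' u) / F u' u' * σ ((l - F u' u) / F u' u') - F u u / F u' u') (by
      rw [map_sub, map_mul, h.inv, map_div₀ σ (F u u), h.skew, h.skew, neg_div_neg_eq, mul_comm])
    have := h.mv (v4 a 1 (by simpa using ha)) (u4 (l - F u' u + (b - (l - F u' u) / F u' u') * σ a)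
      (b - (l - F u' u) / F u' u') (by
        generalize l - F u' u = m at hb
        simp only [map_add, map_sub, map_mul, h.inv, map_div₀, s3] at hb ⊢
        rw [show σ a = a + F u' u' by linear_combination -ha]
        field_simp at hb ⊢
        linear_combination F u' u' * hb)) (map_one σ)
    rw [ff u1 u2 v1 v2] at this
    have := g1 this
    rw [map_add pr, map_smul pr, p3 u1 u2, p3 v1 v2, map_one] at this
    ring_nf at this
    exact this n
  have g0 : Gd (pr z₀) := g1 h0 fun z => n0 (by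
    have e' := h.iso h0
    rw [hp z₀, ff (p1 _) (p2 _) (p1 _) (p2 _), z, map_neg, h.skew, h.skew] at e'
    linear_combination e')
  have red : ∀ {H Q : V → Prop}, (∀ {z}, H z → F z z = 0) → (∀ {z}, C z → H z) →
      (∀ {v w c}, C v → H w → σ c = c → H (w + (c * F v w) • v)) → (∀ {z}, H z → F (pr z) (pr z) ≠ 0 → Q z) →
      (∀ {v w c}, C v → Q v → σ c = c → Q (w + (c * F v w) • v) → Q w) → Q 0 → ∀ z, H z → Q z := by
    intro H Q h1 h2 h3 h4 h5 h6
    have k1 : ∀ z, H z → F x z ≠ 0 ∨ F y z ≠ 0 → Q z := fun z hz m => by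
      by_cases n : F (pr z) (pr z) ≠ 0
      · exact h4 hz n
      push Not at n
      obtain ⟨v, c, e, n'⟩ : ∃ v, C v ∧ pr v = pr z₀ ∧ F v z ≠ 0 := by
        by_contra! hc
        obtain ⟨a, ha⟩ := ex1 (pr z₀)
        have a0 : σ a ≠ 0 := fun z => g0.2.2.1 (by simpa [(map_eq_zero σ).1 z] using ha)
        have k2 : ∀ a b, a * σ b - σ a * b + F (pr z₀) (pr z₀) = 0 →
            F y z * σ b + σ a * F x z + F (pr z₀) (pr z) = 0 := fun a b e => by
          have := hc _ (g0.2.2.2 a b e) (p3 (p1 _) (p2 _) a b)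
          rw [hp z, ff (p1 _) (p2 _) (p1 _) (p2 _)] at this
          linear_combination this
        have k3 := k2 a 1 (by simpa using ha)
        have k4 := k2 (a + 1) 1 (by simpa using ha)
        have k5 := k2 a (1 + a) (by rw [map_add, map_one]; linear_combination ha)
        simp only [map_add, map_one] at k3 k4 k5
        exact m.elim (· (by linear_combination k4 - k3)) (· (mul_right_cancel₀ a0 (by linear_combination k5 - k3)))
      obtain ⟨d, hd, d0, n''⟩ : ∃ d, σ d = d ∧ d ≠ 0 ∧
          F (pr z + (d * F v z) • pr z₀) (pr z + (d * F v z) • pr z₀) ≠ 0 := by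
        by_contra! hc
        obtain ⟨d, d1, d2, d3⟩ := h.three
        have k3 := hc 1 (map_one σ) one_ne_zero
        have k4 := hc d d1 d2
        simp only [map_add, LinearMap.add_apply, map_smul, LinearMap.map_smulₛₗ₂, smul_eq_mul, n, map_mul, d1,
          map_one] at k3 k4
        exact mul_ne_zero (mul_ne_zero (mul_ne_zero d2 (sub_ne_zero.2 d3)) (mul_ne_zero n' ((map_ne_zero σ).2 n')))
          g0.2.2.1 (by linear_combination k4 - d * k3)
      exact h5 c (h4 (h2 c) (e ▸ g0.2.2.1)) hd (h4 (h3 c hz hd) (by rwa [map_add, map_smul, e]))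
    intro z hz
    by_cases m : F x z ≠ 0
    · exact k1 z hz (.inl m)
    by_cases z0 : z = 0
    · exact z0 ▸ h6
    obtain ⟨v, c, n1, n2⟩ := h.opp x0 z0
    push Not at m
    exact h5 c (k1 v (h2 c) (.inl n2)) (map_one σ) (k1 _ (h3 c hz (map_one σ))
      (.inl (by simpa [m, n2] using fun e => n1 (sk e))))
  let R : Submodule k V :=
    { carrier := {z | ∀ g l, Gd g → F (g + l • pr z) (g + l • pr z) ≠ 0 → Gd (g + l • pr z)}
      zero_mem' := fun g l a _ => by simpa using a
      smul_mem' := fun c z a g l => by simpa only [map_smul, smul_smul] using a g (l * c)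
      add_mem' := fun {z z'} a b g l c n => by
        have k1 : ∀ (s t : V) (m : k), F (s + m • t) (s + m • t) =
            F s s + F s t * m + F t s * σ m + F t t * (m * σ m) := fun s t m => by
          simp only [map_add, LinearMap.add_apply, map_smul, LinearMap.map_smulₛₗ₂, smul_eq_mul]; ring
        obtain ⟨m, m1, m2⟩ := h.two _ _ _ _ _ _ _ _ 0 l ((k1 g (pr z) 0).symm.trans_ne (by simpa using c.2.2.1))
          ((k1 (g + l • pr z') (pr z) l).symm.trans_ne (by
            rwa [show g + l • pr z' + l • pr z = g + l • pr (z + z') by rw [map_add]; module]))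
        rw [← k1] at m1 m2
        have e : g + l • pr (z + z') = g + m • pr z + l • pr z' + (l - m) • pr z := by rw [map_add]; module
        exact e ▸ a _ _ (b _ l (a g m c m1) (add_right_comm g _ _ ▸ m2)) (e ▸ n) }
  have hR : R = ⊤ := h.irr R (red h.iso id h.mv (fun c n g l a => g3 l a (g1 c n))
    (fun _ a _ b => (R.add_mem_iff_left (R.smul_mem _ a)).1 b) (zero_mem R))
  refine red id h.iso (fun {v w c} a b hc => ?_) (fun {z} a n => ?_) (fun {v w c} a _ hc b => ?_)
    (by simpa using h.smul 0 hx)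
  · simp only [map_add, LinearMap.add_apply, map_smul, LinearMap.map_smulₛₗ₂, smul_eq_mul, b, h.iso a, map_mul, hc,
      h.skew]
    ring
  · have e : pr z = pr z₀ + (1 : k) • pr (z - z₀) := by simp
    have := hR.ge (Submodule.mem_top (x := z - z₀)) _ 1 g0 (e ▸ n)
    rw [← e] at this
    rw [hp z, ff (p1 _) (p2 _) (p1 _) (p2 _)] at a
    exact hp z ▸ this.2.2.2 _ _ a
  · simpa [h.iso a] using h.mv (c := -c) a b (by simp [hc])

theorem UG.full (h : UG F C) {u v w : V} (hu : C u) (hv : C v) (hw : C w)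
    (n : F u v * F v w * F w u + F u w * F w v * F v u ≠ 0) : ∀ z, F z z = 0 → C z := by
  have n1 : F u v ≠ 0 := fun z => n (by rw [z, ← neg_neg (F v u), ← h.skew, z]; simp)
  have n2 : F v u ≠ 0 := fun z => n1 (by rw [← neg_neg (F u v), ← h.skew, z]; simp)
  refine h.main hu (h.smul (-F u v)⁻¹ hv) (by simp [h.skew, n2]) hw fun z => n ?_
  simp only [LinearMap.map_smulₛₗ₂, map_smul, smul_eq_mul, map_inv₀, map_neg, h.skew, neg_neg] at z
  field_simp at z
  linear_combination z

theorem two_of [Fintype k] {q : ℕ} (hF : Fintype.card k = q ^ 2) (hq : 3 ≤ q) (a b c d a' b' c' d' l l' : k)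
    (h : a + b * l + c * l ^ q + d * (l * l ^ q) ≠ 0) (h' : a' + b' * l' + c' * l' ^ q + d' * (l' * l' ^ q) ≠ 0) :
    ∃ l, a + b * l + c * l ^ q + d * (l * l ^ q) ≠ 0 ∧ a' + b' * l + c' * l ^ q + d' * (l * l ^ q) ≠ 0 := by
  open Polynomial in
  let p : k → k → k → k → k[X] := fun a b c d => .C a + .C b * X + .C c * X ^ q + .C d * X ^ (q + 1)
  have e : ∀ a b c d l, (p a b c d).eval l = a + b * l + c * l ^ q + d * (l * l ^ q) := fun a b c d l => by
    simp [p, pow_succ']
  have dg : ∀ a b c d, (p a b c d).natDegree ≤ q + 1 := fun a b c d => by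
    simp only [p]; compute_degree
  by_contra! hc
  have := Polynomial.eq_zero_of_natDegree_lt_card_of_eval_eq_zero (p a b c d * p a' b' c' d') Function.injective_id
    (fun l => by
      rw [Polynomial.eval_mul, e, e]
      exact mul_eq_zero.2 (or_iff_not_imp_left.2 (hc l)))
    (Polynomial.natDegree_mul_le.trans_lt (by have := dg a b c d; have := dg a' b' c' d'; nlinarith))
  rcases mul_eq_zero.1 this with z | z
  · exact h (by rw [← e, z, Polynomial.eval_zero])
  · exact h' (by rw [← e, z, Polynomial.eval_zero])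

end H11.T5
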