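import Cfsg.Agent.H14.St7

/-! # Conjugacy classes meet the big cell of a maximal parabolic with prescribed torus part -/

set_option autoImplicit false
set_option linter.unusedSectionVars false
set_option maxHeartbeats 400000

namespace H11.Th

open H14 H14.RootSys H14.PreSt H14.St Subgroup

variable {ι κ : Type*} [Fintype κ] [DecidableEq κ] [Fintype ι] [DecidableEq ι] {R : RootSys ι κ}
  {C : Chev R} {K G : Type*} [Field K] [Group G]

theorem into_pos (f : (κ → ℤ) →+ ℤ) :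
    R.Into {r | 0 ≤ f (R.cf r)} {r | 0 < f (R.cf r)} {r | 0 < f (R.cf r)} := fun r hr s hs => by
  simp only [Set.mem_ofPred_eq] at hr hs ⊢
  refine ⟨?_, fun k i j hi hj e => ?_⟩
  · rintro rfl
    rw [R.cf_neg, map_neg] at hs; omega
  · rw [e, map_add, map_zsmul, map_zsmul, smul_eq_mul, smul_eq_mul]; positivity

theorem into_neg (f : (κ → ℤ) →+ ℤ) :
    R.Into {r | f (R.cf r) ≤ 0} {r | f (R.cf r) < 0} {r | f (R.cf r) < 0} := by
  simpa using into_pos (R := R) (-f)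

/-- coefficient of `α` -/
def f1 (α : κ) : (κ → ℤ) →+ ℤ := Pi.evalAddMonoidHom (fun _ => ℤ) α

/-- height away from `α` -/
def f2 (α : κ) : (κ → ℤ) →+ ℤ := htf κ - f1 α

theorem f2_eq (α : κ) (μ : κ → ℤ) : f2 α μ = ∑ j ∈ Finset.univ.erase α, μ j := by
  rw [Finset.sum_erase_eq_sub (Finset.mem_univ α)]; rfl

theorem f2_simple (α : κ) : f2 α (R.cf (R.simple α)) = 0 := by
  rw [f2_eq, cf_simple]; exact Finset.sum_eq_zero fun j hj => Pi.single_eq_of_ne (Finset.mem_erase.1 hj).1 _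

theorem f2_neg_simple (α : κ) : f2 α (R.cf (R.neg (R.simple α))) = 0 := by rw [R.cf_neg, map_neg, f2_simple, neg_zero]

theorem f2_pos {α : κ} {r : ι} : 0 < f2 α (R.cf r) ↔ R.pos r ∧ r ≠ R.simple α := by
  constructor
  · intro h
    refine ⟨by_contra fun e => ?_, by rintro rfl; simp [f2_simple] at h⟩
    rw [f2_eq] at h
    exact not_le.2 h (Finset.sum_nonpos fun j _ => (R.not_pos_iff r).1 e j)
  · rintro ⟨h, h'⟩
    rw [f2_eq]
    refine Finset.sum_pos' (fun j _ => h j) (by_contra fun e => h' (R.eq_simple_of_support h fun j hj => ?_))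
    exact le_antisymm (not_lt.1 fun e' => e ⟨j, by simpa using hj, e'⟩) (h j)

theorem f2_neg {α : κ} {r : ι} : f2 α (R.cf r) < 0 ↔ ¬ R.pos r ∧ r ≠ R.neg (R.simple α) := by
  have := f2_pos (R := R) (α := α) (r := R.neg r)
  rwa [R.cf_neg, map_neg, Left.neg_pos_iff, pos_neg_iff, Ne, neg_eq_iff] at this

variable (S : St C K G) (α : κ)

/-- unipotent radical -/
def Vp : Subgroup G := S.U {r | 0 < R.cf r α}
/-- opposite radical -/
def Vm : Subgroup G := S.U {r | R.cf r α < 0}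
/-- derived Levi factor -/
def Mz : Subgroup G := S.U {r | R.cf r α = 0}
/-- Levi factor -/
def Lz : Subgroup G := Mz S α ⊔ S.H
/-- parabolic -/
def Pz : Subgroup G := S.U {r | 0 ≤ R.cf r α} ⊔ S.H
/-- big cell -/
def Om (g : G) : Prop := ∃ v ∈ S.U {r | ¬ R.pos r}, ∃ p ∈ Pz S α, g = v * p

variable {S α}

theorem x_Vp {r : ι} (h : 0 < R.cf r α) (t : K) : S.x r t ∈ Vp S α := x_mem_U (A := {r | 0 < R.cf r α}) h t
theorem x_Vm {r : ι} (h : R.cf r α < 0) (t : K) : S.x r t ∈ Vm S α := x_mem_U (A := {r | R.cf r α < 0}) h t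
theorem x_Mz {r : ι} (h : R.cf r α = 0) (t : K) : S.x r t ∈ Mz S α := x_mem_U (A := {r | R.cf r α = 0}) h t
theorem x_Up {r : ι} (h : R.pos r) (t : K) : S.x r t ∈ S.U {r | R.pos r} := x_mem_U (A := {r | R.pos r}) h t
theorem x_Um {r : ι} (h : ¬ R.pos r) (t : K) : S.x r t ∈ S.U {r | ¬ R.pos r} := x_mem_U (A := {r | ¬ R.pos r}) h t
theorem f2p_le : S.U {r | 0 < f2 α (R.cf r)} ≤ S.U {r | R.pos r} := U_mono fun _ h => (f2_pos.1 h).1
theorem f2m_le : S.U {r | f2 α (R.cf r) < 0} ≤ S.U {r | ¬ R.pos r} := U_mono fun _ h => (f2_neg.1 h).1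

theorem conj_f2p {r : ι} (h : f2 α (R.cf r) = 0) (t : K) {u : G} (hu : u ∈ S.U {r | 0 < f2 α (R.cf r)}) :
    S.x r t * u * (S.x r t)⁻¹ ∈ S.U {r | R.pos r} :=
  f2p_le (conj_mem_U_of_into (into_pos (f2 α)) (x_mem_U (A := {r | 0 ≤ f2 α (R.cf r)}) h.ge t) hu)

theorem conj_f2m {r : ι} (h : f2 α (R.cf r) = 0) (t : K) {u : G} (hu : u ∈ S.U {r | f2 α (R.cf r) < 0}) :
    S.x r t * u * (S.x r t)⁻¹ ∈ S.U {r | ¬ R.pos r} :=
  f2m_le (conj_mem_U_of_into (into_neg (f2 α)) (x_mem_U (A := {r | f2 α (R.cf r) ≤ 0}) h.le t) hu)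

theorem Vp_le : Vp S α ≤ S.U {r | R.pos r} := U_mono fun _ h => R.pos_of_cf_pos h
theorem Vm_le : Vm S α ≤ S.U {r | ¬ R.pos r} := U_mono fun _ h => R.not_pos_of_cf_neg h
theorem Up_le : S.U {r | R.pos r} ≤ Pz S α := le_sup_of_le_left (U_mono fun _ h => h α)
theorem H_le_P : S.H ≤ Pz S α := le_sup_right
theorem B_le_Pz : S.B ≤ Pz S α := sup_le Up_le H_le_P
theorem L_le_P : Lz S α ≤ Pz S α := sup_le_sup_right (U_mono fun _ h => Eq.ge h) _
theorem M_le_L : Mz S α ≤ Lz S α := le_sup_left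
theorem H_le_L : S.H ≤ Lz S α := le_sup_right

theorem Pz_eq : Pz S α = S.P {α}ᶜ := by
  rw [P_eq, sup_comm, Pz]
  congr 2
  ext r
  simp only [InJ, Set.mem_ofPred_eq, Set.mem_compl_iff, not_not, Set.mem_singleton_iff, forall_eq]
  exact ⟨fun h => h.lt_or_eq.imp R.pos_of_cf_pos Eq.symm, fun h => h.elim (fun h => h α) Eq.ge⟩

theorem P_conj {p u : G} (hp : p ∈ Pz S α) (hu : u ∈ Vp S α) : p * u * p⁻¹ ∈ Vp S α :=
  (mem_normalizer_iff.1 ((sup_le (U_le_normalizer (into_pos (f1 α))) (H_le_normalizer _) :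
    Pz S α ≤ normalizer (Vp S α : Set G)) hp) u).1 hu

theorem L_conj {l v : G} (hl : l ∈ Lz S α) (hv : v ∈ Vm S α) : l * v * l⁻¹ ∈ Vm S α :=
  (mem_normalizer_iff.1 ((sup_le (U_le_normalizer ((into_neg (f1 α)).mono (fun _ h => Eq.le h) subset_rfl subset_rfl))
    (H_le_normalizer _) : Lz S α ≤ normalizer (Vm S α : Set G)) hl) v).1 hv

theorem P_dec {p : G} (hp : p ∈ Pz S α) : ∃ l ∈ Lz S α, ∃ u ∈ Vp S α, p = l * u := by
  have h1 : Pz S α ≤ Lz S α ⊔ Vp S α := sup_le (U_le.2 fun r hr t => (LE.le.lt_or_eq hr).elim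
    (fun h => mem_sup_right (x_Vp h t)) fun h => mem_sup_left (M_le_L (x_Mz h.symm t)))
    (le_sup_of_le_left H_le_L)
  have h2 : Lz S α ≤ normalizer (Vp S α : Set G) :=
    L_le_P.trans (sup_le (U_le_normalizer (into_pos (f1 α))) (H_le_normalizer _))
  have := h1 hp
  rw [← SetLike.mem_coe, Subgroup.coe_mul_of_left_le_normalizer_right _ _ h2] at this
  obtain ⟨l, hl, u, hu, e⟩ := this
  exact ⟨l, hl, u, hu, e.symm⟩

theorem Up_dec {w : G} (hw : w ∈ S.U {r | R.pos r}) :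
    ∃ m ∈ Mz S α, m ∈ S.U {r | R.pos r} ∧ ∃ u ∈ Vp S α, w = m * u := by
  obtain ⟨m, hm, u, hu, e⟩ := exists_mul closed_pos (htf κ) (fun _ => htf_pos) {r | R.cf r α = 0} hw
  exact ⟨m, U_mono Set.inter_subset_right hm, U_mono Set.inter_subset_left hm, u,
    U_mono (A := {r | R.pos r} \ {r | R.cf r α = 0}) (fun r h => lt_of_le_of_ne (h.1 α) (Ne.symm h.2)) hu, e⟩

theorem Om.dec {g : G} (h : Om S α g) : ∃ v ∈ Vm S α, ∃ l ∈ Lz S α, ∃ u ∈ Vp S α, g = v * l * u := by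
  obtain ⟨v0, hv0, p, hp, rfl⟩ := h
  obtain ⟨v, hv, m, hm, rfl⟩ := exists_mul' closed_neg (-htf κ) (fun _ => htf_neg) {r | R.cf r α = 0} hv0
  obtain ⟨l, hl, u, hu, e⟩ := P_dec (mul_mem (L_le_P (M_le_L (U_mono Set.inter_subset_right hm))) hp)
  exact ⟨v, U_mono (A := {r | ¬ R.pos r} \ {r | R.cf r α = 0})
    (fun r h => lt_of_le_of_ne ((R.not_pos_iff r).1 h.1 α) h.2) hv, l, hl, u, hu, by
    rw [mul_assoc, e, mul_assoc]⟩

theorem Om.mul_left {g v : G} (h : Om S α g) (hv : v ∈ S.U {r | ¬ R.pos r}) : Om S α (v * g) := by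
  obtain ⟨v', hv', p, hp, rfl⟩ := h
  exact ⟨_, mul_mem hv hv', p, hp, (mul_assoc _ _ _).symm⟩

theorem Om.mul_right {g p : G} (h : Om S α g) (hp : p ∈ Pz S α) : Om S α (g * p) := by
  obtain ⟨v, hv, p', hp', rfl⟩ := h
  exact ⟨v, hv, _, mul_mem hp' hp, mul_assoc _ _ _⟩

theorem om_of_mem {p : G} (hp : p ∈ Pz S α) : Om S α p := ⟨1, one_mem _, p, hp, (one_mul p).symm⟩

theorem Om.L_mul {g l : G} (h : Om S α g) (hl : l ∈ Lz S α) : Om S α (l * g) := by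
  obtain ⟨v, hv, l', hl', u, hu, rfl⟩ := h.dec
  exact ⟨_, Vm_le (L_conj hl hv), l * l' * u, mul_mem (L_le_P (mul_mem hl hl')) (Up_le (Vp_le hu)), by group⟩

theorem Up_split {u : G} (hu : u ∈ S.U {r | R.pos r}) :
    ∃ u' ∈ S.U {r | 0 < f2 α (R.cf r)}, ∃ c, u = u' * S.x (R.simple α) c := by
  obtain ⟨u', h1, b, h2, rfl⟩ := exists_mul' closed_pos (htf κ) (fun _ => htf_pos) {R.simple α} hu
  obtain ⟨c, rfl⟩ := mem_U_singleton.1 (U_mono Set.inter_subset_right h2)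
  exact ⟨u', U_mono (fun r h => f2_pos.2 h) h1, c, rfl⟩

theorem Um_split {v : G} (hv : v ∈ S.U {r | ¬ R.pos r}) :
    ∃ c, ∃ v' ∈ S.U {r | f2 α (R.cf r) < 0}, v = S.x (R.neg (R.simple α)) c * v' := by
  obtain ⟨b, h2, v', h1, rfl⟩ := exists_mul closed_neg (-htf κ) (fun _ => htf_neg) {R.neg (R.simple α)} hv
  obtain ⟨c, rfl⟩ := mem_U_singleton.1 (U_mono Set.inter_subset_right h2)
  exact ⟨c, v', U_mono (fun r h => f2_neg.2 h) h1, rfl⟩

theorem x_neg_mem (t : K) : S.x (R.neg (R.simple α)) t ∈ Vm S α := x_Vm (by simp [cf_neg, cf_simple]) t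

theorem x_pos_mem (t : K) : S.x (R.simple α) t ∈ Vp S α := x_Vp (by simp [cf_simple]) t

theorem x_mul_n (r : ι) {e : K} (he : e ≠ 0) :
    ∃ c, S.x r e * S.n r (-1) = S.x (R.neg r) e⁻¹ * S.h r e * S.x r c := by
  obtain ⟨c, hc⟩ := NW.conj_x (n_mem_NW (S := S.toPreSt) r one_ne_zero) (R.neg r) e⁻¹
  have h1 := S.n_neg r (t := -e⁻¹) (by simpa)
  rw [PreSt.n, R.neg_neg, inv_neg, inv_inv, _root_.neg_neg] at h1
  rw [refl_neg_self] at hc
  refine ⟨c, ?_⟩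
  rw [← hc, h, ← h1, ← n_inv, ← x_inv]
  group

theorem key1 {v l u : G} (hv : v ∈ Vm S α) (hl : l ∈ Lz S α) (hu : u ∈ S.U {r | 0 < f2 α (R.cf r)}) {e : K}
    (he : e ≠ 0) : ∃ v' ∈ Vm S α, ∃ w ∈ S.U {r | R.pos r},
      v * l * (u * S.x (R.simple α) e) * S.n (R.simple α) (-1) = v' * (l * S.h (R.simple α) e) * w := by
  obtain ⟨c, hc⟩ := x_mul_n (S := S) (R.simple α) he
  have h2 := H_conj_mem_U (inv_mem (h_mem_H (R.simple α) he)) (conj_f2p (f2_neg_simple α) (-e⁻¹) hu)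
  refine ⟨_, mul_mem hv (L_conj hl (x_neg_mem e⁻¹)), _, mul_mem h2 (x_Up (R.pos_simple α) c), ?_⟩
  rw [mul_assoc, mul_assoc u, hc, ← x_inv]
  group

theorem key2 {v p : G} (hv : v ∈ S.U {r | f2 α (R.cf r) < 0}) (hp : p ∈ Pz S α) {e : K} (he : e ≠ 0) :
    Om S α (S.n (R.simple α) (-1) * (S.x (R.neg (R.simple α)) e * v * p)) := by
  have hn := n_mem_NW (S := S.toPreSt) (R.simple α) (t := -1) (by simp)
  obtain ⟨c, hc⟩ := NW.conj_x hn (R.simple α) e⁻¹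
  have h1 := conj_f2m (f2_simple α) e⁻¹ hv
  have h2 := mem_H_of_NW (by simpa using NW.mul hn (n_mem_NW (R.simple α) (t := -e⁻¹) (by simpa)))
  have h3 := (((om_of_mem (mul_mem (Up_le (x_Up (R.pos_simple α) e⁻¹)) hp)).mul_left
    h1).L_mul (H_le_L h2)).mul_left (Vm_le (x_neg_mem (α := α) c))
  rw [← refl_self, ← hc] at h3
  rw [x_neg_eq]
  convert h3 using 1
  simp only [← n_inv]
  group

theorem exists_neg_cell {w : Equiv.Perm ι} (hw : w ∈ R.W) : ∃ y ∈ S.U {r | ¬ R.pos r}, S.Cell w⁻¹ y := by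
  refine R.W_induction (P := fun w => ∃ y ∈ S.U {r | ¬ R.pos r}, S.Cell w⁻¹ y)
    ⟨1, one_mem _, cell_one_iff.2 (one_mem _)⟩ ?_ hw
  rintro w _ j hj ⟨y, hy, h⟩
  refine ⟨_, mul_mem (x_Um ((R.pos_neg_iff _).not.2 (not_not.2 (R.pos_simple j))) 1) hy, ?_⟩
  have hx := U_le_B (x_Up (S := S) (R.pos_simple j) (1 : K)⁻¹)
  rw [x_neg_eq, mul_assoc, mul_assoc, mul_inv_rev, refl_inv]
  exact (((h.mul_left hx).n_mul_of_pos j (n_mem_NW _ (by simp))).resolve_right fun e => e.1 hj).mul_left hx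

theorem mem_P_of_om (hS : S.Sep) {n : G} {w : Equiv.Perm ι} (hn : (n, w) ∈ S.NW) (h : Om S α n) : n ∈ Pz S α := by
  obtain ⟨v, hv, p, hp, rfl⟩ := h
  rw [Pz_eq]
  refine NW.mem_P hn (R.mem_WJ_of_inv (NW.mem_W hn) fun r hr j hj => by_contra fun e => ?_)
  rw [mem_inv] at hr
  obtain rfl : j = α := by simpa using hj
  obtain ⟨c, hc, e1⟩ := NW.act hn r
  have h1 := U_le_B (Vp_le (P_conj hp (x_Vp (lt_of_le_of_ne (hr.1 j) (Ne.symm e)) 1)))
  have h2 : p * S.x r 1 * p⁻¹ = v⁻¹ * S.x (w r) (c * 1) * v := by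
    rw [eq_mul_inv_of_mul_eq (e1 1).symm]; group
  have h3 := eq_one_of_mem_B_neg hS (mul_mem (mul_mem (inv_mem hv) (x_Um hr.2 (c * 1))) hv) (by rwa [← h2])
  exact hc (by simpa using hS.x_eq_one.1 (by simpa [mul_assoc, inv_mul_eq_iff_eq_mul] using h3))

theorem Pz_ne_top (hS : S.Sep) : Pz S α ≠ ⊤ := fun e => by
  obtain ⟨c, hc, e1⟩ := NW.act (n_mem_NW (S := S.toPreSt) (R.simple α) one_ne_zero) (R.simple α)
  have := Vp_le (P_conj (e.ge (mem_top (S.n (R.simple α) 1))) (x_pos_mem 1))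
  rw [e1, mul_inv_cancel_right, refl_self] at this
  exact (R.pos_neg_iff _).1 (hS.pos_of_x_mem (by simpa) this) (R.pos_simple α)

theorem isConj_conj {γ g : G} (h : IsConj γ g) (y : G) : IsConj γ (y * g * y⁻¹) := h.trans (isConj_iff.2 ⟨y, rfl⟩)

theorem exists_om (hS : S.Sep) (hG : S.U Set.univ = ⊤) {γ : G} (hγ : normalClosure {γ} = ⊤) :
    ∃ g, IsConj γ g ∧ Om S α (g * S.n (R.simple α) (-1)) := by
  by_contra! H
  have h1 : ∀ g, IsConj γ g → Om S α g → ∀ j t, Om S α (S.x (R.simple j) t * g * (S.x (R.simple j) t)⁻¹) ∧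
      Om S α (S.x (R.neg (R.simple j)) t * g * (S.x (R.neg (R.simple j)) t)⁻¹) := by
    intro g hg h j t
    by_cases hj : j = α
    · subst hj
      constructor
      · obtain ⟨v0, hv0, p, hp, rfl⟩ := h
        obtain ⟨c, v, hv, rfl⟩ := Um_split (α := j) hv0
        obtain rfl : c = 0 := by_contra fun e => H _ (isConj_conj hg (S.n (R.simple j) (-1)))
          (by rw [inv_mul_cancel_right]; exact key2 hv hp e)
        have hx := Up_le (α := j) (x_Up (S := S) (R.pos_simple j) t)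
        exact ⟨_, conj_f2m (f2_simple j) t hv,
          _, mul_mem (mul_mem hx hp) (inv_mem hx), by rw [x_zero]; group⟩
      · obtain ⟨v, hv, l, hl, u0, hu0, rfl⟩ := h.dec
        obtain ⟨u, hu, c, rfl⟩ := Up_split (α := j) (Vp_le hu0)
        obtain rfl : c = 0 := by_contra fun e => H _ hg (by
          obtain ⟨v', h1, w, h2, e1⟩ := key1 hv hl hu e
          exact ⟨v', Vm_le h1, _, mul_mem (L_le_P (mul_mem hl (H_le_L (h_mem_H _ e)))) (Up_le h2), by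
            rw [e1, mul_assoc]⟩)
        have hx := x_neg_mem (S := S) (α := j) t
        exact ⟨_, Vm_le (mul_mem (mul_mem hx hv) (L_conj hl (inv_mem hx))), _, mul_mem (L_le_P hl) (Up_le
          (conj_f2p (f2_neg_simple j) t hu)), by
            rw [x_zero]; group⟩
    · have : ∀ l ∈ Lz S α, Om S α (l * g * l⁻¹) := fun l hl => (h.L_mul hl).mul_right (L_le_P (inv_mem hl))
      exact ⟨this _ (M_le_L (x_Mz (by simp [cf_simple, Ne.symm hj]) t)),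
        this _ (M_le_L (x_Mz (by simp [cf_neg, cf_simple, Ne.symm hj]) t))⟩
  let T : Subgroup G :=
    { carrier := {y | ∀ g, IsConj γ g → (Om S α g ↔ Om S α (y * g * y⁻¹))}
      one_mem' := fun g _ => by simp
      mul_mem' := fun {a b} ha hb g hg => by
        rw [hb g hg, ha _ (isConj_conj hg b)]; simp [mul_assoc]
      inv_mem' := fun {a} ha g hg => by rw [ha _ (isConj_conj hg a⁻¹)]; simp [mul_assoc] }
  have h2 : ∀ y, y ∈ T := fun y => U_le_of_simple (J := Set.univ) (fun j _ t => ⟨fun g hg => ⟨fun h => (h1 g hg h j t).1,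
    fun h => by simpa [← x_inv, mul_assoc] using (h1 _ (isConj_conj hg _) h j (-t)).1⟩, fun g hg =>
      ⟨fun h => (h1 g hg h j t).2, fun h => by simpa [← x_inv, mul_assoc] using (h1 _ (isConj_conj hg _) h j (-t)).2⟩⟩)
    (U_mono (fun r _ => R.inJ_univ r) (hG.ge (mem_top y)))
  have h3 : Om S α γ := by
    obtain ⟨w, hw⟩ := exists_cell (hG.ge (mem_top γ))
    obtain ⟨y, hy, h⟩ := exists_neg_cell (S := S) (inv_mem hw.mem_W)
    obtain ⟨b, hb, n, hn, u, hu, e⟩ := hw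
    obtain ⟨b', hb', u', hu', e'⟩ := Cell.exists_eq (w := w) h hn
    exact (h2 (b' * b⁻¹) γ (IsConj.refl γ)).2 ⟨y, hy, u'⁻¹ * u * (b' * b⁻¹)⁻¹, mul_mem (Up_le (mul_mem (inv_mem hu') hu))
      (B_le_Pz (inv_mem (mul_mem hb' (inv_mem hb)))), by rw [e, e']; group⟩
  refine Pz_ne_top (α := α) hS (top_le_iff.1 (hγ.ge.trans ((closure_le _).2 fun g hg => ?_)))
  obtain ⟨a, rfl, hg'⟩ := Group.mem_conjugatesOfSet_iff.1 hg
  obtain ⟨w, b, hb, n, hn, u, hu, rfl⟩ := exists_cell (hG.ge (mem_top g))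
  obtain ⟨y, hy⟩ := isConj_iff.1 (isConj_conj hg' b⁻¹)
  have h4 := ((h2 y a (IsConj.refl a)).1 h3).mul_right (inv_mem (mul_mem (Up_le hu) (B_le_Pz hb)))
  rw [hy] at h4
  exact mul_mem (mul_mem (B_le_Pz hb) (mem_P_of_om hS hn (by simpa [mul_assoc] using h4))) (Up_le hu)

theorem H_dec (hh : S.HMul) {k : G} (hk : k ∈ S.H) : ∃ e ≠ 0, k * S.h (R.simple α) e ∈ Mz S α := by
  obtain ⟨c, rfl⟩ := hh.range_tor.ge hk
  refine ⟨((c α)⁻¹ : Kˣ), Units.ne_zero _, ?_⟩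
  rw [← hh.tor_single, ← map_mul, hh.tor_eq (Finset.nodup_toList Finset.univ) (by simp)]
  refine list_prod_mem fun g hg => ?_
  obtain ⟨i, -, rfl⟩ := List.mem_map.1 hg
  by_cases hi : i = α
  · subst hi; simp
  · exact h_mem_U (A := {r | R.cf r α = 0}) (by simp [cf_simple, Ne.symm hi]) (by simp [cf_neg, cf_simple, Ne.symm hi]) _

/-- reduction to the Levi factor -/
theorem levi_red (hS : S.Sep) (hG : S.U Set.univ = ⊤) (hh : S.HMul) {γ : G} (hγ : normalClosure {γ} = ⊤) :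
    ∃ l ∈ Mz S α, ∀ m ∈ S.U {r | R.cf r α = 0 ∧ 0 < R.wt r α}, ∃ b ∈ S.B, l * m * b ∈ Mz S α ∧
      ∃ v ∈ Vm S α, ∃ u ∈ Vp S α, IsConj γ (v * (l * m * b) * u) := by
  obtain ⟨g, hg, h⟩ := exists_om (α := α) hS hG hγ
  obtain ⟨v, hv, l0, hl0, u, hu, e⟩ := h.dec
  obtain ⟨l, hl, k, hk, rfl⟩ := mem_U_sup_H_iff.1 hl0
  have hn := n_mem_NW (S := S.toPreSt) (R.simple α) (t := -1) (by simp)
  set n := S.n (R.simple α) (-1)
  have hnn : n⁻¹ * n⁻¹ ∈ S.H := mem_H_of_NW (by simpa using NW.mul (NW.inv hn) (NW.inv hn))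
  refine ⟨l, hl, fun m hm => ?_⟩
  have hM : m ∈ Mz S α := U_mono (fun r h => h.1) hm
  set k' := k * (n⁻¹ * n⁻¹)
  have hk' : k' ∈ S.H := mul_mem hk hnn
  obtain ⟨e0, he, h1⟩ := H_dec (α := α) hh hk'
  have h2 := H_conj_mem_U (inv_mem hk') hm
  set m' := k'⁻¹ * m * k'⁻¹⁻¹
  have h3 : n⁻¹ * m'⁻¹ * n ∈ Vm S α := NW.conj_mem_U' hn (fun r hr => by
    have := R.cf_sref_self α r
    rw [refl_inv, refl_simple]
    change R.cf _ α < 0
    have := hr.1; have := hr.2; omega) (inv_mem h2)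
  have h4 : m' ∈ Pz S α := L_le_P (M_le_L (U_mono (fun r h => h.1) h2))
  obtain ⟨u', hu', c, e1⟩ := Up_split (α := α) (Vp_le (P_conj (inv_mem h4) (P_conj (inv_mem (H_le_P hnn)) hu)))
  obtain ⟨c1, hc1, e2⟩ := NW.act hn (R.neg (R.simple α))
  rw [refl_neg_self] at e2
  have hx := x_neg_mem (S := S) (α := α) (c1⁻¹ * (e0 - c))
  obtain ⟨v', hv', w, hw, e3⟩ := key1 (mul_mem (mul_mem (inv_mem hx) h3) hv)
    (mul_mem (M_le_L (mul_mem hl hM)) (H_le_L hk')) hu' he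
  obtain ⟨m1, h5, h6, u1, h7, rfl⟩ := Up_dec (α := α) hw
  refine ⟨k' * S.h (R.simple α) e0 * m1, mul_mem (H_le_B (mul_mem hk' (h_mem_H _ he))) (U_le_B h6),
    mul_mem (mul_mem hl hM) (mul_mem h1 h5), v', hv', u1, h7, ?_⟩
  have e4 := e2 (c1⁻¹ * (e0 - c))
  rw [mul_inv_cancel_left₀ hc1, sub_eq_neg_add, S.x_add, ← x_inv, mul_assoc, eq_inv_mul_iff_mul_eq] at e4
  convert isConj_conj hg ((S.x (R.neg (R.simple α)) (c1⁻¹ * (e0 - c)))⁻¹ * (n⁻¹ * m'⁻¹ * n)) using 1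
  rw [show v' * (l * m * (k' * S.h (R.simple α) e0 * m1)) * u1 = v' * (l * m * k' * S.h (R.simple α) e0) * (m1 * u1) by
    group, ← e3, mul_assoc _ _ n, mul_assoc u', ← e4, ← mul_assoc u', ← e1, eq_mul_inv_of_mul_eq e]
  simp only [m', k']
  group

end H11.Th
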