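import Cfsg.Agent.H11.PrSL
import Cfsg.Agent.H11.Sub
import Cfsg.Agent.H11.Th1

/-! # Chains of simple roots and the corresponding homomorphisms from `SL` -/

set_option autoImplicit false
set_option linter.unusedSectionVars false
set_option maxHeartbeats 400000

namespace H11.Th

open H14 H14.RootSys H14.PreSt H14.St Matrix Equiv

variable {ι κ : Type*} [Fintype κ] [DecidableEq κ] [Fintype ι] [DecidableEq ι] {R : RootSys ι κ}

/-- a subdiagram of type `A` -/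
structure Chain (R : RootSys ι κ) (m : ℕ) where
  σ : Fin (m + 1) → κ
  hA : ∀ i j, R.A (σ j) (σ i) = if i = j then 2 else if (i : ℕ) + 1 = j ∨ (j : ℕ) + 1 = i then -1 else 0

namespace Chain

variable {m : ℕ} (X : Chain R m)

theorem inj : Function.Injective X.σ := fun i j e => by
  have := X.hA i j
  rw [e, A_self] at this
  split_ifs at this with h <;> first | exact h | omega

/-- weights of the natural module -/
def e (a : Fin (m + 2)) : κ → ℤ := ∑ i, if a ≤ i.castSucc then Pi.single (X.σ i) 1 else 0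

theorem e_sub (i : Fin (m + 1)) : X.e i.castSucc - X.e i.succ = R.cf (R.simple (X.σ i)) := by
  rw [e, e, ← Finset.sum_sub_distrib, Finset.sum_eq_single i (fun j _ h => ?_) (by simp), cf_simple]
  · simp
  · have : i.castSucc ≤ j.castSucc ↔ i.succ ≤ j.castSucc := by
      simp only [Fin.le_def, Fin.val_castSucc, Fin.val_succ, Ne, Fin.ext_iff] at h ⊢; omega
    simp only [this, sub_self]

theorem e_of_not {a : Fin (m + 2)} {j : κ} (h : j ∉ Set.range X.σ) : X.e a j = 0 := by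
  rw [e, Finset.sum_apply]
  exact Finset.sum_eq_zero fun i _ => by
    split_ifs
    exacts [Pi.single_eq_of_ne (fun e => h ⟨i, e.symm⟩) _, rfl]

/-- pairing with `ε_a - ε_b` -/
def q (a b c : Fin (m + 2)) : ℤ := (if c = a then 1 else 0) - if c = b then 1 else 0

theorem wt_e (j : Fin (m + 1)) (a b : Fin (m + 2)) :
    (R.A *ᵥ (X.e a - X.e b)) (X.σ j) = q j.castSucc j.succ a - q j.castSucc j.succ b := by
  have h : ∀ a, (R.A *ᵥ (X.e 0 - X.e a)) (X.σ j) = q j.castSucc j.succ 0 - q j.castSucc j.succ a := fun a => by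
    induction a using Fin.induction with
    | zero => simp
    | succ i ih =>
      rw [show X.e 0 - X.e i.succ = X.e 0 - X.e i.castSucc + (X.e i.castSucc - X.e i.succ) by abel, mulVec_add,
        Pi.add_apply, ih, e_sub, ← wt, wt_simple, X.hA]
      simp only [q, Fin.ext_iff, Fin.val_castSucc, Fin.val_succ]
      split_ifs <;> omega
  rw [show X.e a - X.e b = X.e 0 - X.e b - (X.e 0 - X.e a) by abel, mulVec_sub, Pi.sub_apply, h, h]; ring

theorem e_swap (j : Fin (m + 1)) (a : Fin (m + 2)) :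
    X.e (swap j.castSucc j.succ a) = X.e a - q j.castSucc j.succ a • (X.e j.castSucc - X.e j.succ) := by
  have := (Fin.castSucc_lt_succ (i := j)).ne
  by_cases h1 : a = j.castSucc
  · simp [q, h1, this]
  by_cases h2 : a = j.succ
  · simp [q, h2, this.symm]
  simp [q, h1, h2, swap_apply_of_ne_of_ne]

theorem cf_sr (j : Fin (m + 1)) {r : ι} {a b : Fin (m + 2)} (h : R.cf r = X.e a - X.e b) :
    R.cf (R.sr (X.σ j) r) = X.e (swap j.castSucc j.succ a) - X.e (swap j.castSucc j.succ b) := by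
  rw [cf_refl, pair_simple_left, wt, h, wt_e, e_swap, e_swap, e_sub, sub_smul]; abel

theorem exists_w (π : Perm (Fin (m + 2))) :
    ∃ w ∈ R.Aut, ∀ r a b, R.cf r = X.e a - X.e b → R.cf (w r) = X.e (π a) - X.e (π b) := by
  have := (Perm.mclosure_swap_castSucc_succ (m + 1)).ge (Submonoid.mem_top π)
  induction this using Submonoid.closure_induction with
  | mem _ h => obtain ⟨j, rfl⟩ := h; exact ⟨_, R.refl_mem_Aut _, fun r a b => X.cf_sr j⟩
  | one => exact ⟨1, one_mem _, fun _ _ _ h => h⟩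
  | mul _ _ _ _ h h' =>
    obtain ⟨w, h1, h2⟩ := h
    obtain ⟨w', h3, h4⟩ := h'
    exact ⟨w * w', mul_mem h1 h3, fun r a b h => h2 _ _ _ (h4 r a b h)⟩

open Classical in
/-- the root `ε_a - ε_b` -/
noncomputable def ρ (a b : Fin (m + 2)) : ι :=
  if h : ∃ r, R.cf r = X.e a - X.e b then h.choose else R.simple (X.σ 0)

theorem cf_ρ {a b : Fin (m + 2)} (h : a ≠ b) : R.cf (X.ρ a b) = X.e a - X.e b := by
  obtain ⟨π, rfl, rfl⟩ := PSL.exists_perm2 (Fin.castSucc_lt_succ (i := (0 : Fin (m + 1)))).ne h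
  obtain ⟨w, -, hw⟩ := X.exists_w π
  have : ∃ r, R.cf r = _ := ⟨_, hw _ _ _ (X.e_sub 0).symm⟩
  rw [ρ, dif_pos this]; exact this.choose_spec

theorem ρ_simple (i : Fin (m + 1)) : X.ρ i.castSucc i.succ = R.simple (X.σ i) :=
  R.cf_inj ((X.cf_ρ Fin.castSucc_lt_succ.ne).trans (X.e_sub i))

theorem neg_ρ {a b : Fin (m + 2)} (h : a ≠ b) : R.neg (X.ρ a b) = X.ρ b a :=
  R.cf_inj (by rw [cf_neg, X.cf_ρ h, X.cf_ρ h.symm, neg_sub])

theorem exists_w' (π : Perm (Fin (m + 2))) : ∃ w ∈ R.Aut, ∀ a b, a ≠ b → w (X.ρ a b) = X.ρ (π a) (π b) :=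
  let ⟨w, h1, h2⟩ := X.exists_w π
  ⟨w, h1, fun _ _ h => R.cf_inj ((h2 _ _ _ (X.cf_ρ h)).trans (X.cf_ρ (π.injective.ne h)).symm)⟩

theorem inJ {a b : Fin (m + 2)} (h : a ≠ b) : R.InJ (Set.range X.σ) (X.ρ a b) := fun j hj => by
  rw [X.cf_ρ h, Pi.sub_apply, X.e_of_not hj, X.e_of_not hj, sub_self]

theorem surj {r : ι} (h : R.InJ (Set.range X.σ) r) : ∃ a b, a ≠ b ∧ r = X.ρ a b := by
  refine R.InJ_induction (P := fun r => ∃ a b, a ≠ b ∧ r = X.ρ a b) ?_ ?_ h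
  · rintro _ ⟨i, rfl⟩; exact ⟨_, _, Fin.castSucc_lt_succ.ne, (X.ρ_simple i).symm⟩
  · rintro _ ⟨i, rfl⟩ _ _ ⟨a, b, h, rfl⟩
    have := (swap i.castSucc i.succ).injective.ne h
    exact ⟨_, _, this, R.cf_inj ((X.cf_sr i (X.cf_ρ h)).trans (X.cf_ρ this).symm)⟩

theorem pair_ρ {a b c d : Fin (m + 2)} (h : a ≠ b) (h' : c ≠ d) : R.pair (X.ρ a b) (X.ρ c d) = q a b c - q a b d := by
  obtain ⟨π, rfl, rfl⟩ := PSL.exists_perm2 (Fin.castSucc_lt_succ (i := (0 : Fin (m + 1)))).ne h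
  obtain ⟨c, rfl⟩ := π.surjective c
  obtain ⟨d, rfl⟩ := π.surjective d
  obtain ⟨w, h1, hw⟩ := X.exists_w' π
  rw [← hw _ _ Fin.castSucc_lt_succ.ne, ← hw _ _ fun e => h' (congrArg π e), Aut.pair_eq h1, ρ_simple, pair_simple_left,
    wt, X.cf_ρ fun e => h' (congrArg π e), wt_e]
  simp only [q, π.injective.eq_iff]

theorem d_ρ {a b : Fin (m + 2)} (h : a ≠ b) : R.d (X.ρ a b) = R.d (R.simple (X.σ 0)) := by
  obtain ⟨π, rfl, rfl⟩ := PSL.exists_perm2 (Fin.castSucc_lt_succ (i := (0 : Fin (m + 1)))).ne h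
  obtain ⟨w, h1, hw⟩ := X.exists_w' π
  rw [← hw _ _ Fin.castSucc_lt_succ.ne, Aut.d_eq h1, ρ_simple]

theorem not_sum {a b c d : Fin (m + 2)} (h : a ≠ b) (h' : c ≠ d) (h1 : a ≠ d) (h2 : b ≠ c) :
    ¬ R.IsSum (X.ρ a b) (X.ρ c d) := fun hs => by
  obtain ⟨f, g, h3, e⟩ := X.surj (r := R.plus (X.ρ a b) (X.ρ c d)) fun j hj => by
    rw [hs.cf_plus, Pi.add_apply, X.inJ h j hj, X.inJ h' j hj, add_zero]
  have h4 := hs.norm
  rw [e, X.d_ρ h3, X.d_ρ h, X.d_ρ h', X.pair_ρ h h'] at h4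
  have h5 := R.d_pos (R.simple (X.σ 0))
  have h6 : 0 ≤ q a b c - q a b d := by simp only [q, h1.symm, h2.symm, if_false]; split_ifs <;> omega
  nlinarith

theorem ne_neg {a b c d : Fin (m + 2)} (h : a ≠ b) (h' : c ≠ d) (h1 : a ≠ d ∨ b ≠ c) :
    X.ρ c d ≠ R.neg (X.ρ a b) := fun e => by
  have := X.pair_ρ h h'
  rw [e, pair_neg_right, pair_self] at this
  simp only [q] at this
  split_ifs at this <;> simp_all

theorem plus_ρ {a b c : Fin (m + 2)} (h : a ≠ b) (h' : b ≠ c) (h1 : a ≠ c) :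
    R.IsSum (X.ρ a b) (X.ρ b c) ∧ R.plus (X.ρ a b) (X.ρ b c) = X.ρ a c := by
  have : R.cf (X.ρ a c) = R.cf (X.ρ a b) + R.cf (X.ρ b c) := by rw [X.cf_ρ h, X.cf_ρ h', X.cf_ρ h1]; abel
  exact ⟨⟨_, this⟩, plus_eq this⟩

variable {C : Chev R} (hC : COk C.toPreChev)
include hC

theorem N1 {a b d : Fin (m + 2)} (h : a ≠ b) (h' : b ≠ d) (h1 : a ≠ d) :
    C.N (X.ρ a b) (X.ρ b d) * C.N (X.ρ b a) (X.ρ a d) = 1 ∧ C.N (X.ρ a b) (X.ρ b d) * C.N (X.ρ a d) (X.ρ d b) = 1 := by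
  obtain ⟨h2, h3⟩ := X.plus_ρ h h' h1
  have k1 := hC.scal.j4 _ _ h2.ne h2.ne_neg
  have k2 := hC.scal.j4 _ _ h2.symm.ne h2.symm.ne_neg
  rw [X.neg_ρ h, h3, C.N_zero _ _ (X.not_sum h.symm h' h' h), X.pair_ρ h h'] at k1
  rw [X.neg_ρ h', h2.plus_comm, h3, C.N_zero _ _ (X.not_sum h'.symm h h'.symm h.symm), X.pair_ρ h' h,
    hC.scal.anti' (X.ρ a b), hC.scal.anti' (X.ρ a d)] at k2
  simp only [q, h, h', h1, h.symm, h'.symm, h1.symm, if_true, if_false] at k1 k2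
  constructor <;> linarith

theorem N3 {a b c d : Fin (m + 2)} (h : a ≠ b) (h' : b ≠ c) (h1 : a ≠ c) (h2 : a ≠ d) (h3 : b ≠ d) (h4 : c ≠ d) :
    C.N (X.ρ b c) (X.ρ c d) * C.N (X.ρ a b) (X.ρ b d) = C.N (X.ρ a b) (X.ρ b c) * C.N (X.ρ a c) (X.ρ c d) := by
  have := hC.scal.j3 _ _ _ (X.ne_neg h h' (Or.inl h1)) (X.ne_neg h h4 (Or.inl h2)) (X.ne_neg h' h4 (Or.inl h3)) (by
    rw [X.cf_ρ h, X.cf_ρ h', X.cf_ρ h4, sub_add_sub_cancel, sub_add_sub_cancel, ← X.cf_ρ h2]; exact R.cf_ne_zero _)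
  rwa [C.N_zero _ _ (X.not_sum h h4 h2 h'), zero_mul, sub_zero, (X.plus_ρ h' h4 h3).2, (X.plus_ρ h h' h1).2] at this

theorem exists_sign : ∃ c : Fin (m + 2) → Fin (m + 2) → ℤ, (∀ a b, a ≠ b → c a b * c a b = 1) ∧
    ∀ a b d, a ≠ b → b ≠ d → a ≠ d → C.N (X.ρ a b) (X.ρ b d) * c a b * c b d = c a d := by
  have k1 : ∀ {a b d}, a ≠ b → b ≠ d → a ≠ d → C.N (X.ρ b a) (X.ρ a d) = C.N (X.ρ a b) (X.ρ b d) :=
    fun h h' h1 => (Int.eq_of_mul_eq_one (X.N1 hC h h' h1).1).symm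
  have k2 : ∀ {a b d}, a ≠ b → b ≠ d → a ≠ d → C.N (X.ρ a d) (X.ρ d b) = C.N (X.ρ a b) (X.ρ b d) :=
    fun h h' h1 => (Int.eq_of_mul_eq_one (X.N1 hC h h' h1).2).symm
  have k3 : ∀ {a b d}, a ≠ b → b ≠ d → a ≠ d → C.N (X.ρ a b) (X.ρ b d) * C.N (X.ρ a b) (X.ρ b d) = 1 :=
    fun h h' h1 => by nth_rw 2 [← k1 h h' h1]; exact (X.N1 hC h h' h1).1
  refine ⟨fun a b => if a = 0 ∨ b = 0 then 1 else C.N (X.ρ 0 a) (X.ρ a b), fun a b h => ?_, fun a b d h h' h1 => ?_⟩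
  · dsimp only
    split_ifs with e
    · rfl
    · rw [not_or] at e; exact k3 (Ne.symm e.1) h (Ne.symm e.2)
  by_cases ha : a = 0
  · subst ha; simp [h.symm, h1.symm, k3 h h' h1]
  by_cases hb : b = 0
  · subst hb; simp [ha, h'.symm, k1 h h' h1]
  by_cases hd : d = 0
  · subst hd
    simp only [ha, hb, or_true, or_self, if_true, if_false, mul_one]
    rw [k1 (Ne.symm ha).symm (Ne.symm hb) h, k2 h h' h1, k3 h h' h1]
  simp only [ha, hb, hd, or_self, if_false]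
  have := X.N3 hC (Ne.symm ha) h (Ne.symm hb) (Ne.symm hd) h1 h'
  linear_combination (-C.N (X.ρ a b) (X.ρ b d)) * this + (C.N (X.ρ 0 a) (X.ρ a d)) * k3 h h' h1

variable {K G : Type*} [Field K] [Group G] (S : St C K G)

open SpecialLinearGroup in
theorem exists_hom [Finite K] (hh : S.HMul) : ∃ φ : SpecialLinearGroup (Fin (m + 2)) K →* G,
    ∃ c : Fin (m + 2) → Fin (m + 2) → K, ∀ a b (h : a ≠ b), c a b ≠ 0 ∧
      ∀ t, φ (transvection h t) = S.x (X.ρ a b) (c a b * t) := by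
  rcases m with _ | m
  · obtain ⟨φ, -, hφ⟩ := S.exists_SL2 (X.ρ 0 1) (hh _)
    refine ⟨φ, 1, fun a b h => ⟨one_ne_zero, fun t => ?_⟩⟩
    fin_cases a <;> fin_cases b <;> try exact absurd rfl h
    · exact ((hφ _ t).1 (by ext i j; fin_cases i <;> fin_cases j <;> simp [transvection_coe])).trans (by simp)
    · refine ((hφ _ t).2 (by ext i j; fin_cases i <;> fin_cases j <;> simp [transvection_coe])).trans ?_
      rw [X.neg_ρ zero_ne_one]; simp
  obtain ⟨c, h1, h2⟩ := X.exists_sign hC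
  obtain ⟨φ, hφ⟩ := exists_hom_sl (n := m + 2) (by omega) (fun a b _ t => S.x (X.ρ a b) (c a b * t))
    (fun a b _ t u => by rw [mul_add, S.x_add])
    (fun a b h c d h' h3 h4 t u => S.commute_of_not (X.ne_neg h h' (Or.inl h3)) (X.not_sum h h' h3 h4) _ _)
    fun a b h d h' h3 t u => by
      obtain ⟨h4, h5⟩ := X.plus_ρ h h' h3
      have n1 := X.not_sum h h3 h3 h.symm
      have n2 := X.not_sum h' h3 h' h3.symm
      have e := S.comm' h4.ne_neg (c a b * t) (c b d * u)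
      rw [C.terms_of_simple h4 (h5 ▸ n1) (h5 ▸ n2), h5] at e
      rw [mul_assoc, e, ← mul_assoc, ((S.commute_of_not (X.ne_neg h3 h (Or.inl h)) (fun e => n1 e.symm) _ _).mul_right
        (S.commute_of_not (X.ne_neg h3 h' (Or.inl h3)) (fun e => n2 e.symm) _ _)).eq, mul_assoc, ← h2 a b d h h' h3]
      simp only [List.map_cons, List.map_nil, List.prod_cons, List.prod_nil, mul_one, ← S.x_add, PreChev.tval]
      rw [eq_comm, mul_eq_left, ← S.x_zero (X.ρ a d)]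
      congr 1; push_cast; ring
  exact ⟨φ, fun a b => c a b, fun a b h => ⟨fun e => by simpa [e] using congrArg (Int.cast (R := K)) (h1 a b h), hφ a b h⟩⟩

omit hC in
theorem range_eq {φ : SpecialLinearGroup (Fin (m + 2)) K →* G} {c : Fin (m + 2) → Fin (m + 2) → K}
    (h : ∀ a b (h : a ≠ b), c a b ≠ 0 ∧ ∀ t, φ (SpecialLinearGroup.transvection h t) = S.x (X.ρ a b) (c a b * t)) :
    φ.range = S.U {r | R.InJ (Set.range X.σ) r} := by
  refine le_antisymm ?_ (U_le.2 fun r hr t => ?_)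
  · rintro _ ⟨g, rfl⟩
    exact (sl_subgroup_eq_top ((S.U {r | R.InJ (Set.range X.σ) r}).comap φ) fun a b hab t => by
      rw [Subgroup.mem_comap, (h a b hab).2]; exact x_mem_U (A := {r | R.InJ (Set.range X.σ) r}) (X.inJ hab) _).ge
      (Subgroup.mem_top g)
  · obtain ⟨a, b, hab, rfl⟩ := X.surj hr
    exact ⟨_, by rw [(h a b hab).2 ((c a b)⁻¹ * t), mul_inv_cancel_left₀ (h a b hab).1]⟩

omit hC in
theorem comp {φ : SpecialLinearGroup (Fin (m + 2)) K →* G} {c : Fin (m + 2) → Fin (m + 2) → K}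
    (h : ∀ a b (h : a ≠ b), c a b ≠ 0 ∧ ∀ t, φ (SpecialLinearGroup.transvection h t) = S.x (X.ρ a b) (c a b * t))
    {k : G} {d : Fin (m + 2) → K} (h0 : ∀ a, d a ≠ 0)
    (hk : ∀ a b, a ≠ b → ∀ t, k * S.x (X.ρ a b) t = S.x (X.ρ a b) (d a / d b * t) * k)
    {x y : SpecialLinearGroup (Fin (m + 2)) K} (e : diagonal d * x.1 = y.1 * diagonal d) : k * φ x = φ y * k := by
  have key : ∀ x : SpecialLinearGroup (Fin (m + 2)) K, ∃ y : SpecialLinearGroup (Fin (m + 2)) K,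
      diagonal d * x.1 = y.1 * diagonal d ∧ k * φ x = φ y * k := by
    refine sl_transvection_induction _ ⟨1, by simp, by simp⟩ (fun a b hab t => ?_) ?_
    · refine ⟨SpecialLinearGroup.transvection hab (d a / d b * t), ?_, by
        rw [(h a b hab).2, (h a b hab).2, hk a b hab, mul_left_comm]⟩
      ext i j
      simp only [diagonal_mul, mul_diagonal, SpecialLinearGroup.transvection_coe, Matrix.add_apply, Matrix.one_apply, single_apply]
      split_ifs with h1 h2 h2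
      · exact absurd (h2.1.trans (h1.trans h2.2.symm)) hab
      · simp [h1]
      · obtain ⟨rfl, rfl⟩ := h2
        have := h0 b
        field_simp
        ring
      · simp
    · rintro x x' ⟨y, h1, h2⟩ ⟨y', h3, h4⟩
      exact ⟨y * y', by rw [Matrix.SpecialLinearGroup.coe_mul, Matrix.SpecialLinearGroup.coe_mul, ← mul_assoc, h1, mul_assoc, h3,
        mul_assoc], by rw [map_mul, map_mul, ← mul_assoc, h2, mul_assoc, h4, mul_assoc]⟩
  obtain ⟨y', h1, h2⟩ := key x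
  obtain rfl : y = y' := Subtype.ext (by
    ext i j
    simpa [h0] using congrFun (congrFun (e.symm.trans h1) i) j)
  exact h2

end Chain

end H11.Th
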