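import Cfsg.Agent.H11.Th2
import Cfsg.Agent.H11.Th3
import Cfsg.Agent.H14.Conn
import Cfsg.Agent.H14.Aut1

/-! # Squares of conjugacy classes in Chevalley groups -/

set_option autoImplicit false
set_option linter.unusedSectionVars false
set_option maxHeartbeats 400000

namespace H11.Th

open H14 H14.RootSys H14.PreSt H14.St Matrix Subgroup

/-- the group is the square of a conjugacy class -/
def Thom (G : Type*) [Group G] : Prop := ∃ c : G, ∀ g : G, ∃ x y : G, g = (x * c * x⁻¹) * (y * c * y⁻¹)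

theorem Thom.of_surj {G G' : Type*} [Group G] [Group G'] (h : Thom G) (f : G →* G') (hf : Function.Surjective f) :
    Thom G' := by
  obtain ⟨c, h⟩ := h
  refine ⟨f c, fun g => ?_⟩
  obtain ⟨g, rfl⟩ := hf g
  obtain ⟨x, y, rfl⟩ := h g
  exact ⟨f x, f y, by simp⟩

theorem prod_of_conj {G : Type*} [Group G] {c g a b : G} (h : IsConj g (a * b)) (ha : IsConj c a) (hb : IsConj c b) :
    ∃ x y : G, g = (x * c * x⁻¹) * (y * c * y⁻¹) := by
  obtain ⟨t, ht⟩ := isConj_iff.1 h.symm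
  obtain ⟨x, rfl⟩ := isConj_iff.1 ha
  obtain ⟨y, rfl⟩ := isConj_iff.1 hb
  exact ⟨t * x, t * y, by rw [← ht]; group⟩

theorem cover {G : Type*} [Group G] [Finite G] {V : Subgroup G} {g : G} (h1 : ∀ v ∈ V, g * v * g⁻¹ ∈ V)
    (h2 : ∀ v ∈ V, Commute g v → v = 1) {v : G} (hv : v ∈ V) : IsConj g (v * g) := by
  let f : V → V := fun y => ⟨y * (g * y⁻¹ * g⁻¹), mul_mem y.2 (h1 _ (inv_mem y.2))⟩
  have : Function.Injective f := fun y y' e => by
    have e1 : (y : G) * (g * (y : G)⁻¹ * g⁻¹) = y' * (g * (y' : G)⁻¹ * g⁻¹) := congrArg Subtype.val e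
    refine Subtype.ext (inv_mul_eq_one.1 (h2 _ (mul_mem (inv_mem y.2) y'.2) ?_))
    rw [commute_iff_eq, ← mul_left_inj ((y' : G)⁻¹ * g⁻¹), ← mul_right_inj (y : G)]
    exact (by group : _ = _).trans (e1.trans (by group))
  obtain ⟨y, hy⟩ := Finite.injective_iff_surjective.1 this ⟨v, hv⟩
  exact isConj_iff.2 ⟨y, by rw [← show (y : G) * (g * (y : G)⁻¹ * g⁻¹) = v from congrArg Subtype.val hy]; group⟩

variable {ι κ : Type*} [Fintype κ] [DecidableEq κ] [Fintype ι] [DecidableEq ι] {R : RootSys ι κ}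
  {C : Chev R} {K G : Type*} [Field K] [Group G] {S : St C K G}

theorem thom_of [IsSimpleGroup G] (hS : S.Sep) (hG : S.U Set.univ = ⊤) (hh : S.HMul) {α : κ} {g : G}
    (h1 : ∀ v ∈ Vm S α, IsConj g (v * g)) (h2 : ∀ v ∈ Vp S α, IsConj g (v * g)) (h3 : IsConj g g⁻¹)
    (h4 : ∀ l ∈ Mz S α, ∃ m ∈ S.U {r | R.cf r α = 0 ∧ 0 < R.wt r α}, ∀ b ∈ S.B, l * m * b ∈ Mz S α →
      ∃ τ ∈ Mz S α, ∃ τ' ∈ Mz S α, l * m * b * (τ * g * τ⁻¹) = τ' * g * τ'⁻¹) : Thom G := by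
  refine ⟨g, fun γ => ?_⟩
  by_cases h : γ = 1
  · exact prod_of_conj (a := g) (b := g⁻¹) (by simp [h]) (IsConj.refl g) h3
  obtain ⟨l, hl, h5⟩ := levi_red (α := α) hS hG hh ((normalClosure_normal.eq_bot_or_eq_top (H := normalClosure {γ})).resolve_left
    fun e => h (e.le (subset_normalClosure rfl)))
  obtain ⟨m, hm, h6⟩ := h4 l hl
  obtain ⟨b, hb, h7, v, hv, u, hu, h8⟩ := h5 m hm
  obtain ⟨τ, h9, τ', h10, e⟩ := h6 b hb h7
  refine prod_of_conj (a := τ' * (τ'⁻¹ * v * τ'⁻¹⁻¹ * g) * τ'⁻¹) (b := τ * (τ⁻¹ * u⁻¹ * τ⁻¹⁻¹ * g)⁻¹ * τ⁻¹) ?_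
    (isConj_conj (h1 _ (L_conj (M_le_L (inv_mem h10)) hv)) _) (isConj_conj (h3.trans ?_) _)
  · rw [eq_mul_inv_of_mul_eq e] at h8
    convert h8 using 1; group
  · obtain ⟨y, hy⟩ := isConj_iff.1 (h2 _ (P_conj (L_le_P (M_le_L (inv_mem h9))) (inv_mem hu)))
    exact isConj_iff.2 ⟨y, by rw [← hy]; group⟩

theorem commute_tor [Finite K] (hS : S.Sep) (hh : S.HMul) (c : κ → Kˣ) {u v : G} (hu : u ∈ S.U {r | R.pos r})
    (h : Commute (hh.tor c) u) (h' : Commute (hh.tor c * u) v) : Commute (hh.tor c) v := by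
  have := Fintype.ofFinite K
  have h1 := h'.pow_left (Nat.card (S.U {r | R.pos r}))
  have h2 : u ^ Nat.card (S.U {r | R.pos r}) = 1 := congrArg Subtype.val (pow_card_eq_one' (x := (⟨u, hu⟩ : S.U _)))
  have h3 : c ^ Nat.card (S.U {r | R.pos r}) = c := by
    ext i; simp [card_Up hS, FiniteField.pow_card_pow]
  rwa [h.mul_pow, h2, mul_one, ← map_pow, h3] at h1

theorem fpf [Finite K] [Finite G] (hS : S.Sep) (hh : S.HMul) {c : κ → Kˣ} {α : κ} {u : G} (hu : u ∈ S.U {r | R.pos r})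
    (hu' : u ∈ Mz S α) (h : Commute (hh.tor c) u) (hc : ∀ r, R.cf r α ≠ 0 → R.chi c r ≠ 1) :
    (∀ v ∈ Vm S α, IsConj (hh.tor c * u) (v * (hh.tor c * u))) ∧
      ∀ v ∈ Vp S α, IsConj (hh.tor c * u) (v * (hh.tor c * u)) := by
  have hL : hh.tor c * u ∈ Lz S α := mul_mem (H_le_L (hh.range_tor.le ⟨c, rfl⟩)) (M_le_L hu')
  refine ⟨fun v hv => cover (fun v => L_conj hL) (fun v hv e => ?_) hv,
    fun v hv => cover (fun v => P_conj (L_le_P hL)) (fun v hv e => ?_) hv⟩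
  · have := hh.mem_U_of_commute hS (A := {r | R.cf r α < 0}) (fun r hr s hs => (into_neg (f1 α) r (le_of_lt (a := R.cf r α) hr) s hs).2)
      (-f1 α) (fun r hr => neg_pos.2 hr) hv (commute_tor hS hh c hu h e)
    exact (U_empty (S := S.toPreSt)).le (U_mono (B := ∅) (fun r hr => hc r (LT.lt.ne hr.1) hr.2) this)
  · have := hh.mem_U_of_commute hS (A := {r | 0 < R.cf r α}) (fun r hr s hs => (into_pos (f1 α) r (le_of_lt (b := R.cf r α) hr) s hs).2)
      (f1 α) (fun r hr => hr) hv (commute_tor hS hh c hu h e)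
    exact (U_empty (S := S.toPreSt)).le (U_mono (B := ∅) (fun r hr => hc r (LT.lt.ne' hr.1) hr.2) this)

theorem inverts (hG : S.U Set.univ = ⊤) (hh : S.HMul) (hZ : center G = ⊥) {c : κ → Kˣ} {n : G} {w : Equiv.Perm ι}
    (hn : (n, w) ∈ S.NW) (h : ∀ r, R.chi c (w r) = (R.chi c r)⁻¹) : n * (hh.tor c)⁻¹ * n⁻¹ = hh.tor c := by
  have h1 : S.U Set.univ ≤ centralizer {(hh.tor c)⁻¹ * n⁻¹ * (hh.tor c)⁻¹ * n} := U_le.2 fun r _ t => by
    obtain ⟨a, -, e⟩ := NW.act hn r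
    have e1 : _ = S.x _ (R.chi c⁻¹ _ * _) * _ := hh.tor_mul_x c⁻¹ (w r) (a * t)
    have e2 : _ = S.x _ (R.chi c⁻¹ _ * _) * _ := hh.tor_mul_x c⁻¹ r (R.chi c r * t)
    have e3 : ∀ s, R.chi c⁻¹ s = (R.chi c s)⁻¹ := fun s => by simp [RootSys.chi]
    rw [e3, h, _root_.inv_inv, mul_left_comm, map_inv] at e1
    rw [e3, Units.inv_mul_cancel_left, map_inv] at e2
    rw [mem_centralizer_singleton_iff, mul_assoc _ n, e, mul_assoc _ _ (_ * n), ← mul_assoc _ (S.x (w r) _) n, e1,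
      eq_mul_inv_of_mul_eq (e _).symm, ← mul_assoc (S.x r t), ← mul_assoc (S.x r t), ← mul_assoc (S.x r t), ← e2]
    group
  have h2 := hZ.le (mem_center_iff.2 fun g => mem_centralizer_singleton_iff.1 (h1 (hG.ge (mem_top g))))
  rw [mem_bot, mul_assoc, mul_assoc, inv_mul_eq_one] at h2
  nth_rw 1 [h2]
  group

theorem x_neg_notMem (hS : S.Sep) (β : κ) : S.x (R.neg (R.simple β)) 1 ∉ Pz S β := fun h => by
  have hx := fun t => Up_le (α := β) (x_Up (S := S) (R.pos_simple β) t)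
  have h1 : S.n (R.simple β) (-1) ∈ Pz S β := mul_mem (mul_mem (hx _) (by simpa using h)) (hx _)
  obtain ⟨c, hc, e1⟩ := NW.act (n_mem_NW (S := S.toPreSt) (R.simple β) (t := -1) (by simp)) (R.simple β)
  have := Vp_le (P_conj h1 (x_pos_mem 1))
  rw [e1, mul_inv_cancel_right, refl_self] at this
  exact (R.pos_neg_iff _).1 (hS.pos_of_x_mem (by simpa) this) (R.pos_simple β)

theorem exists_notMem (hS : S.Sep) (β : κ) (l : G) : ∃ t, l * S.x (R.neg (R.simple β)) t ∉ Pz S β := by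
  by_cases h : l ∈ Pz S β
  · exact ⟨1, fun e => x_neg_notMem hS β ((mul_mem_cancel_left h).1 e)⟩
  · exact ⟨0, by simpa⟩

theorem mem_B_of_comm (hS : S.Sep) (hG : S.U Set.univ = ⊤) {α : κ} {z : G} (hz : z ∈ Mz S α)
    (h : ∀ y ∈ Mz S α, Commute z y) : z ∈ S.B := mem_B_of_conj hS (hG.ge (mem_top z)) fun u hu => by
  obtain ⟨m, h1, h2, v, h3, rfl⟩ := Up_dec (α := α) hu
  have := mul_mem h2 (Vp_le (P_conj (L_le_P (M_le_L hz)) h3))
  rw [← mul_assoc, (h m h1).eq, mul_assoc m, mul_assoc m]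
  exact U_le_B this

theorem transfer {n : Type*} [Fintype n] [DecidableEq n] {φ : SpecialLinearGroup n K →* G} {k : G} {D : Matrix n n K}
    (h : ∀ x y : SpecialLinearGroup n K, D * x.1 = y.1 * D → k * φ x = φ y * k) {a b c e : SpecialLinearGroup n K}
    (h' : a.1 * D * b.1 = c.1 * D * e.1) : φ a * k * φ b = φ c * k * φ e := by
  have := h (b * e⁻¹) (a⁻¹ * c) (by
    have h1 : (a⁻¹).1 * a.1 = 1 := by rw [← Matrix.SpecialLinearGroup.coe_mul]; simp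
    have h2 : e.1 * (e⁻¹).1 = 1 := by rw [← Matrix.SpecialLinearGroup.coe_mul]; simp
    rw [Matrix.SpecialLinearGroup.coe_mul, Matrix.SpecialLinearGroup.coe_mul, ← one_mul (D * _), ← h1, mul_assoc,
      ← mul_assoc a.1, ← mul_assoc _ b.1, h', mul_assoc (_ * D), h2, mul_one, mul_assoc])
  rw [map_mul, map_mul, map_inv, map_inv, ← mul_assoc, mul_inv_eq_iff_eq_mul] at this
  rw [mul_assoc, this]; group

theorem Chain.pack [Finite K] (hC : COk C.toPreChev) (hh : S.HMul) {m : ℕ} (X : Chain R m) {z : Kˣ} {μ : κ → ℤ}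
    (h0 : ∀ j, 0 ≤ μ ⬝ᵥ R.wt (R.simple j)) (hz : ∀ r, z ^ (μ ⬝ᵥ R.wt r) = 1 → μ ⬝ᵥ R.wt r = 0)
    (h1 : μ ⬝ᵥ R.wt (R.simple (X.σ 0)) ≠ 0 ∨ μ ⬝ᵥ R.wt (R.simple (X.σ (Fin.last m))) ≠ 0) :
    ∃ u ∈ S.U {r | ∃ i, μ ⬝ᵥ R.wt (R.simple (X.σ i)) = 0 ∧ r = R.simple (X.σ i)},
      (∀ l ∈ S.U {r | R.InJ (Set.range X.σ) r}, (¬ ∀ y ∈ S.U {r | R.InJ (Set.range X.σ) r}, Commute l y) →
        ∃ τ ∈ S.U {r | R.InJ (Set.range X.σ) r}, ∃ τ' ∈ S.U {r | R.InJ (Set.range X.σ) r},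
          l * (τ * (hh.tor (fun i => z ^ μ i) * u) * τ⁻¹) = τ' * (hh.tor (fun i => z ^ μ i) * u) * τ'⁻¹) ∧
      ∀ n w, (n, w) ∈ S.NW → n * (hh.tor fun i => z ^ μ i)⁻¹ * n⁻¹ = hh.tor (fun i => z ^ μ i) →
        (∀ i, μ ⬝ᵥ R.wt (R.simple (X.σ i)) = 0 → ∃ j, μ ⬝ᵥ R.wt (R.simple (X.σ j)) = 0 ∧
          w (R.simple (X.σ i)) = R.neg (R.simple (X.σ j))) →
        IsConj (hh.tor (fun i => z ^ μ i) * u) (hh.tor (fun i => z ^ μ i) * u)⁻¹ := by
  classical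
  obtain ⟨φ, c, hφ⟩ := X.exists_hom hC S hh
  set k := hh.tor fun i => z ^ μ i
  let d : Fin (m + 2) → K := fun a => (z ^ (μ ⬝ᵥ R.A *ᵥ X.e a) : Kˣ)
  have d0 : ∀ a, d a ≠ 0 := fun a => Units.ne_zero _
  have d1 : ∀ a b, a ≠ b → d a / d b = (z ^ (μ ⬝ᵥ R.wt (X.ρ a b)) : Kˣ) := fun a b h => by
    simp [d, wt, X.cf_ρ h, mulVec_sub, dotProduct_sub, zpow_sub₀]
  have d2 : ∀ a b, a ≠ b → (d a = d b ↔ μ ⬝ᵥ R.wt (X.ρ a b) = 0) := fun a b h => by
    rw [← div_eq_one_iff_eq (d0 b), d1 a b h, Units.val_eq_one]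
    exact ⟨hz _, fun e => by rw [e, zpow_zero]⟩
  have d3 : ∀ a b (i : Fin (m + 1)), a ≤ i.castSucc → i.succ ≤ b → d a = d b → μ ⬝ᵥ R.wt (R.simple (X.σ i)) = 0 := by
    intro a b i ha hb e
    have hab := (ha.trans_lt (Fin.castSucc_lt_succ.trans_le hb)).ne
    refine le_antisymm (((lin_wt μ).mono h0 fun j => ?_).trans_eq ((d2 a b hab).1 e)) (h0 _)
    rw [X.cf_ρ hab, cf_simple, Chain.e, Chain.e, ← Finset.sum_sub_distrib, Finset.sum_apply]
    refine le_trans (le_of_eq ?_) (Finset.single_le_sum (fun l _ => ?_) (Finset.mem_univ i))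
    · simp [ha, not_le.2 (Fin.castSucc_lt_succ.trans_le hb)]
    · have : 0 ≤ (Pi.single (X.σ l) 1 : κ → ℤ) j := by rw [Pi.single_apply]; split_ifs <;> simp
      split_ifs with e1 e2 e2
      · simp
      · simpa
      · exact absurd ((ha.trans (Fin.castSucc_lt_succ.le.trans hb)).trans e2) e1
      · simp
  have hk := fun x y => X.comp S hφ (k := k) d0 (fun a b h t => by
    rw [d1 a b h, ← chi_zpow]; exact hh.tor_mul_x _ _ _) (x := x) (y := y)
  let Z := {i // μ ⬝ᵥ R.wt (R.simple (X.σ i)) = 0}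
  have hd : ∀ a b : Fin (m + 2), (a : ℤ) < b → d a = d b →
      (∃ x : Z, x.1.succ = b ∧ d x.1.castSucc = d b) ∧ ∃ x : Z, x.1.castSucc = a ∧ d x.1.succ = d a := by
    intro a b h e
    have h' : a < b := by exact_mod_cast h
    obtain ⟨i, rfl⟩ := Fin.exists_succ_eq.2 (Fin.ne_zero_of_lt h')
    obtain ⟨j, rfl⟩ := Fin.exists_castSucc_eq.2 (Fin.ne_last_of_lt h')
    have e1 := d3 _ _ i (Fin.le_castSucc_iff.2 h') le_rfl e
    have e2 := d3 _ _ j le_rfl (Fin.castSucc_lt_iff_succ_le.1 h') e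
    exact ⟨⟨⟨i, e1⟩, rfl, (d2 _ _ Fin.castSucc_lt_succ.ne).2 (X.ρ_simple i ▸ e1)⟩,
      ⟨j, e2⟩, rfl, ((d2 _ _ Fin.castSucc_lt_succ.ne).2 (X.ρ_simple j ▸ e2)).symm⟩
  obtain ⟨i0, hi⟩ : ∃ i0, ∀ j, d j = d i0 → j = i0 := h1.elim
    (fun h => ⟨0, fun j e => by_contra fun e' => h (d3 0 j 0 le_rfl (Fin.one_le_of_ne_zero e') e.symm)⟩)
    fun h => ⟨Fin.last _, fun j e => by_contra fun e' => h (d3 j _ _ (Fin.le_castSucc_iff.2 (Fin.lt_last_iff_ne_last.2 e'))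
      le_rfl e)⟩
  obtain ⟨s, hs, hs'⟩ := univ_eq_cons hi
  let u := tp (fun x : Z => (Fin.castSucc_lt_succ (i := x.1)).ne) (fun _ => (1 : K)) Finset.univ.toList
  have hu := (cp_tp (fun x : Z => (Fin.castSucc_lt_succ (i := x.1)).ne) (t := fun _ => (1 : K)) (fun a => (a : ℤ))
    (fun a b e => Fin.ext (by simpa using e)) (by simp) (Finset.nodup_toList Finset.univ)
    (fun a b e => Subtype.ext (Fin.castSucc_injective _ e)) (by simp) d0 fun a b h e => by simpa using (hd a b h e).1).1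
  have hu' : φ u = (Finset.univ.toList.map fun x : Z => S.x (R.simple (X.σ x.1)) (c x.1.castSucc x.1.succ * 1)).prod := by
    simp only [u, tp, map_list_prod, List.map_map, Function.comp_def, (hφ _ _ _).2, X.ρ_simple]
  rw [hs'] at hu
  refine ⟨φ u, hu' ▸ list_prod_mem (List.forall_mem_map.2 fun x _ => x_mem_U (by exact ⟨x.1, x.2, rfl⟩) _), ?_, ?_⟩
  · rw [← X.range_eq S hφ]
    rintro _ ⟨P, rfl⟩ hP
    obtain ⟨τ, τ', e⟩ := mat_fac hs hu (P := P) (by simp [d0, Finset.prod_ne_zero_iff]) fun h => hP (by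
      rintro _ ⟨y, rfl⟩; exact Commute.map (mem_center_iff.1 h y).symm φ)
    refine ⟨_, ⟨τ, rfl⟩, _, ⟨τ', rfl⟩, ?_⟩
    have := transfer hk (a := P * τ) (b := u * τ⁻¹) (c := τ') (e := u * τ'⁻¹) (by
      simpa only [Matrix.SpecialLinearGroup.coe_mul, mul_assoc] using e)
    simpa only [map_mul, map_inv, mul_assoc] using this
  · intro n w hn h2 h3
    choose τ h4 h5 using fun x : Z => h3 x.1 x.2
    let τ' : Z → Z := fun x => ⟨τ x, h4 x⟩
    have h6 : Function.Injective τ' := fun x y e => Subtype.ext (X.inj (R.simple_inj (w.injective (by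
      rw [h5, h5, show τ x = τ y from congrArg Subtype.val e]))))
    choose a h7 h8 using fun x : Z => NW.act hn (R.simple (X.σ x.1))
    let t : Z → K := fun x => (c (τ x).succ (τ x).castSucc)⁻¹ * (a x * -(c x.1.castSucc x.1.succ * 1))
    let v := tp (fun x : Z => (Fin.castSucc_lt_succ (i := τ x)).ne') t Finset.univ.toList.reverse
    have hv := (cp_tp (fun x : Z => (Fin.castSucc_lt_succ (i := τ x)).ne') (t := t) (fun a => -(a : ℤ))
      (fun a b e => Fin.ext (by simpa using e)) (by simp)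
      (List.nodup_reverse.2 (Finset.nodup_toList Finset.univ))
      (fun a b e => h6 (Subtype.ext (Fin.succ_injective _ e))) (fun x => by
        simp [t, h7, (hφ _ _ Fin.castSucc_lt_succ.ne).1, (hφ _ _ Fin.castSucc_lt_succ.ne').1]) d0 fun a b h e => by
        obtain ⟨x, h9, h10⟩ := (hd b a (neg_lt_neg_iff.1 h) e.symm).2
        obtain ⟨x, rfl⟩ := Finite.injective_iff_surjective.1 h6 x
        exact ⟨x, by simp, h9, h10⟩).2
    have hv' : φ v = n * (φ u)⁻¹ * n⁻¹ := by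
      rw [hu', List.prod_inv_reverse, ← MulAut.conj_apply, map_list_prod]
      simp only [v, tp, map_list_prod, List.map_map, Function.comp_def, (hφ _ _ _).2, List.map_reverse, MulAut.conj_apply,
        x_inv, h8, mul_inv_cancel_right, h5, t, mul_inv_cancel_left₀ (hφ _ _ Fin.castSucc_lt_succ.ne').1,
        ← X.neg_ρ Fin.castSucc_lt_succ.ne, X.ρ_simple]
    rw [hs'] at hv
    obtain ⟨τ0, e⟩ := mat_conj hs hu hv
    have := transfer hk (a := τ0) (b := u) (c := v) (e := τ0) (by rw [mul_assoc, e])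
    refine isConj_iff.2 ⟨n⁻¹ * φ τ0, ?_⟩
    rw [mul_assoc n⁻¹, ← mul_assoc (φ τ0), this, hv']
    nth_rw 1 [← h2]
    group

end H11.Th
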