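import Cfsg.Agent.H11.Th4
import Cfsg.Agent.H11.CT2
import Cfsg.Agent.H14.Tw4

/-! # Squares of conjugacy classes: assembling the Levi factors -/

set_option autoImplicit false
set_option linter.unusedSectionVars false
set_option maxHeartbeats 400000

namespace H11.Th

open H14 H14.RootSys H14.PreSt H14.St Matrix Subgroup

variable {ι κ : Type*} [Fintype κ] [DecidableEq κ] [Fintype ι] [DecidableEq ι] {R : RootSys ι κ}
  {C : Chev R} {K G : Type*} [Field K] [Group G] {S : St C K G}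

/-- a small dominant cocharacter fixed by the diagram automorphisms -/
structure Dat (R : RootSys ι κ) (ψ : ι → ℤ) : Prop where
  col : R.CoL ψ
  dom : ∀ j, 0 ≤ ψ (R.simple j)
  bd : ∀ r, ψ r ≤ 7
  inv : ∀ π : κ → κ, Function.Injective π → (∀ i j, R.A (π i) (π j) = R.A i j) → ∀ i, ψ (R.simple (π i)) = ψ (R.simple i)

theorem thom_base [Fintype K] [Finite G] (hK : 9 ≤ Fintype.card K) (hC : COk C.toPreChev) (hS : S.Sep)
    (hG : S.U Set.univ = ⊤) (hh : S.HMul) (hZ : center G = ⊥) {ψ : ι → ℤ} (D : Dat R ψ) {α : κ} (hα : ψ (R.simple α) ≠ 0)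
    {m : ℕ} (X : Chain R m) (hX : ∀ j, ψ (R.simple j) = 0 → j ∈ Set.range X.σ)
    (h1 : ψ (R.simple (X.σ 0)) ≠ 0 ∨ ψ (R.simple (X.σ (Fin.last m))) ≠ 0) :
    ∃ k : G, ∃ u ∈ S.U {r | R.InJ (Set.range X.σ) r},
      (∀ l ∈ S.U {r | R.InJ (Set.range X.σ) r}, (¬ ∀ y ∈ S.U {r | R.InJ (Set.range X.σ) r}, Commute l y) →
        ∃ τ ∈ S.U {r | R.InJ (Set.range X.σ) r}, ∃ τ' ∈ S.U {r | R.InJ (Set.range X.σ) r},
          l * (τ * (k * u) * τ⁻¹) = τ' * (k * u) * τ'⁻¹) ∧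
      (∀ {m'} (Y : Chain R m'), (∀ i, ψ (R.simple (Y.σ i)) ≠ 0) →
        ∀ l ∈ S.U {r | R.InJ (Set.range Y.σ) r}, (¬ ∀ y ∈ S.U {r | R.InJ (Set.range Y.σ) r}, Commute l y) →
          ∃ τ ∈ S.U {r | R.InJ (Set.range Y.σ) r}, ∃ τ' ∈ S.U {r | R.InJ (Set.range Y.σ) r},
            l * (τ * k * τ⁻¹) = τ' * k * τ'⁻¹) ∧
      (∀ v ∈ Vm S α, IsConj (k * u) (v * (k * u))) ∧ (∀ v ∈ Vp S α, IsConj (k * u) (v * (k * u))) ∧
        IsConj (k * u) (k * u)⁻¹ := by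
  obtain ⟨μ, hμ⟩ := D.col
  obtain rfl : ψ = fun r => μ ⬝ᵥ R.wt r := funext hμ
  have hl := D.col.lin
  obtain ⟨z, hz⟩ := IsCyclic.exists_ofOrder_eq_natCard (α := Kˣ)
  have hz' : ∀ r, z ^ (μ ⬝ᵥ R.wt r) = 1 → μ ⬝ᵥ R.wt r = 0 := fun r h => by
    rw [← orderOf_dvd_iff_zpow_eq_one, hz, Nat.card_units, Nat.card_eq_fintype_card] at h
    have h2 := D.bd r
    have h3 := D.bd (R.neg r)
    rw [hl.neg] at h3
    exact Int.eq_zero_of_abs_lt_dvd h (abs_lt.2 (by omega))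
  obtain ⟨u, hu, h2, h3⟩ := X.pack hC hh D.dom hz' h1
  refine ⟨_, u, U_mono (by rintro _ ⟨i, -, rfl⟩; exact R.inJ_simple.2 ⟨i, rfl⟩) hu, h2, fun Y hY => ?_, ?_⟩
  · obtain ⟨v, hv, h4, -⟩ := Y.pack hC hh D.dom hz' (.inl (hY 0))
    obtain rfl : v = 1 := (U_empty (S := S.toPreSt)).le (U_mono (by rintro _ ⟨i, h, -⟩; exact hY i h) hv)
    simpa only [mul_one] using h4
  choose π hπ using R.exists_w0_simple
  have hw := R.w0_mem_Aut Set.univ
  have h5 := D.inv π (fun i j e => R.simple_inj ((R.w0 Set.univ).injective (by rw [hπ, hπ, e]))) fun i j => by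
    rw [← pair_simple_simple, ← pair_simple_simple, ← Aut.pair_eq hw (R.simple i), hπ, hπ, pair_neg_left, pair_neg_right,
      _root_.neg_neg]
  obtain ⟨n, hn⟩ := exists_NW_of_W (S := S.toPreSt) (R.w0_mem Set.univ)
  have h6 := inverts hG hh hZ (c := fun i => z ^ μ i) hn fun r => by
    rw [chi_zpow, chi_zpow, ← _root_.zpow_neg]
    congr 1
    refine (hl.comp hw r).trans ?_
    simp only [Function.comp, hπ, hl.neg, h5, mul_neg, Finset.sum_neg_distrib]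
    exact congrArg _ (hl r).symm
  have h7 := fpf hS hh (c := fun i => z ^ μ i) (α := α) (U_mono (by rintro _ ⟨i, -, rfl⟩; exact R.pos_simple _) hu)
    (U_mono (B := {r | R.cf r α = 0}) (by
      rintro _ ⟨i, h, rfl⟩
      exact (congrFun (R.cf_simple _) α).trans (Pi.single_eq_of_ne (by rintro rfl; exact hα h) _)) hu)
    (hh.commute_U (by rintro _ ⟨i, h, rfl⟩; rw [chi_zpow, h, zpow_zero]) (mem_sup_left hu)) fun r hr e => by
      have h8 := hz' r (chi_zpow z μ r ▸ e)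
      by_cases h : R.pos r
      · exact ((hl.pos_iff D.dom).2 ⟨h, fun e => hr (e α hα)⟩).ne' h8
      · have := (hl.pos_iff D.dom).2 ⟨(R.pos_neg_iff r).2 h, fun e => hr (by simpa [R.cf_neg] using e α hα)⟩
        rw [hl.neg] at this
        exact (neg_pos.1 this).ne h8
  refine ⟨h7.1, h7.2, h3 n _ hn h6 fun i h => ?_⟩
  obtain ⟨j, e⟩ := hX (π (X.σ i)) ((h5 _).trans h)
  exact ⟨j, e ▸ (h5 _).trans h, e ▸ hπ _⟩

theorem x_neg_adj {α β : κ} (h : R.A α β < 0) (t : K) :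
    S.x (R.neg (R.simple β)) t ∈ S.U {r | R.cf r α = 0 ∧ 0 < R.wt r α} :=
  x_mem_U (A := {r | R.cf r α = 0 ∧ 0 < R.wt r α}) ⟨by
    rw [R.cf_neg, Pi.neg_apply, cf_simple, Pi.single_eq_of_ne (by rintro rfl; simp [A_self] at h), neg_zero], by
    rw [wt_neg, Pi.neg_apply, wt_simple]; omega⟩ t

theorem Mz_eq (α : κ) : Mz S α = S.U {r | R.InJ {α}ᶜ r} := by simp [Mz, InJ]

theorem thom_chain [Fintype K] [Finite G] [IsSimpleGroup G] (hK : 9 ≤ Fintype.card K) (hC : COk C.toPreChev) (hS : S.Sep)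
    (hG : S.U Set.univ = ⊤) (hh : S.HMul) (hZ : center G = ⊥) {ψ : ι → ℤ} (D : Dat R ψ) {α β : κ} (hα : ψ (R.simple α) ≠ 0)
    (hβ : R.A α β < 0) {m : ℕ} (X : Chain R m) (hX : Set.range X.σ = {α}ᶜ)
    (h1 : ψ (R.simple (X.σ 0)) ≠ 0 ∨ ψ (R.simple (X.σ (Fin.last m))) ≠ 0) : Thom G := by
  obtain ⟨k, u, -, h2, -, h3⟩ := thom_base hK hC hS hG hh hZ D hα X (fun j h => hX ▸ by rintro rfl; exact hα h) h1
  rw [hX, ← Mz_eq] at h2
  refine thom_of hS hG hh h3.1 h3.2.1 h3.2.2 fun l _ => ?_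
  obtain ⟨t, ht⟩ := exists_notMem hS β l
  exact ⟨_, x_neg_adj hβ t, fun b hb h4 => h2 _ h4 fun e =>
    ht ((mul_mem_cancel_right (B_le_Pz hb)).1 (B_le_Pz (mem_B_of_comm hS hG h4 e)))⟩

theorem thom_full [Fintype K] [Finite G] (hK : 9 ≤ Fintype.card K) (hC : COk C.toPreChev) (hS : S.Sep)
    (hG : S.U Set.univ = ⊤) (hh : S.HMul) (hZ : center G = ⊥) {ψ : ι → ℤ} (D : Dat R ψ) {m : ℕ} (X : Chain R m)
    (hX : Function.Surjective X.σ) (h1 : ψ (R.simple (X.σ 0)) ≠ 0) : Thom G := by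
  obtain ⟨k, u, -, h2, -, -, -, h3⟩ := thom_base hK hC hS hG hh hZ D h1 X (fun j _ => hX j) (.inl h1)
  rw [hX.range_eq, show {r | R.InJ Set.univ r} = Set.univ from Set.eq_univ_of_forall R.inJ_univ, hG] at h2
  refine ⟨k * u, fun γ => ?_⟩
  by_cases h : γ = 1
  · exact prod_of_conj (a := k * u) (b := (k * u)⁻¹) (by simp [h]) (IsConj.refl _) h3
  obtain ⟨τ, -, τ', -, e⟩ := h2 γ trivial fun e => h (hZ.le (mem_center_iff.2 fun y => (e y trivial).symm))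
  exact prod_of_conj (a := τ' * (k * u) * τ'⁻¹) (b := τ * (k * u)⁻¹ * τ⁻¹) (by rw [← e]; convert IsConj.refl γ; group)
    (isConj_conj (IsConj.refl _) _) (isConj_conj h3 _)

theorem inJ_or {J J' : Set κ} (h : ∀ i ∈ J, ∀ j ∈ J', R.A i j = 0 ∧ R.A j i = 0) {r : ι} (hr : R.InJ (J ∪ J') r) :
    R.InJ J r ∨ R.InJ J' r := by
  have key : ∀ {J J' : Set κ}, (∀ i ∈ J, ∀ j ∈ J', R.A j i = 0) → ∀ j ∈ J', ∀ r, R.InJ J r → R.sr j r = r := by
    intro J J' h j hj r hr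
    refine R.cf_inj ?_
    rw [cf_refl, pair_simple_left, wt, mulVec, dotProduct, Finset.sum_eq_zero fun i _ => ?_, zero_smul, sub_zero]
    by_cases e : i ∈ J
    · rw [h i e j hj, zero_mul]
    · rw [hr i e, mul_zero]
  refine R.InJ_induction (P := fun r => R.InJ J r ∨ R.InJ J' r) (fun j hj => hj.imp R.inJ_simple.2 R.inJ_simple.2) ?_ hr
  rintro j (hj | hj) r - (h1 | h1)
  · exact .inl ((R.inJ_WJ le_rfl (R.sr_mem_WJ hj)).2 h1)
  · exact .inr (by rwa [key (fun i hi j hj => (h j hj i hi).1) j hj r h1])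
  · exact .inl (by rwa [key (fun i hi j hj => (h i hi j hj).2) j hj r h1])
  · exact .inr ((R.inJ_WJ le_rfl (R.sr_mem_WJ hj)).2 h1)

theorem commute_orth {J J' : Set κ} (h : ∀ i ∈ J, ∀ j ∈ J', R.A i j = 0 ∧ R.A j i = 0) :
    ∀ u ∈ S.U {r | R.InJ J r}, ∀ v ∈ S.U {r | R.InJ J' r}, Commute u v := by
  have h0 : ∀ i ∈ J, i ∉ J' := fun i hi e => by simpa [A_self] using h i hi i e
  refine S.commute_U fun r hr s hs t u => S.commute_of_not ?_ (fun e => ?_) t u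
  · rintro rfl
    refine R.cf_ne_zero r (funext fun i => by_contra fun e => h0 i (by_contra fun e' => e (hr i e')) (by_contra fun e' => e ?_))
    simpa [R.cf_neg] using hs i e'
  · rcases inJ_or h (r := R.plus r s) (fun i hi => by
      rw [e.cf_plus, Pi.add_apply, hr i fun e => hi (.inl e), hs i fun e => hi (.inr e), add_zero]) with h1 | h1
    · refine R.cf_ne_zero s (funext fun i => by_contra fun e1 => ?_)
      have h2 : i ∉ J := fun e2 => e1 (hs i (h0 i e2))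
      exact e1 (by simpa [e.cf_plus, hr i h2] using h1 i h2)
    · refine R.cf_ne_zero r (funext fun i => by_contra fun e1 => ?_)
      have h2 : i ∉ J' := h0 i (by_contra fun e2 => e1 (hr i e2))
      exact e1 (by simpa [e.cf_plus, hs i h2] using h1 i h2)

theorem thom_two [Fintype K] [Finite G] [IsSimpleGroup G] (hK : 9 ≤ Fintype.card K) (hC : COk C.toPreChev) (hS : S.Sep)
    (hG : S.U Set.univ = ⊤) (hh : S.HMul) (hZ : center G = ⊥) {ψ : ι → ℤ} (D : Dat R ψ) {α : κ} (hα : ψ (R.simple α) ≠ 0)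
    {m m' : ℕ} (X : Chain R m) (Y : Chain R m') (hX : Set.range X.σ ∪ Set.range Y.σ = {α}ᶜ)
    (ho : ∀ i j, R.A (X.σ i) (Y.σ j) = 0 ∧ R.A (Y.σ j) (X.σ i) = 0) {i j} (hi : R.A α (X.σ i) < 0) (hj : R.A α (Y.σ j) < 0)
    (h1 : ψ (R.simple (X.σ 0)) ≠ 0 ∨ ψ (R.simple (X.σ (Fin.last m))) ≠ 0) (hY : ∀ i, ψ (R.simple (Y.σ i)) ≠ 0) :
    Thom G := by
  obtain ⟨k, u, hu, h2, h3, h4⟩ := thom_base hK hC hS hG hh hZ D hα X (fun j h => (hX.ge (by
    rintro rfl; exact hα h)).resolve_right (by rintro ⟨i, rfl⟩; exact hY i h)) h1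
  replace h3 := h3 Y hY
  have ho' : ∀ i ∈ Set.range X.σ, ∀ j ∈ Set.range Y.σ, R.A i j = 0 ∧ R.A j i = 0 := by
    rintro _ ⟨i, rfl⟩ _ ⟨j, rfl⟩; exact ho i j
  have hc := commute_orth (S := S) ho'
  set M := S.U {r | R.InJ (Set.range X.σ) r}
  set M' := S.U {r | R.InJ (Set.range Y.σ) r}
  have e1 : Mz S α = M ⊔ M' := by
    rw [Mz_eq, ← hX, ← U_union]
    exact congrArg _ (Set.ext fun r => ⟨inJ_or ho', fun h => h.elim (fun h j hj => h j fun e => hj (.inl e))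
      fun h j hj => h j fun e => hj (.inr e)⟩)
  have e2 : ∀ l ∈ Mz S α, ∃ a ∈ M, ∃ b ∈ M', a * b = l := fun l hl => by
    rwa [e1, ← SetLike.mem_coe, coe_mul_of_left_le_normalizer_right _ _
      (le_trans (b := centralizer (M' : Set G)) (fun a ha b hb => (hc a ha b hb).symm) (centralizer_le_normalizer _))] at hl
  have e3 : ∀ {J : Set κ} {β}, β ∉ J → S.U {r | R.InJ J r} ≤ Pz S β := fun h =>
    le_trans (U_mono fun r hr => hr _ h) (M_le_L.trans L_le_P)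
  have e4 : M' ≤ Pz S (X.σ i) := e3 fun h => by simpa [A_self] using ho' _ ⟨i, rfl⟩ _ h
  have e5 : M ≤ Pz S (Y.σ j) := e3 fun h => by simpa [A_self] using ho' _ h _ ⟨j, rfl⟩
  refine thom_of hS hG hh h4.1 h4.2.1 h4.2.2 fun l _ => ?_
  obtain ⟨t, ht⟩ := exists_notMem hS (X.σ i) l
  obtain ⟨t', ht'⟩ := exists_notMem hS (Y.σ j) l
  have hx : S.x (R.neg (R.simple (X.σ i))) t ∈ M := x_mem_U (by simp [inJ_neg, inJ_simple]) _
  have hy : S.x (R.neg (R.simple (Y.σ j))) t' ∈ M' := x_mem_U (by simp [inJ_neg, inJ_simple]) _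
  refine ⟨_, mul_mem (x_neg_adj hi t) (x_neg_adj hj t'), fun b hb h5 => ?_⟩
  obtain ⟨a, ha, a', ha', e⟩ := e2 _ h5
  obtain ⟨τ, h6, τ', h7, e6⟩ := h2 a ha fun h => ht (by
    have := mul_mem (B_le_Pz (mem_B_of_comm hS hG (e1.ge (mem_sup_left ha)) fun y hy => by
      obtain ⟨c, h8, c', h9, rfl⟩ := e2 y hy
      exact (h c h8).mul_right (hc _ ha _ h9))) (e4 ha')
    rwa [e, mul_mem_cancel_right (B_le_Pz hb), ← mul_assoc, mul_mem_cancel_right (e4 hy)] at this)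
  obtain ⟨σ, h8, σ', h9, e7⟩ := h3 a' ha' fun h => ht' (by
    have := mul_mem (e5 ha) (B_le_Pz (mem_B_of_comm hS hG (e1.ge (mem_sup_right ha')) fun y hy => by
      obtain ⟨c, h8, c', h9, rfl⟩ := e2 y hy
      exact (hc _ h8 _ ha').symm.mul_right (h c' h9)))
    rwa [e, mul_mem_cancel_right (B_le_Pz hb), hc _ hx _ hy, ← mul_assoc, mul_mem_cancel_right (e5 hx)] at this)
  refine ⟨_, e1.ge (mul_mem (mem_sup_left h6) (mem_sup_right h8)), _, e1.ge (mul_mem (mem_sup_right h9) (mem_sup_left h7)), ?_⟩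
  have c1 := (hc _ hu _ (inv_mem h8)).eq
  have c2 := (hc _ (mul_mem hu (inv_mem h6)) _ (inv_mem h9)).eq
  calc _ = a * (a' * τ) * (σ * k * (u * σ⁻¹)) * τ⁻¹ := by rw [← e]; group
    _ = a * τ * (a' * (σ * k * σ⁻¹)) * (u * τ⁻¹) := by rw [c1, ← hc _ h6 _ ha']; group
    _ = a * τ * σ' * k * (σ'⁻¹ * (u * τ⁻¹)) := by rw [e7]; group
    _ = σ' * (a * (τ * (k * u) * τ⁻¹)) * σ'⁻¹ := by rw [← c2, hc _ (mul_mem ha h6) _ h9]; group
    _ = _ := by rw [e6]; group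

/-- the node has two neighbours -/
def Mid (R : RootSys ι κ) (i : κ) : Prop := ∃ j k, j ≠ k ∧ j ≠ i ∧ k ≠ i ∧ R.A i j ≠ 0 ∧ R.A i k ≠ 0

theorem inv_of_mid {ψ : ι → ℤ} (h : ∀ i j, (Mid R i ↔ Mid R j) → ψ (R.simple i) = ψ (R.simple j)) (π : κ → κ)
    (h1 : Function.Injective π) (h2 : ∀ i j, R.A (π i) (π j) = R.A i j) (i : κ) : ψ (R.simple (π i)) = ψ (R.simple i) := by
  refine h _ _ ⟨fun ⟨j, k, h⟩ => ?_, fun ⟨j, k, h⟩ => ⟨π j, π k, by simpa only [Ne, h1.eq_iff, h2] using h⟩⟩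
  obtain ⟨j, rfl⟩ := Finite.injective_iff_surjective.1 h1 j
  obtain ⟨k, rfl⟩ := Finite.injective_iff_surjective.1 h1 k
  exact ⟨j, k, by simpa only [Ne, h1.eq_iff, h2] using h⟩

theorem inv_of_sum {ψ : ι → ℤ} (h : ∀ i j, ∑ k, R.A i k = ∑ k, R.A j k → ψ (R.simple i) = ψ (R.simple j)) (π : κ → κ)
    (h1 : Function.Injective π) (h2 : ∀ i j, R.A (π i) (π j) = R.A i j) (i : κ) : ψ (R.simple (π i)) = ψ (R.simple i) :=
  h _ _ (((Finite.injective_iff_bijective.1 h1).sum_comp _).symm.trans (by simp only [h2]))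

theorem simple_ad [Fintype K] [Nontrivial κ] (hK : 9 ≤ Fintype.card K) (hC : COk C.toPreChev) (hR : R.Conn) :
    IsSimpleGroup ((C.ad K).U Set.univ) := by
  classical
  obtain ⟨a, -, ha⟩ := Finset.exists_mem_notMem_of_card_lt_card (s := {0, 1}) (t := (Finset.univ : Finset K))
    (Finset.card_le_two.trans_lt (by simp; omega))
  obtain ⟨e, -, hd⟩ := hC.ex
  have : Nonempty ι := ⟨R.simple (Classical.arbitrary κ)⟩
  simp only [Finset.mem_insert, Finset.mem_singleton, not_or] at ha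
  exact St.isSimpleGroup (C.adG_sep K) (C.adG_top K) hR (C.adG_hmul K).comm
    (perfect_of_field (C.adG_top K) hd hR ha.1 ha.2) (C.adG_center K)

theorem Thom.quot (h : Thom ((C.ad K).U Set.univ)) (hG : S.U Set.univ = ⊤) : Thom (G ⧸ center G) :=
  let ⟨f, hf, _⟩ := exists_hom_quot (C.adG_sep K) (C.adG_top K) hG
  h.of_surj f hf

end H11.Th
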