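import Cfsg.Agent.H11.Th5
import Cfsg.Agent.H11.Cl7
import Cfsg.Agent.H14.Tw6

/-! # Squares of conjugacy classes: the individual types -/

set_option autoImplicit false
set_option linter.unusedSectionVars false
set_option maxHeartbeats 400000

namespace H11.Th

open H14 H14.RootSys H14.PreSt H14.St Matrix Subgroup

theorem col_sum {m ν κ : Type*} [Fintype m] [DecidableEq m] [Fintype ν] [DecidableEq ν] [Fintype κ] [DecidableEq κ]
    (W : Wd m ν κ) {c : ℤ} (h : ∀ i, W.R.CoL fun r => c * r.1 i) (y : m → ℤ) : W.R.CoL fun r => c * (y ⬝ᵥ r.1) := by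
  choose μ hμ using h
  refine ⟨∑ i, y i • μ i, fun r => ?_⟩
  simp only [sum_dotProduct, smul_dotProduct, ← hμ, smul_eq_mul]
  rw [dotProduct, Finset.mul_sum]
  exact Finset.sum_congr rfl fun _ _ => mul_left_comm _ _ _

theorem col_cov {m ν κ : Type*} [Fintype m] [DecidableEq m] [Fintype ν] [DecidableEq ν] [Fintype κ] [DecidableEq κ]
    {W : Wd m ν κ} {x : m → ℤ} (h : IsRt W.μ W.N x) {ψ : W.Rt → ℤ} (e : ∀ r, ψ r = cov x ⬝ᵥ r.1) : W.R.CoL ψ :=
  ⟨W.R.co ⟨x, h⟩, fun r => (e r).trans (W.pair_eq ⟨x, h⟩ r).symm⟩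

variable {n : ℕ}

theorem dotA (y : Fin (n + 1) → ℤ) (j : Fin n) : y ⬝ᵥ ((wdA n).R.simple j).1 = y j.castSucc - y j.succ := by
  change y ⬝ᵥ (μ1 j.castSucc - μ1 j.succ) = _
  rw [dotProduct_sub, dot_μ1, dot_μ1]

theorem dotB (y : Fin n → ℤ) (j : Fin n) :
    y ⬝ᵥ ((wbB n).R.simple j).1 = if h : (j : ℕ) + 1 < n then y j - y ⟨j + 1, h⟩ else y j := by
  change y ⬝ᵥ (μ2 (.inl j) - (barB n).μ (nx (fun k => .inr (.inl k)) (fun _ => .inl ()) j)) = _
  rw [nx]; split_ifs <;> simp [dot_μ2, barB]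

theorem dotC (y : Fin n → ℤ) (j : Fin n) :
    y ⬝ᵥ ((wbC n).R.simple j).1 = if h : (j : ℕ) + 1 < n then y j - y ⟨j + 1, h⟩ else 2 * y j := by
  change y ⬝ᵥ (μ2 (.inl j) - μ2 (nx .inl .inr j)) = _
  rw [nx]; split_ifs <;> simp [dot_μ2, two_mul]

theorem dotD (hn : 2 ≤ n) (y : Fin n → ℤ) (j : Fin n) : y ⬝ᵥ ((wbD n hn).R.simple j).1 =
    if h : (j : ℕ) + 1 < n then y j - y ⟨j + 1, h⟩ else y j + y ⟨j - 1, by omega⟩ := by
  change y ⬝ᵥ (μ2 (.inl j) - μ2 (nx .inl (fun j => .inr ⟨j - 1, by omega⟩) j)) = _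
  rw [nx]; split_ifs <;> simp [dot_μ2]

theorem cA (i j : Fin n) : (wdA n).R.A i j = if (i : ℕ) = j then 2 else if (i : ℕ) + 1 = j ∨ (j : ℕ) + 1 = i then -1 else 0 := by
  change (wdA n).φ ((wdA n).R.simple j).1 i = _
  simp only [φA, ← single_one_dotProduct _ ((wdA n).R.simple j).1, dotA, Pi.single_apply, Fin.ext_iff, Fin.val_castSucc,
    Fin.val_succ]
  split_ifs <;> omega

theorem cB (i j : Fin n) : (wbB n).R.A i j = if (i : ℕ) = j then 2 else if (i : ℕ) + 1 = j then -1 else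
    if (j : ℕ) + 1 = i then (if (i : ℕ) + 1 < n then -1 else -2) else 0 := by
  have := i.2; have := j.2
  change (wbB n).wd.φ ((wbB n).R.simple j).1 i = _
  simp only [φB, ← single_one_dotProduct _ ((wbB n).R.simple j).1, dotB, Pi.single_apply, Fin.ext_iff]
  split_ifs <;> omega

theorem cC (i j : Fin n) : (wbC n).R.A i j = if (i : ℕ) = j then 2 else if (j : ℕ) + 1 = i then -1 else
    if (i : ℕ) + 1 = j then (if (j : ℕ) + 1 < n then -1 else -2) else 0 := by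
  have := i.2; have := j.2
  change (wbC n).wd.φ ((wbC n).R.simple j).1 i = _
  simp only [φC, ← single_one_dotProduct _ ((wbC n).R.simple j).1, dotC, Pi.single_apply, Fin.ext_iff]
  split_ifs <;> omega

theorem cD (hn : 2 ≤ n) (i j : Fin n) : (wbD n hn).R.A i j = if (i : ℕ) = j then 2 else
    if ((i : ℕ) + 1 = j ∧ (j : ℕ) + 1 < n) ∨ ((j : ℕ) + 1 = i ∧ (i : ℕ) + 1 < n) ∨
      ((i : ℕ) + 3 = n ∧ (j : ℕ) + 1 = n) ∨ ((j : ℕ) + 3 = n ∧ (i : ℕ) + 1 = n) then -1 else 0 := by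
  have := i.2; have := j.2
  change (wbD n hn).wd.φ ((wbD n hn).R.simple j).1 i = _
  have := fun k : Fin n => dotD hn (Pi.single k 1) j
  simp only [single_one_dotProduct] at this
  simp only [φD, this, Pi.single_apply, Fin.ext_iff]
  split_ifs <;> omega

theorem mid_iff {ι : Type*} [Fintype ι] [DecidableEq ι] {R : RootSys ι (Fin n)} {a : ℕ} (ha : 0 < a) {i : Fin n}
    (h : ∀ j k : Fin n, (j : ℕ) ≠ k → (j : ℕ) ≠ i → (k : ℕ) ≠ i → R.A i j ≠ 0 → R.A i k ≠ 0 → 0 < (i : ℕ) ∧ i + a < n)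
    (h' : ∀ j : Fin n, i + a < n → (j : ℕ) + 1 = i ∨ (i : ℕ) + 1 = j → R.A i j ≠ 0) : Mid R i ↔ 0 < (i : ℕ) ∧ i + a < n :=
  ⟨fun ⟨j, k, h1, h2, h3, h4, h5⟩ => h j k (Fin.val_ne_iff.2 h1) (Fin.val_ne_iff.2 h2) (Fin.val_ne_iff.2 h3) h4 h5,
    fun e => ⟨⟨i - 1, by omega⟩, ⟨i + 1, by omega⟩, by simp only [Ne, Fin.ext_iff]; omega, by simp only [Ne, Fin.ext_iff]; omega,
      by simp only [Ne, Fin.ext_iff]; omega, h' _ e.2 (.inl (by simp only; omega)), h' _ e.2 (.inr rfl)⟩⟩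

theorem rng : Set.range (Fin.castSucc (n := n)) = {Fin.last n}ᶜ := by rw [← Fin.range_succAbove, Fin.succAbove_last]

variable {K : Type*} [Field K] [Fintype K] (hK : 9 ≤ Fintype.card K)
include hK

theorem thomA : Thom (ProjectiveSpecialLinearGroup (Fin (n + 2)) K) := by
  let r := rtA (a := 0) (b := Fin.last (n + 1)) (Fin.last_pos.ne)
  have h : ∀ j : Fin (n + 1), (wdA (n + 1)).R.pair r ((wdA _).R.simple j) =
      (if (j : ℕ) = 0 then 1 else 0) + if (j : ℕ) = n then 1 else 0 := fun j => by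
    have := j.2
    simp only [r, pairA, ← single_one_dotProduct _ ((wdA _).R.simple j).1, dotA, Pi.single_apply, Fin.ext_iff,
      Fin.val_castSucc, Fin.val_succ, Fin.val_last, Fin.val_zero]
    grind
  refine Thom.quot (thom_full hK (mbA _).cok (Chev.adG_sep _ K) (Chev.adG_top _ K) (Chev.adG_hmul _ K) (Chev.adG_center _ K)
    ⟨coL_pair r, fun j => by rw [h]; positivity, fun s => ?_, inv_of_mid fun i j e => ?_⟩
    ⟨id, fun i j => by simp only [cA, id, Fin.ext_iff]; split_ifs <;> omega⟩ Function.surjective_id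
    (by rw [h]; split_ifs <;> simp_all)) (slSt_top _ K)
  · obtain ⟨a, b, h1, rfl⟩ := exists_rtA s
    simp only [r, pairA, rtA_val, Pi.sub_apply, μ1_apply]
    split_ifs <;> omega
  · have := i.2; have := j.2
    rw [mid_iff one_pos, mid_iff one_pos] at e
    · simp only [h]; split_ifs <;> omega
    all_goals simp only [cA]; intros; split_ifs at * <;> omega

theorem thomC : Thom (Cfsg.PSp (n + 2) K) := by
  let y : Fin (n + 2) → ℤ := fun i => if (i : ℕ) = 0 then 3 else 1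
  have h : ∀ j, 1 * (y ⬝ᵥ ((wbC _).R.simple j).1) = if (j : ℕ) = 0 ∨ (j : ℕ) = n + 1 then 2 else 0 := fun j => by
    have := j.2
    simp only [dotC, y]; grind
  have := simple_ad hK (wbC (n + 2)).mb.cok connC
  refine Thom.quot (thom_chain hK (wbC _).mb.cok (Chev.adG_sep _ K) (Chev.adG_top _ K) (Chev.adG_hmul _ K)
    (Chev.adG_center _ K) (ψ := fun r => 1 * (y ⬝ᵥ r.1)) ⟨col_sum _ (fun i => ?_) y, fun j => by rw [h]; positivity, fun s => ?_,
      inv_of_mid (ψ := fun r : (wbC _).wd.Rt => 1 * (y ⬝ᵥ r.1)) fun i j e => ?_⟩ (α := Fin.last _) (β := (Fin.last n).castSucc)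
    (by simp only [h]; simp) (by simp [cC])
    ⟨Fin.castSucc, fun i j => by simp only [cC, Fin.ext_iff, Fin.val_castSucc]; split_ifs <;> omega⟩
    rng (.inl (by simp only [h]; simp))) (spSt_top _ K)
  · refine col_cov ((barC _).rt_four (μ2_ne (.inl i)) rfl) fun r => ?_
    erw [Bar.sub_bar_self, cov_two_smul (μ2_self _), dotProduct_comm, dot_μ2]
    simp
  · obtain ⟨_, ⟨a, b, rfl⟩, -⟩ := s
    change 1 * (y ⬝ᵥ (μ2 a - μ2 b)) ≤ 7
    rcases sg_cases a with e | e <;> rcases sg_cases b with e' | e' <;> simp only [dotProduct_sub, dot_μ2, y, e, e'] <;>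
      split_ifs <;> omega
  · have := i.2; have := j.2
    rw [mid_iff one_pos, mid_iff one_pos] at e
    · simp only [h]; split_ifs <;> omega
    all_goals simp only [cC]; intros; split_ifs at * <;> omega

theorem thomB (h2 : (2 : K) ≠ 0) : Thom (Cfsg.POmega K (Cfsg.quadFormOdd (n + 2) K)) := by
  let y : Fin (n + 2) → ℤ := fun i => if (i : ℕ) = 0 then 2 else 1
  have h : ∀ j, 2 * (y ⬝ᵥ ((wbB _).R.simple j).1) = if (j : ℕ) = 0 ∨ (j : ℕ) = n + 1 then 2 else 0 := fun j => by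
    have := j.2
    simp only [dotB, y]; grind
  have := simple_ad hK (wbB (n + 2)).mb.cok connB
  refine Thom.quot (thom_chain hK (wbB _).mb.cok (Chev.adG_sep _ K) (Chev.adG_top _ K) (Chev.adG_hmul _ K)
    (Chev.adG_center _ K) (ψ := fun r => 2 * (y ⬝ᵥ r.1)) ⟨col_sum _ (fun i => ?_) y, fun j => by rw [h]; positivity, fun s => ?_,
      inv_of_mid (ψ := fun r : (wbB _).wd.Rt => 2 * (y ⬝ᵥ r.1)) fun i j e => ?_⟩ (α := Fin.last _) (β := (Fin.last n).castSucc)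
    (by simp only [h]; simp) (by simp [cB]; grind)
    ⟨Fin.castSucc, fun i j => by simp only [cB, Fin.ext_iff, Fin.val_castSucc]; split_ifs <;> omega⟩
    rng (.inl (by simp only [h]; simp))) (stPull_top _ (omToGL_injective K _) (range_omB _ K (by omega) h2))
  · refine col_cov ((barB _).rt_one (a := .inr (.inl i)) (b := .inl ()) (μ2_ne _) rfl) fun r => ?_
    erw [sub_zero, cov_of_one (μ2_self _), smul_dotProduct, dotProduct_comm, dot_μ2]
    simp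
  · obtain ⟨_, ⟨a | a, b | b, rfl⟩, h1⟩ := s
    · simp [wbB, barB, Wb.wd]
    · change 2 * (y ⬝ᵥ (0 - μ2 b)) ≤ 7
      rcases sg_cases b with e | e <;> simp only [zero_sub, dotProduct_neg, dot_μ2, y, e] <;> split_ifs <;> omega
    · change 2 * (y ⬝ᵥ (μ2 a - 0)) ≤ 7
      rcases sg_cases a with e | e <;> simp only [sub_zero, dot_μ2, y, e] <;> split_ifs <;> omega
    have := Fin.val_ne_iff.2 (ix_ne ⟨⟨a, b, rfl⟩, h1⟩)
    change 2 * (y ⬝ᵥ (μ2 a - μ2 b)) ≤ 7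
    rcases sg_cases a with e | e <;> rcases sg_cases b with e' | e' <;> simp only [dotProduct_sub, dot_μ2, y, e, e'] <;>
      split_ifs <;> omega
  · have := i.2; have := j.2
    rw [mid_iff one_pos, mid_iff one_pos] at e
    · simp only [h]; split_ifs <;> omega
    all_goals simp only [cB]; intros; split_ifs at * <;> omega

theorem thomD : Thom (Cfsg.POmega K (Cfsg.quadFormPlus (n + 4) K)) := by
  have hn : 2 ≤ n + 4 := by omega
  let y : Fin (n + 4) → ℤ := fun i => if (i : ℕ) = 0 then 2 else if (i : ℕ) = n + 3 then 0 else 1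
  have h : ∀ j, 2 * (y ⬝ᵥ ((wbD _ hn).R.simple j).1) = if (j : ℕ) = 0 ∨ n + 2 ≤ j then 2 else 0 := fun j => by
    have := j.2
    rw [dotD]; simp only [y]; grind
  have := simple_ad hK (wbD (n + 4) hn).mb.cok (connD (n := n + 4) (by omega))
  refine Thom.quot (thom_chain hK (wbD _ hn).mb.cok (Chev.adG_sep _ K) (Chev.adG_top _ K) (Chev.adG_hmul _ K)
    (Chev.adG_center _ K) (ψ := fun r => 2 * (y ⬝ᵥ r.1)) ⟨col_sum _ (fun i => ?_) y, fun j => by rw [h]; positivity, fun s => ?_,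
      inv_of_mid (ψ := fun r : (wbD _ hn).wd.Rt => 2 * (y ⬝ᵥ r.1)) fun i j e => ?_⟩ (α := Fin.last _) (β := ⟨n + 1, by omega⟩)
    (by simp only [h]; simp) (by simp [cD hn])
    ⟨Fin.castSucc, fun i j => by simp only [cD hn, Fin.ext_iff, Fin.val_castSucc]; split_ifs <;> omega⟩
    rng (.inl (by simp only [h]; simp))) (stPull_top _ (omToGL_injective K _) (range_omD _ K hn (.inr (by simp; omega))))
  · obtain ⟨k, hk⟩ := exists_ne i
    have h1 : (wbD _ hn).Ind (.inl i) (.inl k) := ⟨μ2_dot_inl hk, μ2_ne _, μ2_ne _⟩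
    convert (coL_pair h1.rt).add (coL_pair h1.bar.rt) 1 with r
    simp only [Wb.Ind.pair, Bar.μ_bar, neg_dotProduct]
    erw [dotProduct_comm, dot_μ2]
    simp; ring
  · obtain ⟨_, ⟨a, b, rfl⟩, h1⟩ := s
    have := Fin.val_ne_iff.2 (ix_ne ⟨⟨a, b, rfl⟩, h1⟩)
    change 2 * (y ⬝ᵥ (μ2 a - μ2 b)) ≤ 7
    rcases sg_cases a with e | e <;> rcases sg_cases b with e' | e' <;> simp only [dotProduct_sub, dot_μ2, y, e, e'] <;>
      split_ifs <;> omega
  · have := i.2; have := j.2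
    rw [mid_iff two_pos, mid_iff two_pos] at e
    · simp only [h]; split_ifs <;> omega
    all_goals simp only [cD hn]; intros; split_ifs at * <;> omega

open Cfsg.Lie

theorem simple_good {D : ChevalleyDatum} (G : Good D) : IsSimpleGroup (D.group K) :=
  haveI := G.nontrivial_rank
  G.group_eq K ▸ simple_ad hK (cok_good G) G.conn

theorem thom_good {D : ChevalleyDatum} (G : Good D) (μ : List ℤ) {m : ℕ} (σ : Fin (m + 1) → Fin D.rank) (α β : Fin D.rank)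
    (h : (∀ j, 0 ≤ vec 0 μ ⬝ᵥ G.R.wt (G.R.simple j)) ∧ (∀ r, vec 0 μ ⬝ᵥ G.R.wt r ≤ 7) ∧
      (∀ i j, ∑ k, G.R.A i k = ∑ k, G.R.A j k → vec 0 μ ⬝ᵥ G.R.wt (G.R.simple i) = vec 0 μ ⬝ᵥ G.R.wt (G.R.simple j)) ∧
      vec 0 μ ⬝ᵥ G.R.wt (G.R.simple α) ≠ 0 ∧ G.R.A α β < 0 ∧ (∀ i j, G.R.A (σ j) (σ i) =
        if i = j then 2 else if (i : ℕ) + 1 = j ∨ (j : ℕ) + 1 = i then -1 else 0) ∧ (∀ j : Fin D.rank, (∃ i, (σ i : ℕ) = j) ↔ (j : ℕ) ≠ α) ∧
      vec 0 μ ⬝ᵥ G.R.wt (G.R.simple (σ 0)) ≠ 0) : Thom (D.group K) :=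
  haveI := simple_good hK G
  have ⟨h1, h2, h3, h4, h5, h6, h7, h8⟩ := h
  thom_chain hK (cok_good G) (G.SG_sep K) (G.SG_top K) (G.SG_hmul K) (G.center_eq_bot K)
    ⟨⟨_, fun _ => rfl⟩, h1, h2, inv_of_sum (ψ := fun r => vec 0 μ ⬝ᵥ G.R.wt r) h3⟩ h4 h5 ⟨σ, h6⟩ (Set.ext fun j => by simpa [Fin.ext_iff] using h7 j) (.inl h8)

theorem thomG2 : Thom (chevG2.group K) :=
  thom_good hK goodG2 [3, 5] (![0] : Fin 1 → Fin 2) (1 : Fin 2) (0 : Fin 2) (by refine ⟨?_, ?_, ?_, ?_, ?_, ?_, ?_, ?_⟩ <;> decide +kernel)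

theorem thomE6 : Thom (chevE6.group K) := thom_good hK goodE6 [3, 4, 5, 7, 5, 3] (![0, 2, 3, 4, 5] : Fin 5 → Fin 6)
  (1 : Fin 6) (3 : Fin 6)
    (by refine ⟨?_, ?_, ?_, ?_, ?_, ?_, ?_, ?_⟩ <;> decide +kernel)

theorem thomE7 : Thom (chevE7.group K) := thom_good hK goodE7 [5, 7, 9, 13, 10, 7, 4] (![0, 2, 3, 4, 5, 6] : Fin 6 → Fin 7)
  (1 : Fin 7) (3 : Fin 7)
    (by refine ⟨?_, ?_, ?_, ?_, ?_, ?_, ?_, ?_⟩ <;> decide +kernel)

theorem thomE8 : Thom (chevE8.group K) := thom_good hK goodE8 [11, 16, 21, 31, 25, 19, 13, 7]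
  (![0, 2, 3, 4, 5, 6, 7] : Fin 7 → Fin 8) (1 : Fin 8) (3 : Fin 8)
    (by refine ⟨?_, ?_, ?_, ?_, ?_, ?_, ?_, ?_⟩ <;> decide +kernel)

theorem thomF4 : Thom (chevF4.group K) :=
  haveI := simple_good hK goodF4
  thom_two hK (cok_good goodF4) (goodF4.SG_sep K) (goodF4.SG_top K) (goodF4.SG_hmul K) (goodF4.center_eq_bot K)
    (ψ := fun r => vec 0 [5, 9, 13, 7] ⬝ᵥ goodF4.R.wt r) ⟨⟨_, fun _ => rfl⟩, by decide +kernel, by decide +kernel,
      inv_of_sum (ψ := fun r => vec 0 [5, 9, 13, 7] ⬝ᵥ goodF4.R.wt r) (by decide +kernel)⟩ (α := (2 : Fin 4)) (by decide +kernel)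
    ⟨(![0, 1] : Fin 2 → Fin 4), by decide +kernel⟩ ⟨(![3] : Fin 1 → Fin 4), by decide +kernel⟩
    (Set.ext (by decide : ∀ j : Fin 4, (∃ i, (![0, 1] : Fin 2 → Fin 4) i = j) ∨ (∃ i, (![3] : Fin 1 → Fin 4) i = j) ↔ ¬ j = 2)) (by decide +kernel) (i := 1) (j := 0)
    (by decide +kernel) (by decide +kernel) (.inl (by decide +kernel)) (by decide +kernel)

end H11.Th
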