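import Cfsg.Agent.H11.LS5

/-!
# Orbits of quadratic forms of rank at least two in odd characteristic
-/

set_option autoImplicit false
set_option linter.unusedSectionVars false
set_option maxHeartbeats 400000

namespace H11.WU

open Module Finset Matrix H11.LS
open QuadraticMap hiding sq

variable {F U : Type*} [Field F] [Fintype F] [DecidableEq F] [AddCommGroup U] [Module F U]
  [Fintype U] [DecidableEq U]

theorem quad_line' (Q : QuadraticForm F U) (x e : U) (t : F) :
    Q (x + t • e) = Q e * t ^ 2 + polar Q e x * t + Q x := by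
  rw [QuadraticMap.map_add Q, polar_smul_right, polar_comm, Q.map_smul]; simp; ring

theorem card_roots_le {a : F} (ha : a ≠ 0) (b c : F) : #{t : F | a * t ^ 2 + b * t + c = 0} ≤ 2 :=
  le_trans (card_le_card (t := (Polynomial.C a * Polynomial.X ^ 2 + Polynomial.C b * Polynomial.X +
    Polynomial.C c).roots.toFinset) fun t ht => by
      rw [Multiset.mem_toFinset, Polynomial.mem_roots fun h => by
        simpa using (Polynomial.degree_quadratic ha).symm.trans (congrArg Polynomial.degree h)]
      simpa using (mem_filter.1 ht).2)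
    ((Multiset.toFinset_card_le _).trans ((Polynomial.card_roots' _).trans Polynomial.natDegree_quadratic_le))

/-- translates of `S` cover `U` at most `k` times -/
theorem card_cover {P : Type*} [Fintype P] [DecidableEq P] (S : Finset U) (f : P → U) {k : ℕ}
    (h : ∀ y, #{p | y - f p ∈ S} ≤ k) : #S * Fintype.card P ≤ k * Fintype.card U := by
  have := sum_card_bipartiteAbove_eq_sum_card_bipartiteBelow (s := (univ : Finset U)) (t := (univ : Finset P))
    fun y p => y - f p ∈ S
  have h1 : ∀ p, #(bipartiteBelow (fun y p => y - f p ∈ S) univ p) = #S := fun p =>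
    card_bij (fun y _ => y - f p) (fun y hy => (mem_filter.1 hy).2) (fun _ _ _ _ h => sub_left_injective h)
      fun x hx => ⟨x + f p, by simpa [bipartiteBelow], by simp⟩
  simp only [h1, sum_const, card_univ, smul_eq_mul] at this
  rw [mul_comm, ← this, mul_comm]
  exact sum_le_card_nsmul _ _ _ fun y _ => h y

theorem card_pairs {r : U × U → Prop} [DecidablePred r] {S : Finset U} (h1 : ∀ p, r p → p.1 ∈ S) {k : ℕ}
    (h2 : ∀ u w, r (u, w) → #{w | r (u, w)} ≤ k) : #{p | r p} ≤ k * #S := by
  refine card_le_mul_card_image_of_maps_to (f := Prod.fst) (fun p hp => h1 p (mem_filter.1 hp).2) k fun u _ => ?_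
  rcases (filter (fun p : U × U => p.1 = u) {p | r p}).eq_empty_or_nonempty with h | ⟨⟨u', w⟩, hp⟩
  · simp [h]
  simp only [mem_filter, mem_univ, true_and] at hp
  obtain ⟨hp, rfl⟩ := hp
  refine le_trans (card_le_card_of_injOn Prod.snd (fun p hp => ?_) fun p hp p' hp' h => ?_) (h2 _ w hp)
  · simp only [coe_filter, mem_filter, mem_univ, true_and, Set.mem_setOf_eq] at hp ⊢
    exact hp.2 ▸ hp.1
  · simp only [coe_filter, mem_filter, mem_univ, true_and, Set.mem_setOf_eq] at hp hp'
    exact Prod.ext (hp.2.trans hp'.2.symm) h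

theorem orbit_gen (O : Finset (QuadraticForm F U))
    (hO : ∀ g : End F U, IsUnit g → ∀ Q ∈ O, Q.comp g ∈ O) {Q₀ : QuadraticForm F U} (h₀ : Q₀ ∈ O)
    {e e' : U} (he : polar Q₀ e e' ^ 2 ≠ 4 * Q₀ e * Q₀ e') {K : ℕ}
    (up : ∀ M, Fintype.card F ^ 2 * M = Fintype.card U → ∀ Q ∈ O,
      #{p : U × U | Q p.1 = Q₀ e ∧ polar Q p.1 p.2 = polar Q₀ e e' ∧ Q p.2 = Q₀ e'} ≤ K * M ^ 2) :
    (Fintype.card U - 1) * (Fintype.card U - Fintype.card F) ≤ K * #O := by
  classical
  have : Module.Finite F U := Module.Finite.of_finite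
  have : Finite (Dual F U) := Module.finite_of_finite F
  have nd : ∀ s t : F, s * (2 * Q₀ e) + t * polar Q₀ e e' = 0 → s * polar Q₀ e e' + t * (2 * Q₀ e') = 0 →
      s = 0 ∧ t = 0 := fun s t h1 h2 =>
    ⟨(mul_eq_zero.1 (show s * (polar Q₀ e e' ^ 2 - 4 * Q₀ e * Q₀ e') = 0 by
      linear_combination polar Q₀ e e' * h2 - 2 * Q₀ e' * h1)).resolve_right (sub_ne_zero.2 he),
    (mul_eq_zero.1 (show t * (polar Q₀ e e' ^ 2 - 4 * Q₀ e * Q₀ e') = 0 by
      linear_combination polar Q₀ e e' * h1 - 2 * Q₀ e * h2)).resolve_right (sub_ne_zero.2 he)⟩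
  have hli : LinearIndependent F ![e, e'] := LinearIndependent.pair_iff.2 fun s t h => by
    have h1 := congrArg (polar Q₀ e) h
    have h2 := congrArg (polar Q₀ e') h
    simp only [polar_add_right, polar_smul_right, polar_self, polar_comm Q₀ e' e, polar_zero_right,
      smul_eq_mul, nsmul_eq_mul, Nat.cast_ofNat] at h1 h2
    exact nd s t h1 h2
  have h2 : 2 ≤ finrank F U := by simpa using hli.fintype_card_le_finrank
  obtain ⟨M, hM, hM'⟩ : ∃ M, Fintype.card F ^ 2 * M = Fintype.card U ∧
      M = Fintype.card F ^ (finrank F U - 2) :=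
    ⟨_, by rw [← pow_add, card_eq_pow_finrank (K := F) (V := U)]; congr 1; omega, rfl⟩
  let r : QuadraticForm F U → U × U → Prop := fun Q p =>
    Q p.1 = Q₀ e ∧ polar Q p.1 p.2 = polar Q₀ e e' ∧ Q p.2 = Q₀ e'
  have low : ∀ p : U × U, LinearIndependent F ![p.1, p.2] → M ^ 2 ≤ #{Q ∈ O | r Q p} := by
    rintro ⟨v, v'⟩ hv
    obtain ⟨g, hg⟩ := Submodule.exists_linearEquiv_restrict_eq
      (hv.linearCombinationEquiv.symm.trans hli.linearCombinationEquiv)
    have hg' : ∀ i, g (![v, v'] i) = ![e, e'] i := fun i => by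
      have := hg (hv.linearCombinationEquiv (Finsupp.single i 1))
      simpa using this.symm
    have hg0 : g v = e := hg' 0
    have hg1 : g v' = e' := hg' 1
    let A := (Submodule.span F (Set.range ![v, v'])).dualAnnihilator
    have hA : Nat.card A = M := by
      rw [natCard_eq_pow_finrank (K := F), Nat.card_eq_fintype_card, hM']
      congr 1
      have := Subspace.finrank_add_finrank_dualAnnihilator_eq (Submodule.span F (Set.range ![v, v']))
      rw [finrank_span_eq_card hv, Fintype.card_fin] at this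
      exact Nat.eq_sub_of_add_eq' this
    have hA0 : ∀ f : A, f.1 v = 0 := fun f => (Submodule.mem_dualAnnihilator _).1 f.2 _
      (Submodule.subset_span ⟨0, rfl⟩)
    have hA1 : ∀ f : A, f.1 v' = 0 := fun f => (Submodule.mem_dualAnnihilator _).1 f.2 _
      (Submodule.subset_span ⟨1, rfl⟩)
    let T : A × A → End F U := fun f => 1 + (f.1.1.smulRight v + f.2.1.smulRight v')
    have hT : ∀ f, IsUnit (T f) := fun f => IsNilpotent.isUnit_one_add ⟨2, LinearMap.ext fun x => by
      simp [sq, hA0, hA1]⟩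
    rw [sq, ← hA, ← Nat.card_prod, ← Fintype.card_coe, ← Nat.card_eq_fintype_card]
    refine Nat.card_le_card_of_injective (fun f => ⟨(Q₀.comp g.toLinearMap).comp (T f),
      mem_filter.2 ⟨hO _ (hT f) _ (hO _ ((End.isUnit_iff _).2 g.bijective) _ h₀), by
        simp [r, T, hA0, hA1, hg0, hg1, polar]⟩⟩) fun f f' h => ?_
    have h := congrArg Subtype.val h
    simp only at h
    have h3 : ∀ (f : A × A) u x, polar ((Q₀.comp g.toLinearMap).comp (T f)) u x =
      polar Q₀ (g (T f u)) (g (T f x)) := fun f u x => by simp [polar]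
    have h4 : ∀ x, f.1.1 x - f'.1.1 x = 0 ∧ f.2.1 x - f'.2.1 x = 0 := fun x => by
      have a1 := (h3 f v' x).symm.trans ((congrArg (fun Q : QuadraticForm F _ => polar Q v' x) h).trans (h3 f' v' x))
      have a2 := (h3 f v x).symm.trans ((congrArg (fun Q : QuadraticForm F _ => polar Q v x) h).trans (h3 f' v x))
      simp [T, hA0, hA1, hg0, hg1, polar_comm Q₀ e' e] at a1 a2
      exact nd _ _ (by linear_combination a2) (by linear_combination a1)
    exact Prod.ext (Subtype.ext (LinearMap.ext fun x => sub_eq_zero.1 (h4 x).1))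
      (Subtype.ext (LinearMap.ext fun x => sub_eq_zero.1 (h4 x).2))
  have hsum : ∑ p : U × U, #{Q ∈ O | r Q p} = ∑ Q ∈ O, #{p | r Q p} :=
    (sum_card_bipartiteAbove_eq_sum_card_bipartiteBelow (s := O) (t := univ) r).symm
  have h3 : #{p : U × U | LinearIndependent F ![p.1, p.2]} =
      (Fintype.card U - 1) * (Fintype.card U - Fintype.card F) := by
    have := card_linearIndependent (K := F) (V := U) h2
    rw [Fin.prod_univ_two, ← card_eq_pow_finrank] at this
    simp only [Fin.val_zero, Fin.val_one, pow_zero, pow_one] at this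
    rw [← this, ← Fintype.card_coe, ← Nat.card_eq_fintype_card]
    exact Nat.card_congr (Equiv.subtypeEquiv (finTwoArrowEquiv U).symm fun p => by simp)
  have h4 := (card_nsmul_le_sum _ _ _ fun p hp => low p (mem_filter.1 hp).2).trans
    (sum_le_sum_of_subset (filter_subset _ univ))
  have h5 := sum_le_card_nsmul O _ _ (up M hM)
  rw [h3, hsum, smul_eq_mul] at h4
  have hM0 : 0 < M := by rw [hM']; exact pow_pos Fintype.card_pos _
  refine Nat.le_of_mul_le_mul_right ((h4.trans h5).trans_eq ?_) (pow_pos hM0 2)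
  rw [smul_eq_mul]; ring

theorem up_hyp (Q : QuadraticForm F U) {M : ℕ} (hM : Fintype.card F ^ 2 * M = Fintype.card U) :
    #{p : U × U | Q p.1 = 0 ∧ polar Q p.1 p.2 = 1 ∧ Q p.2 = 0} ≤ 2 * (Fintype.card F + 1) * M ^ 2 := by
  have hq : 0 < Fintype.card F := Fintype.card_pos
  rcases (filter (fun p : U × U => Q p.1 = 0 ∧ polar Q p.1 p.2 = 1 ∧ Q p.2 = 0)
    univ).eq_empty_or_nonempty with h | ⟨⟨e, e'⟩, he⟩
  · simp [h]
  obtain ⟨h1, h2, h3⟩ := (mem_filter.1 he).2
  have h4 : Q (e + e') = 1 := by rw [QuadraticMap.map_add Q, h1, h2, h3]; simp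
  have h5 := card_cover {x | Q x = 0} (fun t : F => -t • (e + e')) (k := 2) fun y =>
    le_trans (card_le_card fun t ht => by
      rw [mem_filter] at ht ⊢
      have := quad_line' Q y (e + e') t
      have h0 := (mem_filter.1 ht.2).2
      rw [neg_smul, sub_neg_eq_add, this] at h0
      exact ⟨mem_univ _, by linear_combination h0⟩) (card_roots_le (h4 ▸ one_ne_zero : Q (e + e') ≠ 0) (polar Q (e + e') y) (Q y))
  refine (card_pairs (S := {x | Q x = 0}) (k := M) (fun p hp => by simp [hp.1]) fun u w hu => ?_).trans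
    (Nat.le_of_mul_le_mul_right (by nlinarith) hq)
  simp only at hu
  have h6 := card_cover {x | Q u = 0 ∧ polar Q u x = 1 ∧ Q x = 0} (fun p : F × F => p.1 • u + p.2 • w) (k := 1)
    fun y => card_le_one.2 fun p hp p' hp' => by
      simp only [mem_filter, mem_univ, true_and, polar_sub_right, polar_add_right, polar_smul_right, polar_self,
        hu.1, hu.2.1, smul_zero, zero_add, smul_eq_mul, mul_one] at hp hp'
      have a1 : p.2 = p'.2 := by linear_combination hp'.1 - hp.1
      have a2 := quad_line' Q (y - (p.1 • u + p.2 • w)) u (p.1 - p'.1)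
      rw [show y - (p.1 • u + p.2 • w) + (p.1 - p'.1) • u = y - (p'.1 • u + p'.2 • w) by rw [a1]; module,
        hp.2, hp'.2, hu.1] at a2
      simp only [polar_sub_right, polar_add_right, polar_smul_right, polar_self,
        hu.1, hu.2.1, smul_zero, zero_add, smul_eq_mul, mul_one, hp.1] at a2
      exact Prod.ext (by linear_combination -a2) a1
  rw [Fintype.card_prod, ← hM] at h6
  exact Nat.le_of_mul_le_mul_right (by nlinarith) (mul_pos hq hq)

theorem up_an (h2 : (2 : F) ≠ 0) {Q : QuadraticForm F U} (hQ : ∀ u w, Q u = 0 → polar Q u w = 0) {a c : F} (ha : a ≠ 0)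
    (hc : c ≠ 0) {M : ℕ} (hM : Fintype.card F ^ 2 * M = Fintype.card U) :
    #{p : U × U | Q p.1 = a ∧ polar Q p.1 p.2 = 0 ∧ Q p.2 = c} ≤ 2 * (Fintype.card F + 1) * M ^ 2 := by
  have hq : 0 < Fintype.card F := Fintype.card_pos
  rcases (filter (fun p : U × U => Q p.1 = a ∧ polar Q p.1 p.2 = 0 ∧ Q p.2 = c)
    univ).eq_empty_or_nonempty with h | ⟨⟨e, e'⟩, he⟩
  · simp [h]
  obtain ⟨h1, h3, h4⟩ := (mem_filter.1 he).2
  simp only at h1 h3 h4
  have h5 := card_cover {x | polar Q e x = 1} (fun t : F => t • e) (k := 1) fun y => card_le_one.2 fun p hp p' hp' => by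
    simp only [mem_filter, mem_univ, true_and, polar_sub_right, polar_smul_right, polar_self, h1, smul_eq_mul,
      nsmul_eq_mul, Nat.cast_ofNat] at hp hp'
    exact mul_right_cancel₀ (mul_ne_zero h2 ha) (by linear_combination hp' - hp)
  have h6 := card_cover {x | polar Q e x = 0 ∧ polar Q e' x = 0} (fun p : F × F => p.1 • e + p.2 • e') (k := 1)
    fun y => card_le_one.2 fun p hp p' hp' => by
      simp only [mem_filter, mem_univ, true_and, polar_sub_right, polar_add_right, polar_smul_right, polar_self, h1, h3,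
        h4, polar_comm Q e' e, smul_eq_mul, nsmul_eq_mul, Nat.cast_ofNat] at hp hp'
      exact Prod.ext (mul_right_cancel₀ (mul_ne_zero h2 ha) (by linear_combination hp'.1 - hp.1))
        (mul_right_cancel₀ (mul_ne_zero h2 hc) (by linear_combination hp'.2 - hp.2))
  have h7 : #{u | Q u = a} ≤ #{x | polar Q e x = 1} + #{x | polar Q e x = 0 ∧ polar Q e' x = 0} := by
    rw [← card_filter_add_card_filter_not (s := {u | Q u = a}) fun u => polar Q e (u - e) ≠ 0]
    have k : ∀ u, Q u = a → Q (u - e) + polar Q e (u - e) = 0 := fun u hu => by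
      have := QuadraticMap.map_add Q e (u - e)
      rw [add_sub_cancel, hu, h1] at this
      linear_combination -this
    refine add_le_add (card_le_card_of_injOn (fun u => (polar Q e (u - e))⁻¹ • (u - e)) (fun u hu => ?_)
      fun u hu u' hu' h => ?_) (card_le_card_of_injOn (fun u => u - e) (fun u hu => ?_)
        fun _ _ _ _ h => sub_left_injective h)
    · simp only [coe_filter, mem_filter, mem_univ, true_and, Set.mem_setOf_eq] at hu ⊢
      rw [polar_smul_right, smul_eq_mul, inv_mul_cancel₀ hu.2]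
    · simp only [coe_filter, mem_filter, mem_univ, true_and, Set.mem_setOf_eq] at hu hu' h
      have a1 := congrArg Q h
      rw [Q.map_smul, Q.map_smul, eq_neg_of_add_eq_zero_left (k u hu.1), eq_neg_of_add_eq_zero_left (k u' hu'.1)] at a1
      simp only [smul_eq_mul, mul_neg, mul_assoc, inv_mul_cancel₀ hu.2, inv_mul_cancel₀ hu'.2, mul_one, neg_inj] at a1
      rw [a1] at h
      exact sub_left_injective (smul_right_injective U (inv_ne_zero hu'.2) h)
    · simp only [coe_filter, mem_filter, mem_univ, true_and, Set.mem_setOf_eq, not_not] at hu ⊢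
      exact ⟨hu.2, by rw [polar_comm]; exact hQ _ _ (by simpa [hu.2] using k u hu.1)⟩
  rw [Fintype.card_prod, ← hM] at h6
  rw [← hM] at h5
  have h8 : #{u | Q u = a} ≤ (Fintype.card F + 1) * M :=
    h7.trans (Nat.le_of_mul_le_mul_right (by nlinarith) (mul_pos hq hq))
  refine (card_pairs (S := {x | Q x = a}) (k := 2 * M) (fun p hp => by simp [hp.1]) fun u w hu => ?_).trans
    (by nlinarith)
  simp only at hu
  have h9 := card_cover {x | Q u = a ∧ polar Q u x = 0 ∧ Q x = c} (fun p : F × F => p.1 • u + p.2 • w) (k := 2)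
    fun y => by
      refine le_trans (card_le_card_of_injOn (fun p => -p.2) (fun p hp => ?_) fun p hp p' hp' h => ?_)
        (card_roots_le hc (polar Q w (y - (polar Q u y / (2 * a)) • u)) (Q (y - (polar Q u y / (2 * a)) • u) - c))
      · simp only [coe_filter, mem_filter, mem_univ, true_and, Set.mem_setOf_eq, polar_sub_right, polar_add_right,
          polar_smul_right, polar_self, hu.1, hu.2.1, smul_eq_mul, nsmul_eq_mul, Nat.cast_ofNat] at hp
        have a1 : polar Q u y / (2 * a) = p.1 := by field_simp; linear_combination hp.1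
        have a2 := quad_line' Q (y - p.1 • u) w (-p.2)
        rw [show y - p.1 • u + -p.2 • w = y - (p.1 • u + p.2 • w) by module, hp.2, hu.2.2] at a2
        simp only [coe_filter, mem_univ, true_and, Set.mem_setOf_eq, a1]
        linear_combination -a2
      · simp only [coe_filter, mem_filter, mem_univ, true_and, Set.mem_setOf_eq, polar_sub_right, polar_add_right,
          polar_smul_right, polar_self, hu.1, hu.2.1, smul_eq_mul, nsmul_eq_mul, Nat.cast_ofNat] at hp hp'
        exact Prod.ext (mul_right_cancel₀ (mul_ne_zero h2 ha) (by linear_combination hp'.1 - hp.1)) (neg_injective h)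
  rw [Fintype.card_prod, ← hM] at h9
  exact Nat.le_of_mul_le_mul_right (by nlinarith) (mul_pos hq hq)

theorem orbit3 (h2 : (2 : F) ≠ 0) (O : Finset (QuadraticForm F U))
    (hO : ∀ g : End F U, IsUnit g → ∀ Q ∈ O, Q.comp g ∈ O) {Q₀ : QuadraticForm F U} (h₀ : Q₀ ∈ O)
    {e e' : U} (he : polar Q₀ e e' ^ 2 ≠ 4 * Q₀ e * Q₀ e') :
    (Fintype.card U - 1) * (Fintype.card U - Fintype.card F) ≤ 2 * (Fintype.card F + 1) * #O := by
  classical
  by_cases h : ∀ u w, Q₀ u = 0 → polar Q₀ u w = 0
  · have ha : Q₀ e ≠ 0 := fun h1 => he (by simp [h1, h _ _ h1])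
    have h3 : polar Q₀ e (e' + (-polar Q₀ e e' / (2 * Q₀ e)) • e) = 0 := by
      rw [polar_add_right, polar_smul_right, polar_self]; simp; field_simp; ring
    have h4 : Q₀ (e' + (-polar Q₀ e e' / (2 * Q₀ e)) • e) ≠ 0 := fun h4 => he (by
      rw [quad_line'] at h4; field_simp at h4; linear_combination (-1) * h4)
    refine (orbit_gen {Q ∈ O | ∀ u w, Q u = 0 → polar Q u w = 0} (fun g hg Q hQ => mem_filter.2
      ⟨hO g hg Q (mem_filter.1 hQ).1, fun u w hu => by simpa [polar] using (mem_filter.1 hQ).2 (g u) (g w) hu⟩)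
      (mem_filter.2 ⟨h₀, h⟩) (e := e) (by rw [h3]; simp [ha, h4, show (4 : F) = 2 * 2 by norm_num, h2])
      fun M hM Q hQ => h3 ▸ up_an h2 (mem_filter.1 hQ).2 ha h4 hM).trans
      (Nat.mul_le_mul_left _ (card_filter_le _ _))
  push Not at h
  obtain ⟨u, w, h1, h3⟩ := h
  have h4 : polar Q₀ u ((polar Q₀ u w)⁻¹ • w + (-Q₀ ((polar Q₀ u w)⁻¹ • w)) • u) = 1 := by
    simp [polar_self, h1, h3]
  have h5 : Q₀ ((polar Q₀ u w)⁻¹ • w + (-Q₀ ((polar Q₀ u w)⁻¹ • w)) • u) = 0 := by
    rw [quad_line']; simp [h1, h3]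
  exact orbit_gen O hO h₀ (by rw [h4, h1]; simp) fun M hM Q _ => by rw [h1, h4, h5]; exact up_hyp Q hM

end H11.WU
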