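import Cfsg.Agent.H11.WU1
import Cfsg.Agent.H11.Weil

/-!
# Representations of symplectic groups of rank-one type satisfy the Weil product formula
-/

set_option autoImplicit false
set_option linter.unusedSectionVars false
set_option maxHeartbeats 400000

namespace H11.WU

open Module Finset H11.LS H12

section Eig

variable {F V : Type*} [Field F] [Fintype F] [DecidableEq F] [AddCommGroup V] [Module ℂ V]
  {ψ : AddChar F ℂ} {f : F → End ℂ V}

theorem sum_psi (hψ : ψ ≠ 1) (b : F) :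
    ∑ t, ψ (b * t) = if b = 0 then (Fintype.card F : ℂ) else 0 := by
  have := AddChar.sum_mulShift b (AddChar.IsPrimitive.of_ne_one hψ)
  simp only [mul_comm b]
  rw [this]; split_ifs <;> simp

variable (ψ f) in
/-- eigenspace of a one-parameter family -/
noncomputable def Eg (α : F) : Submodule ℂ V := wt f fun t => ψ (α * t)

theorem mem_Eg {α : F} {v : V} : v ∈ Eg ψ f α ↔ ∀ t, f t v = ψ (α * t) • v := mem_wt

variable (ψ f) in
/-- projector -/
noncomputable def pj (α : F) : End ℂ V := (Fintype.card F : ℂ)⁻¹ • ∑ t, ψ (-α * t) • f t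

theorem pj_apply (α : F) (v : V) :
    pj ψ f α v = (Fintype.card F : ℂ)⁻¹ • ∑ t, ψ (-α * t) • f t v := by
  simp [pj, LinearMap.sum_apply]

theorem pj_mem (hf : ∀ s t, f (s + t) = f s * f t) (α : F) (v : V) : pj ψ f α v ∈ Eg ψ f α :=
  mem_Eg.2 fun s => by
    rw [pj_apply, map_smul, smul_comm (ψ (α * s)), map_sum, smul_sum (r := ψ (α * s)),
      ← Equiv.sum_comp (Equiv.addLeft s) fun t => ψ (α * s) • ψ (-α * t) • f t v]
    refine congrArg _ (sum_congr rfl fun t _ => ?_)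
    simp only [Equiv.coe_addLeft, map_smul, ← End.mul_apply, ← hf, smul_smul]
    rw [← AddChar.map_add_eq_mul]
    congr 2; ring

theorem sum_pj (hψ : ψ ≠ 1) (h0 : f 0 = 1) (v : V) : ∑ α, pj ψ f α v = v := by
  simp only [pj_apply, ← smul_sum]
  rw [sum_comm]
  simp only [← sum_smul, show ∀ α t : F, -α * t = -t * α from fun _ _ => by ring, sum_psi hψ,
    neg_eq_zero, ite_smul, zero_smul, sum_ite_eq', mem_univ, if_true, h0, smul_smul]
  rw [inv_mul_cancel₀ (Nat.cast_ne_zero.2 Fintype.card_ne_zero)]; simp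

theorem pj_of_mem (hψ : ψ ≠ 1) {α β : F} {v : V} (hv : v ∈ Eg ψ f β) :
    pj ψ f α v = if α = β then v else 0 := by
  simp only [pj_apply, mem_Eg.1 hv, smul_smul, ← AddChar.map_add_eq_mul, ← add_mul, ← sum_smul,
    sum_psi hψ, neg_add_eq_zero]
  split_ifs
  · rw [inv_mul_cancel₀ (Nat.cast_ne_zero.2 Fintype.card_ne_zero), one_smul]
  · simp

theorem pj_inv {S : Submodule ℂ V} (hS : ∀ t, ∀ v ∈ S, f t v ∈ S) (α : F) {v : V} (hv : v ∈ S) :
    pj ψ f α v ∈ S := by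
  rw [pj_apply]
  exact S.smul_mem _ (S.sum_mem fun t _ => S.smul_mem _ (hS t v hv))

theorem pj_comm {D : End ℂ V} (h : ∀ t, Commute D (f t)) (α : F) : Commute D (pj ψ f α) :=
  (Commute.sum_right _ _ _ fun t _ => (h t).smul_right _).smul_right _

theorem eig_ind (hψ : ψ ≠ 1) (hf : ∀ s t, f (s + t) = f s * f t) (h0 : f 0 = 1) {S P : Submodule ℂ V}
    (hS : ∀ t, ∀ v ∈ S, f t v ∈ S) (h : ∀ α, ∀ v ∈ S, v ∈ Eg ψ f α → v ∈ P) {v : V} (hv : v ∈ S) :
    v ∈ P := by
  rw [← sum_pj hψ h0 v]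
  exact P.sum_mem fun α _ => h α _ (pj_inv hS α hv) (pj_mem hf α v)

variable (ψ) in
open Classical in
/-- `ψ(2y) + ψ(-2y)` as a function of `y²` -/
noncomputable def fs (α : F) : ℂ :=
  if h : IsSquare α then ψ (2 * h.choose) + ψ (-(2 * h.choose)) else 0

theorem fs_sq (y : F) : fs ψ (y * y) = ψ (2 * y) + ψ (-(2 * y)) := by
  have h : IsSquare (y * y) := ⟨y, rfl⟩
  rw [fs, dif_pos h]
  have h1 := h.choose_spec
  generalize h.choose = z at h1
  rcases mul_self_eq_mul_self_iff.1 h1 with rfl | rfl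
  · rfl
  · simp [add_comm]

variable (ψ f) in
/-- The operator acting by `ψ(2y) + ψ(-2y)` on the eigenspace of `y²`. -/
noncomputable def sv : End ℂ V := ∑ α, fs ψ α • pj ψ f α

theorem sv_of_mem (hψ : ψ ≠ 1) {y : F} {v : V} (hv : v ∈ Eg ψ f (y * y)) :
    sv ψ f v = (ψ (2 * y) + ψ (-(2 * y))) • v := by
  simp [sv, LinearMap.sum_apply, pj_of_mem hψ hv, fs_sq]

theorem sv_inv {S : Submodule ℂ V} (hS : ∀ t, ∀ v ∈ S, f t v ∈ S) {v : V} (hv : v ∈ S) :
    sv ψ f v ∈ S := by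
  simp only [sv, LinearMap.sum_apply, LinearMap.smul_apply]
  exact S.sum_mem fun t _ => S.smul_mem _ (pj_inv hS t hv)

theorem sv_comm {D : End ℂ V} (h : ∀ t, Commute D (f t)) : Commute D (sv ψ f) :=
  Commute.sum_right _ _ _ fun α _ => (pj_comm h α).smul_right _

variable (ψ) in
/-- Fourier coefficients of `y ↦ ψ(t y²)`. -/
noncomputable def dc (t r : F) : ℂ := (2 * Fintype.card F : ℂ)⁻¹ * ∑ z, ψ (z * z * t - 2 * r * z)

theorem dc_sum (hψ : ψ ≠ 1) (h2 : (2 : F) ≠ 0) (t y : F) :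
    ∑ r, dc ψ t r * (ψ (2 * (r * y)) + ψ (-(2 * (r * y)))) = ψ (y * y * t) := by
  have key : ∀ y : F, ∑ r, dc ψ t r * ψ (2 * (r * y)) = 2⁻¹ * ψ (y * y * t) := fun y => by
    simp only [dc, mul_assoc, ← mul_sum, sum_mul]
    rw [sum_comm]
    have : ∀ z r : F, ψ (z * (z * t) - 2 * (r * z)) * ψ (2 * (r * y)) =
        ψ (z * (z * t)) * ψ (2 * (y - z) * r) := fun z r => by
      simp only [← AddChar.map_add_eq_mul]; congr 1; ring
    simp only [this, ← mul_sum, sum_psi hψ, mul_eq_zero, h2, false_or, sub_eq_zero, mul_ite, mul_zero,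
      sum_ite_eq, mem_univ, if_true]
    have : (Fintype.card F : ℂ) ≠ 0 := Nat.cast_ne_zero.2 Fintype.card_ne_zero
    field_simp
  have h := key (-y)
  simp only [mul_neg, neg_mul, neg_neg] at h
  simp only [mul_add, sum_add_distrib, key, h]; ring

end Eig

section Sp

variable {F E V : Type*} [Field F] [Fintype F] [DecidableEq F] [AddCommGroup E] [Module F E]
  [AddCommGroup V] [Module ℂ V] {C : CForm (altType F) E} {ψ : AddChar F ℂ}
  {ρ : C.isom →* End ℂ V}

theorem stv_comm {a b : E} (h : C.B a b = 0) (s t : F) : Commute (stv C a s) (stv C b t) :=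
  isom_ext fun x => by
    have h' : C.B b a = 0 := by rw [alt_B_swap, h, neg_zero]
    simp only [isom_mul_apply, stv_apply, map_add, C.B_smul_right, h, h']
    module

variable (ρ) in
/-- transvection operators -/
def T (a : E) (t : F) : End ℂ V := ρ (stv C a t)

theorem T_add (a : E) (s t : F) : T ρ a (s + t) = T ρ a s * T ρ a t := by
  simp only [T, stv_add, map_mul]

theorem T_zero (a : E) : T ρ a 0 = 1 := by simp only [T, stv_zero, map_one]

theorem T_comm {a b : E} (h : C.B a b = 0) (s t : F) : Commute (T ρ a s) (T ρ b t) :=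
  (stv_comm h s t).map ρ

variable (ψ ρ) in
/-- eigenspaces of transvection groups -/
noncomputable def Es (a : E) (α : F) : Submodule ℂ V := Eg ψ (T ρ a) α

theorem mem_Es {a : E} {α : F} {v : V} : v ∈ Es ψ ρ a α ↔ ∀ t, T ρ a t v = ψ (α * t) • v := mem_Eg

theorem Es_map {D : End ℂ V} {a : E} (h : ∀ t, Commute (T ρ a t) D) {α : F} {v : V}
    (hv : v ∈ Es ψ ρ a α) : D v ∈ Es ψ ρ a α :=
  mem_Es.2 fun t => by rw [← End.mul_apply, h t, End.mul_apply, mem_Es.1 hv, map_smul]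

theorem Es_inv {a b : E} (h : C.B a b = 0) {α : F} (t : F) (v : V) (hv : v ∈ Es ψ ρ a α) :
    T ρ b t v ∈ Es ψ ρ a α := Es_map (fun s => T_comm h s t) hv

theorem Es_conj (g : C.isom) {a : E} {α : F} {v : V} (hv : v ∈ Es ψ ρ a α) :
    ρ g v ∈ Es ψ ρ (g.1 a) α := mem_Es.2 fun t => by
  rw [T, ← stv_conj, ← End.mul_apply, ← map_mul, inv_mul_cancel_right, map_mul, End.mul_apply,
    ← map_smul, ← mem_Es.1 hv]; rfl

theorem Es_smul (r : F) {a : E} {α : F} {v : V} (hv : v ∈ Es ψ ρ a α) :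
    v ∈ Es ψ ρ (r • a) (r * r * α) := mem_Es.2 fun t => by
  rw [T, stv_smul, ← T, mem_Es.1 hv]; congr 2; ring

variable (ψ ρ) in
/-- The rank-one condition. -/
def Rk : Prop := ∀ a b, C.B a b = 0 → ∀ α β δ, ∀ v ≠ 0, v ∈ Es ψ ρ a α → v ∈ Es ψ ρ b β →
  v ∈ Es ψ ρ (a + b) δ → (δ - α - β) ^ 2 = 4 * α * β

variable (ψ ρ) in
/-- All eigenvalues are squares. -/
def Ty : Prop := ∀ a α, ∀ v ≠ 0, v ∈ Es ψ ρ a α → IsSquare α

variable (C) in
/-- short root elements -/
def X (a b : E) (r : F) : C.isom := stv C (a + b) r * stv C a (-r) * stv C b (-r)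

theorem X_apply {a b : E} (h : C.B a b = 0) (r : F) (x : E) :
    (X C a b r).1 x = x + (r * C.B a x) • b + (r * C.B b x) • a := by
  have h' : C.B b a = 0 := by rw [alt_B_swap, h, neg_zero]
  simp only [X, isom_mul_apply, stv_apply, map_add, C.B_smul_right, h, h', LinearMap.add_apply,
    alt_B_self]
  module

theorem X_mul {a b b' : E} (h : C.B a b = 0) (h' : C.B a b' = 0) (r : F) :
    X C a b r * X C a b' r = X C a (b + b') r * stv C a (r * r * C.B b b') := isom_ext fun x => by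
  have h1 : C.B b a = 0 := by rw [alt_B_swap, h, neg_zero]
  have h2 : C.B b' a = 0 := by rw [alt_B_swap, h', neg_zero]
  simp only [isom_mul_apply, X_apply h, X_apply h', X_apply (show C.B a (b + b') = 0 by simp [h, h']),
    stv_apply, map_add, C.B_smul_right, h, h', h1, h2, LinearMap.add_apply, alt_B_self]
  module

theorem X_eig {a b : E} {α β δ : F} {v : V} (ha : v ∈ Es ψ ρ a α) (hb : v ∈ Es ψ ρ b β)
    (hd : v ∈ Es ψ ρ (a + b) δ) (r : F) : ρ (X C a b r) v = ψ ((δ - α - β) * r) • v := by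
  simp only [X, map_mul, End.mul_apply, ← T.eq_1, mem_Es.1 ha, mem_Es.1 hb, mem_Es.1 hd, map_smul,
    smul_smul, ← AddChar.map_add_eq_mul]
  congr 2; ring

variable (hψ : ψ ≠ 1)
include hψ

theorem ind0 (a : E) {P : Submodule ℂ V} (h : ∀ α, ∀ v ∈ Es ψ ρ a α, v ∈ P) (v : V) : v ∈ P :=
  eig_ind hψ (T_add a) (T_zero a) (S := ⊤) (by simp) (fun α v _ => h α v) trivial

theorem ind1 {a b : E} (hab : C.B a b = 0) {α : F} {P : Submodule ℂ V}
    (h : ∀ β, ∀ v ∈ Es ψ ρ a α, v ∈ Es ψ ρ b β → v ∈ P) {v : V} (hv : v ∈ Es ψ ρ a α) : v ∈ P :=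
  eig_ind hψ (T_add b) (T_zero b) (Es_inv hab) h hv

theorem Rk.ind (hR : Rk ψ ρ) {a b : E} (hab : C.B a b = 0) {α β : F} {P : Submodule ℂ V}
    (h : ∀ δ, ∀ v ∈ Es ψ ρ a α, v ∈ Es ψ ρ b β → v ∈ Es ψ ρ (a + b) δ →
      (δ - α - β) ^ 2 = 4 * α * β → v ∈ P) {v : V} (ha : v ∈ Es ψ ρ a α) (hb : v ∈ Es ψ ρ b β) :
    v ∈ P :=
  eig_ind hψ (T_add (a + b)) (T_zero _) (S := Es ψ ρ a α ⊓ Es ψ ρ b β)
    (fun t v hv => ⟨Es_inv (by simp [hab, alt_B_self]) t v hv.1,
      Es_inv (by simp [alt_B_swap a b, hab, alt_B_self]) t v hv.2⟩)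
    (fun δ v hv hd => by
      by_cases h0 : v = 0
      · exact h0 ▸ P.zero_mem
      · exact h δ v hv.1 hv.2 hd (hR a b hab α β δ v h0 hv.1 hv.2 hd)) ⟨ha, hb⟩

theorem Rk.fix (hR : Rk ψ ρ) {a b : E} (hab : C.B a b = 0) (r : F) {v : V} (hv : v ∈ Es ψ ρ a 0) :
    ρ (X C a b r) v = v := by
  have : v ∈ LinearMap.ker (ρ (X C a b r) - 1) := ind1 hψ hab (fun β v ha hb =>
    hR.ind hψ hab (fun δ v ha hb hd h => by
      simp only [mul_zero, zero_mul, pow_eq_zero_iff two_ne_zero] at h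
      rw [LinearMap.mem_ker, LinearMap.sub_apply, X_eig ha hb hd, h]; simp) ha hb) hv
  simpa [sub_eq_zero] using this

variable [FiniteDimensional F E] (hC : C.Nondeg)
include hC

theorem Rk.nf (hR : Rk ψ ρ) {c c' : E} (h : C.B c' c ≠ 0) {v : V} (hc : v ∈ Es ψ ρ c 0)
    (hc' : v ∈ Es ψ ρ c' 0) (g : C.isom) : ρ g v = v := by
  let H : Subgroup C.isom :=
    { carrier := {g | ρ g v = v}
      mul_mem' := fun {g k} hg hk => by
        simp only [Set.mem_setOf_eq] at *; rw [map_mul, End.mul_apply, hk, hg]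
      one_mem' := by simp
      inv_mem' := fun {g} hg => by
        simp only [Set.mem_setOf_eq] at *
        conv_lhs => rw [← hg]
        rw [← End.mul_apply, ← map_mul]; simp }
  have h1 : ∀ t, stv C c t ∈ H := fun t => by simpa [H, T] using mem_Es.1 hc t
  have h2 : ∀ t, stv C c' t ∈ H := fun t => by simpa [H, T] using mem_Es.1 hc' t
  have h3 : ∀ d, C.B c' d = C.B c' c → ∀ t, stv C d t ∈ H := fun d hd t => by
    have hb : C.B c' (d - c) = 0 := by simp [hd]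
    have e : d = (stv C c' (-(C.B (d - c) c) / C.B c' c ^ 2) * X C c' (d - c) (C.B c' c)⁻¹).1 c := by
      simp only [isom_mul_apply, X_apply hb, stv_apply, map_add, C.B_smul_right, hb, alt_B_self]
      match_scalars <;> field_simp <;> ring
    rw [e, ← stv_conj]
    have := H.mul_mem (h2 (-(C.B (d - c) c) / C.B c' c ^ 2)) (show _ ∈ H from hR.fix hψ hb (C.B c' c)⁻¹ hc')
    exact H.mul_mem (H.mul_mem this (h1 t)) (H.inv_mem this)
  have h4 : ∀ d, C.B c' d ≠ 0 → ∀ t, stv C d t ∈ H := fun d hd t => by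
    have := h3 ((C.B c' c / C.B c' d) • d) (by rw [C.B_smul_right]; field_simp)
      (t / (C.B c' c / C.B c' d) ^ 2)
    rwa [stv_smul, show C.B c' c / C.B c' d * (C.B c' c / C.B c' d) * (t / (C.B c' c / C.B c' d) ^ 2) = t by
      field_simp] at this
  refine (show g ∈ H from stv_induction hC H (fun d t => ?_) ▸ trivial)
  by_cases hd : C.B c' d = 0
  swap
  · exact h4 d hd t
  by_cases hd0 : d = 0
  · rw [hd0, stv_zero_left]; exact H.one_mem
  obtain ⟨e, -, he, he'⟩ := exists_perp_B_ne_ne hC (W := ⊥) (u := c') (w := d)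
    (by rintro rfl; simp at h) hd0
  have h5 := h4 ((stv C e 1).1 d) (by
    simp only [stv_apply, map_add, hd, C.B_smul_right, alt_B_swap d e]; simp [he, he']) t
  rw [← stv_conj] at h5
  simpa [mul_assoc] using H.mul_mem (H.mul_mem (H.inv_mem (h4 e he 1)) h5) (h4 e he 1)

variable (hd : 3 ≤ finrank F E) (hfix : ∀ v, (∀ g, ρ g v = v) → v = 0) (hR : Rk ψ ρ)
include hd hfix hR

theorem kill {u w : E} (h : C.B u w ≠ 0) {D : End ℂ V}
    (h1 : ∀ a, C.B a u = 0 → C.B a w = 0 → ∀ t, Commute (T ρ a t) D)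
    (h2 : ∀ a, C.B a u = 0 → C.B a w = 0 → ∀ α ≠ 0, ∀ v ∈ Es ψ ρ a α, D v = 0) : D = 0 := by
  have h3 : ∀ a ∈ C.perp (Submodule.span F {u, w}), ∀ v, D v ∈ Es ψ ρ a 0 := fun a ha v => by
    obtain ⟨ha, ha'⟩ := C.mem_perp_pair.1 ha
    rw [alt_B_swap, neg_eq_zero] at ha ha'
    refine ind0 (ρ := ρ) hψ a (P := (Es ψ ρ a 0).comap D) (fun α v hv => ?_) v
    by_cases h0 : α = 0
    · exact Es_map (h1 a ha ha') (h0 ▸ hv)
    · simp [h2 a ha ha' α h0 v hv]
  obtain ⟨c, hc, hc0⟩ : ∃ c ∈ C.perp (Submodule.span F {u, w}), c ≠ 0 := by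
    have := hC.finrank_add_finrank_perp (Submodule.span F {u, w})
    have h4 : finrank F (Submodule.span F {u, w}) ≤ 2 := by
      classical
      have := (finrank_span_finset_le_card (R := F) {u, w}).trans card_le_two
      rwa [coe_pair] at this
    exact Submodule.exists_mem_ne_zero_of_ne_bot fun h => by rw [h, finrank_bot] at this; omega
  obtain ⟨c', hc', h5⟩ := hC.exists_perp_ne (W := Submodule.span F {u, w}) (x := c) fun hm => by
    obtain ⟨x, y, rfl⟩ := Submodule.mem_span_pair.1 hm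
    obtain ⟨ha, ha'⟩ := C.mem_perp_pair.1 hc
    simp only [map_add, C.B_smul_right, alt_B_self, alt_B_swap u w] at ha ha'
    simp [h] at ha ha'
    simp [ha, ha'] at hc0
  exact LinearMap.ext fun v => hfix _ (hR.nf hψ hC h5 (h3 c' hc' v) (h3 c hc v))

theorem Rk.ty (h2 : (2 : F) ≠ 0)
    (hirr : ∀ S : Submodule ℂ V, (∀ g, ∀ v ∈ S, ρ g v ∈ S) → S = ⊥ ∨ S = ⊤) :
    Ty ψ ρ ∨ ∀ a α, ∀ v ≠ 0, v ∈ Es ψ ρ a α → α = 0 ∨ ¬IsSquare α := by
  refine or_iff_not_imp_left.2 fun hT a α v hv0 hv => or_iff_not_imp_left.2 fun hα hs => ?_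
  have perp : ∀ {a b : E} {α β : F}, C.B a b = 0 → α ≠ 0 → IsSquare α → ¬IsSquare β →
      ∀ v ∈ Es ψ ρ a α, v ∈ Es ψ ρ b β → v = 0 := fun {a b α β} hab hα ⟨y, hy⟩ hβ v ha hb =>
    hR.ind hψ hab (P := ⊥) (fun δ v _ _ _ h => absurd ⟨(δ - α - β) / (2 * y), by
      have : y ≠ 0 := by rintro rfl; simp [hα] at hy
      field_simp
      rw [h, hy]; ring⟩ hβ) ha hb
  have perp' : ∀ {b : E} {β : F}, C.B b a = 0 → ¬IsSquare β →
      ∀ v ∈ Es ψ ρ b β, pj ψ (T ρ a) α v = 0 := fun {b β} hab hβ v hb =>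
    perp (by rw [alt_B_swap, hab, neg_zero]) hα hs hβ _ (pj_mem (T_add a) α v) (pj_inv (Es_inv hab) α hb)
  have key : ∀ b β, ¬IsSquare β → ∀ v ∈ Es ψ ρ b β, pj ψ (T ρ a) α v = 0 := fun b β hβ v hb => by
    by_cases hab : C.B b a = 0
    · exact perp' hab hβ v hb
    have := kill hψ hC hd hfix hR hab (D := pj ψ (T ρ a) α * pj ψ (T ρ b) β)
      (fun c h h' t => (pj_comm (T_comm h' t) α).mul_right (pj_comm (T_comm h t) β))
      fun c h h' γ hγ v hv => by
        have h3 := pj_inv (ψ := ψ) (Es_inv h) β hv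
        by_cases h4 : IsSquare γ
        · rw [End.mul_apply, perp h hγ h4 hβ _ h3 (pj_mem (T_add b) β v), map_zero]
        · exact perp' h' h4 _ h3
    simpa [pj_of_mem hψ hb] using LinearMap.congr_fun this v
  rcases hirr (Submodule.span ℂ {v | ∃ b β, ¬IsSquare β ∧ v ∈ Es ψ ρ b β}) (fun g =>
    show Submodule.span ℂ _ ≤ Submodule.comap (ρ g) (Submodule.span ℂ _) from Submodule.span_le.2 (by
      rintro v ⟨b, β, h, hv⟩; exact Submodule.subset_span ⟨_, β, h, Es_conj g hv⟩)) with h | h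
  · exact hT fun b β w hw hb => by_contra fun h1 => hw (Submodule.span_eq_bot.1 h w ⟨b, β, h1, hb⟩)
  · have : v ∈ LinearMap.ker (pj ψ (T ρ a) α) := (h.ge.trans (Submodule.span_le.2 (by
      rintro v ⟨b, β, h, hv⟩; exact key b β h v hv))) trivial
    exact hv0 (by simpa [pj_of_mem hψ hv] using this)

end Sp

section Prod

variable {F E V : Type*} [Field F] [Fintype F] [DecidableEq F] [AddCommGroup E] [Module F E]
  [AddCommGroup V] [Module ℂ V] {C : CForm (altType F) E} {ψ : AddChar F ℂ}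
  {ρ : C.isom →* End ℂ V}

variable (ψ ρ) in
/-- The symmetrised Heisenberg operators. -/
noncomputable def S (a : E) : End ℂ V := sv ψ (T ρ a)

theorem S_neg (a : E) : S ψ ρ (-a) = S ψ ρ a := by
  rw [S, S]; congr 1; funext t
  rw [T, T, ← neg_one_smul F a, stv_smul]; simp

theorem S_comm {a b : E} (h : C.B a b = 0) (t : F) : Commute (T ρ a t) (S ψ ρ b) :=
  sv_comm (T_comm h t)

variable (hψ : ψ ≠ 1) (hT : Ty ψ ρ)
include hψ

theorem S_eig {a : E} {y : F} {v : V} (hv : v ∈ Es ψ ρ a (y * y)) :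
    S ψ ρ a v = (ψ (2 * y) + ψ (-(2 * y))) • v := sv_of_mem hψ hv

include hT

theorem Ty.ind0 (a : E) {P : Submodule ℂ V} (h : ∀ y, ∀ v ∈ Es ψ ρ a (y * y), v ∈ P) (v : V) : v ∈ P :=
  WU.ind0 (ρ := ρ) hψ a (fun α v hv => by
    by_cases h0 : v = 0
    · exact h0 ▸ P.zero_mem
    · obtain ⟨y, rfl⟩ := hT a α v h0 hv
      exact h y v hv) v

theorem Ty.ind1 {a b : E} (hab : C.B a b = 0) {α : F} {P : Submodule ℂ V}
    (h : ∀ y, ∀ v ∈ Es ψ ρ a α, v ∈ Es ψ ρ b (y * y) → v ∈ P) {v : V} (hv : v ∈ Es ψ ρ a α) : v ∈ P :=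
  WU.ind1 hψ hab (fun β v ha hv => by
    by_cases h0 : v = 0
    · exact h0 ▸ P.zero_mem
    · obtain ⟨y, rfl⟩ := hT b β v h0 hv
      exact h y v ha hv) hv

theorem T_eq (h2 : (2 : F) ≠ 0) (a : E) (t : F) : T ρ a t = ∑ r, dc ψ t r • S ψ ρ (r • a) :=
  LinearMap.ext fun v => hT.ind0 hψ a (P := LinearMap.eqLocus _ _) (fun y v hv => by
    have : ∀ r, S ψ ρ (r • a) v = (ψ (2 * (r * y)) + ψ (-(2 * (r * y)))) • v := fun r =>
      S_eig hψ (by convert Es_smul r hv using 2; ring)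
    simp only [LinearMap.mem_eqLocus, mem_Es.1 hv, LinearMap.sum_apply, LinearMap.smul_apply, this,
      smul_smul, ← sum_smul, dc_sum hψ h2]) v

variable (hR : Rk ψ ρ)
include hR

theorem S_X {a b : E} (hab : C.B a b = 0) {x : F} (hx : x ≠ 0) {v : V} (hv : v ∈ Es ψ ρ a (x * x)) :
    S ψ ρ b v = ρ (X C a b x⁻¹) v + ρ (X C a (-b) x⁻¹) v := by
  have e : X C a (-b) x⁻¹ = X C a b (-x⁻¹) := isom_ext fun y => by
    simp only [X_apply hab, X_apply (show C.B a (-b) = 0 by simp [hab]), map_neg, LinearMap.neg_apply]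
    module
  rw [e]
  refine hT.ind1 hψ hab (P := LinearMap.eqLocus _ (ρ (X C a b x⁻¹) + ρ (X C a b (-x⁻¹))))
    (fun y v ha hb => hR.ind hψ hab (fun δ v ha hb hd h => ?_) ha hb) hv
  rw [LinearMap.mem_eqLocus, LinearMap.add_apply, S_eig hψ hb, X_eig ha hb hd, X_eig ha hb hd, ← add_smul]
  rcases sq_eq_sq_iff_eq_or_eq_neg.1 (h.trans (show _ = (2 * x * y) ^ 2 by ring)) with h | h <;> rw [h]
  · congr 3 <;> field_simp
  · rw [add_comm]; congr 3 <;> field_simp

theorem S_perp {u w : E} (h : C.B u w = 0) : S ψ ρ u * S ψ ρ w = S ψ ρ (u + w) + S ψ ρ (u - w) := by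
  have h' : C.B w u = 0 := by rw [alt_B_swap, h, neg_zero]
  have e : ∀ t, stv C (u - w) t = stv C u (2 * t) * stv C w (2 * t) * stv C (u + w) (-t) := fun t =>
    isom_ext fun x => by
      simp only [isom_mul_apply, stv_apply, map_add, map_sub, C.B_smul_right, h, h', LinearMap.add_apply,
        LinearMap.sub_apply, alt_B_self]
      module
  refine LinearMap.ext fun v => hT.ind0 hψ u (P := LinearMap.eqLocus _ _) (fun x v ha =>
    hT.ind1 hψ h (fun y v ha hb => hR.ind hψ h (fun δ v ha hb hd h3 => ?_) ha hb) ha) v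
  have h4 : v ∈ Es ψ ρ (u - w) (2 * (x * x) + 2 * (y * y) - δ) := mem_Es.2 fun t => by
    simp only [T, e, map_mul, End.mul_apply]
    simp only [← T.eq_1, mem_Es.1 ha, mem_Es.1 hb, mem_Es.1 hd, map_smul, smul_smul,
      ← AddChar.map_add_eq_mul]
    congr 2; ring
  rw [LinearMap.mem_eqLocus, LinearMap.add_apply, End.mul_apply, S_eig hψ hb, map_smul, S_eig hψ ha]
  rcases sq_eq_sq_iff_eq_or_eq_neg.1 (h3.trans (show _ = (2 * x * y) ^ 2 by ring)) with h | h
  · rw [S_eig hψ (y := x + y) (by convert hd using 2; linear_combination -h),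
      S_eig hψ (y := x - y) (by convert h4 using 2; linear_combination h)]
    simp only [smul_smul, ← add_smul, mul_add, add_mul, ← AddChar.map_add_eq_mul]
    congr 1; ring_nf
  · rw [S_eig hψ (y := x - y) (by convert hd using 2; linear_combination -h),
      S_eig hψ (y := x + y) (by convert h4 using 2; linear_combination h)]
    simp only [smul_smul, ← add_smul, mul_add, add_mul, ← AddChar.map_add_eq_mul]
    congr 1; ring_nf

theorem S_mul [FiniteDimensional F E] (hC : C.Nondeg) (hd : 3 ≤ finrank F E)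
    (hfix : ∀ v, (∀ g, ρ g v = v) → v = 0) (u w : E) :
    S ψ ρ u * S ψ ρ w = ψ (C.B u w) • S ψ ρ (u + w) + ψ (-C.B u w) • S ψ ρ (u - w) := by
  by_cases h : C.B u w = 0
  · simp [h, S_perp hψ hT hR h]
  refine sub_eq_zero.1 (kill hψ hC hd hfix hR h (fun a h h' t => ?_) fun a hu hw α hα v hv => ?_)
  · have h1 := S_comm (ψ := ψ) (ρ := ρ) (show C.B a (u + w) = 0 by simp [h, h']) t
    have h2 := S_comm (ψ := ψ) (ρ := ρ) (show C.B a (u - w) = 0 by simp [h, h']) t
    have h3 := (S_comm (ψ := ψ) (ρ := ρ) h t).mul_right (S_comm (ψ := ψ) (ρ := ρ) h' t)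
    exact h3.sub_right ((h1.smul_right (ψ (C.B u w))).add_right (h2.smul_right (ψ (-C.B u w))))
  by_cases h0 : v = 0
  · simp [h0]
  obtain ⟨x, rfl⟩ := hT a α v h0 hv
  have hx : x ≠ 0 := by rintro rfl; simp at hα
  have h1 : ∀ b, C.B a b = 0 → ρ (X C a b x⁻¹) v ∈ Es ψ ρ a (x * x) := fun b hb =>
    Es_map (fun t => ((((stv_comm (by simp [hb, alt_B_self]) _ _).mul_right
      (stv_comm (alt_B_self a) _ _)).mul_right (stv_comm hb _ _))).map ρ) hv
  have h2 : ∀ b b', C.B a b = 0 → C.B a b' = 0 → ρ (X C a b x⁻¹) (ρ (X C a b' x⁻¹) v) =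
      ψ (C.B b b') • ρ (X C a (b + b') x⁻¹) v := fun b b' hb hb' => by
    rw [← End.mul_apply, ← map_mul, X_mul hb hb', map_mul, End.mul_apply, ← T.eq_1, mem_Es.1 hv, map_smul]
    congr 2; field_simp
  have hu' : C.B a (-u) = 0 := by simp [hu]
  have hw' : C.B a (-w) = 0 := by simp [hw]
  simp only [LinearMap.sub_apply, LinearMap.add_apply, End.mul_apply, LinearMap.smul_apply,
    S_X hψ hT hR hw hx hv, map_add, S_X hψ hT hR hu hx (h1 _ hw), S_X hψ hT hR hu hx (h1 _ hw'),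
    S_X hψ hT hR (show C.B a (u + w) = 0 by simp [hu, hw]) hx hv,
    S_X hψ hT hR (show C.B a (u + -w) = 0 by simp [hu, hw]) hx hv, h2 _ _ hu hw, h2 _ _ hu hw',
    h2 _ _ hu' hw, h2 _ _ hu' hw', map_neg, LinearMap.neg_apply, neg_neg, neg_add, sub_eq_add_neg]
  module

end Prod

end H11.WU
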