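import Cfsg.Agent.H11.WU2
import Cfsg.Agent.H5.Char

/-!
# Uniqueness of the Weil representations
-/

set_option autoImplicit false
set_option linter.unusedSectionVars false
set_option maxHeartbeats 400000

namespace H11.WU

open Module Finset Matrix H11.LS H12
open QuadraticMap (polar)

section Gen

theorem factor {G V W : Type*} [Group G] [Finite G] [AddCommGroup V] [Module ℂ V] [AddCommGroup W]
    [Module ℂ W] [FiniteDimensional ℂ V] [Nontrivial V] (ρ : G →* End ℂ V) (ω : G →* End ℂ W)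
    (Θ : End ℂ W →ₗ[ℂ] End ℂ V) (h : ∀ g, Θ (ω g) = ρ g) :
    ∃ Φ : W →ₗ[ℂ] V, Φ ≠ 0 ∧ ∀ g w, Φ (ω g w) = ρ g (Φ w) := by
  have := Fintype.ofFinite G
  by_contra! hc
  obtain ⟨v, hv⟩ := exists_ne (0 : V)
  have h1 : ∀ (η : Dual ℂ W) (w : W), ∑ g, η (ω g⁻¹ w) • ρ g v = 0 := fun η w => by
    by_contra hne
    obtain ⟨g, w, h2⟩ := hc (∑ g, (η ∘ₗ ω g⁻¹).smulRight (ρ g v)) fun h =>
      hne (by simpa [LinearMap.sum_apply] using LinearMap.congr_fun h w)
    refine h2 ?_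
    simp only [LinearMap.sum_apply, LinearMap.smulRight_apply, LinearMap.comp_apply, map_sum, map_smul]
    rw [← Equiv.sum_comp (Equiv.mulLeft g)]
    simp [← End.mul_apply, ← map_mul, mul_assoc]
  have h2 : ∀ ξ : Dual ℂ V, ∑ g, ξ (ρ g v) • ρ g⁻¹ = 0 := fun ξ => by
    have : ∑ g, ξ (ρ g v) • ω g⁻¹ = 0 := LinearMap.ext fun w => (forall_dual_apply_eq_zero_iff ℂ _).1
      fun η => by simpa [LinearMap.sum_apply, mul_comm] using congrArg ξ (h1 η w)
    simpa only [map_sum, map_smul, h, map_zero] using congrArg Θ this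
  let b := Module.finBasis ℂ V
  have h3 : ∑ i, ∑ g, b.repr (ρ g v) i • ρ g⁻¹ (b i) = 0 := sum_eq_zero fun i _ => by
    simpa [LinearMap.sum_apply] using LinearMap.congr_fun (h2 (b.coord i)) (b i)
  rw [sum_comm] at h3
  simp only [← map_smul, ← map_sum, b.sum_repr, ← End.mul_apply, ← map_mul, inv_mul_cancel, map_one,
    End.one_apply, sum_const, ← Nat.cast_smul_eq_nsmul ℂ] at h3
  simp [hv] at h3

variable {F E V : Type*} [Field F] [Fintype F] [DecidableEq F] [AddCommGroup E] [Module F E]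
  [AddCommGroup V] [Module ℂ V] {C : CForm (altType F) E} {ψ : AddChar F ℂ}
  {ρ : C.isom →* End ℂ V}

theorem S_conj (g : C.isom) (a : E) : ρ g * S ψ ρ a = S ψ ρ (g.1 a) * ρ g := by
  have : ∀ t, ρ g * T ρ a t = T ρ (g.1 a) t * ρ g := fun t => by
    simp only [T, ← stv_conj, ← map_mul, inv_mul_cancel_right]
  simp only [S, sv, pj, mul_sum, sum_mul, mul_smul_comm, smul_mul_assoc, this]

theorem Es_unique (hψ : ψ ≠ 1) {a : E} {α β : F} {v : V} (hv : v ≠ 0) (h : v ∈ Es ψ ρ a α)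
    (h' : v ∈ Es ψ ρ a β) : α = β := by
  by_contra hne
  have := pj_of_mem hψ (α := α) h
  rw [pj_of_mem hψ h', if_neg hne, if_pos rfl] at this
  exact hv this.symm

theorem rho_ne_zero (g : C.isom) {v : V} (hv : v ≠ 0) : ρ g v ≠ 0 := fun h => hv (by
  have := congrArg (ρ g⁻¹) h
  simpa [← End.mul_apply, ← map_mul] using this)

end Gen

variable {F ι : Type*} [Field F] [Fintype F] [DecidableEq F] [Fintype ι] [DecidableEq ι]
  {ψ : AddChar F ℂ}

theorem tvX (u : ι → F) (t : F) : stv (spForm ι F) (Sum.elim u 0) t =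
    spEquivIsom (spX (-(t • vecMulVec u u)) (by simp)) := isom_ext fun x => by
  rw [stv_apply, spB, spEquivIsom_apply]
  ext (i | i) <;> simp [spX, fromBlocks_mulVec, neg_mulVec, smul_mulVec, vecMulVec_mulVec]
  ring

theorem spL_elim (h g : Matrix ι ι F) (hg : h * g = 1) (u : ι → F) :
    (spEquivIsom (spL h g hg)).1 (Sum.elim u 0) = Sum.elim (h *ᵥ u) 0 := by
  rw [spEquivIsom_apply]; simp [spL, fromBlocks_mulVec]

theorem elim_ne_zero {u : ι → F} (hu : u ≠ 0) : (Sum.elim u 0 : ι ⊕ ι → F) ≠ 0 := fun h =>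
  hu (funext fun i => congrFun h (.inl i))

theorem rk_of_lt {V : Type*} [AddCommGroup V] [Module ℂ V] [FiniteDimensional ℂ V]
    (ρ : (spForm ι F).isom →* End ℂ V) (hψ : ψ ≠ 1) (h2 : (2 : F) ≠ 0) (hι : 2 ≤ Fintype.card ι)
    (hlt : 2 * (Fintype.card F + 1) * finrank ℂ V <
      (Fintype.card F ^ Fintype.card ι - 1) * (Fintype.card F ^ Fintype.card ι - Fintype.card F)) :
    Rk ψ ρ := fun a b hab α β δ v hv0 ha hb hd => by
  classical
  by_contra hne
  have hli : LinearIndependent F ![a, b] := by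
    rw [linearIndependent_fin2]
    refine ⟨fun h => hne ?_, fun r h => hne ?_⟩
    · simp only [cons_val_one, cons_val_zero] at h
      subst h
      have h1 := Es_smul 0 ha
      rw [zero_smul] at h1
      rw [add_zero] at hd
      rw [Es_unique hψ hv0 hb h1, Es_unique hψ hv0 hd ha]; ring
    · simp only [cons_val_one, cons_val_zero] at h
      subst h
      have h1 := Es_smul (r + 1) hb
      rw [add_smul, one_smul] at h1
      rw [Es_unique hψ hv0 ha (Es_smul r hb), Es_unique hψ hv0 hd h1]; ring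
  obtain ⟨i, j, hij⟩ := Fintype.exists_pair_of_one_lt_card hι
  obtain ⟨g, hg, hga, hgb⟩ := spForm_nondeg.witt_two hli (v := Sum.elim (Pi.single i 1) 0)
    (v' := Sum.elim (Pi.single j 1) 0) (LinearIndependent.pair_iff.2 fun s t h =>
      ⟨by simpa [hij] using congrFun h (.inl i), by simpa [hij.symm] using congrFun h (.inl j)⟩)
    (by rw [alt_N, alt_N]) (by rw [alt_N, alt_N]) (by rw [hab, spB]; simp only [Sum.elim_comp_inr, dotProduct_zero, sub_self])
  replace ha := Es_conj ⟨g, hg⟩ ha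
  replace hb := Es_conj ⟨g, hg⟩ hb
  replace hd := Es_conj ⟨g, hg⟩ hd
  simp only [map_add, hga, hgb] at ha hb hd
  rw [show ∀ u w : ι → F, (Sum.elim u 0 + Sum.elim w 0 : ι ⊕ ι → F) = Sum.elim (u + w) 0 from
    fun u w => by ext (k | k) <;> simp] at hd
  let f : symM F ι → End ℂ V := fun S => ρ (spEquivIsom (spX S.1 S.2))
  have hadd : ∀ S S', f (S + S') = f S * f S' := fun S S' => by
    rw [← map_mul, ← map_mul]
    exact congrArg ρ (congrArg _ (Subtype.ext (by simp [spX, fromBlocks_multiply, add_comm])))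
  have h0 : f 0 = 1 := by
    rw [← map_one ρ, ← map_one spEquivIsom]
    exact congrArg ρ (congrArg _ (Subtype.ext (by simp [spX])))
  have hc : ∀ u w, Commute (f u) (f w) := fun u w => by
    rw [Commute, SemiconjBy, ← hadd, ← hadd, add_comm]
  have hT : ∀ u t, T ρ (Sum.elim u 0) t = f (-t • ⟨vecMulVec u u, transpose_vecMulVec _ _⟩) :=
    fun u t => by simp [T, tvX, f]
  have hinv : ∀ u γ S, ∀ v ∈ Es ψ ρ (Sum.elim u 0) γ, f S v ∈ Es ψ ρ (Sum.elim u 0) γ :=
    fun u γ S v hv => Es_map (fun t => hT u t ▸ hc _ _) hv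
  obtain ⟨w, ⟨⟨ha, hb⟩, hd⟩, hw0, χ, hw⟩ := exists_common_eig hc
    (W := Es ψ ρ _ α ⊓ Es ψ ρ _ β ⊓ Es ψ ρ _ δ)
    ((Submodule.ne_bot_iff _).2 ⟨_, ⟨⟨ha, hb⟩, hd⟩, rho_ne_zero _ hv0⟩)
    fun S v hv => ⟨⟨hinv _ _ S v hv.1.1, hinv _ _ S v hv.1.2⟩, hinv _ _ S v hv.2⟩
  have hv' := mem_wt.1 hw
  have hinj : ∀ {a b : ℂ}, a • w = b • w → a = b := fun h => smul_left_injective ℂ hw0 h
  let c : AddChar (symM F ι) ℂ :=
    { toFun := χ
      map_zero_eq_one' := hinj (by rw [← hv', h0]; simp)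
      map_add_eq_mul' := fun a b => hinj (by
        rw [← hv', mul_comm, mul_smul, ← hv' a, ← map_smul, ← hv', hadd]; rfl) }
  obtain ⟨φ, hφ⟩ := exists_dual ψ hψ c
  have hφ : ∀ u, χ u = ψ (φ u) := hφ
  have hQ : ∀ u γ, w ∈ Es ψ ρ (Sum.elim u 0) γ → symQ φ u = -γ := fun u γ h =>
    eq_of_psi ψ hψ fun t => hinj (by
      have := mem_Es.1 h (-t)
      rw [hT, hv', hφ, neg_neg, map_smul] at this
      rw [show t * -γ = γ * -t by ring, ← this]; rfl)
  have : Finite (Dual F (symM F ι)) := Module.finite_of_finite F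
  have := Fintype.ofFinite (Dual F (symM F ι))
  let O : Finset (Dual F (symM F ι)) := {φ | wt f (fun S => ψ (φ S)) ≠ ⊥}
  have h1 := orbit3 h2 (O.image symQ) (fun g hg Q hQ => ?_) (Q₀ := symQ φ) (e := Pi.single i 1)
    (e' := Pi.single j 1) (mem_image_of_mem _ (mem_filter.2 ⟨mem_univ _, by
      rw [← funext hφ]; exact (Submodule.ne_bot_iff _).2 ⟨w, hw, hw0⟩⟩)) fun h => hne (by
        rw [polar, hQ _ _ ha, hQ _ _ hb, hQ _ _ hd] at h; linear_combination h)
  · have h2 := card_mul_le_of_wt hc (κ := O) (χ := fun φ S => ψ (φ.1 S)) (d := 1)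
      (fun a b h => Subtype.ext (LinearMap.ext fun w => eq_of_psi ψ hψ fun t => by
        simpa using congrFun h (t • w))) fun φ' => one_le_finrank (mem_filter.1 φ'.2).2
    rw [Fintype.card_coe, mul_one] at h2
    rw [Fintype.card_fun] at h1
    exact hlt.not_ge (h1.trans (Nat.mul_le_mul_left _ (card_image_le.trans h2)))
  · obtain ⟨φ, hφ, rfl⟩ := mem_image.1 hQ
    have hm : IsUnit (LinearMap.toMatrix' g).det := by
      rw [LinearMap.det_toMatrix']; exact LinearMap.isUnit_det _ hg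
    refine mem_image.2 ⟨φ.comp (symC (LinearMap.toMatrix' g)), mem_filter.2 ⟨mem_univ _, ?_⟩,
      QuadraticMap.ext fun u => congrArg φ (Subtype.ext ?_)⟩
    · obtain ⟨w, hw, hw0⟩ := Submodule.exists_mem_ne_zero_of_ne_bot (mem_filter.1 hφ).2
      let γ := spEquivIsom (spL _ _ (nonsing_inv_mul _ hm))
      have key : (∀ S, f S * ρ γ = ρ γ * f (symC (LinearMap.toMatrix' g) S)) → _ :=
        fun h => map_mem_wt h hw
      refine (Submodule.ne_bot_iff _).2 ⟨ρ γ w, key fun S => ?_, rho_ne_zero _ hw0⟩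
      simp only [f, γ, ← map_mul]
      refine congrArg ρ (congrArg _ (Subtype.ext ?_))
      simp [spX, spL, symC, fromBlocks_multiply, ← Matrix.mul_assoc, nonsing_inv_mul _ hm]
    · simp [symC, mul_vecMulVec, vecMulVec_mul, vecMul_transpose]

section Weil

variable {Ω : (spForm ι F).isom →* End ℂ ((ι → F) → ℂ)}
  (hΩ : ∀ g, Int ψ g.1 (Ω (spEquivIsom g))) (hψ : ψ ≠ 1) (h2 : (2 : F) ≠ 0) (hι : 2 ≤ Fintype.card ι)
include hΩ

theorem Om_hz (g : (spForm ι F).isom) (v : ι ⊕ ι → F) : Ω g * hz ψ v = hz ψ (g.1 v) * Ω g := by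
  obtain ⟨g, rfl⟩ := spEquivIsom.surjective g
  exact hΩ g v

include hψ h2

theorem Om_par (g : (spForm ι F).isom) : Ω g * par F ι = par F ι * Ω g := by
  obtain ⟨g, rfl⟩ := spEquivIsom.surjective g
  exact (hΩ g).comm_par hψ h2 ((Group.isUnit _).map Ω)

include hι

theorem T_Om (u : ι → F) (t : F) :
    T Ω (Sum.elim u 0) t = LinearMap.mulLeft ℂ fun x => ψ ((u ⬝ᵥ x) * (u ⬝ᵥ x) * t) := by
  have h1 : ∀ (u : ι → F) t, ∃ c : ℂ, (LinearMap.mulLeft ℂ fun x => ψ ((u ⬝ᵥ x) * (u ⬝ᵥ x) * t)) =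
      c • T Ω (Sum.elim u 0) t := fun u t => by
    obtain ⟨c, hc⟩ := (int_spX (ψ := ψ) (-(t • vecMulVec u u)) (by simp)).unique hψ h2 (hΩ _)
      ((Group.isUnit _).map Ω)
    refine ⟨c, ?_⟩
    rw [T, tvX, ← hc]
    congr 2; funext x
    simp [neg_mulVec, smul_mulVec, vecMulVec_mulVec, dotProduct_comm x u, mul_comm]
  choose k hk using h1
  let d : (ι → F) → ℂ := Pi.single 0 1
  have hd0 : d ≠ 0 := by simp [d]
  have hinj : ∀ {a b : ℂ}, a • d = b • d → a = b := fun h => smul_left_injective ℂ hd0 h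
  have h3 : ∀ u t, k u t • T Ω (Sum.elim u 0) t d = d := fun u t => by
    rw [← LinearMap.smul_apply, ← hk]
    funext x; by_cases hx : x = 0 <;> simp [d, hx]
  have h0 : ∀ u t, k u t ≠ 0 := fun u t h => hd0 (by rw [← h3 u t, h, zero_smul])
  have h4 : ∀ u t, T Ω (Sum.elim u 0) t d = (k u t)⁻¹ • d := fun u t =>
    (eq_inv_smul_iff₀ (h0 u t)).2 (h3 u t)
  have h5 : ∀ u w t, u ≠ 0 → w ≠ 0 → (k w t)⁻¹ = (k u t)⁻¹ := fun u w t hu hw => by
    obtain ⟨g, rfl, hg⟩ := trans_of_tv (by simpa using hι)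
      (P := fun g : End F (ι → F) => ∀ y, (k (g y) t)⁻¹ = (k y t)⁻¹)
      (fun g h hg hh y => (hg _).trans (hh y)) (fun a φ hφ y => by
        obtain ⟨m, hm, hm'⟩ := exists_mat_tv a φ hφ
        have h1 : m * m⁻¹ = 1 := mul_nonsing_inv _ (by simp [hm])
        obtain ⟨c, hc⟩ := (hΩ (spL _ _ h1)).unique hψ h2 (int_spL _ _ h1) (by
          obtain ⟨c, hc⟩ := (int_spL (ψ := ψ) _ _ h1).unique hψ h2 (hΩ _) ((Group.isUnit _).map Ω)
          have hc0 : c ≠ 0 := by
            rintro rfl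
            simpa [LinearMap.funLeft_apply] using congrFun (LinearMap.congr_fun hc 1) 0
          rw [hc, Algebra.smul_def]
          exact (hc0.isUnit.map _).mul ((Group.isUnit _).map Ω))
        have h6 : Ω (spEquivIsom (spL _ _ h1)) d = c • d := by
          rw [hc]; funext x
          have : mᵀ *ᵥ x = 0 ↔ x = 0 := ⟨fun h => by
            simpa [← transpose_mul, h1] using congrArg (m⁻¹ᵀ *ᵥ ·) h, by rintro rfl; simp⟩
          simp [d, LinearMap.funLeft_apply, Pi.single_apply, this]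
        have h7 := congrArg (fun g => Ω g d) (mul_inv_eq_iff_eq_mul.1
          (stv_conj (spEquivIsom (spL _ _ h1)) (Sum.elim y 0) t))
        simp only [spL_elim, map_mul, End.mul_apply, ← T.eq_1, h6, h4, map_smul, hm', smul_smul] at h7
        have hc0 : c ≠ 0 := fun h => rho_ne_zero (ρ := Ω) _ hd0 (by rw [h6, h, zero_smul])
        exact mul_left_cancel₀ hc0 (by rw [← hinj h7, mul_comm])) hu hw
    exact hg u
  have h6 : k u t = 1 := by
    refine inv_eq_one.1 ?_
    by_cases hu : u = 0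
    · refine hinj ?_
      rw [← h4, hu, T, show (Sum.elim 0 0 : ι ⊕ ι → F) = 0 by simp, stv_zero_left]; simp
    obtain ⟨i, j, hij⟩ := Fintype.exists_pair_of_one_lt_card hι
    have e : stv (spForm ι F) (Sum.elim (Pi.single i 1 - Pi.single j 1) 0) (t / 2) *
        stv (spForm ι F) (Sum.elim (Pi.single i 1 + Pi.single j 1) 0) (t / 2) =
        stv (spForm ι F) (Sum.elim (Pi.single i 1) 0) t *
        stv (spForm ι F) (Sum.elim (Pi.single j 1) 0) t := by
      simp only [tvX, ← map_mul]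
      refine congrArg _ (Subtype.ext ?_)
      simp only [spX, Submonoid.mk_mul_mk, fromBlocks_multiply, add_vecMulVec, vecMulVec_add,
        sub_vecMulVec, vecMulVec_sub, Matrix.mul_one, Matrix.one_mul, Matrix.mul_zero, Matrix.zero_mul]
      congr 1
      match_scalars <;> field_simp <;> ring
    have e1 := congrArg (fun g => Ω g d) e
    have e2 := LinearMap.congr_fun (T_add (ρ := Ω) (Sum.elim u 0) (t / 2) (t / 2)) d
    rw [show t / 2 + t / 2 = t by field_simp; ring] at e2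
    simp only [map_mul, End.mul_apply, ← T.eq_1, h4, map_smul, smul_smul] at e1 e2
    rw [h5 u (_ - _) _ hu (fun h => by simpa [hij] using congrFun h i),
      h5 u (_ + _) _ hu (fun h => by simpa [hij] using congrFun h i),
      h5 u (Pi.single i 1) _ hu (by simp), h5 u (Pi.single j 1) _ hu (by simp), ← hinj e2] at e1
    exact (mul_eq_left₀ (inv_ne_zero (h0 u t))).1 (hinj e1).symm
  rw [hk, h6, one_smul]

theorem single_mem (u x : ι → F) :
    Pi.single x 1 ∈ Es ψ Ω (Sum.elim u 0) ((u ⬝ᵥ x) * (u ⬝ᵥ x)) := mem_Es.2 fun t => by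
  rw [T_Om hΩ hψ h2 hι]; funext y
  by_cases h : y = x <;> simp [h]

omit hΩ hψ h2 in
theorem exists_conj (a : ι ⊕ ι → F) : ∃ (g : (spForm ι F).isom) (u : ι → F), g.1 (Sum.elim u 0) = a := by
  by_cases ha : a = 0
  · exact ⟨1, 0, by simp [ha]⟩
  obtain ⟨i, -⟩ := Fintype.exists_pair_of_one_lt_card hι
  obtain ⟨g, hg, h⟩ := spForm_nondeg.witt_one (elim_ne_zero (u := Pi.single i 1) (by simp)) ha
    (by rw [alt_N, alt_N])
  exact ⟨⟨g, hg⟩, _, h⟩

theorem S_Om (a : ι ⊕ ι → F) : S ψ Ω a = hz ψ a + hz ψ (-a) := by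
  obtain ⟨g, u, rfl⟩ := exists_conj hι a
  have : S ψ Ω (Sum.elim u 0) = hz ψ (Sum.elim u 0) + hz ψ (-Sum.elim u 0) :=
    (Pi.basisFun ℂ _).ext fun x => by
      rw [Pi.basisFun_apply, S_eig hψ (single_mem hΩ hψ h2 hι u x)]
      funext y
      have h1 : (-Sum.elim u 0 : ι ⊕ ι → F) = Sum.elim (-u) 0 := by ext (k | k) <;> simp
      by_cases h : y = x <;> simp [h, hz_apply, h1]
  refine ((Group.isUnit g).map Ω).mul_right_cancel ?_
  rw [← S_conj, this, mul_add, add_mul, Om_hz hΩ, Om_hz hΩ, map_neg]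

theorem ty_Om : Ty ψ Ω := fun a α v hv h => by
  obtain ⟨g, u, rfl⟩ := exists_conj hι a
  have h1 := Es_conj g⁻¹ h
  rw [show g⁻¹.1 (g.1 (Sum.elim u 0)) = Sum.elim u 0 by simp] at h1
  obtain ⟨y, hy⟩ := Function.ne_iff.1 (rho_ne_zero (ρ := Ω) g⁻¹ hv)
  refine ⟨u ⬝ᵥ y, eq_of_psi ψ hψ fun t => mul_right_cancel₀ hy ?_⟩
  have := congrFun (mem_Es.1 h1 t) y
  rw [T_Om hΩ hψ h2 hι] at this
  simpa [mul_comm t] using this.symm

theorem cent_span {Z : End ℂ ((ι → F) → ℂ)} (h : Z * par F ι = par F ι * Z) :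
    Z ∈ Submodule.span ℂ (Set.range (S ψ Ω)) := by
  have h1 := (hzBasis (ι := ι) hψ h2).sum_repr Z
  have h3 : par F ι * Z * par F ι = Z := by rw [← h, mul_assoc, par_par, mul_one]
  have h4 : ∀ v, par F ι * hz ψ v * par F ι = hz ψ (-v) := fun v => by
    rw [par_int v, mul_assoc, par_par, neg_mulVec, one_mulVec, mul_one]
  generalize (hzBasis (ι := ι) hψ h2).repr Z = c at h1
  subst h1
  simp only [mul_sum, sum_mul, mul_smul_comm, smul_mul_assoc, hzBasis_apply, h4] at h3 ⊢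
  have : ∑ v, c v • hz ψ v = (2 : ℂ)⁻¹ • ∑ v, c v • S ψ Ω v := by
    simp only [S_Om hΩ hψ h2 hι, smul_add, sum_add_distrib, h3]; module
  rw [this]
  exact Submodule.smul_mem _ _ (Submodule.sum_mem _ fun v _ => Submodule.smul_mem _ _
    (Submodule.subset_span ⟨v, rfl⟩))

theorem exists_intertw {V : Type*} [AddCommGroup V] [Module ℂ V] [FiniteDimensional ℂ V] [Nontrivial V]
    {ρ : (spForm ι F).isom →* End ℂ V} (hT : Ty ψ ρ) (hR : Rk ψ ρ)
    (hfix : ∀ v, (∀ g, ρ g v = v) → v = 0) :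
    ∃ Φ : ((ι → F) → ℂ) →ₗ[ℂ] V, Φ ≠ 0 ∧ ∀ g w, Φ (Ω g w) = ρ g (Φ w) := by
  let Θ := (hzBasis (ι := ι) hψ h2).constr ℂ fun v => (2 : ℂ)⁻¹ • S ψ ρ v
  have h1 : ∀ v, Θ (S ψ Ω v) = S ψ ρ v := fun v => by
    rw [S_Om hΩ hψ h2 hι, map_add, ← hzBasis_apply hψ h2, ← hzBasis_apply hψ h2, Basis.constr_basis,
      Basis.constr_basis, S_neg]; module
  have h3 : ∀ X ∈ Submodule.span ℂ (Set.range (S ψ Ω)), ∀ Y ∈ Submodule.span ℂ (Set.range (S ψ Ω)),
      Θ (X * Y) = Θ X * Θ Y := fun X hX Y hY => by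
    induction hX, hY using Submodule.span_induction₂ with
    | mem_mem X Y hX hY =>
      obtain ⟨u, rfl⟩ := hX
      obtain ⟨w, rfl⟩ := hY
      rw [h1, h1, S_mul hψ hT hR spForm_nondeg (by simp; omega) hfix, ← h1, ← h1, ← map_smul, ← map_smul,
        ← map_add]
      simp only [S_Om hΩ hψ h2 hι, mul_add, add_mul, hz_mul, map_neg, LinearMap.neg_apply, neg_neg,
        neg_add, sub_eq_add_neg]
      congr 1; module
    | zero_left => simp
    | zero_right => simp
    | add_left _ _ _ _ _ _ a b => simp [add_mul, a, b]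
    | add_right _ _ _ _ _ _ a b => simp [mul_add, a, b]
    | smul_left _ _ _ _ _ a => simp [a]
    | smul_right _ _ _ _ _ a => simp [a]
  have h4 : ∀ g k, Θ (Ω (g * k)) = Θ (Ω g) * Θ (Ω k) := fun g k => by
    rw [map_mul, h3 _ (cent_span hΩ hψ h2 hι (Om_par hΩ hψ h2 g)) _
      (cent_span hΩ hψ h2 hι (Om_par hΩ hψ h2 k))]
  have h5 : ∀ a t, Θ (Ω (stv _ a t)) = ρ (stv _ a t) := fun a t => by
    rw [← T.eq_1, ← T.eq_1, T_eq hψ hT h2, T_eq hψ (ty_Om hΩ hψ h2 hι) h2]
    simp only [map_sum, map_smul, h1]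
  have h6 : Θ (Ω 1) = ρ 1 := by simpa only [stv_zero] using h5 0 0
  let H : Subgroup (spForm ι F).isom :=
    { carrier := {g | Θ (Ω g) = ρ g}
      mul_mem' := fun {g k} hg hk => by
        simp only [Set.mem_setOf_eq] at *; rw [h4, hg, hk, map_mul]
      one_mem' := h6
      inv_mem' := fun {g} hg => by
        simp only [Set.mem_setOf_eq] at *
        refine ((Group.isUnit g).map ρ).mul_right_cancel ?_
        rw [← map_mul, ← hg, ← h4, inv_mul_cancel, h6] }
  have : Finite (spForm ι F).isom := Finite.of_equiv _ spEquivIsom.toEquiv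
  exact factor ρ Ω Θ fun g => (show g ∈ H from stv_induction spForm_nondeg H h5 ▸ trivial)

theorem pm_irred {c : ℂ} (hc : c * c = 1) {Y : Submodule ℂ ((ι → F) → ℂ)}
    (hY : ∀ g, ∀ v ∈ Y, Ω g v ∈ Y) {x : (ι → F) → ℂ} (hx : x ∈ Y) (hx0 : x ≠ 0) (hx' : x ∈ pm F ι c) :
    pm F ι c ≤ Y := fun y hy => by
  have h1 : ∀ Z ∈ Submodule.span ℂ (Set.range (S ψ Ω)), Z x ∈ Y := fun Z hZ => by
    induction hZ using Submodule.span_induction with
    | mem Z hZ => obtain ⟨u, rfl⟩ := hZ; exact sv_inv (fun t => hY _) hx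
    | zero => simp
    | add _ _ _ _ a b => exact Y.add_mem a b
    | smul a _ _ b => exact Y.smul_mem a b
  obtain ⟨φ, hφ⟩ := Projective.exists_dual_eq_one ℂ hx0
  have h3 : ∀ w, par F ι (par F ι w) = w := fun w => LinearMap.congr_fun par_par w
  have := h1 ((φ ∘ₗ ((2 : ℂ)⁻¹ • (1 + c • par F ι))).smulRight y) (cent_span hΩ hψ h2 hι
    (LinearMap.ext fun w => by
      simp only [End.mul_apply, LinearMap.smulRight_apply, LinearMap.comp_apply, LinearMap.smul_apply,
        LinearMap.add_apply, End.one_apply, h3, map_smul, map_add, End.mem_eigenspace_iff.1 hy, smul_smul,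
        smul_eq_mul]
      congr 1; linear_combination (-2⁻¹ * φ (par F ι w)) * hc))
  simp only [LinearMap.smulRight_apply, LinearMap.comp_apply, LinearMap.smul_apply,
    LinearMap.add_apply, End.one_apply, map_smul, map_add, End.mem_eigenspace_iff.1 hx', smul_smul,
    smul_eq_mul, hφ, hc] at this
  norm_num at this
  exact this

end Weil

/-- transport to the isometry group -/
noncomputable def tr {V : Type*} [AddCommGroup V] [Module ℂ V] (ρ : symplecticGroup ι F →* End ℂ V) :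
    (spForm ι F).isom →* End ℂ V := ρ.comp spEquivIsom.symm.toMonoidHom

theorem tr_apply {V : Type*} [AddCommGroup V] [Module ℂ V] (ρ : symplecticGroup ι F →* End ℂ V)
    (g : symplecticGroup ι F) : tr ρ (spEquivIsom g) = ρ g := by simp [tr]

theorem exists_wch (hψ : ψ ≠ 1) (h2 : (2 : F) ≠ 0) (hι : 2 ≤ Fintype.card ι) :
    ∃ σ : ∀ c, Representation ℂ (symplecticGroup ι F) (pm F ι c),
      (∀ c, c * c = 1 → (σ c).IsIrreducible ∧ Ty ψ (tr (σ c)) ∧ ∃ a v, v ≠ 0 ∧ v ∈ Es ψ (tr (σ c)) a 1) ∧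
      ∀ (n : ℕ) (ρ : Representation ℂ (symplecticGroup ι F) (Fin n → ℂ)), ρ.IsIrreducible →
        Ty ψ (tr ρ) → Rk ψ (tr ρ) → (∀ v, (∀ g, tr ρ g v = v) → v = 0) →
        ρ.character = (σ 1).character ∨ ρ.character = (σ (-1)).character := by
  obtain ⟨ω, hω⟩ := exists_weil (ι := ι) hψ h2
  let Ω := tr ((Submonoid.subtype _).comp ω)
  have hΩ : ∀ g, Int ψ g.1 (Ω (spEquivIsom g)) := fun g => by rw [tr_apply]; exact hω g
  have hE : ∀ c a α (v : pm F ι c), v ∈ Es ψ (tr ((res c).comp ω)) a α ↔ v.1 ∈ Es ψ Ω a α :=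
    fun c a α v => by simp only [mem_Es, Subtype.ext_iff]; rfl
  obtain ⟨i, -⟩ := Fintype.exists_pair_of_one_lt_card hι
  have h1 : ∀ c : ℂ, c * c = 1 → ∃ a v, v ≠ 0 ∧ v ∈ Es ψ (tr ((res c).comp ω)) a 1 := fun c hc => by
    have h3 : (-Pi.single i 1 : ι → F) ≠ Pi.single i 1 := fun h => h2 (by
      have := congrFun h i
      simp only [Pi.neg_apply, Pi.single_eq_same] at this
      linear_combination -this)
    refine ⟨Sum.elim (Pi.single i 1) 0, ⟨Pi.single (Pi.single i 1) 1 + c • Pi.single (-Pi.single i 1) 1,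
      End.mem_eigenspace_iff.2 (funext fun x => ?_)⟩, fun h => ?_, (hE _ _ _ _).2
        (Submodule.add_mem _ ?_ (Submodule.smul_mem _ _ ?_))⟩
    · simp only [par, LinearMap.funLeft_apply, Pi.add_apply, Pi.smul_apply, Pi.single_apply, neg_inj,
        neg_eq_iff_eq_neg (a := x), smul_eq_mul, mul_add, ← mul_assoc, hc, one_mul, add_comm, neg_neg]
    · simpa [h3.symm] using congrFun (congrArg Subtype.val h) (Pi.single i 1)
    · simpa using single_mem hΩ hψ h2 hι (Pi.single i 1) (Pi.single i 1)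
    · simpa using single_mem hΩ hψ h2 hι (Pi.single i 1) (-Pi.single i 1)
  have hirr : ∀ c : ℂ, c * c = 1 → Representation.IsIrreducible (k := ℂ) ((res c).comp ω) := fun c hc => by
    obtain ⟨a, v, hv, -⟩ := h1 c hc
    have : Nontrivial (pm F ι c) := ⟨v, 0, hv⟩
    have : Nontrivial (Subrepresentation (A := ℂ) ((res c).comp ω)) :=
      ⟨⊥, ⊤, fun h => bot_ne_top (congrArg Subrepresentation.toSubmodule h)⟩
    refine ⟨fun X => or_iff_not_imp_left.2 fun hX => ?_⟩
    obtain ⟨x, hx, hx0⟩ := Submodule.exists_mem_ne_zero_of_ne_bot (p := X.toSubmodule)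
      fun h => hX (Subrepresentation.toSubmodule_injective h)
    have := pm_irred hΩ hψ h2 hι hc (Y := X.toSubmodule.map (pm F ι c).subtype)
      (by rintro g _ ⟨v, hv, rfl⟩; exact ⟨_, X.apply_mem_toSubmodule (spEquivIsom.symm g) hv, rfl⟩)
      ⟨x, hx, rfl⟩ (fun h => hx0 (Subtype.ext h)) x.2
    refine Subrepresentation.toSubmodule_injective (eq_top_iff.2 fun y _ => ?_)
    obtain ⟨z, hz, h⟩ := this y.2
    exact (Subtype.ext h : z = y) ▸ hz
  refine ⟨fun c => (res c).comp ω, fun c hc => ⟨hirr c hc, fun a α v hv h =>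
    ty_Om hΩ hψ h2 hι a α v.1 (fun h => hv (Subtype.ext h)) ((hE _ _ _ _).1 h), h1 c hc⟩,
    fun n ρ hρ hT hR hfix => ?_⟩
  have : Nontrivial (Fin n → ℂ) := (Submodule.nontrivial_iff ℂ).1
    (Subrepresentation.toSubmodule_injective (ρ := ρ)).nontrivial
  obtain ⟨Φ, hΦ, hΦ'⟩ := exists_intertw hΩ hψ h2 hι hT hR hfix
  have key : ∀ c : ℂ, c * c = 1 → ρ.character ≠ Representation.character ((res c).comp ω) →
      ∀ v ∈ pm F ι c, Φ v = 0 := fun c hc h v hv => by
    have := hirr c hc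
    let φ : Representation.IntertwiningMap (A := ℂ) ((res c).comp ω) ρ :=
      ⟨Φ ∘ₗ (pm F ι c).subtype, fun g => LinearMap.ext fun w => by
        have := hΦ' (spEquivIsom g) w
        rw [tr_apply, tr_apply] at this
        exact this⟩
    rcases Representation.IsIrreducible.bijective_or_eq_zero φ with h3 | h3
    · exact absurd (Representation.char_iso (φ.ofBijective h3)).symm h
    · exact DFunLike.congr_fun h3 ⟨v, hv⟩
  by_contra! h
  refine hΦ (LinearMap.ext fun v => ?_)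
  have h3 : ∀ w, par F ι (par F ι w) = w := fun w => LinearMap.congr_fun par_par w
  have h4 := key 1 (by simp) h.1 (v + par F ι v) (End.mem_eigenspace_iff.2 (by simp [h3, add_comm]))
  have h5 := key (-1) (by simp) h.2 (v - par F ι v) (End.mem_eigenspace_iff.2 (by simp [h3]))
  rw [map_add] at h4
  rw [map_sub] at h5
  have : (2 : ℂ) • Φ v = 0 := by rw [two_smul]; linear_combination (exp := 1) h4 + h5
  simpa using this

theorem Es_shift {E V : Type*} [AddCommGroup E] [Module F E] [AddCommGroup V] [Module ℂ V]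
    {C : CForm (altType F) E} {ρ : C.isom →* End ℂ V} (ν : F) {a : E} {α : F} {v : V} :
    v ∈ Es (ψ.mulShift ν) ρ a α ↔ v ∈ Es ψ ρ a (ν * α) := by
  simp only [mem_Es, AddChar.mulShift_apply, mul_assoc]

/-- The Weil characters. -/
theorem weil_main (h2 : (2 : F) ≠ 0) (hι : 2 ≤ Fintype.card ι) :
    ∃ χ χ' : ℂ → symplecticGroup ι F → ℂ,
      (∀ c, c * c = 1 → Cfsg.IsIrrCharacter _ (χ c) ∧ Cfsg.IsIrrCharacter _ (χ' c) ∧ χ c ≠ χ' c ∧
        2 * χ c 1 = Fintype.card F ^ Fintype.card ι + c ∧ 2 * χ' c 1 = Fintype.card F ^ Fintype.card ι + c) ∧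
      ∀ θ, Cfsg.IsIrrCharacter _ θ → ∃ n : ℕ, θ 1 = n ∧ (n ≠ 1 → 2 * (Fintype.card F + 1) * n <
        (Fintype.card F ^ Fintype.card ι - 1) * (Fintype.card F ^ Fintype.card ι - Fintype.card F) →
        θ = χ 1 ∨ θ = χ (-1) ∨ θ = χ' 1 ∨ θ = χ' (-1)) := by
  obtain ⟨ψ, hψ⟩ : ∃ ψ : AddChar F ℂ, ψ ≠ 1 := by
    obtain ⟨ψ, h⟩ := (AddChar.exists_apply_ne_zero (α := F) (a := 1)).2 one_ne_zero
    exact ⟨ψ, by rintro rfl; simp at h⟩
  obtain ⟨ν, hν⟩ := FiniteField.exists_nonsquare (F := F) fun h => h2 (by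
    have := ringChar.Nat.cast_ringChar (R := F); rwa [h] at this)
  have hν0 : ν ≠ 0 := by rintro rfl; simp at hν
  have hψ' : ψ.mulShift ν ≠ 1 := AddChar.IsPrimitive.of_ne_one hψ hν0
  obtain ⟨σ, hσ, hσ'⟩ := exists_wch hψ h2 hι
  obtain ⟨τ, hτ, hτ'⟩ := exists_wch hψ' h2 hι
  refine ⟨fun c => (σ c).character, fun c => (τ c).character, fun c hc => ?_, ?_⟩
  · obtain ⟨h1, h3, -⟩ := hσ c hc
    obtain ⟨h4, -, a, v, hv, h5⟩ := hτ c hc
    refine ⟨H5.isIrrCharacter_character _, H5.isIrrCharacter_character _, fun h => ?_,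
      by simp only [Representation.char_one, finrank_pm h2 hc],
      by simp only [Representation.char_one, finrank_pm h2 hc]⟩
    have := Fintype.ofFinite (symplecticGroup ι F)
    have : Invertible (Nat.card (symplecticGroup ι F) : ℂ) :=
      invertibleOfNonzero (Nat.cast_ne_zero.2 Nat.card_pos.ne')
    have h6 := Representation.char_orthonormal (σ c) (τ c)
    have h7 := Representation.char_orthonormal (σ c) (σ c)
    replace h : (σ c).character = (τ c).character := h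
    rw [← h, h7, if_pos ⟨.refl _⟩] at h6
    obtain ⟨φ⟩ : Nonempty ((τ c).Equiv (σ c)) := by by_contra hn; simp [hn] at h6
    refine hν (h3 a ν (φ v) (fun h => hv (φ.toLinearEquiv.injective (h.trans (map_zero _).symm)))
      (mem_Es.2 fun t => ?_))
    have := mem_Es.1 ((Es_shift ν).1 h5) t
    rw [mul_one] at this
    rw [← map_smul, ← this]
    exact (φ.toIntertwiningMap.isIntertwining _ _ _ v).symm
  rintro _ ⟨n, ρ, hρ, rfl⟩
  refine ⟨n, by simp [Representation.char_one], fun hn hlt => ?_⟩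
  have hirr : ∀ S : Submodule ℂ (Fin n → ℂ), (∀ g, ∀ v ∈ S, tr ρ g v ∈ S) → S = ⊥ ∨ S = ⊤ := fun S hS =>
    (eq_bot_or_eq_top (⟨S, fun g v hv => by simpa [tr_apply] using hS (spEquivIsom g) v hv⟩ :
      Subrepresentation ρ)).imp (congrArg Subrepresentation.toSubmodule) (congrArg Subrepresentation.toSubmodule)
  have hfix : ∀ v, (∀ g, tr ρ g v = v) → v = 0 := fun v hv => by_contra fun h0 => by
    rcases hirr (ℂ ∙ v) (fun g w hw => by
      obtain ⟨c, rfl⟩ := Submodule.mem_span_singleton.1 hw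
      rwa [map_smul, hv]) with h | h
    · exact h0 (Submodule.span_singleton_eq_bot.1 h)
    · have := finrank_span_singleton (K := ℂ) h0
      rw [h, finrank_top] at this
      exact hn (by simpa using this)
  have hR : ∀ {ψ : AddChar F ℂ}, ψ ≠ 1 → Rk ψ (tr ρ) := fun hψ => rk_of_lt _ hψ h2 hι (by simpa using hlt)
  rcases (hR hψ).ty hψ spForm_nondeg (by simp; omega) hfix h2 hirr with h | h
  · rcases hσ' n ρ hρ h (hR hψ) hfix with h | h <;> simp [h]
  have h5 : Ty (ψ.mulShift ν) (tr ρ) := fun a α v hv h3 => by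
    rcases h a _ v hv ((Es_shift ν).1 h3) with h | h
    · rw [(mul_eq_zero.1 h).resolve_left hν0]; exact IsSquare.zero
    · by_contra h4
      rw [← quadraticChar_neg_one_iff_not_isSquare] at h h4 hν
      rw [map_mul, h4, hν] at h
      norm_num at h
  rcases hτ' n ρ hρ h5 (hR hψ') hfix with h | h <;> simp [h]

end H11.WU
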